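import Cfsg.Agent.Lib.Chev.Radical
import Cfsg.Agent.Lib.Chev.Extra

/-!
Every automorphism of a split Chevalley group over a finite field is, up to an inner one, a permutation
of the fundamental root subgroups and of their negatives.
-/

set_option autoImplicit false

namespace Cfsg.Agent.Lib.Chev

open Cfsg.Lie Cfsg.Agent.Lib

/-- `θ` maps the part of `X` in `G` onto the part of `Y` in `G`. -/
def Sends {E : Type*} [Group E] {G : Subgroup E} (θ : G ≃* G) (X Y : Subgroup E) : Prop :=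
  ∀ g : G, (θ g : E) ∈ Y ↔ (g : E) ∈ X

theorem Sends.symm {E : Type*} [Group E] {G : Subgroup E} {θ : G ≃* G} {X Y : Subgroup E}
    (h : Sends θ X Y) : Sends θ.symm Y X := fun g => by rw [← h (θ.symm g), θ.apply_symm_apply]

theorem Sends.map_eq {E : Type*} [Group E] {G : Subgroup E} {θ : G ≃* G} {X Y : Subgroup E}
    (h : Sends θ X Y) : (X.subgroupOf G).map θ.toMonoidHom = Y.subgroupOf G := by
  ext g
  rw [Subgroup.mem_map_equiv]
  exact (h.symm g)

theorem sends_of_map_eq {E : Type*} [Group E] {G : Subgroup E} {θ : G ≃* G} {X Y : Subgroup E}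
    (h : (X.subgroupOf G).map θ.toMonoidHom = Y.subgroupOf G) : Sends θ X Y := fun g => by
  have h' := Subgroup.mem_map_equiv (K := X.subgroupOf G) (f := θ) (x := θ g)
  rw [θ.symm_apply_apply, Subgroup.mem_subgroupOf] at h'
  rw [← h', ← Subgroup.mem_subgroupOf]
  exact iff_of_eq (congrArg (θ g ∈ ·) h.symm)

namespace Checked

variable {D : ChevalleyDatum} {T : Fast} {F : Type*} [Field F] (C : Checked D T)
include C

theorem mem_rootSubgroup {r : ℕ} (hr : r < D.nroots) {g : GL D.Idx F} :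
    g ∈ D.rootSubgroup F r ↔ ∃ t, g = C.xg r t := by
  refine ⟨fun h => ?_, fun ⟨t, e⟩ => by
    subst e; rw [rootSubgroup_eq]; exact C.xg_mem (S := {r}) rfl t⟩
  unfold ChevalleyDatum.rootSubgroup at h
  induction h using Subgroup.closure_induction with
  | mem x hx => exact hx.imp fun t ht => C.eq_xg ht
  | one => exact ⟨0, (C.xg_zero r).symm⟩
  | mul x y _ _ hx hy =>
    obtain ⟨a, rfl⟩ := hx
    obtain ⟨b, rfl⟩ := hy
    exact ⟨a + b, C.xg_add hr a b⟩
  | inv x _ hx =>
    obtain ⟨a, rfl⟩ := hx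
    exact ⟨-a, C.xg_inv r a⟩

theorem rootSubgroup_le_group {r : ℕ} (hr : r < D.nroots) : D.rootSubgroup F r ≤ D.group F :=
  fun g hg => by
    obtain ⟨t, rfl⟩ := (C.mem_rootSubgroup hr).1 hg
    exact C.xg_mem_group hr t

theorem conj_borel_pos {b : GL D.Idx F} (hb : b ∈ D.borelSubgroup F) {x : GL D.Idx F}
    (hx : x ∈ D.posUnipotent F) : b * x * b⁻¹ ∈ D.posUnipotent F := by
  obtain ⟨u, hu, h, hh, rfl⟩ := C.mem_borel.1 hb
  rw [show u * h * x * (u * h)⁻¹ = u * (h * x * h⁻¹) * u⁻¹ by group]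
  exact mul_mem (mul_mem hu (C.diag_normalizes_pos hh hx)) (inv_mem hu)

theorem sg_longest_pos {n : GL D.Idx F} (hn : n ∈ D.monomialSubgroup F)
    (h : ∀ r, D.IsPosRoot r → D.IsNegRoot (C.sg n r)) {r : ℕ} (hr : D.IsNegRoot r) :
    D.IsPosRoot (C.sg n r) := by
  have h1 := h _ ((C.neg_pos_iff hr.1).2 hr)
  rw [C.sg_neg hn hr.1, C.neg_neg_iff (C.sg_lt hn hr.1)] at h1
  exact h1

theorem sg_inv_longest {n : GL D.Idx F} (hn : n ∈ D.monomialSubgroup F)
    (h : ∀ r, D.IsPosRoot r → D.IsNegRoot (C.sg n r)) {r : ℕ} (hr : D.IsPosRoot r) :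
    D.IsNegRoot (C.sg n⁻¹ r) := by
  refine (C.key_trichotomy (C.sg_lt (inv_mem hn) hr.1)).resolve_left fun hp => ?_
  have h2 := h _ hp
  rw [C.sg_sg_inv hn hr.1] at h2
  exact C.not_pos_and_neg hr h2

/-- A conjugate of `U` meeting `U` trivially is conjugate to `V` under `B`. -/
theorem exists_borel_of_disjoint {g : GL D.Idx F} (hg : g ∈ D.group F)
    (h : ∀ x ∈ D.posUnipotent F, g * x * g⁻¹ ∈ D.posUnipotent F → x = 1) :
    ∃ b ∈ D.borelSubgroup F, (D.posUnipotent F).map (MulAut.conj g).toMonoidHom =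
      (D.negUnipotent F).map (MulAut.conj b).toMonoidHom := by
  obtain ⟨b, hb, n, hn, u, hu, rfl⟩ := C.exists_bnu hg
  have huU : u ∈ D.posUnipotent F := by
    rw [posUnipotent_eq]; exact grp_mem_mono hu fun r hr => hr.1
  have hneg : ∀ r, D.IsPosRoot r → D.IsNegRoot (C.sg n r) := by
    intro r hr
    refine (C.key_trichotomy (C.sg_lt hn hr.1)).resolve_left fun hp => ?_
    obtain ⟨c, -, hc⟩ := C.sg_conj hn hr.1
    have hx : u⁻¹ * C.xg r 1 * u ∈ D.posUnipotent F :=
      mul_mem (mul_mem (inv_mem huU) (C.xg_mem_pos hr 1)) huU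
    have h1 := h _ hx (by
      rw [show b * n * u * (u⁻¹ * C.xg r 1 * u) * (b * n * u)⁻¹ = b * (n * C.xg r 1 * n⁻¹) * b⁻¹ by
        group, hc]
      exact C.conj_borel_pos hb (C.xg_mem_pos hp _))
    have h2 : C.xg r (1 : F) = 1 := by
      calc C.xg r 1 = u * (u⁻¹ * C.xg r 1 * u) * u⁻¹ := by group
        _ = 1 := by rw [h1]; group
    exact one_ne_zero (C.xg_eq_one hr.1 h2)
  refine ⟨b, hb, ?_⟩
  have hn' : (D.posUnipotent F).map (MulAut.conj n).toMonoidHom = D.negUnipotent F := by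
    refine le_antisymm ?_ ?_
    · rw [Subgroup.map_le_iff_le_comap, posUnipotent_eq]
      refine C.grp_le fun r hr t => ?_
      obtain ⟨c, -, hc⟩ := C.sg_conj hn hr.1
      show n * C.xg r t * n⁻¹ ∈ D.negUnipotent F
      rw [hc t]
      exact C.xg_mem_neg (hneg r hr) _
    · rw [negUnipotent_eq]
      refine C.grp_le fun r hr t => ?_
      obtain ⟨c, hc0, hc⟩ := C.sg_conj hn (C.sg_lt (inv_mem hn) hr.1)
      refine ⟨C.xg (C.sg n⁻¹ r) (c⁻¹ * t), C.xg_mem_pos ?_ _, ?_⟩
      · refine (C.key_trichotomy (C.sg_lt (inv_mem hn) hr.1)).resolve_right fun hh => ?_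
        have h2 := C.sg_longest_pos hn hneg hh
        rw [C.sg_sg_inv hn hr.1] at h2
        exact C.not_pos_and_neg h2 hr
      · show n * C.xg (C.sg n⁻¹ r) (c⁻¹ * t) * n⁻¹ = C.xg r t
        rw [hc, C.sg_sg_inv hn hr.1, mul_inv_cancel_left₀ hc0]
  rw [← hn', Subgroup.map_map]
  ext x
  simp only [Subgroup.mem_map, MonoidHom.coe_comp, MulEquiv.coe_toMonoidHom, Function.comp_apply,
    MulAut.conj_apply]
  constructor
  · rintro ⟨y, hy, rfl⟩
    exact ⟨u * y * u⁻¹, mul_mem (mul_mem huU hy) (inv_mem huU), by group⟩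
  · rintro ⟨y, hy, rfl⟩
    exact ⟨u⁻¹ * y * u, mul_mem (mul_mem (inv_mem huU) hy) huU, by group⟩

/-- Up to an inner automorphism, `U` and `V` are preserved. -/
theorem exists_inner_fix [Fintype F] (p : ℕ) [Fact p.Prime] [CharP F p]
    (hD : D ∈ [chevG2, chevB2, chevD4, chevF4, chevE6, chevE7, chevE8])
    (θ : ↥(D.group F) ≃* ↥(D.group F)) :
    ∃ x : ↥(D.group F), Sends (θ.trans (MulAut.conj x)) (D.posUnipotent F) (D.posUnipotent F) ∧
      Sends (θ.trans (MulAut.conj x)) (D.negUnipotent F) (D.negUnipotent F) := by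
  obtain ⟨P, hP⟩ := Cfsg.Agent.S2326.result p D hD (F := F)
  obtain ⟨n₀, hn₀, -, hmap⟩ := C.exists_pos_to_neg F
  obtain ⟨y, hy⟩ := MulAction.exists_smul_eq ↥(D.group F)
    (P.mapSurjective (f := θ.toMonoidHom) θ.surjective) P
  set θ₁ : ↥(D.group F) ≃* ↥(D.group F) := θ.trans (MulAut.conj y) with hθ₁
  have hU : Sends θ₁ (D.posUnipotent F) (D.posUnipotent F) := by
    apply sends_of_map_eq
    have h := congrArg (fun Q : Sylow p ↥(D.group F) => (Q : Subgroup ↥(D.group F))) hy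
    simp only [Sylow.coe_subgroup_smul, Subgroup.pointwise_smul_def] at h
    rw [hP] at h
    refine Eq.trans ?_ h
    rw [show ((P.mapSurjective (f := θ.toMonoidHom) θ.surjective : Sylow p ↥(D.group F)) :
      Subgroup ↥(D.group F)) = (P : Subgroup ↥(D.group F)).map θ.toMonoidHom from rfl, hP]
    exact (Subgroup.map_map ((D.posUnipotent F).subgroupOf (D.group F))
      (MulAut.conj y).toMonoidHom θ.toMonoidHom).symm
  set N₀ : ↥(D.group F) := ⟨n₀, C.monomial_le_group hn₀⟩ with hN₀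
  have hneg : ∀ v : ↥(D.group F), (v : GL D.Idx F) ∈ D.negUnipotent F ↔
      ((N₀⁻¹ * v * N₀ : ↥(D.group F)) : GL D.Idx F) ∈ D.posUnipotent F := by
    intro v
    conv_lhs => rw [← hmap]
    rw [Subgroup.mem_map_equiv]
    simp [hN₀, MulAut.conj_symm_apply]
  have hg : (θ₁ N₀ : GL D.Idx F) ∈ D.group F := (θ₁ N₀).2
  have hdis : ∀ x ∈ D.posUnipotent F,
      (θ₁ N₀ : GL D.Idx F) * x * (θ₁ N₀ : GL D.Idx F)⁻¹ ∈ D.posUnipotent F → x = 1 := by
    intro x hx hc
    obtain ⟨x', hx'⟩ := θ₁.surjective ⟨x, C.pos_le_group hx⟩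
    have h1 : ((N₀ * x' * N₀⁻¹ : ↥(D.group F)) : GL D.Idx F) ∈ D.posUnipotent F := by
      rw [← hU, map_mul, map_mul, map_inv, hx']; exact hc
    have h2 : ((N₀ * x' * N₀⁻¹ : ↥(D.group F)) : GL D.Idx F) ∈ D.negUnipotent F := by
      rw [hneg, show N₀⁻¹ * (N₀ * x' * N₀⁻¹) * N₀ = x' by group, ← hU, hx']; exact hx
    have h3 : ((N₀ * x' * N₀⁻¹ : ↥(D.group F)) : GL D.Idx F) ∈ D.borelSubgroup F ⊓ D.negUnipotent F :=
      Subgroup.mem_inf.2 ⟨Subgroup.mem_sup_left h1, h2⟩
    rw [C.borel_inf_neg, Subgroup.mem_bot, OneMemClass.coe_eq_one, conj_eq_one_iff] at h3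
    rw [h3, map_one] at hx'
    exact congrArg Subtype.val hx'.symm
  obtain ⟨b, hb, heq⟩ := C.exists_borel_of_disjoint hg hdis
  set B₀ : ↥(D.group F) := ⟨b, C.borel_le_group hb⟩ with hB₀
  have hV : ∀ v : ↥(D.group F), ((B₀⁻¹ * θ₁ v * B₀ : ↥(D.group F)) : GL D.Idx F) ∈ D.negUnipotent F ↔
      (v : GL D.Idx F) ∈ D.negUnipotent F := by
    intro v
    rw [hneg v, ← hU, map_mul, map_mul, map_inv]
    have := SetLike.ext_iff.1 heq (θ₁ v : GL D.Idx F)
    rw [Subgroup.mem_map_equiv, Subgroup.mem_map_equiv, MulAut.conj_symm_apply,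
      MulAut.conj_symm_apply] at this
    simpa [hB₀] using this.symm
  have hconj : ∀ g : ↥(D.group F), (θ.trans (MulAut.conj (B₀⁻¹ * y))) g = B₀⁻¹ * θ₁ g * B₀ := fun g => by
    simp only [hθ₁, MulEquiv.trans_apply, MulAut.conj_apply, mul_inv_rev, inv_inv]
    group
  refine ⟨B₀⁻¹ * y, fun g => ?_, fun g => ?_⟩
  · rw [hconj, ← hU g]
    refine ⟨fun h => ?_, fun h => ?_⟩
    · simpa [hB₀, mul_assoc] using C.conj_borel_pos hb h
    · simpa [hB₀, mul_assoc] using C.conj_borel_pos (inv_mem hb) h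
  · rw [hconj]; exact hV g

theorem sends_borel {θ : ↥(D.group F) ≃* ↥(D.group F)}
    (hU : Sends θ (D.posUnipotent F) (D.posUnipotent F)) :
    Sends θ (D.borelSubgroup F) (D.borelSubgroup F) := by
  have key : ∀ (η : ↥(D.group F) ≃* ↥(D.group F)), Sends η (D.posUnipotent F) (D.posUnipotent F) →
      ∀ g : ↥(D.group F), (g : GL D.Idx F) ∈ D.borelSubgroup F →
        (η g : GL D.Idx F) ∈ D.borelSubgroup F := by
    intro η hη g hg
    refine C.mem_borel_of_simple (η g).2 fun i hi => ?_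
    have hp := C.root.pos_simple (X := T.aux) hi
    obtain ⟨x, hx⟩ := η.surjective ⟨C.xg (D.simple i) 1, C.xg_mem_group hp.1 1⟩
    have hxU : (x : GL D.Idx F) ∈ D.posUnipotent F := by
      rw [← hη, hx]; exact C.xg_mem_pos hp 1
    have h1 := (hη (g * x * g⁻¹)).2 (C.conj_borel_pos hg hxU)
    rwa [map_mul, map_mul, map_inv, hx] at h1
  refine fun g => ⟨fun h => ?_, key θ hU g⟩
  simpa using key θ.symm hU.symm _ h

theorem inv_ng {i : ℕ} (hi : i < D.rank) : C.inv (C.ng i : GL D.Idx F) = {D.simple i} := by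
  ext r
  constructor
  · rintro ⟨hr, hneg⟩
    by_contra hne
    rw [C.sg_ng hi hr.1] at hneg
    exact C.not_pos_and_neg (C.refl_pos hi hr hne).1 hneg
  · rintro (rfl : r = D.simple i)
    refine ⟨C.root.pos_simple hi, ?_⟩
    rw [C.sg_ng hi (C.root.simple_lt i hi), C.root.refl_simple hi,
      C.neg_neg_iff (C.root.simple_lt i hi)]
    exact C.root.pos_simple hi

/-- The fundamental parabolic subgroup of a node. -/
noncomputable def minPar (F : Type*) [Field F] (i : ℕ) (hi : i < D.rank) : Subgroup ↥(D.group F) :=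
  (C.bnPair F).parabolic {(C.toS F i hi).1}

theorem mem_minPar {i : ℕ} (hi : i < D.rank) {g : ↥(D.group F)} (hg : g ∈ C.minPar F i hi) :
    (g : GL D.Idx F) ∈ D.borelSubgroup F ∨
      ∃ b ∈ D.borelSubgroup F, ∃ s : F, (g : GL D.Idx F) = b * C.ng i * C.xg (D.simple i) s := by
  have hJ : ({(C.toS F i hi).1} : Set ↥(D.group F)) ⊆ (C.bnPair F).S :=
    Set.singleton_subset_iff.2 (C.toS F i hi).2
  obtain ⟨L, hL, hc⟩ := BN.exists_word_of_mem_parabolic (C.bnPair F) hJ hg
  have hw : ∀ L : List (C.bnPair F).S, (∀ s ∈ L, (s : ↥(D.group F)) ∈ ({(C.toS F i hi).1} : Set _)) →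
      BN.word _ L = 1 ∨ BN.word _ L = BN.si _ (C.toS F i hi) := by
    intro L hL
    induction L with
    | nil => exact Or.inl (BN.word_nil _)
    | cons s L ih =>
      obtain rfl : s = C.toS F i hi := Subtype.ext (hL s List.mem_cons_self)
      rcases ih fun s hs => hL s (List.mem_cons_of_mem _ hs) with h | h
      · exact Or.inr (by rw [BN.word_cons, h, mul_one])
      · exact Or.inl (by rw [BN.word_cons, h, BN.si_mul_self])
  rcases hw L hL with h | h
  · rw [h] at hc
    exact Or.inl ((BN.mem_cell_one _).1 hc)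
  · rw [h] at hc
    obtain ⟨b, hb, n, hn, u, hu, e⟩ := C.exists_bnu g.2
    have hn' : g ∈ BN.cell _ (BN.cls _ (C.toN n hn)) := by
      have huB : u ∈ D.borelSubgroup F := Subgroup.mem_sup_left (by
        rw [posUnipotent_eq]; exact grp_mem_mono hu fun r hr => hr.1)
      exact (BN.mem_cell_cls _).2 ⟨⟨b, C.borel_le_group hb⟩, hb, ⟨u, C.borel_le_group huB⟩, huB,
        Subtype.ext e⟩
    have hd := (C.cls_toN_eq (C.ng_mem (F := F) hi) hn).1 (BN.eq_of_mem_cells _ hc hn')
    have hinv : C.inv n = {D.simple i} := by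
      rw [← C.inv_ng (F := F) hi]
      refine C.inv_congr fun r hr => ?_
      have := C.sg_mul (C.ng_mem (F := F) hi) (C.diag_le_monomial hd) hr
      rwa [mul_inv_cancel_left, C.sg_diag hd hr] at this
    rw [hinv, ← rootSubgroup_eq] at hu
    obtain ⟨s, rfl⟩ := (C.mem_rootSubgroup (C.root.simple_lt i hi)).1 hu
    refine Or.inr ⟨b * (C.ng i * ((C.ng i)⁻¹ * n) * (C.ng i)⁻¹),
      mul_mem hb (Subgroup.mem_sup_right (C.mono_conj_diag (C.ng_mem hi) _ hd)), s, ?_⟩
    rw [e]; group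

theorem neg_xg_mem_minPar {i : ℕ} (hi : i < D.rank) (t : F) :
    (⟨C.xg (D.neg (D.simple i)) t, C.xg_mem_group (C.root.neg_lt _ (C.root.simple_lt i hi)) t⟩ :
      ↥(D.group F)) ∈ C.minPar F i hi := by
  by_cases ht : t = 0
  · subst ht
    rw [show (⟨C.xg (D.neg (D.simple i)) (0 : F),
      C.xg_mem_group (C.root.neg_lt _ (C.root.simple_lt i hi)) 0⟩ : ↥(D.group F)) = 1 from
      Subtype.ext (C.xg_zero _)]
    exact one_mem _
  have hp := C.root.simple_lt i hi
  have hx : C.xg (D.simple i) t⁻¹ ∈ D.borelSubgroup F := C.xg_mem_borel (C.root.pos_simple hi) _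
  have hh : C.hg (D.simple i) (-t⁻¹) ∈ D.borelSubgroup F :=
    Subgroup.mem_sup_right (C.hg_mem hp (neg_ne_zero.2 (inv_ne_zero ht)))
  have e : (⟨C.xg (D.neg (D.simple i)) t, C.xg_mem_group (C.root.neg_lt _ hp) t⟩ : ↥(D.group F)) =
      ⟨_, C.borel_le_group hx⟩ * (⟨_, C.borel_le_group hh⟩ * (C.toS F i hi).1) *
        ⟨_, C.borel_le_group hx⟩ := Subtype.ext (C.xg_neg_eq hi ht)
  rw [e]
  exact mul_mem (mul_mem (BN.le_parabolic _ _ hx)
    (mul_mem (BN.le_parabolic _ _ hh) (BN.subset_parabolic _ _ rfl))) (BN.le_parabolic _ _ hx)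

/-- `V ∩ P_i = X_{-i}`. -/
theorem minPar_inf_neg {i : ℕ} (hi : i < D.rank) (g : ↥(D.group F)) :
    g ∈ C.minPar F i hi ∧ (g : GL D.Idx F) ∈ D.negUnipotent F ↔
      (g : GL D.Idx F) ∈ D.rootSubgroup F (D.neg (D.simple i)) := by
  have hp := C.root.simple_lt i hi
  have hneg : D.IsNegRoot (D.neg (D.simple i)) := (C.neg_neg_iff hp).2 (C.root.pos_simple hi)
  constructor
  · rintro ⟨hP, hV⟩
    rcases C.mem_minPar hi hP with hB | ⟨b, hb, s, e⟩
    · have h1 : (g : GL D.Idx F) ∈ D.borelSubgroup F ⊓ D.negUnipotent F :=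
        Subgroup.mem_inf.2 ⟨hB, hV⟩
      rw [C.borel_inf_neg, Subgroup.mem_bot] at h1
      rw [h1]; exact one_mem _
    · by_cases hs : s = 0
      · exfalso
        subst hs
        rw [C.xg_zero, mul_one] at e
        obtain ⟨n₀, hn₀, hlong, hmap⟩ := C.exists_pos_to_neg F
        rw [← hmap] at hV
        obtain ⟨u, hu, e'⟩ := hV
        change n₀ * u * n₀⁻¹ = _ at e'
        rw [e] at e'
        have h1 : (1 : GL D.Idx F) * n₀ * u = b * (C.ng i * n₀) * 1 := by
          rw [one_mul, mul_one, ← mul_assoc, ← e']; group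
        have hu' : u ∈ grp D F (C.inv n₀) := by
          rw [SetLike.mem_coe, posUnipotent_eq] at hu
          exact grp_mem_mono hu fun r hr => ⟨hr, hlong r hr⟩
        obtain ⟨hd, -⟩ := C.bnu_unique (one_mem _) hb hn₀ (mul_mem (C.ng_mem hi) hn₀) hu'
          (one_mem _) h1
        have h3 := C.sg_ng (F := F) hi hp
        rw [C.root.refl_simple hi] at h3
        have h4 : C.ng i = n₀ * (n₀⁻¹ * (C.ng i * n₀)) * n₀⁻¹ := by group
        rw [h4, C.sg_diag (C.mono_conj_diag hn₀ _ hd) hp] at h3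
        exact C.root.neg_ne hp h3.symm
      · obtain ⟨d, hd, e'⟩ : ∃ d ∈ D.borelSubgroup F, C.xg (D.neg (D.simple i)) s⁻¹ =
            d * C.ng i * C.xg (D.simple i) s := by
          refine ⟨C.xg (D.simple i) s * C.hg (D.simple i) (-s), mul_mem
            (C.xg_mem_borel (C.root.pos_simple hi) _)
            (Subgroup.mem_sup_right (C.hg_mem hp (neg_ne_zero.2 hs))), ?_⟩
          rw [C.xg_neg_eq hi (inv_ne_zero hs), inv_inv]; group
        have h1 : (g : GL D.Idx F) * (C.xg (D.neg (D.simple i)) s⁻¹)⁻¹ ∈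
            D.borelSubgroup F ⊓ D.negUnipotent F := by
          refine Subgroup.mem_inf.2 ⟨?_, mul_mem hV (inv_mem (C.xg_mem_neg hneg _))⟩
          rw [e, e', show b * C.ng i * C.xg (D.simple i) s * (d * C.ng i * C.xg (D.simple i) s)⁻¹ =
            b * d⁻¹ by group]
          exact mul_mem hb (inv_mem hd)
        rw [C.borel_inf_neg, Subgroup.mem_bot, mul_inv_eq_one] at h1
        exact (C.mem_rootSubgroup (C.root.neg_lt _ hp)).2 ⟨_, h1⟩
  · intro h
    obtain ⟨t, e⟩ := (C.mem_rootSubgroup (C.root.neg_lt _ hp)).1 h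
    refine ⟨?_, e ▸ C.xg_mem_neg hneg t⟩
    rw [show g = ⟨C.xg (D.neg (D.simple i)) t, C.xg_mem_group (C.root.neg_lt _ hp) t⟩ from
      Subtype.ext e]
    exact C.neg_xg_mem_minPar hi t

theorem minPar_le_iff {i j : ℕ} (hi : i < D.rank) (hj : j < D.rank) :
    C.minPar F i hi ≤ C.minPar F j hj ↔ i = j := by
  rw [minPar, minPar, BN.parabolic_le_iff _ (Set.singleton_subset_iff.2 (C.toS F i hi).2)
    (Set.singleton_subset_iff.2 (C.toS F j hj).2), Set.singleton_subset_singleton]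
  exact ⟨fun h => C.toS_inj hi hj (Subtype.ext h), fun h => by subst h; rfl⟩

/-- An automorphism fixing `B` permutes the fundamental parabolic subgroups. -/
theorem exists_node_map {θ : ↥(D.group F) ≃* ↥(D.group F)}
    (hB : Sends θ (D.borelSubgroup F) (D.borelSubgroup F)) :
    ∃ π : Equiv.Perm (Fin D.rank), ∀ i : Fin D.rank,
      (C.minPar F i i.2).map θ.toMonoidHom = C.minPar F (π i) (π i).2 := by
  set P := C.bnPair F with hP
  have key : ∀ (η : ↥(D.group F) ≃* ↥(D.group F)), Sends η (D.borelSubgroup F) (D.borelSubgroup F) →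
      ∀ i : Fin D.rank, ∃ j : Fin D.rank, C.minPar F j j.2 ≤ (C.minPar F i i.2).map η.toMonoidHom := by
    intro η hη i
    set M := (C.minPar F i i.2).map η.toMonoidHom with hM
    have hBM : P.B ≤ M := fun g hg => ⟨η.symm g, BN.le_parabolic _ _ ((hη.symm g).2 hg), by simp⟩
    have hne : ∃ s : P.S, (s : ↥(D.group F)) ∈ M := by
      by_contra hno
      push Not at hno
      have hle : M ≤ P.B := by
        rw [BN.overgroup_eq P hBM]
        refine sup_le le_rfl ((Subgroup.closure_le _).2 fun x hx => ?_)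
        exact absurd hx.2 (hno ⟨x, hx.1⟩)
      have h := hle ⟨_, BN.subset_parabolic _ _ rfl, rfl⟩
      exact BN.not_mem_B P (C.toS F i i.2) ((hη _).1 h)
    obtain ⟨s, hs⟩ := hne
    obtain ⟨j, hj, rfl⟩ := C.exists_toS s
    exact ⟨⟨j, hj⟩, sup_le hBM ((Subgroup.closure_le _).2 (Set.singleton_subset_iff.2 hs))⟩
  choose f hf using key θ hB
  choose g hg using key θ.symm hB.symm
  have hmono : ∀ (η : ↥(D.group F) ≃* ↥(D.group F)) (M : Subgroup ↥(D.group F)),
      (M.map η.symm.toMonoidHom).map η.toMonoidHom = M := fun η M => by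
    rw [Subgroup.map_map]
    convert Subgroup.map_id M
    ext x; simp
  have hgf : ∀ i, g (f i) = i := by
    intro i
    have h1 := (hg (f i)).trans (Subgroup.map_mono (hf i))
    have h2 := hmono θ.symm (C.minPar F i i.2)
    rw [MulEquiv.symm_symm] at h2
    rw [h2] at h1
    exact Fin.ext ((C.minPar_le_iff _ _).1 h1)
  have hinj : Function.Injective f := fun a b h => by rw [← hgf a, ← hgf b, h]
  refine ⟨Equiv.ofBijective f (Finite.injective_iff_bijective.1 hinj), fun i => le_antisymm ?_ (hf i)⟩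
  have h1 := Subgroup.map_mono (f := θ.toMonoidHom) (hg (f i))
  rw [hgf, hmono θ] at h1
  exact h1

theorem sends_neg_simple {θ : ↥(D.group F) ≃* ↥(D.group F)}
    (hV : Sends θ (D.negUnipotent F) (D.negUnipotent F)) {i j : ℕ} (hi : i < D.rank) (hj : j < D.rank)
    (h : (C.minPar F i hi).map θ.toMonoidHom = C.minPar F j hj) :
    Sends θ (D.rootSubgroup F (D.neg (D.simple i))) (D.rootSubgroup F (D.neg (D.simple j))) := by
  intro g
  rw [← C.minPar_inf_neg hj, ← C.minPar_inf_neg hi, ← h, hV g]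
  simp

/-- The negative of a fundamental root is carried to a fundamental root by the longest element. -/
theorem sg_longest_simple {n : GL D.Idx F} (hn : n ∈ D.monomialSubgroup F)
    (h : ∀ r, D.IsPosRoot r → D.IsNegRoot (C.sg n r)) {k : ℕ} (hk : k < D.rank) :
    ∃ j < D.rank, C.sg n (D.neg (D.simple k)) = D.simple j := by
  have hp := C.root.simple_lt k hk
  set r := C.sg n (D.neg (D.simple k)) with hr
  have hrpos : D.IsPosRoot r :=
    C.sg_longest_pos hn h ((C.neg_neg_iff hp).2 (C.root.pos_simple hk))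
  obtain ⟨τ, hm⟩ := C.sg_spec (inv_mem hn)
  let β : ℕ → ℕ := fun j => D.neg (C.sg n⁻¹ (D.simple j))
  let ht : ℕ → ℤ := fun s => ∑ m ∈ Finset.range D.rank, T.aux.coef s m
  have hβ : ∀ j < D.rank, D.IsPosRoot (β j) := fun j hj =>
    (C.neg_pos_iff (C.sg_lt (inv_mem hn) (C.root.simple_lt j hj))).2
      (C.sg_inv_longest hn h (C.root.pos_simple hj))
  have hht : ∀ s, D.IsPosRoot s → 1 ≤ ht s := by
    intro s hs
    obtain ⟨j, hj, hne⟩ := C.exists_coef_ne hs.1
    exact le_trans (show 1 ≤ T.aux.coef s j by have := C.coef_nonneg hs hj; omega)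
      (Finset.single_le_sum (f := T.aux.coef s) (fun m hm => C.coef_nonneg hs (Finset.mem_range.1 hm))
        (Finset.mem_range.2 hj))
  have hσ : C.sg n⁻¹ r = D.neg (D.simple k) := C.sg_inv_sg hn (C.root.neg_lt _ hp)
  have hlin : (∑ j ∈ Finset.range D.rank, T.aux.coef r j * ht (β j)) = 1 := by
    have h1 : ∀ m < D.rank, T.aux.coef (D.neg (D.simple k)) m =
        ∑ j ∈ Finset.range D.rank, T.aux.coef r j * T.aux.coef (C.sg n⁻¹ (D.simple j)) m := by
      intro m hm'
      rw [← hσ]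
      exact hm.lin r hrpos.1 m hm'
    have h2 : ∀ j < D.rank, ∀ m < D.rank,
        T.aux.coef (β j) m = -T.aux.coef (C.sg n⁻¹ (D.simple j)) m := fun j hj m hm' =>
      C.root.coef_neg (C.sg_lt (inv_mem hn) (C.root.simple_lt j hj)) hm'
    calc (∑ j ∈ Finset.range D.rank, T.aux.coef r j * ht (β j))
        = -∑ m ∈ Finset.range D.rank, ∑ j ∈ Finset.range D.rank,
            T.aux.coef r j * T.aux.coef (C.sg n⁻¹ (D.simple j)) m := by
          rw [Finset.sum_comm, ← Finset.sum_neg_distrib]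
          refine Finset.sum_congr rfl fun j hj => ?_
          rw [← Finset.sum_neg_distrib, Finset.mul_sum]
          refine Finset.sum_congr rfl fun m hm' => ?_
          rw [h2 j (Finset.mem_range.1 hj) m (Finset.mem_range.1 hm'), mul_neg]
      _ = -∑ m ∈ Finset.range D.rank, T.aux.coef (D.neg (D.simple k)) m := by
          congr 1
          exact Finset.sum_congr rfl fun m hm' => (h1 m (Finset.mem_range.1 hm')).symm
      _ = 1 := by
          rw [← Finset.sum_neg_distrib, Finset.sum_eq_single k]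
          · rw [C.root.coef_neg hp hk, C.root.coef_simple k hk k hk]; simp
          · intro m hm' hne
            rw [C.root.coef_neg hp (Finset.mem_range.1 hm'),
              C.root.coef_simple k hk m (Finset.mem_range.1 hm')]
            simp [hne]
          · exact fun h => absurd (Finset.mem_range.2 hk) h
  obtain ⟨j, hj, hne⟩ := C.exists_coef_ne hrpos.1
  refine ⟨j, hj, C.eq_simple_of_coef hj hrpos fun m hm' hmj => ?_⟩
  have hle : (T.aux.coef r j * ht (β j)) + T.aux.coef r m * ht (β m) ≤ 1 := by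
    rw [← hlin, ← Finset.sum_pair (f := fun j => T.aux.coef r j * ht (β j)) (Ne.symm hmj)]
    refine Finset.sum_le_sum_of_subset_of_nonneg (fun x hx => ?_) fun x hx _ => ?_
    · rcases Finset.mem_insert.1 hx with rfl | hx
      · exact Finset.mem_range.2 hj
      · rw [Finset.mem_singleton.1 hx]; exact Finset.mem_range.2 hm'
    · have hx' := Finset.mem_range.1 hx
      exact mul_nonneg (C.coef_nonneg hrpos hx') (le_trans zero_le_one (hht _ (hβ x hx')))
  have h1 := C.coef_nonneg hrpos hj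
  have h2 := C.coef_nonneg hrpos hm'
  have h3 := hht _ (hβ j hj)
  have h4 := hht _ (hβ m hm')
  have h5 : 1 ≤ T.aux.coef r j := by omega
  nlinarith

/-- An automorphism fixing `U` and `V` permutes the fundamental root subgroups. -/
theorem exists_pos_map {θ : ↥(D.group F) ≃* ↥(D.group F)}
    (hU : Sends θ (D.posUnipotent F) (D.posUnipotent F))
    (hV : Sends θ (D.negUnipotent F) (D.negUnipotent F)) (i : Fin D.rank) :
    ∃ j : Fin D.rank, Sends θ (D.rootSubgroup F (D.simple i)) (D.rootSubgroup F (D.simple j)) := by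
  obtain ⟨n₀, hn₀, hlong, hmap⟩ := C.exists_pos_to_neg F
  set N₀ : ↥(D.group F) := ⟨n₀, C.monomial_le_group hn₀⟩ with hN₀
  have hneg : ∀ v : GL D.Idx F, v ∈ D.negUnipotent F ↔ n₀⁻¹ * v * n₀ ∈ D.posUnipotent F := by
    intro v
    conv_lhs => rw [← hmap]
    rw [Subgroup.mem_map_equiv, MulAut.conj_symm_apply]
  have hpos : ∀ v : GL D.Idx F, v ∈ D.posUnipotent F ↔ n₀⁻¹ * v * n₀ ∈ D.negUnipotent F := by
    have key : ∀ m : GL D.Idx F, m ∈ D.monomialSubgroup F →
        (∀ r, D.IsPosRoot r → D.IsNegRoot (C.sg m r)) →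
        ∀ x ∈ D.negUnipotent F, m * x * m⁻¹ ∈ D.posUnipotent F := by
      intro m hm hml x hx
      rw [negUnipotent_eq] at hx
      rw [posUnipotent_eq]
      exact C.conj_mem_of_image hm (fun r hr => hr.1) (fun r hr => C.sg_longest_pos hm hml hr) hx
    intro v
    refine ⟨fun hv => ?_, fun hv => ?_⟩
    · rw [posUnipotent_eq] at hv
      rw [negUnipotent_eq]
      simpa using C.conj_mem_of_image (inv_mem hn₀) (fun r hr => hr.1)
        (fun r hr => C.sg_inv_longest hn₀ hlong hr) hv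
    · have := key n₀ hn₀ hlong _ hv
      simpa [mul_assoc] using this
  obtain ⟨η, hη⟩ : ∃ η : ↥(D.group F) ≃* ↥(D.group F),
      η = ((MulAut.conj N₀).trans θ).trans (MulAut.conj N₀).symm := ⟨_, rfl⟩
  have hηg : ∀ g, η g = N₀⁻¹ * θ (N₀ * g * N₀⁻¹) * N₀ := fun g => by simp [hη]
  have hηU : Sends η (D.posUnipotent F) (D.posUnipotent F) := fun g => by
    rw [hηg]
    show n₀⁻¹ * (θ (N₀ * g * N₀⁻¹) : GL D.Idx F) * n₀ ∈ _ ↔ _
    rw [← hneg, hV, hneg]
    simp [hN₀, mul_assoc]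
  have hηV : Sends η (D.negUnipotent F) (D.negUnipotent F) := fun g => by
    rw [hηg]
    show n₀⁻¹ * (θ (N₀ * g * N₀⁻¹) : GL D.Idx F) * n₀ ∈ _ ↔ _
    rw [← hpos, hU, hpos]
    simp [hN₀, mul_assoc]
  obtain ⟨π, hπ⟩ := C.exists_node_map (C.sends_borel hηU)
  choose e he he' using fun k (hk : k < D.rank) => C.sg_longest_simple hn₀ hlong hk
  have hsurj : ∃ k : Fin D.rank, e k k.2 = i.1 := by
    have hinj : Function.Injective fun k : Fin D.rank => (⟨e k k.2, he k k.2⟩ : Fin D.rank) := by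
      intro a b h
      have hab : e a a.2 = e b b.2 := congrArg Fin.val h
      have h1 := he' a a.2
      rw [hab, ← he' b b.2] at h1
      have h2 := congrArg (C.sg n₀⁻¹) h1
      rw [C.sg_inv_sg hn₀ (C.root.neg_lt _ (C.root.simple_lt a a.2)),
        C.sg_inv_sg hn₀ (C.root.neg_lt _ (C.root.simple_lt b b.2))] at h2
      exact Fin.ext (C.root.simple_inj a.2 b.2
        (C.root.neg_inj (C.root.simple_lt a a.2) (C.root.simple_lt b b.2) h2))
    obtain ⟨k, hk⟩ := (Finite.injective_iff_bijective.1 hinj).2 i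
    exact ⟨k, congrArg Fin.val hk⟩
  obtain ⟨k, hk⟩ := hsurj
  have hroot : ∀ (k : ℕ) (hk : k < D.rank) (v : GL D.Idx F),
      n₀⁻¹ * v * n₀ ∈ D.rootSubgroup F (D.neg (D.simple k)) ↔ v ∈ D.rootSubgroup F (D.simple (e k hk)) := by
    intro k hk v
    have hr := C.root.neg_lt _ (C.root.simple_lt k hk)
    rw [C.mem_rootSubgroup hr, C.mem_rootSubgroup (C.root.simple_lt _ (he k hk))]
    obtain ⟨c, hc0, hc⟩ := C.sg_conj hn₀ hr
    rw [← he' k hk]
    constructor
    · rintro ⟨t, ht⟩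
      exact ⟨c * t, by rw [← hc, ← ht]; group⟩
    · rintro ⟨t, rfl⟩
      refine ⟨c⁻¹ * t, ?_⟩
      have h1 := hc (c⁻¹ * t)
      rw [mul_inv_cancel_left₀ hc0] at h1
      rw [← h1]; group
  refine ⟨⟨e (π k) (π k).2, he _ _⟩, fun g => ?_⟩
  have h := C.sends_neg_simple hηV k.2 (π k).2 (hπ k) (N₀⁻¹ * g * N₀)
  rw [hηg, show N₀ * (N₀⁻¹ * g * N₀) * N₀⁻¹ = g by group] at h
  rw [← hk, ← hroot _ k.2, ← hroot _ (π k).2]
  exact h

end Checked

end Cfsg.Agent.Lib.Chev
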