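import Cfsg.Agent.Lib.Chev.ClsBN
import Cfsg.Agent.Lib.Chev.AutBorel

/-!
Automorphisms of the fixed points of a twist with classes: up to an inner one they fix `U` and `V`,
and then they permute the fundamental class groups.
-/

set_option autoImplicit false
set_option linter.unusedSectionVars false

namespace Cfsg.Agent.Lib.Chev

open Cfsg.Lie Cfsg.Agent.Lib

namespace Cls

variable {D : ChevalleyDatum} {T : Fast} {C : Checked D T} {K : Type*} [Field K] {τ : Twist C K}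
  {S : ClsSpec} (O : Cls τ S) (hG : O.Gens τ.fixed)
include O hG

omit hG in
theorem Gens.transport {G₁ G₂ : Subgroup (GL D.Idx K)} (h : O.Gens G₁) (e : G₁ = G₂) : O.Gens G₂ := e ▸ h

/-- Every positive root lies in a class with a nontrivial fixed element. -/
theorem exists_class_el {r : ℕ} (hr : D.IsPosRoot r) :
    ∃ c ∈ S.classes, r ∈ c.roots ∧
      ∃ x ∈ grp D K {s | s ∈ c.roots}, x ∈ τ.fixed ∧ x ≠ 1 ∧ x ∈ D.posUnipotent K := by
  obtain ⟨c, hc, hrc⟩ : ∃ c ∈ S.classes, r ∈ c.roots := by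
    have h := O.pos_mem_union hr
    simp only [ClsSpec.union, List.mem_flatMap] at h
    exact h
  obtain ⟨rest, hE⟩ : ∃ rest, O.Entry c rest := by
    suffices key : ∀ L : List ClsEntry, T.suffixCheck S τ.ρ L = true → c ∈ L →
        ∃ rest, O.Entry c rest from key _ O.classes_check hc
    intro L
    induction L with
    | nil => intro _ h; simp at h
    | cons a L ih =>
      intro h hmem
      simp only [Fast.suffixCheck, Bool.and_eq_true] at h
      rcases List.mem_cons.1 hmem with rfl | h'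
      · exact ⟨_, O.entry (O.union_lt h.2) h.1⟩
      · exact ih h.2 h'
  obtain ⟨z, hzB, hzG, hz⟩ := O.exists_base_ne_one hG hE.node_lt
  have hmem : (MulAut.conj (O.mvN c.moves)).toMonoidHom z ∈
      (grp D K (O.B c.node) ⊓ τ.fixed).map (MulAut.conj (O.mvN c.moves)).toMonoidHom :=
    ⟨z, Subgroup.mem_inf.2 ⟨hzB, hzG⟩, rfl⟩
  rw [O.map_class hE] at hmem
  refine ⟨c, hc, hrc, _, (Subgroup.mem_inf.1 hmem).1, (Subgroup.mem_inf.1 hmem).2, ?_, ?_⟩
  · exact fun h => hz ((MulAut.conj (O.mvN c.moves)).injective (h.trans (map_one _).symm))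
  · rw [posUnipotent_eq]
    exact grp_mem_mono (Subgroup.mem_inf.1 hmem).1 hE.pos

/-- A fixed monomial element exchanging `U` and `V`. -/
theorem swap_iff {m : GL D.Idx K} (hm : m ∈ D.monomialSubgroup K)
    (hlong : ∀ r, D.IsPosRoot r → D.IsNegRoot (C.sg m r)) :
    (∀ v, m * v * m⁻¹ ∈ D.negUnipotent K ↔ v ∈ D.posUnipotent K) ∧
    (∀ v, m * v * m⁻¹ ∈ D.posUnipotent K ↔ v ∈ D.negUnipotent K) := by
  refine ⟨fun v => ?_, fun v => ?_⟩ <;>
    rw [posUnipotent_eq, negUnipotent_eq] <;> refine ⟨fun h => ?_, fun h => ?_⟩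
  · have := C.conj_mem_of_image (inv_mem hm) (fun r hr => hr.1) (S' := {r | D.IsPosRoot r})
      (fun r hr => C.sg_longest_pos (inv_mem hm) (fun s hs => C.sg_inv_longest hm hlong hs) hr) h
    simpa [mul_assoc] using this
  · exact C.conj_mem_of_image hm (fun r hr => hr.1) (fun r hr => hlong r hr) h
  · have := C.conj_mem_of_image (inv_mem hm) (fun r hr => hr.1) (S' := {r | D.IsNegRoot r})
      (fun r hr => C.sg_inv_longest hm hlong hr) h
    simpa [mul_assoc] using this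
  · exact C.conj_mem_of_image hm (fun r hr => hr.1) (fun r hr => C.sg_longest_pos hm hlong hr) h

/-- A fixed element carrying `U` onto a subgroup of fixed points meeting it trivially. -/
theorem exists_borel_of_disjoint {g : GL D.Idx K} (hg : g ∈ τ.fixed)
    (h : ∀ x ∈ D.posUnipotent K, x ∈ τ.fixed → g * x * g⁻¹ ∈ D.posUnipotent K → x = 1) :
    ∃ b ∈ D.borelSubgroup K, b ∈ τ.fixed ∧
      ∀ x, g * x * g⁻¹ ∈ (D.negUnipotent K).map (MulAut.conj b).toMonoidHom ↔ x ∈ D.posUnipotent K := by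
  obtain ⟨b, hb, hbf, n, hn, hnf, u, hu, huf, rfl⟩ := O.fixed_bnu hg
  have huU : u ∈ D.posUnipotent K := by
    rw [posUnipotent_eq]; exact grp_mem_mono hu fun r hr => hr.1
  have hneg : ∀ r, D.IsPosRoot r → D.IsNegRoot (C.sg n r) := by
    intro r hr
    refine (C.key_trichotomy (C.sg_lt hn hr.1)).resolve_left fun hp => ?_
    obtain ⟨c, hc, hrc, x, hxc, hxf, hx1, hxU⟩ := O.exists_class_el hG hr
    have hposc : ∀ s ∈ c.roots, D.IsPosRoot (C.sg n s) := fun s hs => by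
      have hs' := O.saturated_pos c hc
      rcases hs' with hs' | hs'
      · refine (C.key_trichotomy (C.sg_lt hn (hs' s hs).1)).resolve_right fun hsn => ?_
        rcases O.saturated_inv hn (τ.comm_of_fixed hn hnf) c hc with hi | hi
        · exact C.not_pos_and_neg hp (hi r hrc).2
        · exact hi s hs ⟨hs' s hs, hsn⟩
      · exact absurd hr (hs' r hrc)
    have hnU : n * x * n⁻¹ ∈ D.posUnipotent K := by
      rw [posUnipotent_eq]
      refine C.conj_mem_of_image hn (fun s hs => ?_) hposc hxc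
      rcases O.saturated_pos c hc with hs' | hs'
      exacts [(hs' s hs).1, absurd hr (hs' r hrc)]
    have h1 := h _ (mul_mem (mul_mem (inv_mem huU) hxU) huU)
      (mul_mem (mul_mem (inv_mem huf) hxf) huf) (by
      rw [show b * n * u * (u⁻¹ * x * u) * (b * n * u)⁻¹ = b * (n * x * n⁻¹) * b⁻¹ by group]
      exact C.conj_borel_pos hb hnU)
    refine hx1 ?_
    calc x = u * (u⁻¹ * x * u) * u⁻¹ := by group
      _ = 1 := by rw [h1]; group
  refine ⟨b, hb, hbf, fun x => ?_⟩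
  rw [Subgroup.mem_map_equiv, MulAut.conj_symm_apply,
    show b⁻¹ * (b * n * u * x * (b * n * u)⁻¹) * b = n * (u * x * u⁻¹) * n⁻¹ by group,
    (O.swap_iff hG hn hneg).1]
  refine ⟨fun hx => ?_, fun hx => mul_mem (mul_mem huU hx) (inv_mem huU)⟩
  simpa [mul_assoc] using mul_mem (mul_mem (inv_mem huU) hx) huU

/-- The normaliser of the fixed points in `U` is `B`. -/
theorem mem_borel_of_normalizes {g : GL D.Idx K} (hg : g ∈ τ.fixed)
    (h : ∀ x ∈ D.posUnipotent K, x ∈ τ.fixed → g * x * g⁻¹ ∈ D.posUnipotent K) :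
    g ∈ D.borelSubgroup K := by
  obtain ⟨b, hb, hbf, n, hn, hnf, u, hu, huf, rfl⟩ := O.fixed_bnu hg
  have huU : u ∈ D.posUnipotent K := by
    rw [posUnipotent_eq]; exact grp_mem_mono hu fun r hr => hr.1
  have hinv : C.inv n = ∅ := by
    refine Set.eq_empty_of_forall_notMem fun r hr => ?_
    obtain ⟨c, hc, hrc, x, hxc, hxf, hx1, hxU⟩ := O.exists_class_el hG hr.1
    have hnegc : ∀ s ∈ c.roots, s ∈ C.inv n := by
      rcases O.saturated_inv hn (τ.comm_of_fixed hn hnf) c hc with hi | hi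
      exacts [hi, absurd hr (hi r hrc)]
    have h1 := h _ (mul_mem (mul_mem (inv_mem huU) hxU) huU)
      (mul_mem (mul_mem (inv_mem huf) hxf) huf)
    rw [show b * n * u * (u⁻¹ * x * u) * (b * n * u)⁻¹ = b * (n * x * n⁻¹) * b⁻¹ by group] at h1
    have h2 := C.conj_borel_pos (inv_mem hb) h1
    rw [show b⁻¹ * (b * (n * x * n⁻¹) * b⁻¹) * b⁻¹⁻¹ = n * x * n⁻¹ by group] at h2
    have h3 : n * x * n⁻¹ ∈ D.negUnipotent K := by
      rw [negUnipotent_eq]
      exact C.conj_mem_of_image hn (fun s hs => (hnegc s hs).1.1) (fun s hs => (hnegc s hs).2) hxc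
    have h4 : n * x * n⁻¹ ∈ D.borelSubgroup K ⊓ D.negUnipotent K :=
      Subgroup.mem_inf.2 ⟨Subgroup.mem_sup_left h2, h3⟩
    rw [C.borel_inf_neg, Subgroup.mem_bot, conj_eq_one_iff] at h4
    exact hx1 h4
  have hd : n ∈ D.diagonalSubgroup K := by
    rw [← C.cls_toN_eq_one hn]
    exact BN.eq_one_of_len_eq_zero _ (by rw [C.len_eq hn, hinv, Set.ncard_empty])
  exact mul_mem (mul_mem hb (Subgroup.mem_sup_right hd)) (Subgroup.mem_sup_left huU)

/-- Up to an inner automorphism, `U` and `V` are preserved. -/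
theorem exists_inner_fix [Finite K] (p : ℕ) [Fact p.Prime] (P : Sylow p ↥τ.fixed)
    (hP : (P : Subgroup ↥τ.fixed) = (D.posUnipotent K).subgroupOf τ.fixed)
    {m : GL D.Idx K} (hm : m ∈ D.monomialSubgroup K) (hmf : m ∈ τ.fixed)
    (hlong : ∀ r, D.IsPosRoot r → D.IsNegRoot (C.sg m r)) (φ : ↥τ.fixed ≃* ↥τ.fixed) :
    ∃ x : ↥τ.fixed, Sends (φ.trans (MulAut.conj x)) (D.posUnipotent K) (D.posUnipotent K) ∧
      Sends (φ.trans (MulAut.conj x)) (D.negUnipotent K) (D.negUnipotent K) := by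
  obtain ⟨hmV, -⟩ := O.swap_iff hG hm hlong
  obtain ⟨y, hy⟩ := MulAction.exists_smul_eq ↥τ.fixed
    (P.mapSurjective (f := φ.toMonoidHom) φ.surjective) P
  set φ₁ : ↥τ.fixed ≃* ↥τ.fixed := φ.trans (MulAut.conj y) with hφ₁
  have hU : Sends φ₁ (D.posUnipotent K) (D.posUnipotent K) := by
    apply sends_of_map_eq
    have h := congrArg (fun Q : Sylow p ↥τ.fixed => (Q : Subgroup ↥τ.fixed)) hy
    simp only [Sylow.coe_subgroup_smul, Subgroup.pointwise_smul_def] at h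
    rw [hP] at h
    refine Eq.trans ?_ h
    rw [show ((P.mapSurjective (f := φ.toMonoidHom) φ.surjective : Sylow p ↥τ.fixed) :
      Subgroup ↥τ.fixed) = (P : Subgroup ↥τ.fixed).map φ.toMonoidHom from rfl, hP]
    exact (Subgroup.map_map ((D.posUnipotent K).subgroupOf τ.fixed)
      (MulAut.conj y).toMonoidHom φ.toMonoidHom).symm
  set N₀ : ↥τ.fixed := ⟨m, hmf⟩ with hN₀
  have hdis : ∀ x ∈ D.posUnipotent K, x ∈ τ.fixed →
      (φ₁ N₀ : GL D.Idx K) * x * (φ₁ N₀ : GL D.Idx K)⁻¹ ∈ D.posUnipotent K → x = 1 := by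
    intro x hx hxf hc
    obtain ⟨x', hx'⟩ := φ₁.surjective ⟨x, hxf⟩
    have h1 : ((N₀ * x' * N₀⁻¹ : ↥τ.fixed) : GL D.Idx K) ∈ D.posUnipotent K := by
      rw [← hU, map_mul, map_mul, map_inv, hx']; exact hc
    have h2 : ((N₀ * x' * N₀⁻¹ : ↥τ.fixed) : GL D.Idx K) ∈ D.negUnipotent K := by
      show m * (x' : GL D.Idx K) * m⁻¹ ∈ _
      rw [hmV, ← hU, hx']; exact hx
    have h3 : ((N₀ * x' * N₀⁻¹ : ↥τ.fixed) : GL D.Idx K) ∈ D.borelSubgroup K ⊓ D.negUnipotent K :=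
      Subgroup.mem_inf.2 ⟨Subgroup.mem_sup_left h1, h2⟩
    rw [C.borel_inf_neg, Subgroup.mem_bot, OneMemClass.coe_eq_one, conj_eq_one_iff] at h3
    rw [h3, map_one] at hx'
    exact congrArg Subtype.val hx'.symm
  obtain ⟨b, hb, hbf, heq⟩ := O.exists_borel_of_disjoint hG (φ₁ N₀).2 hdis
  set B₀ : ↥τ.fixed := ⟨b, hbf⟩ with hB₀
  have hV : ∀ v : ↥τ.fixed, ((B₀⁻¹ * φ₁ v * B₀ : ↥τ.fixed) : GL D.Idx K) ∈ D.negUnipotent K ↔
      (v : GL D.Idx K) ∈ D.negUnipotent K := by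
    intro v
    obtain ⟨w, rfl⟩ : ∃ w, v = N₀ * w * N₀⁻¹ := ⟨N₀⁻¹ * v * N₀, by group⟩
    show _ ↔ m * (w : GL D.Idx K) * m⁻¹ ∈ _
    rw [hmV, ← hU, ← heq, Subgroup.mem_map_equiv, MulAut.conj_symm_apply, map_mul, map_mul, map_inv]
    rfl
  have hconj : ∀ g : ↥τ.fixed, (φ.trans (MulAut.conj (B₀⁻¹ * y))) g = B₀⁻¹ * φ₁ g * B₀ := fun g => by
    simp only [hφ₁, MulEquiv.trans_apply, MulAut.conj_apply, mul_inv_rev, inv_inv]
    group
  refine ⟨B₀⁻¹ * y, fun g => ?_, fun g => ?_⟩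
  · rw [hconj, ← hU g]
    refine ⟨fun h => ?_, fun h => ?_⟩
    · simpa [hB₀, mul_assoc] using C.conj_borel_pos hb h
    · simpa [hB₀, mul_assoc] using C.conj_borel_pos (inv_mem hb) h
  · rw [hconj]; exact hV g

theorem sends_borel {φ : ↥τ.fixed ≃* ↥τ.fixed} (hU : Sends φ (D.posUnipotent K) (D.posUnipotent K)) :
    Sends φ (D.borelSubgroup K) (D.borelSubgroup K) := by
  have key : ∀ (η : ↥τ.fixed ≃* ↥τ.fixed), Sends η (D.posUnipotent K) (D.posUnipotent K) →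
      ∀ g : ↥τ.fixed, (g : GL D.Idx K) ∈ D.borelSubgroup K → (η g : GL D.Idx K) ∈ D.borelSubgroup K := by
    intro η hη g hg
    refine O.mem_borel_of_normalizes hG (η g).2 fun x hx hxf => ?_
    obtain ⟨x', hx'⟩ := η.surjective ⟨x, hxf⟩
    have hxU : (x' : GL D.Idx K) ∈ D.posUnipotent K := by rw [← hη, hx']; exact hx
    have h1 := (hη (g * x' * g⁻¹)).2 (C.conj_borel_pos hg hxU)
    rwa [map_mul, map_mul, map_inv, hx'] at h1
  refine fun g => ⟨fun h => ?_, key φ hU g⟩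
  simpa using key φ.symm hU.symm _ h

omit hG in
/-- Conjugation by a fixed element exchanging `U` and `V`. -/
def flipAut (_ : Cls τ S) {m : GL D.Idx K} (hmf : m ∈ τ.fixed) (φ : ↥τ.fixed ≃* ↥τ.fixed) :
    ↥τ.fixed ≃* ↥τ.fixed :=
  ((MulAut.conj (⟨m, hmf⟩ : ↥τ.fixed)).trans φ).trans (MulAut.conj (⟨m, hmf⟩ : ↥τ.fixed)).symm

theorem flip_sends {m : GL D.Idx K} (hm : m ∈ D.monomialSubgroup K) (hmf : m ∈ τ.fixed)
    (hlong : ∀ r, D.IsPosRoot r → D.IsNegRoot (C.sg m r)) {φ : ↥τ.fixed ≃* ↥τ.fixed}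
    (hU : Sends φ (D.posUnipotent K) (D.posUnipotent K))
    (hV : Sends φ (D.negUnipotent K) (D.negUnipotent K)) :
    Sends (O.flipAut hmf φ) (D.posUnipotent K) (D.posUnipotent K) ∧
      Sends (O.flipAut hmf φ) (D.negUnipotent K) (D.negUnipotent K) := by
  obtain ⟨hmV, hmU⟩ := O.swap_iff hG hm hlong
  refine ⟨fun g => ?_, fun g => ?_⟩
  · rw [← hmV (g : GL D.Idx K), show m * (g : GL D.Idx K) * m⁻¹ =
      ((MulAut.conj (⟨m, hmf⟩ : ↥τ.fixed) g : ↥τ.fixed) : GL D.Idx K) from rfl, ← hV, ← hmV]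
    simp [flipAut, mul_assoc]
  · rw [← hmU (g : GL D.Idx K), show m * (g : GL D.Idx K) * m⁻¹ =
      ((MulAut.conj (⟨m, hmf⟩ : ↥τ.fixed) g : ↥τ.fixed) : GL D.Idx K) from rfl, ← hU, ← hmU]
    simp [flipAut, mul_assoc]

/-- `B ∩ mBm⁻¹ = H`. -/
theorem diag_iff {m : GL D.Idx K} (hm : m ∈ D.monomialSubgroup K)
    (hlong : ∀ r, D.IsPosRoot r → D.IsNegRoot (C.sg m r)) (g : GL D.Idx K) :
    g ∈ D.diagonalSubgroup K ↔ g ∈ D.borelSubgroup K ∧ m⁻¹ * g * m ∈ D.borelSubgroup K := by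
  obtain ⟨hmV, -⟩ := O.swap_iff hG hm hlong
  refine ⟨fun h => ⟨Subgroup.mem_sup_right h, Subgroup.mem_sup_right ?_⟩, fun ⟨h1, h2⟩ => ?_⟩
  · simpa using C.mono_conj_diag (inv_mem hm) _ h
  · obtain ⟨u, hu, d, hd, e⟩ := C.mem_borel.1 h2
    rw [← C.borel_inf_opp]
    refine Subgroup.mem_inf.2 ⟨h1, ?_⟩
    rw [show g = (m * u * m⁻¹) * (m * d * m⁻¹) by
      rw [show g = m * (m⁻¹ * g * m) * m⁻¹ by group, e]; group]
    exact mul_mem (Subgroup.mem_sup_left ((hmV u).2 hu)) (Subgroup.mem_sup_right (C.mono_conj_diag hm d hd))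

theorem sends_diag {m : GL D.Idx K} (hm : m ∈ D.monomialSubgroup K) (hmf : m ∈ τ.fixed)
    (hlong : ∀ r, D.IsPosRoot r → D.IsNegRoot (C.sg m r)) {φ : ↥τ.fixed ≃* ↥τ.fixed}
    (hU : Sends φ (D.posUnipotent K) (D.posUnipotent K))
    (hV : Sends φ (D.negUnipotent K) (D.negUnipotent K)) :
    Sends φ (D.diagonalSubgroup K) (D.diagonalSubgroup K) := by
  obtain ⟨hηU, -⟩ := O.flip_sends hG hm hmf hlong hU hV
  intro g
  rw [O.diag_iff hG hm hlong, O.diag_iff hG hm hlong, O.sends_borel hG hU g, and_congr_right_iff]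
  intro _
  set N₀ : ↥τ.fixed := ⟨m, hmf⟩
  rw [show m⁻¹ * (φ g : GL D.Idx K) * m = ((O.flipAut hmf φ (N₀⁻¹ * g * N₀) : ↥τ.fixed) : GL D.Idx K) by
    simp [flipAut, N₀, mul_assoc], O.sends_borel hG hηU]
  rfl

omit hG in
/-- The fixed points of the negative of a class. -/
def negC (j : ℕ) : Subgroup (GL D.Idx K) := grp D K (O.NB j) ⊓ τ.fixed

omit hG in
/-- The fixed points of a class. -/
def posC (j : ℕ) : Subgroup (GL D.Idx K) := grp D K (O.B j) ⊓ τ.fixed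

omit hG in
theorem posC_le_pos {j : ℕ} (hj : j < D.rank) : O.posC j ≤ D.posUnipotent K := by
  rw [posUnipotent_eq]
  exact fun g hg => grp_mem_mono (Subgroup.mem_inf.1 hg).1 (O.B_pos hj)

omit hG in
theorem negC_le_neg {j : ℕ} (hj : j < D.rank) : O.negC j ≤ D.negUnipotent K := by
  rw [negUnipotent_eq]
  exact fun g hg => grp_mem_mono (Subgroup.mem_inf.1 hg).1 (O.NB_neg hj)

omit hG in
theorem map_negC {j : ℕ} (hj : j < D.rank) :
    (O.posC j).map (MulAut.conj (O.wN j)).toMonoidHom = O.negC j := by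
  refine le_antisymm ?_ fun y hy => ?_
  · rintro _ ⟨x, hx, rfl⟩
    obtain ⟨h1, h2⟩ := Subgroup.mem_inf.1 hx
    exact Subgroup.mem_inf.2 ⟨O.wN_conj_B hj h1,
      mul_mem (mul_mem (O.wN_fixed hj) h2) (inv_mem (O.wN_fixed hj))⟩
  · obtain ⟨h1, h2⟩ := Subgroup.mem_inf.1 hy
    exact ⟨(O.wN j)⁻¹ * y * O.wN j, Subgroup.mem_inf.2 ⟨O.wN_conj_NB hj h1,
      mul_mem (mul_mem (inv_mem (O.wN_fixed hj)) h2) (O.wN_fixed hj)⟩, by
      show O.wN j * ((O.wN j)⁻¹ * y * O.wN j) * (O.wN j)⁻¹ = y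
      group⟩

omit hG in
theorem card_negC {j : ℕ} (hj : j < D.rank) : Nat.card ↥(O.negC j) = Nat.card ↥(O.posC j) := by
  rw [← O.map_negC hj, Subgroup.card_map_of_injective (MulAut.conj (O.wN j)).injective]

/-- The BN-pair of the fixed points. -/
noncomputable def bnF : Cfsg.BNPair ↥τ.fixed := O.bnPairC hG inf_le_right

/-- The fundamental parabolic subgroup of a node. -/
noncomputable def parC (j : ℕ) (hj : j < D.rank) : Subgroup ↥τ.fixed :=
  (O.bnF hG).parabolic {⟨O.wN j, O.wN_fixed hj⟩}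

theorem mem_parC {j : ℕ} (hj : j < D.rank) {g : ↥τ.fixed} (hg : g ∈ O.parC hG j hj) :
    (g : GL D.Idx K) ∈ D.borelSubgroup K ∨
      ∃ b ∈ D.borelSubgroup K, b ∈ τ.fixed ∧ ∃ x ∈ O.posC j,
        (g : GL D.Idx K) = b * O.wN j * x := by
  set P := O.bnF hG with hP
  have hs0 : (⟨O.wN j, O.wN_fixed hj⟩ : ↥τ.fixed) ∈ P.S := ⟨j, hj, rfl⟩
  set s₀ : P.S := ⟨_, hs0⟩ with hs₀
  obtain ⟨L, hL, hc⟩ := BN.exists_word_of_mem_parabolic P (Set.singleton_subset_iff.2 hs0) hg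
  have hw : ∀ L : List P.S, (∀ s ∈ L, (s : ↥τ.fixed) ∈ ({⟨O.wN j, O.wN_fixed hj⟩} : Set _)) →
      BN.word P L = 1 ∨ BN.word P L = BN.si P s₀ := by
    intro L hL
    induction L with
    | nil => exact Or.inl (BN.word_nil _)
    | cons s L ih =>
      obtain rfl : s = s₀ := Subtype.ext (hL s List.mem_cons_self)
      rcases ih fun s hs => hL s (List.mem_cons_of_mem _ hs) with h | h
      · exact Or.inr (by rw [BN.word_cons, h, mul_one])
      · exact Or.inl (by rw [BN.word_cons, h, BN.si_mul_self])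
  rcases hw L hL with h | h
  · rw [h] at hc
    exact Or.inl (Subgroup.mem_inf.1 ((BN.mem_cell_one _).1 hc)).1
  · rw [h] at hc
    obtain ⟨b, hb, b', hb', e⟩ := (BN.mem_cell_cls P).1 hc
    have e' : (g : GL D.Idx K) = (b : GL D.Idx K) * O.wN j * (b' : GL D.Idx K) := congrArg Subtype.val e
    obtain ⟨u, hu, huf, d, hd, hdf, eb⟩ := τ.fixed_borel (Subgroup.mem_inf.1 hb').1 b'.2
    have hu' : d⁻¹ * u * d ∈ D.posUnipotent K := by
      simpa using C.conj_borel_pos (Subgroup.mem_sup_right (inv_mem hd) : d⁻¹ ∈ D.borelSubgroup K) hu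
    obtain ⟨y, hy, hyf, hyB, x, hx, hxf, eu⟩ :=
      O.exists_split_node hj hu' (mul_mem (mul_mem (inv_mem hdf) huf) hdf)
    refine Or.inr ⟨(b : GL D.Idx K) * (O.wN j * d * (O.wN j)⁻¹) * (O.wN j * y * (O.wN j)⁻¹),
      mul_mem (mul_mem (Subgroup.mem_inf.1 hb).1
        (Subgroup.mem_sup_right (C.mono_conj_diag (O.wN_mem_monomial hj) _ hd))) hyB,
      mul_mem (mul_mem b.2 (mul_mem (mul_mem (O.wN_fixed hj) hdf) (inv_mem (O.wN_fixed hj))))
        (mul_mem (mul_mem (O.wN_fixed hj) hyf) (inv_mem (O.wN_fixed hj))), x,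
      Subgroup.mem_inf.2 ⟨hx, hxf⟩, ?_⟩
    rw [e', show (b' : GL D.Idx K) = u * d from eb]
    calc (b : GL D.Idx K) * O.wN j * (u * d)
        = (b : GL D.Idx K) * O.wN j * (d * (d⁻¹ * u * d)) := by group
      _ = _ := by rw [eu]; group

theorem not_borel_of_wN {j : ℕ} (hj : j < D.rank) {b : GL D.Idx K} (hb : b ∈ D.borelSubgroup K) :
    b * O.wN j ∉ D.negUnipotent K := by
  intro hV
  obtain ⟨n₀, hn₀, hlong, hmap⟩ := C.exists_pos_to_neg K
  rw [← hmap] at hV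
  obtain ⟨u, hu, e'⟩ := hV
  change n₀ * u * n₀⁻¹ = _ at e'
  have h1 : (1 : GL D.Idx K) * n₀ * u = b * (O.wN j * n₀) * 1 := by
    rw [one_mul, mul_one, ← mul_assoc, ← e']; group
  have hu' : u ∈ grp D K (C.inv n₀) := by
    rw [SetLike.mem_coe, posUnipotent_eq] at hu
    exact grp_mem_mono hu fun r hr => ⟨hr, hlong r hr⟩
  obtain ⟨hd, -⟩ := C.bnu_unique (one_mem _) hb hn₀ (mul_mem (O.wN_mem_monomial hj) hn₀) hu' (one_mem _) h1
  have h4 : O.wN j = n₀ * (n₀⁻¹ * (O.wN j * n₀)) * n₀⁻¹ := by group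
  have hp := C.root.pos_simple hj
  have h5 : D.IsNegRoot (C.sg (O.wN j) (D.simple j)) := (O.sg_wN_B hj (O.simple_mem_B hj)).1
  rw [h4, C.sg_diag (C.mono_conj_diag hn₀ _ hd) hp.1] at h5
  exact C.not_pos_and_neg hp h5

theorem negC_mem_parC {j : ℕ} (hj : j < D.rank) {g : ↥τ.fixed} (hg : (g : GL D.Idx K) ∈ O.negC j) :
    g ∈ O.parC hG j hj := by
  rw [← O.map_negC hj] at hg
  obtain ⟨x, hx, e⟩ := hg
  set s : ↥τ.fixed := ⟨O.wN j, O.wN_fixed hj⟩
  have hs : s ∈ O.parC hG j hj := BN.subset_parabolic _ _ rfl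
  set x' : ↥τ.fixed := ⟨x, (Subgroup.mem_inf.1 hx).2⟩
  have hx' : x' ∈ O.parC hG j hj := BN.le_parabolic _ _ (Subgroup.mem_inf.2
    ⟨Subgroup.mem_sup_left (O.posC_le_pos hj hx), x'.2⟩)
  rw [show g = s * x' * s⁻¹ from Subtype.ext e.symm]
  exact mul_mem (mul_mem hs hx') (inv_mem hs)

/-- `V ∩ P_j = V_j`. -/
theorem parC_inf_neg [Finite K]
    {j : ℕ} (hj : j < D.rank) (g : ↥τ.fixed) :
    g ∈ O.parC hG j hj ∧ (g : GL D.Idx K) ∈ D.negUnipotent K ↔ (g : GL D.Idx K) ∈ O.negC j := by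
  refine ⟨?_, fun h => ⟨O.negC_mem_parC hG hj h, O.negC_le_neg hj h⟩⟩
  set W : Subgroup (GL D.Idx K) := (O.parC hG j hj).map τ.fixed.subtype ⊓ D.negUnipotent K with hW
  have hle : O.negC j ≤ W := fun x hx => Subgroup.mem_inf.2
    ⟨⟨⟨x, (Subgroup.mem_inf.1 hx).2⟩, O.negC_mem_parC hG hj hx, rfl⟩, O.negC_le_neg hj hx⟩
  have hex : ∀ w : {w : ↥W // w ≠ 1}, ∃ x : ↥(O.posC j), ∃ b ∈ D.borelSubgroup K,
      (w.1 : GL D.Idx K) = b * O.wN j * x := by
    rintro ⟨⟨w, hwW⟩, hw1⟩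
    obtain ⟨⟨z, hz, rfl⟩, hwV⟩ := Subgroup.mem_inf.1 hwW
    rcases O.mem_parC hG hj hz with hB | ⟨b, hb, -, x, hx, e⟩
    · exfalso
      have h1 : (z : GL D.Idx K) ∈ D.borelSubgroup K ⊓ D.negUnipotent K := Subgroup.mem_inf.2 ⟨hB, hwV⟩
      rw [C.borel_inf_neg, Subgroup.mem_bot] at h1
      exact hw1 (Subtype.ext h1)
    · exact ⟨⟨x, hx⟩, b, hb, e⟩
  choose f b hb hf using hex
  have hinj : Function.Injective f := fun x y h => by
    have h1 : (x.1 : GL D.Idx K) * (y.1 : GL D.Idx K)⁻¹ ∈ D.borelSubgroup K ⊓ D.negUnipotent K := by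
      refine Subgroup.mem_inf.2 ⟨?_, mul_mem (Subgroup.mem_inf.1 x.1.2).2
        (inv_mem (Subgroup.mem_inf.1 y.1.2).2)⟩
      rw [hf x, hf y, h, show ∀ a c s t : GL D.Idx K,
        a * s * t * (c * s * t)⁻¹ = a * c⁻¹ from fun a c s t => by group]
      exact mul_mem (hb x) (inv_mem (hb y))
    rw [C.borel_inf_neg, Subgroup.mem_bot, mul_inv_eq_one] at h1
    exact Subtype.ext (Subtype.ext h1)
  have hne : ∀ w, f w ≠ 1 := fun w h => by
    refine O.not_borel_of_wN hG hj (hb w) ?_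
    have := (Subgroup.mem_inf.1 w.1.2).2
    rwa [hf w, h, OneMemClass.coe_one, mul_one] at this
  classical
  haveI : Fintype ↥(O.posC j) := Fintype.ofFinite _
  haveI : Fintype ↥W := Fintype.ofFinite _
  have hcard : Nat.card ↥W ≤ Nat.card ↥(O.posC j) := by
    let F : ↥W → ↥(O.posC j) := fun w => if h : w = 1 then 1 else f ⟨w, h⟩
    refine Nat.card_le_card_of_injective F fun x y h => ?_
    simp only [F] at h
    split_ifs at h with hx hy hy
    · rw [hx, hy]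
    · exact absurd h.symm (hne _)
    · exact absurd h (hne _)
    · exact congrArg Subtype.val (hinj h)
  have heq : O.negC j = W := Subgroup.eq_of_le_of_card_ge hle (by rw [O.card_negC hj]; exact hcard)
  rintro ⟨h1, h2⟩
  rw [heq]
  exact Subgroup.mem_inf.2 ⟨⟨g, h1, rfl⟩, h2⟩

/-- An automorphism fixing `U` and `V` carries each negative class group into another one. -/
theorem exists_negC_map [Finite K]
    {φ : ↥τ.fixed ≃* ↥τ.fixed}
    (hU : Sends φ (D.posUnipotent K) (D.posUnipotent K))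
    (hV : Sends φ (D.negUnipotent K) (D.negUnipotent K)) {j : ℕ} (hj : j < D.rank) :
    ∃ k < D.rank, ∀ g : ↥τ.fixed, (φ g : GL D.Idx K) ∈ O.negC k → (g : GL D.Idx K) ∈ O.negC j := by
  set P := O.bnF hG with hP
  have hη := O.sends_borel hG hU
  set M := (O.parC hG j hj).map φ.toMonoidHom with hM
  have hBM : P.B ≤ M := fun g hg => ⟨φ.symm g, BN.le_parabolic _ _ (Subgroup.mem_inf.2
    ⟨(hη.symm g).2 (Subgroup.mem_inf.1 hg).1, (φ.symm g).2⟩), by simp⟩
  have hne : ∃ s : P.S, (s : ↥τ.fixed) ∈ M := by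
    by_contra hno
    push Not at hno
    have hle : M ≤ P.B := by
      rw [BN.overgroup_eq P hBM]
      refine sup_le le_rfl ((Subgroup.closure_le _).2 fun x hx => ?_)
      exact absurd hx.2 (hno ⟨x, hx.1⟩)
    have h := hle ⟨⟨O.wN j, O.wN_fixed hj⟩, BN.subset_parabolic _ _ rfl, rfl⟩
    exact BN.not_mem_B P ⟨⟨O.wN j, O.wN_fixed hj⟩, j, hj, rfl⟩
      (Subgroup.mem_inf.2 ⟨(hη _).1 (Subgroup.mem_inf.1 h).1, O.wN_fixed hj⟩)
  obtain ⟨⟨s, k, hk, hsk⟩, hs⟩ := hne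
  refine ⟨k, hk, fun g hg => ?_⟩
  have hle : O.parC hG k hk ≤ M := sup_le hBM ((Subgroup.closure_le _).2 (Set.singleton_subset_iff.2 (by
    rw [show (⟨O.wN k, O.wN_fixed hk⟩ : ↥τ.fixed) = s from Subtype.ext hsk.symm]
    exact hs)))
  obtain ⟨z, hz, e⟩ := hle (O.negC_mem_parC hG hk hg)
  obtain rfl := φ.injective e
  exact (O.parC_inf_neg hG hj _).1 ⟨hz, (hV _).1 (O.negC_le_neg hk hg)⟩

end Cls

end Cfsg.Agent.Lib.Chev
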