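import Cfsg.Agent.Lib.Chev.TwistF4ReeResults
import Cfsg.Agent.Lib.Chev.ClsAut
import Cfsg.Agent.Lib.Chev.RootCent
import Cfsg.Agent.Lib.Chev.SLTwoHom

/-!
Root elements of the twisted groups of type `F₄`: multiplication, torus action, the rank one groups.
-/

set_option autoImplicit false
set_option linter.unusedSectionVars false

namespace Cfsg.Agent.Lib.Chev.F4

open Cfsg.Lie Cfsg.Agent.Lib Cfsg.Agent.Lib.Chev
open scoped MatrixGroups

variable {K : Type*} [Field K]

local notation "X" => Checked.xg F4.checked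

/-- An element of the short class. -/
def aE (m : ℕ) (t : K) : GL chevF4.Idx K := F4.checked.wg ([33, 24].zip [t ^ 2 ^ m, t])

/-- An element of the opposite of the short class. -/
def nE (m : ℕ) (t : K) : GL chevF4.Idx K := F4.checked.wg ([14, 23].zip [t ^ 2 ^ m, t])

/-- An element of the long class. -/
def bE (m : ℕ) (t u : K) : GL chevF4.Idx K :=
  F4.checked.wg ([27, 25, 28, 30].zip [t ^ 2 ^ m, t, t ^ (2 ^ m + 1) + u, u ^ (2 * 2 ^ m)])

theorem aE_eq (m : ℕ) (t : K) : aE m t = X 33 (t ^ 2 ^ m) * X 24 t := by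
  simp [aE, F4.checked.wg_cons, F4.checked.wg_nil]

theorem nE_eq (m : ℕ) (t : K) : nE m t = X 14 (t ^ 2 ^ m) * X 23 t := by
  simp [nE, F4.checked.wg_cons, F4.checked.wg_nil]

theorem bE_eq (m : ℕ) (t u : K) :
    bE m t u = X 27 (t ^ 2 ^ m) * (X 25 t * (X 28 (t ^ (2 ^ m + 1) + u) * X 30 (u ^ (2 * 2 ^ m)))) := by
  simp [bE, F4.checked.wg_cons, F4.checked.wg_nil]

theorem comm_even [CharP K 2] {a b c : ℕ} {k : ℤ} (ha : a < 48) (hb : b < 48) (hne : b ≠ a)
    (hng : b ≠ F4.fast.ng a) (h : F4.fast.commT a b = [(c, k, 1, 1)]) (hk : k % 2 = 0) (t u : K) :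
    X b u * X a t = X a t * X b u := by
  have e : (k : K) = 0 := (CharP.intCast_eq_zero_iff K 2 _).2 (by omega)
  rw [F4.checked.comm (lt48 ha) (lt48 hb) hne (by rw [F4.checked.tables.neg a (lt48 ha)]; exact hng) t u,
    ChevalleyDatum.commWord, ← F4.checked.commT_eq (lt48 ha) (lt48 hb), h]
  simp [F4.checked.wg_cons, F4.checked.wg_nil, e, F4.checked.xg_zero]

/-- The commutation facts at the two classes. -/
theorem commT_more :
    F4.fast.commT 27 28 = [(30, 2, 1, 1)] ∧ F4.fast.commT 25 28 = [] ∧ F4.fast.commT 27 30 = [] ∧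
      F4.fast.commT 25 30 = [] ∧ F4.fast.commT 33 23 = [] ∧ F4.fast.commT 14 24 = [] :=
  ⟨by decide +kernel, by decide +kernel, by decide +kernel, by decide +kernel, by decide +kernel,
    by decide +kernel⟩

variable [Fintype K] [CharP K 2] {m : ℕ}

theorem aE_add (t s : K) : aE m t * aE m s = aE m (t + s) := by
  have hc : ∀ x y : K, X 24 x * X 33 y = X 33 y * X 24 x := fun x y =>
    comm_nil (r := 33) (s := 24) (by omega) (by omega) (by decide) (by decide +kernel) commT_facts.1 y x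
  rw [aE_eq, aE_eq, aE_eq, mul_assoc, ← mul_assoc (X 24 _) (X 33 _), hc, mul_assoc,
    F4.checked.xg_add (lt48 (by omega)), ← mul_assoc, F4.checked.xg_add (lt48 (by omega)),
    add_pow_char_pow]

theorem nE_add (t s : K) : nE m t * nE m s = nE m (t + s) := by
  have hc : ∀ x y : K, X 23 x * X 14 y = X 14 y * X 23 x := fun x y =>
    comm_nil (r := 14) (s := 23) (by omega) (by omega) (by decide) (by decide +kernel) commT_facts.2.2.1 y x
  rw [nE_eq, nE_eq, nE_eq, mul_assoc, ← mul_assoc (X 23 _) (X 14 _), hc, mul_assoc,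
    F4.checked.xg_add (lt48 (by omega)), ← mul_assoc, F4.checked.xg_add (lt48 (by omega)),
    add_pow_char_pow]

theorem bE_mul (hK : Fintype.card K = 2 ^ (2 * m + 1)) (t u s v : K) :
    bE m t u * bE m s v = bE m (t + s) (u + v + t ^ 2 ^ m * s) := by
  have hper := hper' (m := m) hK
  have c1 : ∀ x y : K, X 28 x * X 27 y = X 27 y * X 28 x := fun x y =>
    comm_even (a := 27) (b := 28) (by omega) (by omega) (by decide) (by decide +kernel) commT_more.1 (by decide) y x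
  have c2 : ∀ x y : K, X 28 x * X 25 y = X 25 y * X 28 x := fun x y =>
    comm_nil (r := 25) (s := 28) (by omega) (by omega) (by decide) (by decide +kernel) commT_more.2.1 y x
  have c3 : ∀ x y : K, X 30 x * X 27 y = X 27 y * X 30 x := fun x y =>
    comm_nil (r := 27) (s := 30) (by omega) (by omega) (by decide) (by decide +kernel) commT_more.2.2.1 y x
  have c4 : ∀ x y : K, X 30 x * X 25 y = X 25 y * X 30 x := fun x y =>
    comm_nil (r := 25) (s := 30) (by omega) (by omega) (by decide) (by decide +kernel) commT_more.2.2.2.1 y x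
  have c5 : ∀ x y : K, X 30 x * X 28 y = X 28 y * X 30 x := fun x y =>
    comm_nil (r := 28) (s := 30) (by omega) (by omega) (by decide) (by decide +kernel) commT_facts.2.1 y x
  have c6 : ∀ x y : K, X 25 x * X 27 y = X 27 y * X 25 x * (X 28 (y * x) * X 30 (y ^ 2 * x)) := fun x y =>
    comm_two (a := 27) (b := 25) (by omega) (by omega) (by decide) (by decide +kernel)
      commT_facts.2.2.2.2.1 (by decide) (by decide) y x
  have d1 : ∀ (x y : K) (z : GL chevF4.Idx K), X 28 x * (X 27 y * z) = X 27 y * (X 28 x * z) :=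
    fun x y z => by rw [← mul_assoc, c1, mul_assoc]
  have d2 : ∀ (x y : K) (z : GL chevF4.Idx K), X 28 x * (X 25 y * z) = X 25 y * (X 28 x * z) :=
    fun x y z => by rw [← mul_assoc, c2, mul_assoc]
  have d3 : ∀ (x y : K) (z : GL chevF4.Idx K), X 30 x * (X 27 y * z) = X 27 y * (X 30 x * z) :=
    fun x y z => by rw [← mul_assoc, c3, mul_assoc]
  have d4 : ∀ (x y : K) (z : GL chevF4.Idx K), X 30 x * (X 25 y * z) = X 25 y * (X 30 x * z) :=
    fun x y z => by rw [← mul_assoc, c4, mul_assoc]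
  have d5 : ∀ (x y : K) (z : GL chevF4.Idx K), X 30 x * (X 28 y * z) = X 28 y * (X 30 x * z) :=
    fun x y z => by rw [← mul_assoc, c5, mul_assoc]
  have d6 : ∀ (x y : K) (z : GL chevF4.Idx K),
      X 25 x * (X 27 y * z) = X 27 y * (X 25 x * (X 28 (y * x) * (X 30 (y ^ 2 * x) * z))) :=
    fun x y z => by rw [← mul_assoc, c6]; simp only [mul_assoc]
  have d7 : ∀ (r : ℕ), r < 48 → ∀ (x y : K) (z : GL chevF4.Idx K),
      X r x * (X r y * z) = X r (x + y) * z := fun r hr x y z => by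
    rw [← mul_assoc, F4.checked.xg_add (lt48 hr)]
  rw [bE_eq, bE_eq, bE_eq]
  simp only [mul_assoc, d1, d2, d3, d4, d5, d6, d7 27 (by omega), d7 25 (by omega), d7 28 (by omega),
    F4.checked.xg_add (lt48 (show 30 < 48 by omega))]
  have hA : (s ^ 2 ^ m * t + ((t ^ (2 ^ m + 1) + u) + (s ^ (2 ^ m + 1) + v))) =
      (t + s) ^ (2 ^ m + 1) + (u + v + t ^ 2 ^ m * s) := by
    have e : ∀ x : K, x ^ (2 ^ m + 1) = x ^ 2 ^ m * x := fun x => pow_succ x (2 ^ m)
    rw [e, e, e, add_pow_char_pow]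
    linear_combination -(CharTwo.add_self_eq_zero (t ^ 2 ^ m * s))
  have hB : (s ^ 2 ^ m) ^ 2 * t + (u ^ (2 * 2 ^ m) + v ^ (2 * 2 ^ m)) =
      (u + v + t ^ 2 ^ m * s) ^ (2 * 2 ^ m) := by
    have e : ∀ x : K, x ^ (2 * 2 ^ m) = (x ^ 2 ^ m) ^ 2 := fun x => by rw [← pow_mul, mul_comm]
    rw [e, e, e, add_pow_char_pow, add_pow_char_pow, CharTwo.add_sq, CharTwo.add_sq, mul_pow, mul_pow,
      per2 hper]
    ring
  rw [hA, hB, add_pow_char_pow]

theorem bE_sq (hK : Fintype.card K = 2 ^ (2 * m + 1)) (t u : K) :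
    bE m t u * bE m t u = bE m 0 (t ^ (2 ^ m + 1)) := by
  rw [bE_mul hK, CharTwo.add_self_eq_zero, CharTwo.add_self_eq_zero, zero_add, ← pow_succ]

theorem aE_inj {t s : K} (h : aE m t = aE m s) : t = s := by
  have := F4.checked.zip_inj tails_pair (by rfl) (by rfl) h
  simp only [List.cons.injEq, and_true] at this
  exact this.2

theorem nE_inj {t s : K} (h : nE m t = nE m s) : t = s := by
  have hw : ∀ x : K, nE m x = X 14 (x ^ 2 ^ m) * X 23 x := nE_eq m
  rw [hw, hw] at h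
  have h' : X 14 (t ^ 2 ^ m - s ^ 2 ^ m) = X 23 (s - t) := by
    have e1 : (X 14 (s ^ 2 ^ m))⁻¹ * X 14 (t ^ 2 ^ m) = X 23 s * (X 23 t)⁻¹ := by
      rw [eq_mul_inv_iff_mul_eq, mul_assoc, h, inv_mul_cancel_left]
    rw [F4.checked.xg_inv, F4.checked.xg_inv, F4.checked.xg_add (lt48 (by omega)),
      F4.checked.xg_add (lt48 (by omega))] at e1
    rw [sub_eq_neg_add, sub_eq_add_neg, e1]
  have h2 := F4.checked.eq_zero_of_xg_eq (lt48 (by omega)) (lt48 (by omega)) (by decide) h'.symm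
  exact (sub_eq_zero.1 h2).symm

theorem bE_inj {t u s v : K} (h : bE m t u = bE m s v) : t = s ∧ u = v := by
  have := F4.checked.zip_inj tails_quad (by rfl) (by rfl) h
  simp only [List.cons.injEq, and_true] at this
  obtain ⟨-, h2, h3, -⟩ := this
  rw [h2, add_left_cancel_iff] at h3
  exact ⟨h2, h3⟩

theorem aE_zero : aE (K := K) m 0 = 1 :=
  mul_eq_left.1 (show aE (K := K) m 0 * aE m 0 = aE m 0 by rw [aE_add, add_zero])

theorem nE_zero : nE (K := K) m 0 = 1 :=
  mul_eq_left.1 (show nE (K := K) m 0 * nE m 0 = nE m 0 by rw [nE_add, add_zero])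

theorem bE_zero (hK : Fintype.card K = 2 ^ (2 * m + 1)) : bE (K := K) m 0 0 = 1 :=
  mul_eq_left.1 (show bE (K := K) m 0 0 * bE m 0 0 = bE m 0 0 by rw [bE_mul hK]; simp)

variable (θ : K ≃+* K) (hθ : ∀ t : K, θ t = t ^ 2 ^ m) (hK : Fintype.card K = 2 ^ (2 * m + 1))
include hθ hK

theorem aE_mem (t : K) : aE m t ∈ (ree_cls θ).posC 0 :=
  (fixed_pair_iff θ hθ (hper' hK) _).2 ⟨t, rfl⟩

theorem bE_mem (t u : K) : bE m t u ∈ (ree_cls θ).posC 1 :=
  (fixed_quad_iff θ hθ (hper' hK) _).2 ⟨t, u, rfl⟩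

theorem mem_posC_zero {g : GL chevF4.Idx K} (hg : g ∈ (ree_cls θ).posC 0) : ∃ t, g = aE m t :=
  (fixed_pair_iff θ hθ (hper' hK) g).1 hg

theorem mem_posC_one {g : GL chevF4.Idx K} (hg : g ∈ (ree_cls θ).posC 1) : ∃ t u, g = bE m t u :=
  (fixed_quad_iff θ hθ (hper' hK) g).1 hg

theorem card_posC_zero : Nat.card ↥((ree_cls θ).posC 0) = Nat.card K :=
  card_fixed_pair θ hθ (hper' hK)

theorem card_posC_one : Nat.card ↥((ree_cls θ).posC 1) = Nat.card K ^ 2 :=
  card_fixed_quad θ hθ (hper' hK)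

theorem nE_mem (t : K) : nE m t ∈ (ree_cls θ).negC 0 := by
  have hng : ∀ r, r < 48 → chevF4.neg r = F4.fast.ng r := fun r hr => F4.checked.tables.neg r (lt48 hr)
  refine Subgroup.mem_inf.2 ⟨grp_mem_mono (F4.checked.wg_zip_mem _) fun r hr => ?_, ?_⟩
  · have hr' : r ∈ [14, 23] := hr
    have h48 : r < 48 := (by decide : ∀ x ∈ [14, 23], x < 48) r hr'
    refine ⟨lt48 h48, ?_⟩
    rw [hng r h48]
    exact (by decide +kernel : ∀ x ∈ [14, 23], F4.fast.ng x ∈ reeSpec.base 0) r hr'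
  · show nE m t ∈ (reeTwist θ).fixed
    rw [nE_eq]
    exact act_pairWord θ hθ (hper' hK) (s := 14) (l := 23) (by omega) (by omega) rfl rfl rfl rfl
      (by decide) (by decide +kernel) commT_facts.2.2.1 t

theorem mem_negC_zero {g : GL chevF4.Idx K} (hg : g ∈ (ree_cls θ).negC 0) : ∃ t, g = nE m t := by
  classical
  let f : K → ↥((ree_cls θ).negC 0) := fun t => ⟨nE m t, nE_mem θ hθ hK t⟩
  have hf : Function.Injective f := fun a b h => nE_inj (congrArg Subtype.val h)
  have hcard : Nat.card K = Nat.card ↥((ree_cls θ).negC 0) := by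
    rw [(ree_cls θ).card_negC (by rw [rank_eq']; omega), card_posC_zero θ hθ hK]
  obtain ⟨t, ht⟩ := ((Nat.bijective_iff_injective_and_card f).2 ⟨hf, hcard⟩).2 ⟨g, hg⟩
  exact ⟨t, (congrArg Subtype.val ht).symm⟩

/-- Powers of a generator of the multiplicative group. -/
theorem exists_generic (hm : 1 ≤ m) :
    ∃ g : K, g ≠ 0 ∧ ∀ k, 0 < k → k ≤ 2 * 2 ^ m + 1 → g ^ k ≠ 1 := by
  classical
  obtain ⟨g, hg⟩ := IsCyclic.exists_generator (α := Kˣ)
  have hord : orderOf g = Fintype.card K - 1 := by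
    rw [orderOf_eq_card_of_forall_mem_zpowers hg, Nat.card_eq_fintype_card, Fintype.card_units]
  have hge : 2 ^ m * (2 * 2 ^ m) = 2 ^ (2 * m + 1) := by rw [pow_succ, two_mul m, pow_add]; ring
  have he2 : 2 ≤ 2 ^ m := le_self_pow₀ (by norm_num) (by omega)
  refine ⟨g, Units.ne_zero g, fun k hk0 hk h => ?_⟩
  have h' : g ^ k = 1 := Units.ext (by rw [Units.val_pow_eq_pow_val, Units.val_one, h])
  have hd := Nat.le_of_dvd hk0 (orderOf_dvd_of_pow_eq_one h')
  rw [hord, hK, ← hge] at hd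
  have : 4 * 2 ^ m ≤ 2 ^ m * (2 * 2 ^ m) := by nlinarith
  omega

/-- The action of a fixed diagonal element on the two classes. -/
structure Par (m : ℕ) (d : GL chevF4.Idx K) (z₁ z₂ : K) : Prop where
  ne₁ : z₁ ≠ 0
  ne₂ : z₂ ≠ 0
  conjA : ∀ t, d * aE m t * d⁻¹ = aE m (z₁ * t)
  conjN : ∀ t, d * nE m t * d⁻¹ = nE m (z₁⁻¹ * t)
  conjB : ∀ t u, d * bE m t u * d⁻¹ = bE m (z₂ * t) (z₂ ^ (2 ^ m + 1) * u)

/-- The characters of a fixed diagonal element at the two classes. -/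
theorem par_of_chr {d : GL chevF4.Idx K} (hd : d ∈ chevF4.diagonalSubgroup K)
    (hdf : d ∈ (reeTwist θ).fixed) {χ : ℕ → K} (hχ : IsChr chevF4 χ)
    (e : (d : Matrix chevF4.Idx chevF4.Idx K) = dg chevF4 χ) :
    Par m d (χ 24) (χ 25) := by
  have hper := hper' (m := m) hK
  have hs : ∀ j < chevF4.rank, chevF4.simple j = F4.fast.sp j := F4.checked.tables.simple
  have hf : ∀ j < chevF4.rank, ∀ x : K, (reeTwist θ).f (chevF4.simple j) x =
      (θ x) ^ F4.iso.lam (chevF4.simple j) := fun j _ x => F4.isoData.fRoot_apply θ _ x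
  have hcond := ((reeTwist θ).diag_fixed_iff (fun _ => rfl) hd hχ e).1 hdf
  have r2 : 2 < chevF4.rank := by rw [rank_eq']; omega
  have r3 : 3 < chevF4.rank := by rw [rank_eq']; omega
  have c3 := hcond 3 r3
  have c2 := hcond 2 r2
  rw [hf 3 r3, hθ, hs 3 r3, show (reeTwist θ).p 3 = 0 from rfl, hs 0 (by rw [rank_eq']; omega),
    show F4.fast.sp 0 = 33 by decide +kernel, show F4.fast.sp 3 = 24 by decide +kernel,
    show F4.iso.lam 24 = 1 from rfl, pow_one] at c3
  rw [hf 2 r2, hθ, hs 2 r2, show (reeTwist θ).p 2 = 1 from rfl, hs 1 (by rw [rank_eq']; omega),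
    show F4.fast.sp 1 = 27 by decide +kernel, show F4.fast.sp 2 = 25 by decide +kernel,
    show F4.iso.lam 25 = 1 from rfl, pow_one] at c2
  have v28 : χ 28 = χ 25 ^ (2 ^ m + 1) := by
    rw [F4.checked.chr_chain hχ (r := 27) (s := 25) (k := 0) (m := -1) (lt48 (by omega))
      (lt48 (by omega)) (by decide +kernel), c2, zero_add, pow_one, pow_succ]
  have v30 : χ 30 = χ 25 ^ (2 * 2 ^ m + 1) := by
    rw [F4.checked.chr_chain hχ (r := 27) (s := 25) (k := 1) (m := -1) (lt48 (by omega))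
      (lt48 (by omega)) (by decide +kernel), c2, ← pow_mul, ← pow_succ]
    ring_nf
  have v14 : χ 14 = (χ 24)⁻¹ ^ 2 ^ m := by
    rw [inv_pow, ← c3, show (14 : ℕ) = F4.fast.ng 33 by decide +kernel,
      ← F4.checked.tables.neg 33 (lt48 (by omega)), hχ.neg 33 (lt48 (by omega))]
  have v23 : χ 23 = (χ 24)⁻¹ := by
    rw [show (23 : ℕ) = F4.fast.ng 24 by decide +kernel,
      ← F4.checked.tables.neg 24 (lt48 (by omega)), hχ.neg 24 (lt48 (by omega))]
  refine ⟨hχ.ne 24 (lt48 (by omega)), hχ.ne 25 (lt48 (by omega)), fun t => ?_, fun t => ?_, fun t u => ?_⟩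
  · rw [aE, aE, F4.checked.diag_conj_wg hχ e _ (fun p hp => lt48 ((by decide : ∀ x ∈ [33, 24], x < 48) p.1
      (List.of_mem_zip hp).1))]
    simp [c3, mul_pow]
  · rw [nE, nE, F4.checked.diag_conj_wg hχ e _ (fun p hp => lt48 ((by decide : ∀ x ∈ [14, 23], x < 48) p.1
      (List.of_mem_zip hp).1))]
    simp [v14, v23, mul_pow]
  · rw [bE, bE, F4.checked.diag_conj_wg hχ e _ (fun p hp => lt48 ((by decide : ∀ x ∈ [27, 25, 28, 30], x < 48) p.1
      (List.of_mem_zip hp).1))]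
    have e2 : χ 25 ^ (2 * 2 ^ m + 1) = (χ 25 ^ (2 ^ m + 1)) ^ (2 * 2 ^ m) := by
      rw [← pow_mul, show (2 ^ m + 1) * (2 * 2 ^ m) = 2 ^ m * (2 * 2 ^ m) + 2 * 2 ^ m by ring,
        pow_add (χ 25) (2 ^ m * (2 * 2 ^ m)), hper, pow_succ]
      ring
    congr 1
    simp only [List.zip_cons_cons, List.zip_nil_right, List.map_cons, List.map_nil, c2, v28, v30, e2,
      mul_pow, mul_add]

theorem exists_par {d : GL chevF4.Idx K} (hd : d ∈ chevF4.diagonalSubgroup K)
    (hdf : d ∈ (reeTwist θ).fixed) : ∃ z₁ z₂, Par m d z₁ z₂ := by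
  obtain ⟨χ, hχ, e⟩ := F4.checked.exists_chr hd
  exact ⟨_, _, par_of_chr θ hθ hK hd hdf hχ e⟩

theorem exists_diag {z₁ z₂ : K} (h₁ : z₁ ≠ 0) (h₂ : z₂ ≠ 0) :
    ∃ d ∈ chevF4.diagonalSubgroup K, d ∈ (reeTwist θ).fixed ∧
      ∃ χ, IsChr chevF4 χ ∧ (d : Matrix chevF4.Idx chevF4.Idx K) = dg chevF4 χ ∧ χ 24 = z₁ ∧ χ 25 = z₂ := by
  classical
  have hker : Nat.card (F4.checked.cartanMap (F := K)).ker = 1 := by
    rw [F4.checked.card_ker_cartanMap smith_F4, show F4.fast.l = 4 from rfl]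
    simp [Finset.prod_range_succ]
  let zf : Fin chevF4.rank → Kˣ := fun i =>
    if i.1 = 0 then (Units.mk0 z₁ h₁) ^ 2 ^ m else if i.1 = 1 then (Units.mk0 z₂ h₂) ^ 2 ^ m
    else if i.1 = 2 then Units.mk0 z₂ h₂ else Units.mk0 z₁ h₁
  obtain ⟨d, hd, χ, hχ, e, hz⟩ := F4.checked.exists_diag_of_simple hker zf
  have hs : ∀ j < chevF4.rank, chevF4.simple j = F4.fast.sp j := F4.checked.tables.simple
  have hf : ∀ j < chevF4.rank, ∀ x : K, (reeTwist θ).f (chevF4.simple j) x =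
      (θ x) ^ F4.iso.lam (chevF4.simple j) := fun j _ x => F4.isoData.fRoot_apply θ _ x
  have hzv : ∀ j, (hj : j < chevF4.rank) → χ (chevF4.simple j) = (zf ⟨j, hj⟩ : K) := fun j hj => hz ⟨j, hj⟩
  have hper : ∀ t : K, ((t ^ 2 ^ m) ^ 2 ^ m) ^ 2 = t := per2 (hper' hK)
  have hfix : d ∈ (reeTwist θ).fixed := by
    refine ((reeTwist θ).diag_fixed_iff (fun _ => rfl) hd hχ e).2 fun j hj => ?_
    have hσ : (reeTwist θ).p j = F4.iso.σ j := rfl
    rw [hf j hj, hθ, hzv _ ((reeTwist θ).p_lt j hj), hzv j hj, hs j hj]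
    simp only [hσ]
    have h4 : j < 4 := rank_eq' ▸ hj
    interval_cases j <;> simp [zf, show F4.iso.σ 0 = 3 from rfl, show F4.iso.σ 1 = 2 from rfl,
      show F4.iso.σ 2 = 1 from rfl, show F4.iso.σ 3 = 0 from rfl, show F4.iso.lam 33 = 2 from rfl,
      show F4.iso.lam 27 = 2 from rfl, show F4.iso.lam 25 = 1 from rfl, show F4.iso.lam 24 = 1 from rfl,
      show F4.fast.sp 0 = 33 by decide +kernel,
      show F4.fast.sp 1 = 27 by decide +kernel, show F4.fast.sp 2 = 25 by decide +kernel,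
      show F4.fast.sp 3 = 24 by decide +kernel, hper]
  have r2 : 2 < chevF4.rank := by rw [rank_eq']; omega
  have r3 : 3 < chevF4.rank := by rw [rank_eq']; omega
  refine ⟨d, hd, hfix, χ, hχ, e, ?_, ?_⟩
  · rw [← show F4.fast.sp 3 = 24 by decide +kernel, ← hs 3 r3, hzv 3 r3]; simp [zf]
  · rw [← show F4.fast.sp 2 = 25 by decide +kernel, ← hs 2 r2, hzv 2 r2]; simp [zf]

omit hθ hK in
theorem Par.eq_of_eq {d : GL chevF4.Idx K} {z₁ z₂ y₁ y₂ : K} (h : Par m d z₁ z₂) (h' : Par m d y₁ y₂) :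
    z₁ = y₁ ∧ z₂ = y₂ := by
  constructor
  · have := aE_inj ((h.conjA 1).symm.trans (h'.conjA 1)); simpa using this
  · have := (bE_inj ((h.conjB 1 0).symm.trans (h'.conjB 1 0))).1; simpa using this

theorem eq_one_of_par {d : GL chevF4.Idx K} (hd : d ∈ chevF4.diagonalSubgroup K)
    (hdf : d ∈ (reeTwist θ).fixed) (h : Par m d 1 1) : d = 1 := by
  obtain ⟨χ, hχ, e⟩ := F4.checked.exists_chr hd
  obtain ⟨h1, h2⟩ := (par_of_chr θ hθ hK hd hdf hχ e).eq_of_eq h
  have hs : ∀ j < chevF4.rank, chevF4.simple j = F4.fast.sp j := F4.checked.tables.simple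
  have hcond := ((reeTwist θ).diag_fixed_iff (fun _ => rfl) hd hχ e).1 hdf
  have hf : ∀ j < chevF4.rank, ∀ x : K, (reeTwist θ).f (chevF4.simple j) x =
      (θ x) ^ F4.iso.lam (chevF4.simple j) := fun j _ x => F4.isoData.fRoot_apply θ _ x
  refine F4.checked.eq_one_of_chr_simple hd e fun j hj => ?_
  have h4 : j < 4 := rank_eq' ▸ hj
  have r2 : 2 < chevF4.rank := by rw [rank_eq']; omega
  have r3 : 3 < chevF4.rank := by rw [rank_eq']; omega
  interval_cases j
  · have := hcond 3 r3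
    rw [hf 3 r3, hθ, hs 3 r3, show (reeTwist θ).p 3 = 0 from rfl,
      show F4.fast.sp 3 = 24 by decide +kernel, h1] at this
    simpa using this
  · have := hcond 2 r2
    rw [hf 2 r2, hθ, hs 2 r2, show (reeTwist θ).p 2 = 1 from rfl,
      show F4.fast.sp 2 = 25 by decide +kernel, h2] at this
    simpa using this
  · rw [hs _ hj, show F4.fast.sp 2 = 25 by decide +kernel, h2]
  · rw [hs _ hj, show F4.fast.sp 3 = 24 by decide +kernel, h1]

/-- The rank one group of the short class as an image of `SL₂`. -/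
theorem exists_slTwo : ∃ φ : SL(2, K) →* GL chevF4.Idx K, ∀ t : K,
    φ (RootPair.upT t) = aE m t ∧ φ (RootPair.loT t) = nE m t := by
  have hen := en_simple_of F4.checked en_simple_F4
  obtain ⟨φ₃, r₃, h₃⟩ := F4.checked.exists_slTwo_hom (F := K) hen (lt48 (show 33 < 48 by omega))
  obtain ⟨φ₄, r₄, h₄⟩ := F4.checked.exists_slTwo_hom (F := K) hen (lt48 (show 24 < 48 by omega))
  have n33 : chevF4.neg 33 = 14 := by rw [F4.checked.tables.neg 33 (lt48 (by omega))]; decide +kernel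
  have n24 : chevF4.neg 24 = 23 := by rw [F4.checked.tables.neg 24 (lt48 (by omega))]; decide +kernel
  rw [n33] at r₃ h₃
  rw [n24] at r₄ h₄
  have hx : ∀ r, r = 33 ∨ r = 14 → ∀ s, s = 24 ∨ s = 23 → ∀ x y : K, Commute (X r x) (X s y) := by
    intro r hr s hs x y
    rcases hr with rfl | rfl <;> rcases hs with rfl | rfl
    · exact (comm_nil (r := 33) (s := 24) (by omega) (by omega) (by decide) (by decide +kernel) commT_facts.1 x y).symm
    · exact (comm_nil (r := 33) (s := 23) (by omega) (by omega) (by decide) (by decide +kernel) commT_more.2.2.2.2.1 x y).symm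
    · exact (comm_nil (r := 14) (s := 24) (by omega) (by omega) (by decide) (by decide +kernel) commT_more.2.2.2.2.2 x y).symm
    · exact (comm_nil (r := 14) (s := 23) (by omega) (by omega) (by decide) (by decide +kernel) commT_facts.2.2.1 x y).symm
  have hroot : ∀ {r : ℕ} {g : GL chevF4.Idx K}, g ∈ chevF4.rootSubgroup K r →
      g ∈ Subgroup.closure (Set.range fun t : K => X r t) := by
    intro r g hg
    refine Subgroup.closure_mono ?_ hg
    rintro y ⟨t, e⟩
    exact ⟨t, Units.ext ((F4.checked.val_xg r t).trans e.symm)⟩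
  have hgen₃ : φ₃.range ≤ Subgroup.centralizer {y | ∃ s, (s = 24 ∨ s = 23) ∧ ∃ t : K, y = X s t} := by
    rw [r₃]
    refine sup_le (fun g hg => ?_) (fun g hg => ?_) <;>
      refine (Subgroup.closure_le _).2 ?_ (hroot hg) <;> rintro _ ⟨x, rfl⟩ _ ⟨s, hs, y, rfl⟩
    · exact (hx 33 (Or.inl rfl) s hs x y).symm
    · exact (hx 14 (Or.inr rfl) s hs x y).symm
  have hcomm : ∀ a b, Commute (φ₃ a) (φ₄ b) := by
    intro a b
    have hb : φ₄ b ∈ Subgroup.centralizer {φ₃ a} := by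
      have hb' : φ₄ b ∈ chevF4.rootSubgroup K 24 ⊔ chevF4.rootSubgroup K 23 := r₄ ▸ ⟨b, rfl⟩
      refine (sup_le (fun g hg => ?_) (fun g hg => ?_) :
        chevF4.rootSubgroup K 24 ⊔ chevF4.rootSubgroup K 23 ≤ Subgroup.centralizer {φ₃ a}) hb' <;>
      · refine (Subgroup.closure_le _).2 ?_ (hroot hg)
        rintro _ ⟨y, rfl⟩ _ rfl
        first
          | exact (hgen₃ ⟨a, rfl⟩ _ ⟨24, Or.inl rfl, y, rfl⟩).symm
          | exact (hgen₃ ⟨a, rfl⟩ _ ⟨23, Or.inr rfl, y, rfl⟩).symm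
    exact hb _ rfl
  refine ⟨MonoidHom.mk' (fun g => φ₃ (Matrix.SpecialLinearGroup.map θ.toRingHom g) * φ₄ g) ?_, fun t => ?_⟩
  · intro g h
    rw [map_mul, map_mul, map_mul, mul_assoc, mul_assoc, ← mul_assoc (φ₃ _) (φ₄ g), (hcomm _ _).eq, mul_assoc]
  · have e1 : Matrix.SpecialLinearGroup.map θ.toRingHom (RootPair.upT t) = RootPair.upT (θ t) := by
      ext i j; fin_cases i <;> fin_cases j <;> simp [RootPair.val_upT, Matrix.SpecialLinearGroup.map_apply_coe]
    have e2 : Matrix.SpecialLinearGroup.map θ.toRingHom (RootPair.loT t) = RootPair.loT (θ t) := by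
      ext i j; fin_cases i <;> fin_cases j <;> simp [RootPair.val_loT, Matrix.SpecialLinearGroup.map_apply_coe]
    refine ⟨?_, ?_⟩
    · show φ₃ _ * φ₄ _ = _
      rw [e1, (h₃ _).1, (h₄ t).1, aE_eq, hθ]
    · show φ₃ _ * φ₄ _ = _
      rw [e2, (h₃ _).2, (h₄ t).2, nE_eq, hθ]

/-- The braid relation determines the parameter. -/
theorem braid_param {c : K} (hc : c ≠ 0)
    (h : aE m 1 * nE m c * aE m 1 = nE m c * aE m 1 * nE m c) : c = 1 := by
  by_contra hne
  obtain ⟨φ, hφ⟩ := exists_slTwo θ hθ hK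
  set g : SL(2, K) := (RootPair.loT c * RootPair.upT 1 * RootPair.loT c)⁻¹ *
    (RootPair.upT 1 * RootPair.loT c * RootPair.upT 1) with hg
  have hφg : φ g = 1 := by
    rw [hg, map_mul, map_inv, map_mul, map_mul, map_mul, map_mul, (hφ c).2, (hφ 1).1, h, inv_mul_cancel]
  have h2 : (2 : K) = 0 := CharTwo.two_eq_zero
  have hg10 : g.1 1 0 = c * (1 + c) ^ 2 := by
    simp only [hg, Matrix.SpecialLinearGroup.coe_mul, Matrix.SpecialLinearGroup.coe_inv,
      Matrix.adjugate_fin_two, RootPair.val_upT, RootPair.val_loT, Matrix.mul_apply, Fin.sum_univ_two]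
    simp
    linear_combination (-c ^ 2 * (1 + c) - c * (1 + c) ^ 2 + c ^ 2 + c ^ 3) * h2
  have hc1 : (1 : K) + c ≠ 0 := fun h' => hne (CharTwo.add_eq_zero.1 h').symm
  have hg0 : g.1 1 0 ≠ 0 := by rw [hg10]; exact mul_ne_zero hc (pow_ne_zero _ hc1)
  have hdec : g = RootPair.upT ((g.1 0 0 - 1) / g.1 1 0) * RootPair.loT (g.1 1 0) *
      RootPair.upT ((g.1 1 1 - 1) / g.1 1 0) := by
    have hd := RootPair.det_eq g
    ext i j
    fin_cases i <;> fin_cases j <;>
      simp [RootPair.val_upT, RootPair.val_loT, Matrix.SpecialLinearGroup.coe_mul, Matrix.mul_apply,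
        Fin.sum_univ_two] <;> field_simp <;>
        first | linear_combination hd | linear_combination -hd | ring
  rw [hdec, map_mul, map_mul, (hφ _).1, (hφ _).2, (hφ _).1] at hφg
  have hpos : ∀ t : K, aE m t ∈ chevF4.posUnipotent K := fun t =>
    (ree_cls θ).posC_le_pos (by rw [rank_eq']; omega) (aE_mem θ hθ hK t)
  have hU : nE m (g.1 1 0) ∈ chevF4.borelSubgroup K := by
    have e : nE m (g.1 1 0) = (aE m ((g.1 0 0 - 1) / g.1 1 0))⁻¹ *
        (aE m ((g.1 1 1 - 1) / g.1 1 0))⁻¹ := by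
      rw [eq_inv_mul_iff_mul_eq, eq_inv_iff_mul_eq_one]
      exact hφg
    rw [e]
    exact Subgroup.mem_sup_left (mul_mem (inv_mem (hpos _)) (inv_mem (hpos _)))
  have hV := (ree_cls θ).negC_le_neg (by rw [rank_eq']; omega) (nE_mem θ hθ hK (g.1 1 0))
  have h0 : nE m (g.1 1 0) = 1 := by
    have := Subgroup.mem_inf.2 ⟨hU, hV⟩
    rwa [F4.checked.borel_inf_neg, Subgroup.mem_bot] at this
  exact hg0 (nE_inj (h0.trans nE_zero.symm))

/-- The torus element of the short class. -/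
theorem hEl_conj {y : K} (hy : y ≠ 0) (t u : K) :
    (aE m y * nE m y⁻¹ * aE m y * (aE m 1 * nE m 1 * aE m 1)) * bE m t u *
      (aE m y * nE m y⁻¹ * aE m y * (aE m 1 * nE m 1 * aE m 1))⁻¹ =
    bE m (y⁻¹ * t) (y⁻¹ ^ (2 ^ m + 1) * u) := by
  set h := aE m y * nE m y⁻¹ * aE m y * (aE m 1 * nE m 1 * aE m 1) with hh
  have hy3 : y ^ 2 ^ m ≠ 0 := pow_ne_zero _ hy
  have p33 : (33 : ℕ) < chevF4.nroots := lt48 (by omega)
  have p24 : (24 : ℕ) < chevF4.nroots := lt48 (by omega)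
  have n33 : chevF4.neg 33 = 14 := by rw [F4.checked.tables.neg 33 p33]; decide +kernel
  have n24 : chevF4.neg 24 = 23 := by rw [F4.checked.tables.neg 24 p24]; decide +kernel
  have ha : ∀ x y : K, Commute (X 33 x) (X 24 y) := fun x y =>
    (comm_nil (r := 33) (s := 24) (by omega) (by omega) (by decide) (by decide +kernel) commT_facts.1 x y).symm
  have hb : ∀ x y : K, Commute (X 33 x) (X 23 y) := fun x y =>
    (comm_nil (r := 33) (s := 23) (by omega) (by omega) (by decide) (by decide +kernel) commT_more.2.2.2.2.1 x y).symm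
  have hc : ∀ x y : K, Commute (X 14 x) (X 24 y) := fun x y =>
    (comm_nil (r := 14) (s := 24) (by omega) (by omega) (by decide) (by decide +kernel) commT_more.2.2.2.2.2 x y).symm
  have hd : ∀ x y : K, Commute (X 14 x) (X 23 y) := fun x y =>
    (comm_nil (r := 14) (s := 23) (by omega) (by omega) (by decide) (by decide +kernel) commT_facts.2.2.1 x y).symm
  have hn : ∀ s : K, aE m s * nE m s⁻¹ * aE m s =
      F4.checked.wg (chevF4.nWord 33 (s ^ 2 ^ m)) * F4.checked.wg (chevF4.nWord 24 s) := fun s => by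
    rw [aE_eq, nE_eq]
    simp only [ChevalleyDatum.nWord, n33, n24, F4.checked.wg_cons, F4.checked.wg_nil, mul_one,
      CharTwo.neg_eq, inv_pow]
    calc X 33 (s ^ 2 ^ m) * X 24 s * (X 14 (s ^ 2 ^ m)⁻¹ * X 23 s⁻¹) * (X 33 (s ^ 2 ^ m) * X 24 s)
        = X 33 (s ^ 2 ^ m) * (X 24 s * X 14 (s ^ 2 ^ m)⁻¹) * (X 23 s⁻¹ * X 33 (s ^ 2 ^ m)) * X 24 s := by
          group
      _ = X 33 (s ^ 2 ^ m) * (X 14 (s ^ 2 ^ m)⁻¹ * X 24 s) * (X 33 (s ^ 2 ^ m) * X 23 s⁻¹) * X 24 s := by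
          rw [(hc _ _).eq, (hb _ _).eq]
      _ = X 33 (s ^ 2 ^ m) * X 14 (s ^ 2 ^ m)⁻¹ * (X 24 s * X 33 (s ^ 2 ^ m)) * (X 23 s⁻¹ * X 24 s) := by
          group
      _ = _ := by rw [← (ha _ _).eq]; group
  have hcomm : ∀ a b : K, Commute (F4.checked.wg (chevF4.nWord 24 a)) (F4.checked.wg (chevF4.nWord 33 b)) := by
    intro a b
    simp only [ChevalleyDatum.nWord, n33, n24, F4.checked.wg_cons, F4.checked.wg_nil, mul_one]
    refine Commute.mul_left ?_ (Commute.mul_left ?_ ?_) <;>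
      refine Commute.mul_right ?_ (Commute.mul_right ?_ ?_)
    exacts [(ha _ _).symm, (hc _ _).symm, (ha _ _).symm, (hb _ _).symm, (hd _ _).symm, (hb _ _).symm,
      (ha _ _).symm, (hc _ _).symm, (ha _ _).symm]
  have he : h = F4.checked.hg 33 (y ^ 2 ^ m) * F4.checked.hg 24 y := by
    have e1 := hn 1
    rw [inv_one] at e1
    rw [hh, hn y, e1, one_pow, Checked.hg, Checked.hg, ChevalleyDatum.hWord, ChevalleyDatum.hWord,
      F4.checked.val_wg_append, F4.checked.val_wg_append, CharTwo.neg_eq]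
    rw [mul_assoc, ← mul_assoc (F4.checked.wg (chevF4.nWord 24 y)), (hcomm y 1).eq]
    group
  set χ : ℕ → K := fun v => (y ^ 2 ^ m) ^ pair chevF4 33 v * y ^ pair chevF4 24 v with hχdef
  have hχ : IsChr chevF4 χ :=
    F4.checked.isChr_mul (F4.checked.isChr_pair 33 hy3) (F4.checked.isChr_pair 24 hy)
  have e : (h : Matrix chevF4.Idx chevF4.Idx K) = dg chevF4 χ := by
    rw [he, Units.val_mul, F4.checked.val_hg, F4.checked.val_hg, F4.checked.hMat_eq p33 hy3,
      F4.checked.hMat_eq p24 hy, dg_mul]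
  have hdiag : h ∈ chevF4.diagonalSubgroup K := by
    rw [he]; exact mul_mem (F4.checked.hg_mem p33 hy3) (F4.checked.hg_mem p24 hy)
  have hfix : h ∈ (reeTwist θ).fixed := by
    have ha := fun s => (Subgroup.mem_inf.1 (aE_mem θ hθ hK s)).2
    have hn := fun s => (Subgroup.mem_inf.1 (nE_mem θ hθ hK s)).2
    exact mul_mem (mul_mem (mul_mem (ha _) (hn _)) (ha _)) (mul_mem (mul_mem (ha _) (hn _)) (ha _))
  have r0 : 0 < chevF4.rank := by rw [rank_eq']; omega
  have r2 : 2 < chevF4.rank := by rw [rank_eq']; omega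
  have r3 : 3 < chevF4.rank := by rw [rank_eq']; omega
  have q1 : pair chevF4 33 25 = 0 := by
    rw [show (33 : ℕ) = chevF4.simple 0 by rw [F4.checked.tables.simple 0 r0]; decide +kernel,
      F4.checked.root.pair_simple r0, F4.checked.tables.cartan 0 r0 25 (lt48 (by omega))]
    decide +kernel
  have q2 : pair chevF4 24 25 = -1 := by
    rw [show (24 : ℕ) = chevF4.simple 3 by rw [F4.checked.tables.simple 3 r3]; decide +kernel,
      F4.checked.root.pair_simple r3, F4.checked.tables.cartan 3 r3 25 (lt48 (by omega))]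
    decide +kernel
  have h25 : χ 25 = y⁻¹ := by simp [hχdef, q1, q2]
  have := (par_of_chr θ hθ hK hdiag hfix hχ e).conjB t u
  rwa [h25] at this

/-- A fixed element of `U` centralised by every fixed diagonal element is trivial. -/
theorem eq_one_of_centralized (hm : 1 ≤ m) {u : GL chevF4.Idx K}
    (hu : u ∈ chevF4.posUnipotent K)
    (h : ∀ d ∈ chevF4.diagonalSubgroup K, d ∈ (reeTwist θ).fixed → d * u = u * d) : u = 1 := by
  classical
  obtain ⟨g, hg0, hgk⟩ := exists_generic θ hθ hK hm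
  obtain ⟨d₀, hd₀, hd₀f, χ₀, hχ₀, e₀, h24, h25⟩ := exists_diag θ hθ hK hg0 hg0
  obtain ⟨-, -, hA, -, hB⟩ := par_of_chr θ hθ hK hd₀ hd₀f hχ₀ e₀
  have hbase : ∀ j < chevF4.rank, ∀ b ∈ reeSpec.base j, χ₀ b ≠ 1 := by
    intro j hj b hb
    have h4 : j < 4 := rank_eq' ▸ hj
    have hb' : b ∈ [33, 24, 27, 25, 28, 30] :=
      (by decide +kernel : ∀ j < 4, ∀ x ∈ reeSpec.base j, x ∈ [33, 24, 27, 25, 28, 30]) j h4 b hb
    have hcond := ((reeTwist θ).diag_fixed_iff (fun _ => rfl) hd₀ hχ₀ e₀).1 hd₀f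
    have hf : ∀ j < chevF4.rank, ∀ x : K, (reeTwist θ).f (chevF4.simple j) x =
        (θ x) ^ F4.iso.lam (chevF4.simple j) := fun j _ x => F4.isoData.fRoot_apply θ _ x
    have hs : ∀ j < chevF4.rank, chevF4.simple j = F4.fast.sp j := F4.checked.tables.simple
    have r2 : 2 < chevF4.rank := by rw [rank_eq']; omega
    have r3 : 3 < chevF4.rank := by rw [rank_eq']; omega
    have c3 := hcond 3 r3
    have c2 := hcond 2 r2
    rw [hf 3 r3, hθ, hs 3 r3, show (reeTwist θ).p 3 = 0 from rfl, hs 0 (by rw [rank_eq']; omega),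
      show F4.fast.sp 0 = 33 by decide +kernel, show F4.fast.sp 3 = 24 by decide +kernel,
      show F4.iso.lam 24 = 1 from rfl, pow_one, h24] at c3
    rw [hf 2 r2, hθ, hs 2 r2, show (reeTwist θ).p 2 = 1 from rfl, hs 1 (by rw [rank_eq']; omega),
      show F4.fast.sp 1 = 27 by decide +kernel, show F4.fast.sp 2 = 25 by decide +kernel,
      show F4.iso.lam 25 = 1 from rfl, pow_one, h25] at c2
    have he : 0 < 2 ^ m := by positivity
    have v28 : χ₀ 28 = g ^ (2 ^ m + 1) := by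
      rw [F4.checked.chr_chain hχ₀ (r := 27) (s := 25) (k := 0) (m := -1) (lt48 (by omega))
        (lt48 (by omega)) (by decide +kernel), c2, h25, zero_add, pow_one, pow_succ]
    have v30 : χ₀ 30 = g ^ (2 * 2 ^ m + 1) := by
      rw [F4.checked.chr_chain hχ₀ (r := 27) (s := 25) (k := 1) (m := -1) (lt48 (by omega))
        (lt48 (by omega)) (by decide +kernel), c2, h25, ← pow_mul, ← pow_succ]
      ring_nf
    have h1 : g ≠ 1 := fun e => hgk 1 (by omega) (by omega) (by rw [e, one_pow])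
    simp only [List.mem_cons, List.not_mem_nil, or_false] at hb'
    rcases hb' with rfl | rfl | rfl | rfl | rfl | rfl
    exacts [c3 ▸ hgk _ he (by omega), h24 ▸ h1, c2 ▸ hgk _ he (by omega), h25 ▸ h1,
      v28 ▸ hgk _ (by omega) (by omega), v30 ▸ hgk _ (by omega) le_rfl]
  rw [posUnipotent_eq] at hu
  obtain ⟨t, rfl⟩ := F4.checked.exists_ordered F4.checked.closedSet_pos hu
  set L := F4.checked.rootList {r | chevF4.IsPosRoot r} with hL
  suffices ht : ∀ r ∈ L, t r = 0 by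
    have hone : ∀ l : List ℕ, (∀ r ∈ l, t r = 0) → F4.checked.wg (l.map fun r => (r, t r)) = 1 := by
      intro l hl
      induction l with
      | nil => simp [F4.checked.wg_nil]
      | cons a l ih =>
        rw [List.map_cons, F4.checked.wg_cons, hl a (by simp), F4.checked.xg_zero,
          ih fun r hr => hl r (by simp [hr]), one_mul]
    exact hone L ht
  intro r hr
  have hrp : chevF4.IsPosRoot r := (F4.checked.mem_rootList.1 hr).2
  obtain ⟨c, hc, hrc⟩ : ∃ c ∈ reeSpec.classes, r ∈ c.roots := by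
    have h := (ree_cls θ).pos_mem_union hrp
    simp only [ClsSpec.union, List.mem_flatMap] at h
    exact h
  obtain ⟨rest, hE⟩ : ∃ rest, (ree_cls θ).Entry c rest := by
    suffices key : ∀ L : List ClsEntry, F4.fast.suffixCheck reeSpec (reeTwist θ).ρ L = true → c ∈ L →
        ∃ rest, (ree_cls θ).Entry c rest from key _ (ree_cls θ).classes_check hc
    intro L
    induction L with
    | nil => intro _ h; simp at h
    | cons a L ih =>
      intro h hmem
      simp only [Fast.suffixCheck, Bool.and_eq_true] at h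
      rcases List.mem_cons.1 hmem with rfl | h'
      · exact ⟨_, (ree_cls θ).entry ((ree_cls θ).union_lt h.2) h.1⟩
      · exact ih h.2 h'
  obtain ⟨b, hb, hbr⟩ := (hE.image r).1 hrc
  obtain ⟨hm', hmf, hms⟩ := (ree_cls θ).mvN_spec hE.moves_lt
  set M := (ree_cls θ).mvN c.moves
  have hbl := (ree_cls θ).B_lt hE.node_lt b hb
  rw [← hms b hbl] at hbr
  set d := M * d₀ * M⁻¹ with hd
  have hdd : d ∈ chevF4.diagonalSubgroup K := F4.checked.mono_conj_diag hm' _ hd₀
  obtain ⟨χ, hχ, e⟩ := F4.checked.exists_chr hdd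
  have hval : χ r = χ₀ b := by
    obtain ⟨a, ha, haj⟩ := F4.checked.sg_conj hm' hbl
    rw [hbr] at haj
    have h1 : d * X r (a * 1) * d⁻¹ = X r (a * χ₀ b) := by
      rw [← haj 1, ← haj (χ₀ b), ← mul_one (χ₀ b), ← F4.checked.conj_xg_of_dg hχ₀ e₀ hbl 1, hd]
      group
    rw [F4.checked.conj_xg_of_dg hχ e (hbr ▸ F4.checked.sg_lt hm' hbl)] at h1
    exact mul_left_cancel₀ ha (by linear_combination F4.checked.xg_inj (hbr ▸ F4.checked.sg_lt hm' hbl) h1)
  have hdu := h d hdd (mul_mem (mul_mem hmf hd₀f) (inv_mem hmf))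
  rw [← mul_inv_eq_iff_eq_mul,
    F4.checked.diag_conj_wg hχ e _ (fun p hp => by
      obtain ⟨s, hs, rfl⟩ := List.mem_map.1 hp
      exact (F4.checked.mem_rootList.1 hs).1), List.map_map] at hdu
  have h2 := F4.checked.ordered_inj L (F4.checked.rootList_sorted _) (fun s hs => (F4.checked.mem_rootList.1 hs).2)
    (fun s => χ s * t s) t hdu r hr
  by_contra hne
  exact hbase c.node hE.node_lt b hb (hval ▸ (mul_eq_right₀ hne).1 h2)

end Cfsg.Agent.Lib.Chev.F4
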