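import Cfsg.Agent.Lib.Chev.RadicalCent
import Cfsg.Agent.Lib.Chev.InvolOrth
import Cfsg.Agent.Lib.Chev.Simple

/-!
Iterated cores of a maximal parabolic subgroup over the field of two elements and its conjugate by the
fundamental reflection outside it: the degree filtration of the unipotent radical.
-/

set_option autoImplicit false

namespace Cfsg.Agent.Lib.Chev

open Cfsg.Lie

/-! ### certificates -/

namespace Fast

variable (T : Fast)

/-- the sum of the roots `a` and `b` is the root `u` and the commutator is a single odd term -/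
def sumOK (a b u : ℕ) : Bool :=
  match decode (T.code a b), decode (T.code b a) with
  | [(v, m)], [_] => Nat.beq v u && Nat.beq m.natAbs 1
  | _, _ => false

/-- a raising step inside a level -/
def ascOK (j r i : ℕ) : Bool :=
  !(Nat.beq i j) && T.sumOK (T.sp i) r (T.w i r) && Nat.blt r (T.w i r)

/-- a root of level one moved by a root of level zero -/
def moveOK (j s r : ℕ) : Bool :=
  ltI 0 (T.key r) && beqI (T.cf r j) 1 &&
    (match decode (T.code r s), decode (T.code s r) with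
    | [(_, m)], [_] => Nat.beq m.natAbs 1
    | _, _ => false)

/-- two roots of level one differing by the fundamental root `i` -/
def pairOK (j i r : ℕ) : Bool :=
  ltI 0 (T.key r) && beqI (T.cf r j) 1 && beqI (T.key (T.w i r)) (T.key r + T.key (T.sp i))

/-- the certificate -/
def coreChk (j : ℕ) (tops drops : List ℕ) : Bool :=
  allBelow T.n (fun r => !(ltI 0 (T.key r)) ||
    (ltI (-1) (T.cf r j) && ltI (T.cf r j) 7 &&
      (bif ltI 0 (T.cf r j) then
        Nat.ble r (tops.getD (T.cf r j).toNat 0) &&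
          (Nat.beq r (tops.getD (T.cf r j).toNat 0) || (List.range T.l).any (T.ascOK j r))
        else (List.range T.n).any (T.moveOK j r)) &&
      (Nat.beq r (T.sp j) || ltI (T.cf r j) (T.cf (T.w j r) j + 2)))) &&
  allBelow T.l (fun i => Nat.beq i j || (List.range T.n).any (T.pairOK j i)) &&
  allBelow 7 (fun k => Nat.ble k 1 ||
    (let r := drops.getD k 0
     Nat.blt r T.n && ltI 0 (T.key r) && beqI (T.cf r j) (k : ℤ) &&
       beqI (T.cf (T.w j r) j) ((k : ℤ) - 1)))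

end Fast

/-- The data of the example. -/
structure CoreData (D : ChevalleyDatum) (T : Fast) (j : ℕ) (tops drops : List ℕ) : Prop where
  sld : SLData D T
  hj : j < D.rank
  chk : T.coreChk j tops drops = true

namespace CoreData

variable {D : ChevalleyDatum} {T : Fast} {j : ℕ} {tops drops : List ℕ}
  (H : CoreData D T j tops drops) {F : Type*} [Field F]
include H

theorem root_chk {r : ℕ} (hr : D.IsPosRoot r) :
    0 ≤ T.cf r j ∧ T.cf r j ≤ 6 ∧
    (0 < T.cf r j → r ≤ tops.getD (T.cf r j).toNat 0 ∧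
      (r = tops.getD (T.cf r j).toNat 0 ∨ ∃ i < D.rank, i ≠ j ∧
        T.sumOK (D.simple i) r (D.reflectRoot i r) = true ∧ r < D.reflectRoot i r)) ∧
    (T.cf r j = 0 → ∃ s, s < D.nroots ∧ T.moveOK j r s = true) ∧
    (r ≠ D.simple j → T.cf r j ≤ T.cf (D.reflectRoot j r) j + 1) := by
  have h := H.chk
  simp only [Fast.coreChk, Bool.and_eq_true] at h
  have h1 := allBelow_iff.1 h.1.1 r (H.sld.chk.tables.nroots ▸ hr.1)
  have hk : Fast.ltI 0 (T.key r) = true := ltI_iff.2 ((H.sld.chk.root.pos_iff r).1 hr).2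
  rw [hk] at h1
  simp only [Bool.not_true, Bool.false_or, Bool.and_eq_true] at h1
  obtain ⟨⟨⟨h0, h6⟩, hb⟩, hd⟩ := h1
  refine ⟨by have := ltI_iff.1 h0; omega, by have := ltI_iff.1 h6; omega, fun hp => ?_, fun hp => ?_,
    fun hne => ?_⟩
  · rw [ltI_iff.2 hp, cond_true, Bool.and_eq_true, Bool.or_eq_true] at hb
    refine ⟨Nat.le_of_ble_eq_true hb.1, hb.2.imp Nat.eq_of_beq_eq_true fun h2 => ?_⟩
    obtain ⟨i, hi, h2⟩ := List.any_eq_true.1 h2
    rw [List.mem_range] at hi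
    have hi' : i < D.rank := H.sld.chk.tables.rank ▸ hi
    simp only [Fast.ascOK, Bool.and_eq_true, Bool.not_eq_true'] at h2
    refine ⟨i, hi', fun e => ?_, ?_, ?_⟩
    · subst e; simp at h2
    · rw [H.sld.chk.tables.simple i hi', H.sld.chk.refl i hi' r hr.1]; exact h2.1.2
    · rw [H.sld.chk.refl i hi' r hr.1]; exact Nat.ble_eq.mp h2.2
  · have hn : Fast.ltI 0 (T.cf r j) = false :=
      Bool.eq_false_iff.2 fun e => by have := ltI_iff.1 e; omega
    rw [hn, cond_false] at hb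
    obtain ⟨s, hs, h2⟩ := List.any_eq_true.1 hb
    exact ⟨s, H.sld.chk.tables.nroots ▸ List.mem_range.1 hs, h2⟩
  · rw [Bool.or_eq_true] at hd
    rcases hd with hd | hd
    · exact absurd ((Nat.eq_of_beq_eq_true hd).trans (H.sld.chk.tables.simple j H.hj).symm) hne
    · rw [H.sld.chk.refl j H.hj r hr.1]
      have := ltI_iff.1 hd
      omega

theorem pair_chk {i : ℕ} (hi : i < D.rank) (hij : i ≠ j) : ∃ r, D.IsPosRoot r ∧ T.cf r j = 1 ∧
    T.key (D.reflectRoot i r) = T.key r + T.key (D.simple i) := by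
  have h := H.chk
  simp only [Fast.coreChk, Bool.and_eq_true] at h
  have h1 := allBelow_iff.1 h.1.2 i (H.sld.chk.tables.rank ▸ hi)
  rw [Bool.or_eq_true] at h1
  obtain ⟨r, hr, h2⟩ := List.any_eq_true.1 (h1.resolve_left fun e => hij (Nat.eq_of_beq_eq_true e))
  simp only [Fast.pairOK, Bool.and_eq_true] at h2
  have hr' : r < D.nroots := H.sld.chk.tables.nroots ▸ List.mem_range.1 hr
  refine ⟨r, (H.sld.chk.root.pos_iff r).2 ⟨hr', ltI_iff.1 h2.1.1⟩, beqI_eq h2.1.2, ?_⟩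
  rw [H.sld.chk.refl i hi r hr', H.sld.chk.tables.simple i hi]
  exact beqI_eq h2.2

theorem drop_chk {k : ℕ} (h2 : 2 ≤ k) (h6 : k ≤ 6) : ∃ r, D.IsPosRoot r ∧ T.cf r j = k ∧
    T.cf (D.reflectRoot j r) j = (k : ℤ) - 1 := by
  have h := H.chk
  simp only [Fast.coreChk, Bool.and_eq_true] at h
  have h1 := allBelow_iff.1 h.2 k (by omega)
  rw [Bool.or_eq_true] at h1
  have h3 := h1.resolve_left fun e => by have := Nat.le_of_ble_eq_true e; omega
  simp only [Bool.and_eq_true] at h3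
  have hr' : drops.getD k 0 < D.nroots := H.sld.chk.tables.nroots ▸ Nat.ble_eq.mp h3.1.1.1
  exact ⟨_, (H.sld.chk.root.pos_iff _).2 ⟨hr', ltI_iff.1 h3.1.1.2⟩, beqI_eq h3.1.2,
    by rw [H.sld.chk.refl j H.hj _ hr']; exact beqI_eq h3.2⟩

/-! ### the filtration -/

/-- roots of level at least `k` -/
def Lv (_ : CoreData D T j tops drops) (k : ℤ) : Set ℕ := {s | D.IsPosRoot s ∧ k ≤ T.cf s j}

/-- roots beyond level `k`, or of level `k` from index `r` on -/
def W (_ : CoreData D T j tops drops) (k : ℤ) (r : ℕ) : Set ℕ :=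
  {s | D.IsPosRoot s ∧ (k < T.cf s j ∨ (T.cf s j = k ∧ r ≤ s))}

theorem comm_cf {m s : ℕ} (hm : D.IsPosRoot m) (hs : D.IsPosRoot s) :
    ∀ c ∈ D.commTerms m s, D.IsPosRoot c.1 ∧ s < c.1 ∧ T.cf m j + T.cf s j ≤ T.cf c.1 j := by
  intro c hc
  obtain ⟨h1, -, h3⟩ := H.sld.chk.commTerms_gt hm hs c hc
  obtain ⟨a, b, ha, hb, -, hco⟩ := H.sld.chk.commTerms_comb hm.1 hs.1 c hc
  refine ⟨h1, h3, ?_⟩
  rw [hco j H.hj]
  have e1 : T.cf m j ≤ a * T.cf m j := le_mul_of_one_le_left (H.root_chk hm).1 ha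
  have e2 : T.cf s j ≤ b * T.cf s j := le_mul_of_one_le_left (H.root_chk hs).1 hb
  omega

theorem W_ideal {k : ℤ} {r m s : ℕ} (hm : D.IsPosRoot m) (hs : s ∈ H.W k r) :
    ∀ c ∈ D.commTerms m s, c.1 ∈ H.W k r := by
  intro c hc
  obtain ⟨h1, h2, h3⟩ := H.comm_cf hm hs.1 c hc
  have := (H.root_chk hm).1
  refine ⟨h1, ?_⟩
  rcases hs.2 with h | ⟨h, h'⟩ <;> omega

theorem W_closed (k : ℤ) (r : ℕ) : ClosedSet D (H.W k r) where
  pos _ hs := hs.1
  closed _ hm _ hs _ := H.W_ideal hm.1 hs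

theorem W_conj {k : ℤ} {r : ℕ} {v y : GL D.Idx F} (hv : v ∈ D.posUnipotent F)
    (hy : y ∈ grp D F (H.W k r)) : v * y * v⁻¹ ∈ grp D F (H.W k r) :=
  H.sld.chk.conj_grp_ideal (fun _ hs => hs.1) (fun _ hm _ hs _ => H.W_ideal hm hs) hv hy

theorem W_le_pos {k : ℤ} {r : ℕ} : grp D F (H.W k r) ≤ D.posUnipotent F := by
  rw [posUnipotent_eq]; exact grp_mono fun s hs => hs.1

theorem Lv_eq (k : ℤ) : H.Lv k = H.W k 0 := by
  ext s
  refine ⟨fun h => ⟨h.1, ?_⟩, fun h => ⟨h.1, ?_⟩⟩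
  · rcases lt_or_eq_of_le h.2 with h' | h'
    exacts [Or.inl h', Or.inr ⟨h'.symm, Nat.zero_le _⟩]
  · rcases h.2 with h' | ⟨h', -⟩ <;> omega

theorem Lv_closed (k : ℤ) : ClosedSet D (H.Lv k) := H.Lv_eq k ▸ H.W_closed k 0

theorem Lv_mono {k l : ℤ} (h : k ≤ l) : H.Lv l ⊆ H.Lv k := fun _ hs => ⟨hs.1, h.trans hs.2⟩

theorem Lv_le_W (k : ℤ) (r : ℕ) : H.Lv (k + 1) ⊆ H.W k r := fun s hs =>
  ⟨hs.1, Or.inl (by have := hs.2; omega)⟩

theorem Lv_le_pos (k : ℤ) : grp D F (H.Lv k) ≤ D.posUnipotent F := by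
  rw [posUnipotent_eq]; exact grp_mono fun s hs => hs.1

/-- the parabolic subgroup -/
def P (_ : CoreData D T j tops drops) (F : Type*) [Field F] : Subgroup (GL D.Idx F) :=
  D.parabolicSubgroup F {i | i ≠ j}

theorem pos_le_P : D.posUnipotent F ≤ H.P F := le_sup_of_le_left le_sup_left

theorem ng_mem_P {i : ℕ} (hi : i < D.rank) (hij : i ≠ j) : (H.sld.chk.ng i : GL D.Idx F) ∈ H.P F :=
  H.sld.chk.ng_mem_parabolic _ hi hij

theorem cf_refl {i r : ℕ} (hi : i < D.rank) (hij : i ≠ j) (hr : r < D.nroots) :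
    T.cf (D.reflectRoot i r) j = T.cf r j := by
  have h := H.sld.chk.root.coef_refl hi hr H.hj
  simp only [Fast.aux] at h
  rw [h, if_neg (fun e : j = i => hij e.symm), mul_zero, sub_zero]

theorem refl_pos_level {i r : ℕ} (hi : i < D.rank) (hij : i ≠ j) (hr : D.IsPosRoot r)
    (h1 : 1 ≤ T.cf r j) : D.IsPosRoot (D.reflectRoot i r) := by
  refine (H.sld.chk.refl_pos hi hr fun e => ?_).1
  subst e
  have h := H.sld.chk.root.coef_simple i hi j H.hj
  simp only [Fast.aux] at h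
  rw [h, if_neg fun e : j = i => hij e.symm] at h1
  omega

section Two

variable [CharP F 2] (hF : ∀ t : F, t = 0 ∨ t = 1)

theorem xx {r : ℕ} (hr : r < D.nroots) (t : F) : H.sld.chk.xg r t * H.sld.chk.xg r t = 1 := by
  rw [H.sld.chk.xg_add hr, CharTwo.add_self_eq_zero, H.sld.chk.xg_zero]

omit H in
theorem one_ne : (1 : F) ≠ 0 := one_ne_zero

include hF in
theorem diag_trivial {d : GL D.Idx F} (hd : d ∈ D.diagonalSubgroup F) : d = 1 := by
  obtain ⟨χ, hχ, e⟩ := H.sld.chk.exists_chr hd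
  refine Units.ext ?_
  rw [e, Units.val_one, ← dg_one]
  exact dg_congr fun r hr => (hF (χ r)).resolve_left (hχ.ne r hr)

include hF in
theorem borel_eq : D.borelSubgroup F = D.posUnipotent F :=
  le_antisymm (sup_le le_rfl fun d hd => by rw [H.diag_trivial hF hd]; exact one_mem _) le_sup_left

include hF in
theorem P_le_normalizer {k : ℤ} (hk : 1 ≤ k) :
    H.P F ≤ Subgroup.normalizer (grp D F (H.Lv k) : Set (GL D.Idx F)) := by
  refine sup_le ?_ ((Subgroup.closure_le _).2 ?_)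
  · rw [H.borel_eq hF]
    intro v hv
    refine H.sld.chk.mem_normalizer_of_conj (fun y hy => ?_) fun y hy => ?_
    · rw [H.Lv_eq] at hy ⊢; exact H.W_conj hv hy
    · rw [H.Lv_eq] at hy ⊢
      have := H.W_conj (inv_mem hv) hy
      rwa [inv_inv] at this
  · rintro g ⟨i, hij, hi, e⟩
    obtain rfl : g = H.sld.chk.ng i := Units.ext (e.trans (H.sld.chk.val_ng i).symm)
    have h1 : ∀ y ∈ grp D F (H.Lv k), (H.sld.chk.ng i : GL D.Idx F) * y * (H.sld.chk.ng i)⁻¹ ∈ grp D F (H.Lv k) := by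
      intro y hy
      have hle : grp D F (H.Lv k) ≤
          (grp D F (H.Lv k)).comap (MulAut.conj (H.sld.chk.ng i : GL D.Idx F)).toMonoidHom :=
        H.sld.chk.grp_le fun s hs t => by
          simp only [Subgroup.mem_comap, MulEquiv.coe_toMonoidHom, MulAut.conj_apply,
            H.sld.ng_conj hi hs.1.1]
          refine H.sld.chk.xg_mem (S := H.Lv k) ⟨H.refl_pos_level hi hij hs.1 (by have := hs.2; omega), ?_⟩ t
          rw [H.cf_refl hi hij hs.1.1]; exact hs.2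
      simpa using hle hy
    exact H.sld.chk.mem_normalizer_of_conj h1 fun y hy => by
      simpa only [H.sld.ng_inv_two] using h1 y hy

include hF in
theorem P_conj {k : ℤ} (hk : 1 ≤ k) {p y : GL D.Idx F} (hp : p ∈ H.P F)
    (hy : y ∈ grp D F (H.Lv k)) : p * y * p⁻¹ ∈ grp D F (H.Lv k) :=
  (Subgroup.mem_normalizer_iff.1 (H.P_le_normalizer hF hk hp) y).1 hy

theorem sum_conj {a b u : ℕ} (ha : D.IsPosRoot a) (hb : D.IsPosRoot b) {m : ℤ} {x : ℕ × ℤ}
    (h1 : decode (T.code a b) = [(u, m)]) (h2 : decode (T.code b a) = [x])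
    (hm : Nat.beq m.natAbs 1 = true) :
    H.sld.chk.xg a 1 * H.sld.chk.xg b (1 : F) * H.sld.chk.xg a 1 = H.sld.chk.xg b 1 * H.sld.chk.xg u 1 ∧ D.IsPosRoot u ∧ b < u ∧
      T.key u = T.key a + T.key b ∧ T.cf u j = T.cf a j + T.cf b j := by
  obtain ⟨hne, hneg⟩ := H.sld.chk.ne_of_code ha.1 (by rw [h1]; simp) hb.1
  have ht := H.sld.chk.single_comm ha.1 hb.1 h1 h2
  have hu := H.sld.chk.commTerms_gt ha hb (u, m, 1, 1) (by rw [ht]; simp)
  have hc := H.sld.chk.root.chain_get a ha.1 b hb.1 0 u m (by rw [H.sld.chk.tables.chain a ha.1 b hb.1, h1]; rfl)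
  refine ⟨?_, hu.1, hu.2.2, ?_, ?_⟩
  · have h := H.sld.chk.xg_conj_eq ha.1 hb.1 hne hneg (1 : F) 1
    simp only [CharTwo.neg_eq] at h
    rw [h]
    congr 1
    rw [ChevalleyDatum.commWord, ht, List.map_cons, List.map_nil, H.sld.chk.wg_singleton]
    congr 1
    have hm' : (m : F) = 1 := by
      rcases Int.natAbs_eq_iff.1 (Nat.eq_of_beq_eq_true hm) with rfl | rfl <;> simp [CharTwo.neg_eq]
    simp [hm', CharTwo.neg_eq]
  · have := hc.2
    simp only [Fast.aux] at this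
    push_cast at this
    linarith
  · obtain ⟨k, hk, hk'⟩ : ∃ k, D.chainRoot a b 1 = some k ∧ k = u := by
      refine ⟨u, ?_, rfl⟩
      simp [ChevalleyDatum.chainRoot, H.sld.chk.tables.chain a ha.1 b hb.1, h1]
    subst hk'
    rw [H.sld.chk.chainRoot_coef ha.1 hb.1 hk H.hj]
    simp

/-- commuting with a root element raises the leading term -/
theorem lead {a b u : ℕ} (ha : D.IsPosRoot a) (hb : D.IsPosRoot b) (hu : D.IsPosRoot u) (hbu : b < u)
    (hk : T.key u = T.key a + T.key b) (hcf : T.cf u j = T.cf a j + T.cf b j)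
    (he : H.sld.chk.xg a 1 * H.sld.chk.xg b (1 : F) * H.sld.chk.xg a 1 = H.sld.chk.xg b 1 * H.sld.chk.xg u 1)
    {z : GL D.Idx F} (hz : z ∈ grp D F (H.W (T.cf b j) (b + 1))) :
    ∃ q ∈ grp D F (H.W (T.cf u j) (u + 1)),
      H.sld.chk.xg a 1 * (H.sld.chk.xg b 1 * z) * H.sld.chk.xg a 1 * (H.sld.chk.xg b 1 * z)⁻¹ = H.sld.chk.xg u 1 * q := by
  set N := grp D F (H.W (T.cf u j) (u + 1))
  have haa := H.xx ha.1 (1 : F)
  have hpos : ∀ {r : ℕ}, D.IsPosRoot r → ∀ t : F, H.sld.chk.xg r t ∈ D.posUnipotent F :=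
    fun hr t => H.sld.chk.xg_mem_pos hr t
  let S : Subgroup (GL D.Idx F) :=
    { carrier := {z | z ∈ D.posUnipotent F ∧ H.sld.chk.xg a 1 * z * H.sld.chk.xg a 1 * z⁻¹ ∈ N}
      one_mem' := ⟨one_mem _, by simp [haa]⟩
      mul_mem' := by
        rintro z w ⟨hz, h1⟩ ⟨hw, h2⟩
        refine ⟨mul_mem hz hw, ?_⟩
        have e : H.sld.chk.xg a 1 * (z * w) * H.sld.chk.xg a 1 * (z * w)⁻¹ =
            H.sld.chk.xg a 1 * z * H.sld.chk.xg a 1 * z⁻¹ * (z * (H.sld.chk.xg a 1 * w * H.sld.chk.xg a 1 * w⁻¹) * z⁻¹) := by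
          calc H.sld.chk.xg a 1 * (z * w) * H.sld.chk.xg a 1 * (z * w)⁻¹ =
                H.sld.chk.xg a 1 * z * 1 * w * H.sld.chk.xg a 1 * w⁻¹ * z⁻¹ := by group
            _ = H.sld.chk.xg a 1 * z * (H.sld.chk.xg a 1 * H.sld.chk.xg a 1) * w * H.sld.chk.xg a 1 * w⁻¹ * z⁻¹ := by rw [haa]
            _ = _ := by group
        rw [e]
        exact mul_mem h1 (H.W_conj hz h2)
      inv_mem' := by
        rintro z ⟨hz, h1⟩
        refine ⟨inv_mem hz, ?_⟩
        have hi : (H.sld.chk.xg a (1 : F))⁻¹ = H.sld.chk.xg a 1 := inv_eq_of_mul_eq_one_right haa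
        have e : H.sld.chk.xg a 1 * z⁻¹ * H.sld.chk.xg a 1 * z⁻¹⁻¹ =
            z⁻¹ * (H.sld.chk.xg a 1 * z * H.sld.chk.xg a 1 * z⁻¹)⁻¹ * (z⁻¹)⁻¹ := by
          simp only [mul_inv_rev, inv_inv, hi]
          group
        rw [e]
        exact H.W_conj (inv_mem hz) (inv_mem h1) }
  have hle : grp D F (H.W (T.cf b j) (b + 1)) ≤ S := H.sld.chk.grp_le fun s hs t => by
    refine ⟨hpos hs.1 t, ?_⟩
    by_cases hsa : s = a
    · subst hsa
      rw [H.sld.chk.xg_add hs.1.1, H.sld.chk.xg_add hs.1.1, H.sld.chk.xg_inv, H.sld.chk.xg_add hs.1.1,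
        show (1 : F) + t + 1 + -t = 0 by
          rw [show (1 : F) + t + 1 + -t = 1 + 1 by ring]; exact CharTwo.add_self_eq_zero 1,
        H.sld.chk.xg_zero]
      exact one_mem _
    have h := H.sld.chk.xg_conj_eq ha.1 hs.1.1 hsa (H.sld.chk.ne_neg_of_pos ha hs.1) (1 : F) t
    rw [CharTwo.neg_eq] at h
    rw [h]
    refine H.W_conj (hpos hs.1 t) (H.sld.chk.wg_mem _ fun p hp => ?_)
    obtain ⟨c, hc, rfl⟩ := List.mem_map.1 hp
    obtain ⟨hc1, -, hc3⟩ := H.comm_cf ha hs.1 c hc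
    refine (show c.1 ∈ H.W _ _ from ⟨hc1, ?_⟩)
    rcases hs.2 with h' | ⟨h', h''⟩
    · left; omega
    · rcases lt_or_eq_of_le (show T.cf u j ≤ T.cf c.1 j by omega) with h5 | h5
      · exact Or.inl h5
      refine Or.inr ⟨h5.symm, ?_⟩
      obtain ⟨A, B, hA, hB, hck, -⟩ := H.sld.chk.commTerms_comb ha.1 hs.1.1 c hc
      have k1 : (0 : ℤ) < T.key a := ((H.sld.chk.root.pos_iff a).1 ha).2
      have k2 : (0 : ℤ) < T.key s := ((H.sld.chk.root.pos_iff s).1 hs.1).2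
      have k3 : T.key b < T.key s := H.sld.chk.root.key_lt b s (by omega) hs.1.1
      have k4 : T.key a ≤ A * T.key a := le_mul_of_one_le_left k1.le hA
      have k5 : T.key s ≤ B * T.key s := le_mul_of_one_le_left k2.le hB
      exact (H.sld.chk.root.lt_iff_key hu.1 hc1.1).2 (by simp only [Fast.aux]; omega)
  obtain ⟨-, hq⟩ := hle hz
  have hub : u ≠ b := fun e => lt_irrefl b (e ▸ hbu)
  have hw : H.sld.chk.xg u 1 * H.sld.chk.xg b 1 * H.sld.chk.xg u 1 * H.sld.chk.xg b (1 : F) ∈ N := by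
    have h := H.sld.chk.xg_conj_eq hu.1 hb.1 hub.symm (H.sld.chk.ne_neg_of_pos hu hb) (1 : F) 1
    rw [CharTwo.neg_eq] at h
    rw [h]
    have hi : (H.sld.chk.xg b (1 : F))⁻¹ = H.sld.chk.xg b 1 := inv_eq_of_mul_eq_one_right (H.xx hb.1 1)
    conv => arg 2; arg 2; rw [← hi]
    refine H.W_conj (hpos hb 1) (H.sld.chk.wg_mem _ fun p hp => ?_)
    obtain ⟨c, hc, rfl⟩ := List.mem_map.1 hp
    obtain ⟨hc1, -, hc3⟩ := H.comm_cf hu hb c hc
    obtain ⟨-, hc4, -⟩ := H.sld.chk.commTerms_gt hu hb c hc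
    have := (H.root_chk hb).1
    refine (show c.1 ∈ H.W _ _ from ⟨hc1, ?_⟩)
    omega
  refine ⟨H.sld.chk.xg u 1 * H.sld.chk.xg b 1 * H.sld.chk.xg u 1 * H.sld.chk.xg b 1 *
    (H.sld.chk.xg b 1 * (H.sld.chk.xg a 1 * z * H.sld.chk.xg a 1 * z⁻¹) * (H.sld.chk.xg b 1)⁻¹),
    mul_mem hw (H.W_conj (hpos hb 1) hq), ?_⟩
  calc H.sld.chk.xg a 1 * (H.sld.chk.xg b 1 * z) * H.sld.chk.xg a 1 * (H.sld.chk.xg b 1 * z)⁻¹
      = H.sld.chk.xg a 1 * H.sld.chk.xg b 1 * 1 * z * H.sld.chk.xg a 1 * z⁻¹ * (H.sld.chk.xg b 1)⁻¹ := by group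
    _ = H.sld.chk.xg a 1 * H.sld.chk.xg b 1 * (H.sld.chk.xg a 1 * H.sld.chk.xg a 1) * z * H.sld.chk.xg a 1 * z⁻¹ * (H.sld.chk.xg b 1)⁻¹ := by
        rw [haa]
    _ = H.sld.chk.xg a 1 * H.sld.chk.xg b 1 * H.sld.chk.xg a 1 * (H.sld.chk.xg a 1 * z * H.sld.chk.xg a 1 * z⁻¹) * (H.sld.chk.xg b 1)⁻¹ := by group
    _ = 1 * H.sld.chk.xg b 1 * H.sld.chk.xg u 1 * 1 * (H.sld.chk.xg a 1 * z * H.sld.chk.xg a 1 * z⁻¹) * (H.sld.chk.xg b 1)⁻¹ := by
        rw [he, one_mul, mul_one]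
    _ = (H.sld.chk.xg u 1 * H.sld.chk.xg u 1) * H.sld.chk.xg b 1 * H.sld.chk.xg u 1 * (H.sld.chk.xg b 1 * H.sld.chk.xg b 1) *
          (H.sld.chk.xg a 1 * z * H.sld.chk.xg a 1 * z⁻¹) * (H.sld.chk.xg b 1)⁻¹ := by rw [H.xx hu.1, H.xx hb.1]
    _ = _ := by group

include hF in
theorem W_split {k : ℤ} {r : ℕ} {y : GL D.Idx F} (hy : y ∈ grp D F (H.W k r)) :
    y ∈ grp D F (H.W k (r + 1)) ∨
      (D.IsPosRoot r ∧ T.cf r j = k ∧ ∃ z ∈ grp D F (H.W k (r + 1)), y = H.sld.chk.xg r 1 * z) := by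
  by_cases hr : D.IsPosRoot r ∧ T.cf r j = k
  swap
  · refine Or.inl (grp_mem_mono hy fun s hs => ⟨hs.1, hs.2.imp_right fun h => ⟨h.1, ?_⟩⟩)
    by_contra hlt
    obtain rfl : s = r := by omega
    exact hr ⟨hs.1, h.1⟩
  obtain ⟨hr, hk⟩ := hr
  set N := grp D F (H.W k (r + 1))
  suffices h : ∃ t : F, ∃ z ∈ N, y = H.sld.chk.xg r t * z by
    obtain ⟨t, z, hz, rfl⟩ := h
    rcases hF t with rfl | rfl
    · left; rw [H.sld.chk.xg_zero, one_mul]; exact hz
    · exact Or.inr ⟨hr, hk, z, hz, rfl⟩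
  let S : Subgroup (GL D.Idx F) :=
    { carrier := {y | ∃ t : F, ∃ z ∈ N, y = H.sld.chk.xg r t * z}
      one_mem' := ⟨0, 1, one_mem _, by simp [H.sld.chk.xg_zero]⟩
      mul_mem' := by
        rintro _ _ ⟨t, z, hz, rfl⟩ ⟨u, w, hw, rfl⟩
        refine ⟨t + u, (H.sld.chk.xg r u)⁻¹ * z * (H.sld.chk.xg r u)⁻¹⁻¹ * w,
          mul_mem (H.W_conj (inv_mem (H.sld.chk.xg_mem_pos hr u)) hz) hw, ?_⟩
        rw [← H.sld.chk.xg_add hr.1]
        group
      inv_mem' := by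
        rintro _ ⟨t, z, hz, rfl⟩
        refine ⟨-t, H.sld.chk.xg r t * z⁻¹ * (H.sld.chk.xg r t)⁻¹, H.W_conj (H.sld.chk.xg_mem_pos hr t) (inv_mem hz), ?_⟩
        rw [← H.sld.chk.xg_inv]
        group }
  have hle : grp D F (H.W k r) ≤ S := H.sld.chk.grp_le fun s hs t => by
    by_cases hsr : s = r
    · subst hsr; exact ⟨t, 1, one_mem _, (mul_one _).symm⟩
    · refine ⟨0, _, H.sld.chk.xg_mem (S := H.W k (r + 1)) ⟨hs.1, hs.2.imp_right fun h => ⟨h.1, ?_⟩⟩ t,
        by rw [H.sld.chk.xg_zero, one_mul]⟩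
      have := h.2; omega
  exact hle hy

theorem xg_not_W {u : ℕ} (hu : D.IsPosRoot u) :
    H.sld.chk.xg u (1 : F) ∉ grp D F (H.W (T.cf u j) (u + 1)) := fun h =>
  one_ne_zero (H.sld.chk.mem_of_xg_mem (H.W_closed _ _) hu h fun h' => by
    rcases h'.2 with h'' | ⟨-, h''⟩ <;> omega)

theorem xg_not_Lv {u : ℕ} {k : ℤ} (hu : D.IsPosRoot u) (hk : T.cf u j < k) :
    H.sld.chk.xg u (1 : F) ∉ grp D F (H.Lv k) := fun h =>
  one_ne_zero (H.sld.chk.mem_of_xg_mem (H.Lv_closed _) hu h fun h' => by have := h'.2; omega)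

include hF in
/-- A subgroup normalised by the parabolic subgroup that reaches a level contains the root elements of it. -/
theorem push {k : ℤ} (hk : 1 ≤ k) {A : Subgroup (GL D.Idx F)}
    (hA : ∀ p ∈ H.P F, ∀ x ∈ A, p * x * p⁻¹ ∈ A) (hAk : grp D F (H.Lv (k + 1)) ≤ A)
    {y : GL D.Idx F} (hy : y ∈ A) (hyk : y ∈ grp D F (H.Lv k)) (hyn : y ∉ grp D F (H.Lv (k + 1))) :
    ∀ r, D.IsPosRoot r → T.cf r j = k → H.sld.chk.xg r (1 : F) ∈ A := by
  set top := tops.getD k.toNat 0 with htop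
  have htopA : H.sld.chk.xg top (1 : F) ∈ A := by
    suffices key : ∀ d r, D.nroots - r = d → ∀ y ∈ A, y ∈ grp D F (H.W k r) →
        y ∉ grp D F (H.Lv (k + 1)) → H.sld.chk.xg top (1 : F) ∈ A from
      key _ 0 rfl y hy (H.Lv_eq k ▸ hyk) hyn
    intro d
    induction d using Nat.strong_induction_on with
    | _ d ih =>
    intro r hd y hy hyr hyn
    by_cases hrn : D.nroots ≤ r
    · refine absurd (grp_mem_mono hyr (show H.W k r ⊆ H.Lv (k + 1) from fun s hs => ⟨hs.1, ?_⟩)) hyn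
      rcases hs.2 with h | ⟨-, h⟩
      · omega
      · have := hs.1.1; omega
    rcases H.W_split hF hyr with h | ⟨hr, hrk, z, hz, rfl⟩
    · exact ih _ (by omega) (r + 1) rfl y hy h hyn
    obtain ⟨hle, htt⟩ := (H.root_chk hr).2.2.1 (by omega)
    rw [hrk, ← htop] at hle htt
    rcases htt with rfl | ⟨i, hi, hij, hsum, hlt⟩
    · have hzA : z ∈ A := hAk (grp_mem_mono hz fun s hs => ⟨hs.1, by
        rcases hs.2 with h | ⟨h, h'⟩
        · omega
        · have h2 := ((H.root_chk hs.1).2.2.1 (by omega)).1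
          rw [h, ← htop] at h2
          omega⟩)
      exact (A.mul_mem_cancel_right hzA).1 hy
    have hap := H.sld.chk.root.pos_simple hi
    unfold Fast.sumOK at hsum
    split at hsum
    · rename_i v m x h1 h2
      rw [Bool.and_eq_true] at hsum
      obtain rfl := Nat.eq_of_beq_eq_true hsum.1
      obtain ⟨he, hu, hru, hkey, hcf⟩ := H.sum_conj (F := F) hap hr h1 h2 hsum.2
      have hci : T.cf (D.simple i) j = 0 := by
        have h := H.sld.chk.root.coef_simple i hi j H.hj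
        simp only [Fast.aux] at h
        rw [h, if_neg fun e : j = i => hij e.symm]
      have huk : T.cf (D.reflectRoot i r) j = k := by omega
      obtain ⟨q, hq, heq⟩ := H.lead hap hr hu hru hkey hcf he (hrk.symm ▸ hz)
      rw [huk] at hq
      set a := H.sld.chk.xg (D.simple i) (1 : F)
      have hai : a⁻¹ = a := inv_eq_of_mul_eq_one_right (H.xx hap.1 1)
      have hw : H.sld.chk.xg (D.reflectRoot i r) 1 * q ∈ A := by
        rw [← heq]
        refine mul_mem ?_ (inv_mem hy)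
        have := hA a (H.pos_le_P (H.sld.chk.xg_mem_pos hap 1)) _ hy
        rwa [hai] at this
      refine ih _ (by omega) (r + 1) rfl _ hw
        (mul_mem (H.sld.chk.xg_mem (S := H.W k (r + 1)) ⟨hu, Or.inr ⟨huk, hru⟩⟩ 1)
          (grp_mem_mono hq fun s hs => ⟨hs.1, hs.2.imp_right fun h => ⟨h.1, by omega⟩⟩)) fun hbad => ?_
      refine H.xg_not_W (F := F) hu ?_
      rw [huk]
      have h3 : H.sld.chk.xg (D.reflectRoot i r) 1 * q * q⁻¹ ∈ grp D F (H.W k (D.reflectRoot i r + 1)) :=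
        mul_mem (grp_mem_mono hbad (H.Lv_le_W k _)) (inv_mem hq)
      rwa [mul_inv_cancel_right] at h3
    · simp at hsum
  suffices key : ∀ d r, D.nroots - r = d → D.IsPosRoot r → T.cf r j = k → H.sld.chk.xg r (1 : F) ∈ A from
    fun r hr hrk => key _ r rfl hr hrk
  intro d
  induction d using Nat.strong_induction_on with
  | _ d ih =>
  intro r hd hr hrk
  obtain ⟨-, htt⟩ := (H.root_chk hr).2.2.1 (by omega)
  rw [hrk, ← htop] at htt
  rcases htt with rfl | ⟨i, hi, hij, -, hlt⟩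
  · exact htopA
  have hu := H.refl_pos_level hi hij hr (by omega)
  have h := ih _ (by have := hu.1; omega) _ rfl hu ((H.cf_refl hi hij hr.1).trans hrk)
  have h2 := hA _ (H.ng_mem_P hi hij) _ h
  rwa [H.sld.ng_conj hi hu.1, H.sld.chk.root.refl_refl i hi r hr.1] at h2

/-! ### the cores -/

theorem refl_simple_cf : T.cf (D.reflectRoot j (D.simple j)) j = -1 := by
  rw [H.sld.chk.root.refl_simple H.hj]
  have h := H.sld.chk.root.coef_neg (H.sld.chk.root.simple_lt j H.hj) H.hj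
  have h' := H.sld.chk.root.coef_simple j H.hj j H.hj
  simp only [Fast.aux] at h h'
  rw [h, h']; simp

theorem cf_simple : T.cf (D.simple j) j = 1 := by
  have h := H.sld.chk.root.coef_simple j H.hj j H.hj
  simp only [Fast.aux] at h
  simpa using h

include hF in
theorem xg_neg_not_P : H.sld.chk.xg (D.reflectRoot j (D.simple j)) (1 : F) ∉ H.P F ∧
    (H.sld.chk.ng j : GL D.Idx F) ∉ H.P F := by
  have hs := H.sld.chk.root.pos_simple H.hj
  have hng : (H.sld.chk.ng j : GL D.Idx F) ∉ H.P F := by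
    intro h
    have h1 := H.P_conj hF (le_refl (1 : ℤ)) h
      (H.sld.chk.xg_mem (S := H.Lv 1) ⟨hs, H.cf_simple.ge⟩ (1 : F))
    rw [H.sld.ng_conj H.hj hs.1, H.sld.chk.root.refl_simple H.hj] at h1
    exact H.sld.chk.neg_xg_not_mem ((H.sld.chk.neg_neg_iff hs.1).2 hs) one_ne_zero
      (Subgroup.mem_sup_left (H.Lv_le_pos 1 h1))
  refine ⟨fun h => hng ?_, hng⟩
  rw [H.sld.chk.root.refl_simple H.hj] at h
  have hx : H.sld.chk.xg (D.simple j) (1 : F) ∈ H.P F := H.pos_le_P (H.sld.chk.xg_mem_pos hs 1)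
  have e : (H.sld.chk.ng j : GL D.Idx F) =
      H.sld.chk.xg (D.simple j) 1 * H.sld.chk.xg (D.neg (D.simple j)) 1 * H.sld.chk.xg (D.simple j) 1 := by
    refine Units.ext ?_
    rw [H.sld.chk.val_ng]
    have : H.sld.chk.wg (D.nWord (D.simple j) (1 : F)) =
        H.sld.chk.xg (D.simple j) 1 * H.sld.chk.xg (D.neg (D.simple j)) 1 * H.sld.chk.xg (D.simple j) 1 := by
      simp [ChevalleyDatum.nWord, H.sld.chk.wg_cons, H.sld.chk.wg_nil, CharTwo.neg_eq, mul_assoc]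
    rw [← this, H.sld.chk.val_wg]
    rfl
  rw [e]
  exact mul_mem (mul_mem hx h) hx

include hF in
theorem refl_Lv {k : ℤ} (hk : 1 ≤ k) {y : GL D.Idx F} (hy : y ∈ grp D F (H.Lv (k + 1))) :
    H.sld.chk.ng j * y * (H.sld.chk.ng j)⁻¹ ∈ grp D F (H.Lv k) := by
  have hle : grp D F (H.Lv (k + 1)) ≤
      (grp D F (H.Lv k)).comap (MulAut.conj (H.sld.chk.ng j : GL D.Idx F)).toMonoidHom :=
    H.sld.chk.grp_le fun s hs t => by
      simp only [Subgroup.mem_comap, MulEquiv.coe_toMonoidHom, MulAut.conj_apply,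
        H.sld.ng_conj H.hj hs.1.1]
      have hne : s ≠ D.simple j := fun e => by
        have := hs.2; rw [e, H.cf_simple] at this; omega
      refine H.sld.chk.xg_mem (S := H.Lv k) ⟨(H.sld.chk.refl_pos H.hj hs.1 hne).1, ?_⟩ t
      have := (H.root_chk hs.1).2.2.2.2 hne
      have := hs.2
      omega
  simpa using hle hy

/-- the core in the parabolic subgroup -/
def core (H : CoreData D T j tops drops) (Y : Subgroup (GL D.Idx F)) : Subgroup (GL D.Idx F) where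
  carrier := {x | ∀ p ∈ H.P F, p * x * p⁻¹ ∈ Y}
  one_mem' p _ := by simp
  mul_mem' {x y} hx hy p hp := by
    simpa [mul_assoc] using mul_mem (hx p hp) (hy p hp)
  inv_mem' {x} hx p hp := by
    simpa [mul_assoc] using inv_mem (hx p hp)

/-- the descending sequence -/
def cs (H : CoreData D T j tops drops) (F : Type*) [Field F] : ℕ → Subgroup (GL D.Idx F)
  | 0 => H.P F
  | i + 1 => H.core (cs H F i ⊓ (cs H F i).map (MulAut.conj (H.sld.chk.ng j : GL D.Idx F)).toMonoidHom)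

theorem mem_gmap {A : Subgroup (GL D.Idx F)} {x : GL D.Idx F} :
    x ∈ A.map (MulAut.conj (H.sld.chk.ng j : GL D.Idx F)).toMonoidHom ↔ H.sld.chk.ng j * x * (H.sld.chk.ng j)⁻¹ ∈ A := by
  have hi := H.sld.ng_inv_two (F := F) j
  have hgg : (H.sld.chk.ng j : GL D.Idx F) * H.sld.chk.ng j = 1 := by
    nth_rewrite 1 [← hi]; exact inv_mul_cancel _
  constructor
  · rintro ⟨y, hy, rfl⟩
    simp only [MulEquiv.coe_toMonoidHom, MulAut.conj_apply, hi]
    rw [show H.sld.chk.ng j * (H.sld.chk.ng j * y * H.sld.chk.ng j) * H.sld.chk.ng j = (H.sld.chk.ng j * H.sld.chk.ng j) * y * (H.sld.chk.ng j * H.sld.chk.ng j) by group,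
      hgg, one_mul, mul_one]
    exact hy
  · intro h
    refine ⟨_, h, ?_⟩
    simp only [MulEquiv.coe_toMonoidHom, MulAut.conj_apply, hi]
    rw [show H.sld.chk.ng j * (H.sld.chk.ng j * x * H.sld.chk.ng j) * H.sld.chk.ng j = (H.sld.chk.ng j * H.sld.chk.ng j) * x * (H.sld.chk.ng j * H.sld.chk.ng j) by group,
      hgg, one_mul, mul_one]

theorem mem_cs_succ {i : ℕ} {x : GL D.Idx F} : x ∈ H.cs F (i + 1) ↔
    ∀ p ∈ H.P F, p * x * p⁻¹ ∈ H.cs F i ∧ H.sld.chk.ng j * (p * x * p⁻¹) * (H.sld.chk.ng j)⁻¹ ∈ H.cs F i := by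
  simp only [cs, core, Subgroup.mem_mk, Submonoid.mem_mk, Subsemigroup.mem_mk, Set.mem_setOf_eq,
    Subgroup.mem_inf, H.mem_gmap]

theorem cs_succ_le (i : ℕ) : H.cs F (i + 1) ≤ H.cs F i := fun x hx => by
  simpa using ((H.mem_cs_succ).1 hx 1 (one_mem _)).1

theorem cs_le_P : ∀ i, H.cs F i ≤ H.P F
  | 0 => le_rfl
  | i + 1 => (H.cs_succ_le i).trans (cs_le_P i)

theorem cs_refl {i : ℕ} {x : GL D.Idx F} (hx : x ∈ H.cs F (i + 1)) :
    H.sld.chk.ng j * x * (H.sld.chk.ng j)⁻¹ ∈ H.cs F i := by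
  simpa using ((H.mem_cs_succ).1 hx 1 (one_mem _)).2

theorem cs_normal (i : ℕ) : ∀ p ∈ H.P F, ∀ x ∈ H.cs F (i + 1), p * x * p⁻¹ ∈ H.cs F (i + 1) := by
  intro p hp x hx
  rw [H.mem_cs_succ]
  intro q hq
  have := (H.mem_cs_succ).1 hx (q * p) (mul_mem hq hp)
  simpa [mul_assoc] using this

include hF in
theorem Lv_le_cs : ∀ i : ℕ, grp D F (H.Lv ((i : ℤ) + 1)) ≤ H.cs F i
  | 0 => (H.Lv_le_pos _).trans H.pos_le_P
  | i + 1 => fun x hx => by
    rw [H.mem_cs_succ]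
    intro p hp
    have h1 := H.P_conj hF (show (1 : ℤ) ≤ ((i + 1 : ℕ) : ℤ) + 1 by omega) hp hx
    refine ⟨Lv_le_cs i (grp_mem_mono h1 (H.Lv_mono (by omega))), Lv_le_cs i ?_⟩
    refine H.refl_Lv hF (by omega) ?_
    have e : ((i + 1 : ℕ) : ℤ) + 1 = ((i : ℤ) + 1) + 1 := by omega
    rwa [e] at h1

include hF in
theorem one_inf : H.cs F 1 ⊓ grp D F (H.Lv 1) ≤ grp D F (H.Lv 2) := by
  rintro y ⟨hy, hy1⟩
  by_contra hn
  have hL : grp D F (H.Lv (1 + 1)) ≤ H.cs F 1 := by exact_mod_cast H.Lv_le_cs hF 1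
  have h := H.push hF le_rfl (H.cs_normal 0) hL hy hy1 (by simpa using hn) _
    (H.sld.chk.root.pos_simple H.hj) H.cf_simple
  have h2 := H.cs_refl h
  rw [H.sld.ng_conj H.hj (H.sld.chk.root.simple_lt j H.hj)] at h2
  exact (H.xg_neg_not_P hF).1 h2

include hF in
theorem one_comm {a x : GL D.Idx F} (ha : a ∈ H.cs F 1) (hx : x ∈ grp D F (H.Lv 1)) :
    x * a * x⁻¹ * a⁻¹ ∈ grp D F (H.Lv 2) := by
  refine H.one_inf hF (Subgroup.mem_inf.2
    ⟨mul_mem (H.cs_normal 0 x (H.pos_le_P (H.Lv_le_pos 1 hx)) a ha) (inv_mem ha), ?_⟩)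
  have := mul_mem hx (H.P_conj hF le_rfl (H.cs_le_P 1 ha) (inv_mem hx))
  simpa [mul_assoc] using this

include hF in
theorem one_le_pos : H.cs F 1 ≤ D.posUnipotent F := by
  intro g hg
  have R := H.sld.chk.root
  have hgP := H.cs_le_P 1 hg
  obtain ⟨b, hb, n, hn, u, hu, rfl⟩ := H.sld.chk.exists_bnu (H.sld.chk.parabolic_le_group _ hgP)
  rw [H.borel_eq hF] at hb
  have huU : u ∈ D.posUnipotent F := by rw [posUnipotent_eq]; exact grp_mem_mono hu fun r hr => hr.1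
  have hnP : n ∈ H.P F := by
    have := mul_mem (mul_mem (inv_mem (H.pos_le_P hb)) hgP) (inv_mem (H.pos_le_P huU))
    simpa [mul_assoc] using this
  have hv : u * b ∈ D.posUnipotent F := mul_mem huU hb
  have ha : n * (u * b) ∈ H.cs F 1 := by
    have := H.cs_normal 0 b⁻¹ (inv_mem (H.pos_le_P hb)) _ hg
    simpa [mul_assoc] using this
  suffices hn1 : n = 1 by rw [hn1, mul_one]; exact mul_mem hb huU
  have hsupp := H.sld.supp
  obtain ⟨τ, hmo⟩ := H.sld.chk.sg_spec hn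
  have hfix : ∀ d r, D.nroots - r = d → D.IsPosRoot r → T.cf r j = 1 → H.sld.chk.sg n r = r := by
    intro d
    induction d using Nat.strong_induction_on with
    | _ d ih =>
    intro r hd hr hr1
    by_contra hne
    have habove : ∀ s, D.IsPosRoot s → T.cf s j = 1 → r < s → H.sld.chk.sg n s = s := fun s hs h1 hrs =>
      ih _ (by have := hs.1; omega) s rfl hs h1
    have hrr : r ∈ H.sld.chk.radRoots {i | i ≠ j} := ⟨hr, fun h => by
      have := ((H.sld.chk.inRootSub_iff hsupp _).1 h).2 j H.hj (by simp)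
      simp only [Fast.aux] at this
      omega⟩
    obtain ⟨y, hy, e⟩ := H.sld.chk.conj_leading hsupp {i | i ≠ j} hrr hv (1 : F)
    have hy' : n * y * n⁻¹ ∈ grp D F (H.W 1 (r + 1)) := by
      have hle : grp D F (H.sld.chk.radAbove hsupp {i | i ≠ j} r) ≤
          (grp D F (H.W 1 (r + 1))).comap (MulAut.conj n).toMonoidHom :=
        H.sld.chk.grp_le fun s hs t => by
          obtain ⟨hs1, hs2, hs3⟩ := hs
          simp only [Subgroup.mem_comap, MulEquiv.coe_toMonoidHom, MulAut.conj_apply]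
          have hs0 : 1 ≤ T.cf s j := by
            by_contra hlt
            refine hs2 ((H.sld.chk.inRootSub_iff hsupp _).2 ⟨hs1.1, fun k hk hkJ => ?_⟩)
            obtain rfl : k = j := by simpa using hkJ
            have := (H.root_chk hs1).1
            simp only [Fast.aux]
            omega
          by_cases h1 : T.cf s j = 1
          · obtain ⟨c, -, ec⟩ := H.sld.chk.sg_conj hn hs1.1
            rw [ec, habove s hs1 h1 hs3]
            exact H.sld.chk.xg_mem (S := H.W 1 (r + 1)) ⟨hs1, Or.inr ⟨h1, hs3⟩⟩ _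
          · refine grp_mem_mono (H.P_conj hF (show (1 : ℤ) ≤ 1 + 1 by norm_num) hnP
              (H.sld.chk.xg_mem (S := H.Lv (1 + 1)) ⟨hs1, by omega⟩ t)) (H.Lv_le_W 1 _)
      simpa using hle hy
    obtain ⟨c, hc, ec⟩ := H.sld.chk.sg_conj hn hr.1
    obtain rfl : c = 1 := (hF c).resolve_left hc
    have hx1 : H.sld.chk.xg r (1 : F) ∈ grp D F (H.Lv 1) := H.sld.chk.xg_mem (S := H.Lv 1) ⟨hr, hr1.ge⟩ 1
    have hw := H.one_comm hF ha hx1
    have hs1 : H.sld.chk.xg (H.sld.chk.sg n r) (1 : F) ∈ grp D F (H.Lv 1) := by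
      have := H.P_conj hF le_rfl hnP hx1
      rwa [ec, mul_one] at this
    have hslt := H.sld.chk.sg_lt hn hr.1
    have hspos : D.IsPosRoot (H.sld.chk.sg n r) := by
      refine (H.sld.chk.key_trichotomy hslt).resolve_right fun hneg => ?_
      exact H.sld.chk.neg_xg_not_mem hneg one_ne_zero (Subgroup.mem_sup_left (H.Lv_le_pos 1 hs1))
    have hs1' : 1 ≤ T.cf (H.sld.chk.sg n r) j := by
      by_contra hlt
      exact H.xg_not_Lv hspos (by omega) hs1
    have hxi : (H.sld.chk.xg r (1 : F))⁻¹ = H.sld.chk.xg r 1 := inv_eq_of_mul_eq_one_right (H.xx hr.1 1)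
    have heq : H.sld.chk.xg r 1 * (n * (u * b)) * (H.sld.chk.xg r 1)⁻¹ * (n * (u * b))⁻¹ =
        H.sld.chk.xg r 1 * H.sld.chk.xg (H.sld.chk.sg n r) 1 * (n * y * n⁻¹) := by
      rw [hxi]
      calc H.sld.chk.xg r 1 * (n * (u * b)) * H.sld.chk.xg r 1 * (n * (u * b))⁻¹
          = H.sld.chk.xg r 1 * (n * ((u * b) * H.sld.chk.xg r 1 * (u * b)⁻¹) * n⁻¹) := by group
        _ = H.sld.chk.xg r 1 * (n * H.sld.chk.xg r 1 * n⁻¹) * (n * y * n⁻¹) := by rw [e]; group
        _ = _ := by rw [ec, mul_one]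
    rw [heq] at hw
    set q := n * y * n⁻¹
    set w := H.sld.chk.xg r 1 * H.sld.chk.xg (H.sld.chk.sg n r) 1 * q
    rcases lt_or_eq_of_le hs1' with h2 | h2
    · have hW : ∀ {x : GL D.Idx F}, x ∈ grp D F (H.Lv 2) → x ∈ grp D F (H.W 1 (r + 1)) :=
        fun hx => grp_mem_mono hx (fun s hs => ⟨hs.1, Or.inl (by have := hs.2; omega)⟩)
      refine H.xg_not_W (F := F) hr ?_
      rw [hr1]
      have := mul_mem (mul_mem (hW hw) (inv_mem hy'))
        (inv_mem (hW (H.sld.chk.xg_mem (S := H.Lv 2) ⟨hspos, by omega⟩ (1 : F))))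
      simpa [w, mul_assoc] using this
    · rcases lt_trichotomy (H.sld.chk.sg n r) r with h3 | h3 | h3
      · refine H.xg_not_W (F := F) hspos ?_
        rw [← h2]
        have := mul_mem (mul_mem (H.sld.chk.xg_mem (S := H.W 1 (H.sld.chk.sg n r + 1)) ⟨hr, Or.inr ⟨hr1, h3⟩⟩ (1 : F))
          (grp_mem_mono hw fun s hs => ⟨hs.1, Or.inl (by have := hs.2; omega)⟩ :
            w ∈ grp D F (H.W 1 (H.sld.chk.sg n r + 1))))
          (inv_mem (grp_mem_mono hy' fun s hs => ⟨hs.1, hs.2.imp_right fun h => ⟨h.1, by omega⟩⟩))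
        have e2 : H.sld.chk.xg r 1 * w * q⁻¹ = H.sld.chk.xg (H.sld.chk.sg n r) (1 : F) := by
          calc H.sld.chk.xg r 1 * w * q⁻¹ = (H.sld.chk.xg r 1 * H.sld.chk.xg r 1) * H.sld.chk.xg (H.sld.chk.sg n r) 1 := by
                simp only [w]; group
            _ = _ := by rw [H.xx hr.1, one_mul]
        rwa [e2] at this
      · exact hne h3
      · have h4 := habove _ hspos h2.symm h3
        have h5 := congrArg τ h4
        rw [hmo.left _ hslt, hmo.left r hr.1] at h5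
        exact hne h5
  have hsimple : ∀ i < D.rank, H.sld.chk.sg n (D.simple i) = D.simple i := by
    intro i hi
    by_cases hij : i = j
    · subst hij; exact hfix _ _ rfl (R.pos_simple hi) H.cf_simple
    obtain ⟨r, hr, hr1, hkey⟩ := H.pair_chk hi hij
    set v := D.reflectRoot i r
    have hvpos := H.refl_pos_level hi hij hr hr1.ge
    have hv1 : T.cf v j = 1 := (H.cf_refl hi hij hr.1).trans hr1
    have hcoef : ∀ k < D.rank, T.aux.coef v k = T.aux.coef r k + T.aux.coef (D.simple i) k := by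
      have h1 := R.key_eq v hvpos.1
      have h2 := R.refl_key i hi r hr.1
      have hk0 : (0 : ℤ) < T.key (D.simple i) := R.key_simple_pos hi
      have hcart : D.cartan i r = -1 := by
        simp only [Fast.aux] at h2
        have : D.cartan i r * T.key (D.simple i) = (-1) * T.key (D.simple i) := by linarith
        exact mul_right_cancel₀ hk0.ne' this
      intro k hk
      rw [R.coef_refl hi hr.1 hk, R.coef_simple i hi k hk, hcart]
      ring
    have hkv := H.sld.chk.key_sigma hmo hvpos.1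
    have hkr := H.sld.chk.key_sigma hmo hr.1
    have hks := H.sld.chk.key_sigma hmo (R.simple_lt i hi)
    rw [hfix _ _ rfl hvpos hv1] at hkv
    rw [hfix _ _ rfl hr hr1] at hkr
    refine R.key_inj (H.sld.chk.sg_lt hn (R.simple_lt i hi)) (R.simple_lt i hi) ?_
    show T.key (H.sld.chk.sg n (D.simple i)) = T.key (D.simple i)
    rw [Finset.sum_congr rfl fun k hk => by rw [hcoef k (Finset.mem_range.1 hk), add_mul],
      Finset.sum_add_distrib, ← hkr, ← hks] at hkv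
    linarith
  exact H.diag_trivial hF (H.sld.chk.mem_diag_of_simple_pos hn fun i hi => by
    rw [hsimple i hi]; exact R.pos_simple hi)

include hF in
theorem one_le : H.cs F 1 ≤ grp D F (H.Lv 2) := by
  suffices h : H.cs F 1 ≤ grp D F (H.Lv 1) from fun a ha => H.one_inf hF (Subgroup.mem_inf.2 ⟨ha, h ha⟩)
  intro a ha
  suffices key : ∀ d r, D.nroots - r = d → ∀ a ∈ H.cs F 1, a ∈ grp D F (H.W 0 r) →
      a ∈ grp D F (H.Lv 1) by
    refine key _ 0 rfl a ha ?_
    have := H.one_le_pos hF ha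
    rw [posUnipotent_eq] at this
    refine grp_mem_mono this fun s hs => ⟨hs, ?_⟩
    rcases lt_or_eq_of_le (H.root_chk hs).1 with h | h
    exacts [Or.inl h, Or.inr ⟨h.symm, Nat.zero_le _⟩]
  intro d
  induction d using Nat.strong_induction_on with
  | _ d ih =>
  intro r hd a ha har
  by_cases hrn : D.nroots ≤ r
  · refine grp_mem_mono har fun s hs => ⟨hs.1, ?_⟩
    rcases hs.2 with h | ⟨-, h⟩
    · omega
    · have := hs.1.1; omega
  rcases H.W_split hF har with h | ⟨hr, hr0, z, hz, rfl⟩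
  · exact ih _ (by omega) (r + 1) rfl a ha h
  exfalso
  obtain ⟨s, hs, hmv⟩ := (H.root_chk hr).2.2.2.1 hr0
  simp only [Fast.moveOK, Bool.and_eq_true] at hmv
  obtain ⟨⟨hk, hs1⟩, hd2⟩ := hmv
  have hspos : D.IsPosRoot s := (H.sld.chk.root.pos_iff s).2 ⟨hs, ltI_iff.1 hk⟩
  have hs1 := beqI_eq hs1
  split at hd2
  · rename_i u m x h1 h2
    obtain ⟨he, hu, hru, hkey, hcf⟩ := H.sum_conj (F := F) hspos hr h1 h2 hd2
    obtain ⟨q, hq, heq⟩ := H.lead hspos hr hu hru hkey hcf he (hr0.symm ▸ hz)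
    have hsi : (H.sld.chk.xg s (1 : F))⁻¹ = H.sld.chk.xg s 1 := inv_eq_of_mul_eq_one_right (H.xx hs 1)
    have hw := H.one_comm hF ha (H.sld.chk.xg_mem (S := H.Lv 1) ⟨hspos, hs1.ge⟩ (1 : F))
    rw [hsi, heq] at hw
    refine H.xg_not_W (F := F) hu ?_
    have := mul_mem (grp_mem_mono hw (show H.Lv 2 ⊆ H.W (T.cf u j) (u + 1) from
      fun v hv => ⟨hv.1, Or.inl (by have := hv.2; omega)⟩)) (inv_mem hq)
    rwa [mul_inv_cancel_right] at this
  · simp at hd2

include hF in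
theorem cs_le : ∀ i : ℕ, 1 ≤ i → i ≤ 6 → H.cs F i ≤ grp D F (H.Lv ((i : ℤ) + 1))
  | 0, h, _ => by omega
  | 1, _, _ => H.one_le hF
  | i + 2, _, h6 => by
    intro y hy
    by_contra hn
    have hprev : H.cs F (i + 1) ≤ grp D F (H.Lv (((i + 1 : ℕ) : ℤ) + 1)) := cs_le (i + 1) (by omega) (by omega)
    have e : ((i + 1 : ℕ) : ℤ) + 1 = ((i + 2 : ℕ) : ℤ) := by omega
    rw [e] at hprev
    have hk : (1 : ℤ) ≤ ((i + 2 : ℕ) : ℤ) := by omega
    obtain ⟨r, hr, hrk, hrd⟩ := H.drop_chk (show 2 ≤ i + 2 by omega) h6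
    have h := H.push hF hk (H.cs_normal (i + 1)) (H.Lv_le_cs hF (i + 2)) hy
      (hprev (H.cs_succ_le (i + 1) hy)) hn r hr hrk
    have h2 := hprev (H.cs_refl h)
    rw [H.sld.ng_conj H.hj hr.1] at h2
    have hpos : D.IsPosRoot (D.reflectRoot j r) := by
      refine (H.sld.chk.refl_pos H.hj hr fun e' => ?_).1
      rw [e', H.cf_simple] at hrk
      omega
    exact H.xg_not_Lv hpos (by omega) h2

include hF in
theorem cs_six : H.cs F 6 = ⊥ := by
  refine le_bot_iff.1 ((H.cs_le hF 6 (by omega) le_rfl).trans (H.sld.chk.grp_le fun s hs _ => ?_))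
  have := (H.root_chk hs.1).2.1
  have := hs.2
  omega

include hF in
theorem cs_five : ∃ x ∈ H.cs F 5, x ∈ D.group F ∧ x ≠ 1 := by
  obtain ⟨r, hr, hrk, -⟩ := H.drop_chk (show 2 ≤ 6 by norm_num) le_rfl
  refine ⟨H.sld.chk.xg r 1, H.Lv_le_cs hF 5 (H.sld.chk.xg_mem (S := H.Lv ((5 : ℕ) + 1)) ⟨hr, by omega⟩ 1), H.sld.chk.xg_mem_group hr.1 1,
    fun e => one_ne_zero (H.sld.chk.xg_eq_one hr.1 e)⟩

end Two

end CoreData

end Cfsg.Agent.Lib.Chev
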