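import Cfsg.Agent.Lib.Chev.D4EvenRadical

/-!
The involutions of `³D₄(q)`, `q` even: two classes.
-/

set_option autoImplicit false

namespace Cfsg.Agent.Lib.Chev.D4Even

open Cfsg.Lie Cfsg.Agent.Lib Cfsg.Agent.Lib.Chev

variable {K : Type*} [Field K] [CharP K 2]

theorem sqrt_exists [Finite K] (x : K) : ∃ s : K, s ^ 2 = x := by
  have hi : Function.Injective fun y : K => y ^ 2 := fun y z h => by
    have h' : (y + z) ^ 2 = 0 := by
      rw [add_pow_char, show y ^ 2 = z ^ 2 from h, CharTwo.add_self_eq_zero]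
    exact CharTwo.add_eq_zero.1 (pow_eq_zero_iff (two_ne_zero) |>.1 h')
  exact (Finite.injective_iff_surjective.1 hi) x

theorem sq_inj' {y z : K} (h : y ^ 2 = z ^ 2) : y = z := by
  have h' : (y + z) ^ 2 = 0 := by rw [add_pow_char, h, CharTwo.add_self_eq_zero]
  exact CharTwo.add_eq_zero.1 (pow_eq_zero_iff (two_ne_zero) |>.1 h')

/-! ### uniqueness of coordinates -/

theorem P_eq_wg (a b0 b1 b2 c0 c1 c2 d e : K) : P a b0 b1 b2 c0 c1 c2 d e =
    C.wg [(14, a), (15, b2), (16, b1), (17, c0), (19, b0), (20, c1), (21, c2), (22, d), (23, e + c0 * b0)] := by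
  simp only [C.wg_cons, C.wg_nil, mul_one]
  obtain ⟨s1, s2, s3, s4, s5, s6, s7, s8, s9⟩ :
    (∀ t : K, C.xg 14 t = P t 0 0 0 0 0 0 0 0) ∧ (∀ t : K, C.xg 19 t = P 0 t 0 0 0 0 0 0 0) ∧
    (∀ t : K, C.xg 16 t = P 0 0 t 0 0 0 0 0 0) ∧ (∀ t : K, C.xg 15 t = P 0 0 0 t 0 0 0 0 0) ∧
    (∀ t : K, C.xg 17 t = P 0 0 0 0 t 0 0 0 0) ∧ (∀ t : K, C.xg 20 t = P 0 0 0 0 0 t 0 0 0) ∧
    (∀ t : K, C.xg 21 t = P 0 0 0 0 0 0 t 0 0) ∧ (∀ t : K, C.xg 22 t = P 0 0 0 0 0 0 0 t 0) ∧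
    (∀ t : K, C.xg 23 t = P 0 0 0 0 0 0 0 0 t) := by simp [P, Bp, Cp, C.xg_zero]
  simp only [s1, s2, s3, s4, s5, s6, s7, s8, s9, P_mul, zero_add, add_zero, zero_mul, mul_zero]
  congr 1
  rw [add_assoc, CharTwo.add_self_eq_zero, add_zero]

theorem P_inj {a b0 b1 b2 c0 c1 c2 d e a' b0' b1' b2' c0' c1' c2' d' e' : K}
    (h : P a b0 b1 b2 c0 c1 c2 d e = P a' b0' b1' b2' c0' c1' c2' d' e') :
    a = a' ∧ b0 = b0' ∧ b1 = b1' ∧ b2 = b2' ∧ c0 = c0' ∧ c1 = c1' ∧ c2 = c2' ∧ d = d' ∧ e = e' := by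
  let f : K → K → K → K → K → K → K → K → K → ℕ → K := fun a b0 b1 b2 c0 c1 c2 d e r =>
    if r = 14 then a else if r = 15 then b2 else if r = 16 then b1 else if r = 17 then c0
    else if r = 19 then b0 else if r = 20 then c1 else if r = 21 then c2 else if r = 22 then d else e + c0 * b0
  have hpos : ∀ r ∈ [14, 15, 16, 17, 19, 20, 21, 22, 23], chevD4.IsPosRoot r := by decide +kernel
  rw [P_eq_wg, P_eq_wg] at h
  have hco := C.ordered_inj [14, 15, 16, 17, 19, 20, 21, 22, 23] (by simp) hpos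
    (f a b0 b1 b2 c0 c1 c2 d e) (f a' b0' b1' b2' c0' c1' c2' d' e') (by simpa [f] using h)
  have ha : a = a' := by simpa [f] using hco 14 (by simp)
  have hb2 : b2 = b2' := by simpa [f] using hco 15 (by simp)
  have hb1 : b1 = b1' := by simpa [f] using hco 16 (by simp)
  have hc0 : c0 = c0' := by simpa [f] using hco 17 (by simp)
  have hb0 : b0 = b0' := by simpa [f] using hco 19 (by simp)
  have hc1 : c1 = c1' := by simpa [f] using hco 20 (by simp)
  have hc2 : c2 = c2' := by simpa [f] using hco 21 (by simp)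
  have hd : d = d' := by simpa [f] using hco 22 (by simp)
  have he : e + c0 * b0 = e' + c0' * b0' := by simpa [f] using hco 23 (by simp)
  rw [hc0, hb0, add_left_inj] at he
  exact ⟨ha, hb0, hb1, hb2, hc0, hc1, hc2, hd, he⟩

theorem P_zero : P (0 : K) 0 0 0 0 0 0 0 0 = 1 := by simp [P, Bp, Cp, C.xg_zero]

theorem P_eq_one {a b0 b1 b2 c0 c1 c2 d e : K} (h : P a b0 b1 b2 c0 c1 c2 d e = 1) :
    a = 0 ∧ b0 = 0 ∧ b1 = 0 ∧ b2 = 0 ∧ c0 = 0 ∧ c1 = 0 ∧ c2 = 0 ∧ d = 0 ∧ e = 0 :=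
  P_inj (h.trans P_zero.symm)

theorem closed_tbl :
    (∀ r ∈ [12, 13, 18, 14, 15, 16, 17, 19, 20, 21, 22, 23], chevD4.IsPosRoot r) ∧
    (∀ r ∈ [14, 15, 16, 17, 19, 20, 21, 22, 23], ∀ s ∈ [14, 15, 16, 17, 19, 20, 21, 22, 23],
      ∀ c ∈ D4.fast.commT r s, c.1 ∈ [14, 15, 16, 17, 19, 20, 21, 22, 23]) ∧
    (∀ r ∈ [12, 13, 18], ∀ s ∈ [12, 13, 18], ∀ c ∈ D4.fast.commT r s, c.1 ∈ [12, 13, 18]) := by
  decide +kernel

theorem closed_Q : ClosedSet chevD4 {r | r ∈ [14, 15, 16, 17, 19, 20, 21, 22, 23]} where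
  pos r hr := closed_tbl.1 r (List.mem_cons_of_mem _ (List.mem_cons_of_mem _ (List.mem_cons_of_mem _ hr)))
  closed r hr s hs _ c hc := by
    have h := closed_tbl.1
    rw [← C.commT_eq (h r (List.mem_cons_of_mem _ (List.mem_cons_of_mem _ (List.mem_cons_of_mem _ hr)))).1
      (h s (List.mem_cons_of_mem _ (List.mem_cons_of_mem _ (List.mem_cons_of_mem _ hs)))).1] at hc
    exact closed_tbl.2.1 r hr s hs c hc

theorem closed_S : ClosedSet chevD4 {r | r ∈ [12, 13, 18]} where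
  pos r hr := closed_tbl.1 r (by simp only [Set.mem_setOf_eq, List.mem_cons, List.not_mem_nil, or_false] at hr ⊢; omega)
  closed r hr s hs _ c hc := by
    have h := closed_tbl.1
    rw [← C.commT_eq (h r (by simp only [Set.mem_setOf_eq, List.mem_cons, List.not_mem_nil, or_false] at hr ⊢; omega)).1
      (h s (by simp only [Set.mem_setOf_eq, List.mem_cons, List.not_mem_nil, or_false] at hs ⊢; omega)).1] at hc
    exact closed_tbl.2.2 r hr s hs c hc

theorem commute_outer {r s : ℕ} (hr : r ∈ [12, 13, 18]) (hs : s ∈ [12, 13, 18]) (t u : K) :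
    Commute (C.xg r t) (C.xg s u) := by
  have h : ∀ r ∈ [12, 13, 18], ∀ s ∈ [12, 13, 18],
      r < 24 ∧ s < 24 ∧ s ≠ chevD4.neg r ∧ oddT r s = [] := by decide +kernel
  exact comm_nil (h r hr s hs) t u

theorem S3_mul (a b c a' b' c' : K) : S3 a b c * S3 a' b' c' = S3 (a + a') (b + b') (c + c') := by
  calc S3 a b c * S3 a' b' c'
      = C.xg 18 a * C.xg 13 b * (C.xg 12 c * C.xg 18 a') * C.xg 13 b' * C.xg 12 c' := by
        simp only [S3, mul_assoc]
    _ = C.xg 18 a * (C.xg 13 b * C.xg 18 a') * (C.xg 12 c * C.xg 13 b') * C.xg 12 c' := by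
        rw [(commute_outer (by simp) (by simp) c a').eq]; simp only [mul_assoc]
    _ = (C.xg 18 a * C.xg 18 a') * (C.xg 13 b * C.xg 13 b') * (C.xg 12 c * C.xg 12 c') := by
        rw [(commute_outer (by simp) (by simp) b a').eq, (commute_outer (by simp) (by simp) c b').eq]
        simp only [mul_assoc]
    _ = _ := by rw [xg_add' (by omega), xg_add' (by omega), xg_add' (by omega), S3]

theorem S3_sq (a b c : K) : S3 a b c * S3 a b c = 1 := by
  rw [S3_mul]; simp [CharTwo.add_self_eq_zero, S3, C.xg_zero]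

theorem S3_inj {a b c a' b' c' : K} (h : S3 a b c = S3 a' b' c') : a = a' ∧ b = b' ∧ c = c' := by
  have e : ∀ a b c : K, S3 a b c = C.wg [(12, c), (13, b), (18, a)] := by
    intro a b c
    simp only [C.wg_cons, C.wg_nil, mul_one, S3]
    rw [mul_assoc, (commute_outer (r := 13) (s := 12) (by simp) (by simp) b c).eq, ← mul_assoc,
      (commute_outer (r := 18) (s := 12) (by simp) (by simp) a c).eq, mul_assoc,
      (commute_outer (r := 18) (s := 13) (by simp) (by simp) a b).eq]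
  let f : K → K → K → ℕ → K := fun a b c r => if r = 12 then c else if r = 13 then b else a
  rw [e, e] at h
  have hco := C.ordered_inj [12, 13, 18] (by simp)
    (fun r hr => closed_S.pos r hr) (f a b c) (f a' b' c') (by simpa [f] using h)
  exact ⟨by simpa [f] using hco 18 (by simp), by simpa [f] using hco 13 (by simp),
    by simpa [f] using hco 12 (by simp)⟩

theorem P_mem (a b0 b1 b2 c0 c1 c2 d e : K) :
    P a b0 b1 b2 c0 c1 c2 d e ∈ grp chevD4 K {r | r ∈ [14, 15, 16, 17, 19, 20, 21, 22, 23]} := by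
  have h : ∀ r ∈ [14, 15, 16, 17, 19, 20, 21, 22, 23], ∀ t : K,
      C.xg r t ∈ grp chevD4 K {r | r ∈ [14, 15, 16, 17, 19, 20, 21, 22, 23]} := fun r hr t => C.xg_mem hr t
  unfold P Bp Cp
  repeat' apply mul_mem
  all_goals exact h _ (by simp) _

theorem S3_mem (a b c : K) : S3 a b c ∈ grp chevD4 K {r | r ∈ [12, 13, 18]} := by
  have h : ∀ r ∈ [12, 13, 18], ∀ t : K,
      C.xg r t ∈ grp chevD4 K {r | r ∈ [12, 13, 18]} := fun r hr t => C.xg_mem hr t
  unfold S3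
  repeat' apply mul_mem
  all_goals exact h _ (by simp) _

theorem PS_inj {a b0 b1 b2 c0 c1 c2 d e s0 s1 s2 a' b0' b1' b2' c0' c1' c2' d' e' s0' s1' s2' : K}
    (h : P a b0 b1 b2 c0 c1 c2 d e * S3 s0 s1 s2 = P a' b0' b1' b2' c0' c1' c2' d' e' * S3 s0' s1' s2') :
    P a b0 b1 b2 c0 c1 c2 d e = P a' b0' b1' b2' c0' c1' c2' d' e' ∧ S3 s0 s1 s2 = S3 s0' s1' s2' := by
  set p := P a b0 b1 b2 c0 c1 c2 d e
  set p' := P a' b0' b1' b2' c0' c1' c2' d' e'
  have h1 : p'⁻¹ * p = S3 s0' s1' s2' * (S3 s0 s1 s2)⁻¹ := by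
    rw [eq_mul_inv_iff_mul_eq, mul_assoc, h, inv_mul_cancel_left]
  have h2 : p'⁻¹ * p = 1 := C.eq_one_of_grp_disjoint closed_Q closed_S
    (by intro r hr hr'; simp only [Set.mem_setOf_eq, List.mem_cons, List.not_mem_nil, or_false] at hr hr'; omega)
    (mul_mem (inv_mem (P_mem _ _ _ _ _ _ _ _ _)) (P_mem _ _ _ _ _ _ _ _ _))
    (h1 ▸ mul_mem (S3_mem _ _ _) (inv_mem (S3_mem _ _ _)))
  rw [h2] at h1
  exact ⟨(inv_mul_eq_one.1 h2).symm, (mul_inv_eq_one.1 h1.symm).symm⟩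

/-- every element of `U` in coordinates -/
theorem exists_form {u : GL chevD4.Idx K} (hu : u ∈ chevD4.posUnipotent K) :
    ∃ a b0 b1 b2 c0 c1 c2 d e s0 s1 s2 : K, u = P a b0 b1 b2 c0 c1 c2 d e * S3 s0 s1 s2 := by
  rw [posUnipotent_eq] at hu
  obtain ⟨t, hut⟩ := C.exists_ordered C.closedSet_pos hu
  rw [← C.posRoots_eq, show chevD4.posRoots = [12, 13, 14, 15, 16, 17, 18, 19, 20, 21, 22, 23] by
    decide +kernel] at hut
  obtain ⟨e1, h1⟩ := conj_S3 0 (t 13) (t 12) (t 14) 0 (t 16) (t 15) (t 17) 0 0 0 0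
  obtain ⟨e2, h2⟩ := conj_S3 (t 18) (t 13) (t 12) 0 (t 19) 0 0 0 (t 20) (t 21) (t 22) (t 23)
  have hW1 : C.xg 14 (t 14) * C.xg 15 (t 15) * C.xg 16 (t 16) * C.xg 17 (t 17) =
      P (t 14) 0 (t 16) (t 15) (t 17) 0 0 0 0 := by
    obtain ⟨s1, -⟩ := singles (t 14)
    obtain ⟨-, -, -, s4, -⟩ := singles (t 15)
    obtain ⟨-, -, s3, -⟩ := singles (t 16)
    obtain ⟨-, -, -, -, s5, -⟩ := singles (t 17)
    rw [s1, s3, s4, s5]
    simp only [P_mul, zero_add, add_zero, zero_mul, mul_zero]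
  have hW2 : C.xg 19 (t 19) * C.xg 20 (t 20) * C.xg 21 (t 21) * C.xg 22 (t 22) * C.xg 23 (t 23) =
      P 0 (t 19) 0 0 0 (t 20) (t 21) (t 22) (t 23) := by
    simp [P, Bp, Cp, C.xg_zero, mul_assoc]
  have hA : C.xg 12 (t 12) * C.xg 13 (t 13) = S3 0 (t 13) (t 12) := by
    simp [S3, C.xg_zero, (commute_outer (r := 12) (s := 13) (by simp) (by simp) (t 12) (t 13)).eq]
  have hB : S3 0 (t 13) (t 12) * C.xg 18 (t 18) = S3 (t 18) (t 13) (t 12) := by
    rw [show C.xg 18 (t 18) = S3 (t 18) 0 0 by simp [S3, C.xg_zero], S3_mul]; simp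
  have hu' : u = MulAut.conj (S3 0 (t 13) (t 12)) (P (t 14) 0 (t 16) (t 15) (t 17) 0 0 0 0) *
      MulAut.conj (S3 (t 18) (t 13) (t 12)) (P 0 (t 19) 0 0 0 (t 20) (t 21) (t 22) (t 23)) *
        S3 (t 18) (t 13) (t 12) := by
    rw [hut, ← hB, ← hA, ← hW1, ← hW2]
    simp only [List.map_cons, List.map_nil, C.wg_cons, C.wg_nil, MulAut.conj_apply]
    group
  rw [h1, h2, P_mul] at hu'
  exact ⟨_, _, _, _, _, _, _, _, _, _, _, _, hu'⟩

/-! ### the twisted group -/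

theorem rho_tbl : [14, 19, 16, 15, 17, 20, 21, 22, 23, 18, 13, 12].map D4.sym.r =
    [14, 16, 15, 19, 20, 21, 17, 22, 23, 13, 12, 18] := by decide +kernel

variable (φ : K ≃+* K)

theorem act_xg {r : ℕ} (hr : r < 24) (t : K) :
    (D4.tw φ).act (C.xg r t) = C.xg (D4.sym.r r) (φ t) := by
  rw [(D4.tw φ).map_xg r (lt_nroots hr)]
  show C.xg (D4.sym.r r) (((sgn (D4.sym.e r) : ℤ) : K) * φ t) = _
  cases D4.sym.e r <;> simp [sgn, CharTwo.neg_eq]

theorem act_wg : ∀ l : List (ℕ × K), (∀ p ∈ l, p.1 < 24) →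
    (D4.tw φ).act (C.wg l) = C.wg (l.map fun p => (D4.sym.r p.1, φ p.2)) ∧ C.wg l ∈ chevD4.group K
  | [], _ => by
    rw [List.map_nil, C.wg_nil]
    exact ⟨(D4.tw φ).act_one, one_mem _⟩
  | p :: l, h => by
    obtain ⟨e, hm⟩ := act_wg l fun x hx => h x (List.mem_cons_of_mem _ hx)
    have hp : C.xg p.1 p.2 ∈ chevD4.group K := C.xg_mem_group (lt_nroots (h p (by simp))) _
    rw [List.map_cons, C.wg_cons, C.wg_cons]
    exact ⟨by rw [(D4.tw φ).act_mul hp hm, act_xg φ (h p (by simp)), e], mul_mem hp hm⟩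

theorem act_P (a b0 b1 b2 c0 c1 c2 d e : K) : (D4.tw φ).act (P a b0 b1 b2 c0 c1 c2 d e) =
    P (φ a) (φ b2) (φ b0) (φ b1) (φ c2) (φ c0) (φ c1) (φ d) (φ e) := by
  have e0 : P a b0 b1 b2 c0 c1 c2 d e = C.wg [(14, a), (19, b0), (16, b1), (15, b2), (17, c0), (20, c1),
      (21, c2), (22, d), (23, e)] := by simp [P, Bp, Cp, C.wg_cons, C.wg_nil, mul_assoc]
  rw [e0, (act_wg φ _ (by simp)).1]
  have h := rho_tbl
  simp only [List.map_cons, List.map_nil, List.cons.injEq] at h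
  obtain ⟨r1, r2, r3, r4, r5, r6, r7, r8, r9, -⟩ := h
  simp only [List.map_cons, List.map_nil, r1, r2, r3, r4, r5, r6, r7, r8, r9, C.wg_cons, C.wg_nil, mul_one]
  obtain ⟨s1, s2, s3, s4, s5, s6, s7, s8, s9⟩ :
    (∀ t : K, C.xg 14 t = P t 0 0 0 0 0 0 0 0) ∧ (∀ t : K, C.xg 19 t = P 0 t 0 0 0 0 0 0 0) ∧
    (∀ t : K, C.xg 16 t = P 0 0 t 0 0 0 0 0 0) ∧ (∀ t : K, C.xg 15 t = P 0 0 0 t 0 0 0 0 0) ∧
    (∀ t : K, C.xg 17 t = P 0 0 0 0 t 0 0 0 0) ∧ (∀ t : K, C.xg 20 t = P 0 0 0 0 0 t 0 0 0) ∧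
    (∀ t : K, C.xg 21 t = P 0 0 0 0 0 0 t 0 0) ∧ (∀ t : K, C.xg 22 t = P 0 0 0 0 0 0 0 t 0) ∧
    (∀ t : K, C.xg 23 t = P 0 0 0 0 0 0 0 0 t) := by simp [P, Bp, Cp, C.xg_zero]
  simp only [s1, s2, s3, s4, s5, s6, s7, s8, s9, P_mul, zero_add, add_zero, zero_mul, mul_zero]

theorem act_S3 (a b c : K) : (D4.tw φ).act (S3 a b c) = S3 (φ c) (φ a) (φ b) := by
  have e0 : S3 a b c = C.wg [(18, a), (13, b), (12, c)] := by simp [S3, C.wg_cons, C.wg_nil, mul_assoc]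
  rw [e0, (act_wg φ _ (by simp)).1]
  have h := rho_tbl
  simp only [List.map_cons, List.map_nil, List.cons.injEq] at h
  obtain ⟨-, -, -, -, -, -, -, -, -, r10, r11, r12, -⟩ := h
  simp only [List.map_cons, List.map_nil, r10, r11, r12, C.wg_cons, C.wg_nil, mul_one, S3]
  rw [← mul_assoc, mul_assoc (C.xg 18 (φ c))]
  exact (((commute_outer (by simp) (by simp) (φ c) (φ a)).mul_right
    (commute_outer (by simp) (by simp) (φ c) (φ b))).eq).symm

/-- fixed elements of the radical -/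
def R (a b c d e : K) : GL chevD4.Idx K := P a b (φ b) (φ (φ b)) c (φ c) (φ (φ c)) d e
/-- fixed elements of the outer root group -/
def S (t : K) : GL chevD4.Idx K := S3 t (φ t) (φ (φ t))

/-- trace -/
def Tr (x : K) : K := x + φ x + φ (φ x)
/-- norm -/
def N (x : K) : K := x * φ x * φ (φ x)

theorem R_mul (a b c d e a' b' c' d' e' : K) : R φ a b c d e * R φ a' b' c' d' e' =
    R φ (a + a') (b + b') (c + c') (d + d') (e + e' + d * a' + Tr φ (c * b')) := by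
  simp only [R, P_mul, map_add, Tr, map_mul]

theorem R_zero : R φ 0 0 0 0 0 = 1 := by simp [R, P_zero]

theorem R_eq_one {a b c d e : K} (h : R φ a b c d e = 1) :
    a = 0 ∧ b = 0 ∧ c = 0 ∧ d = 0 ∧ e = 0 := by
  obtain ⟨h1, h2, -, -, h5, -, -, h8, h9⟩ := P_eq_one h
  exact ⟨h1, h2, h5, h8, h9⟩

theorem S_sq (t : K) : S φ t * S φ t = 1 := S3_sq _ _ _

theorem conj_S (hper : ∀ t, φ (φ (φ t)) = t) (s a b c d e : K) (ha : φ a = a) :
    ∃ e', MulAut.conj (S φ s) (R φ a b c d e) =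
      R φ a (b + s * a) (c + φ s * φ (φ b) + φ (φ s) * φ b + φ s * φ (φ s) * a)
        (d + Tr φ (s * c) + Tr φ (φ s * φ (φ s) * b) + N φ s * a) e' := by
  obtain ⟨e', h⟩ := conj_S3 s (φ s) (φ (φ s)) a b (φ b) (φ (φ b)) c (φ c) (φ (φ c)) d e
  refine ⟨e', ?_⟩
  rw [S, R, h, R]
  simp only [map_add, map_mul, Tr, N, hper, ha]
  congr 1 <;> ring

/-- the reflection in the middle node -/
def n1 : GL chevD4.Idx K := C.ng 1
/-- the product of the reflections in the outer nodes -/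
def n0 : GL chevD4.Idx K := C.ng 0 * C.ng 2 * C.ng 3

theorem ng_conj {i : ℕ} (hi : i < 4) {r : ℕ} (hr : r < 24) (t : K) :
    MulAut.conj (C.ng i) (C.xg r t) = C.xg (chevD4.reflectRoot i r) t := by
  have hi' : i < chevD4.rank := D4.rank_eq ▸ hi
  rw [MulAut.conj_apply, C.ng_xg hi' (lt_nroots hr), mul_inv_cancel_right]
  congr 1
  rcases mul_self_eq_one_iff.1 (eta_sq (T := D4.fast) (F := K) i r) with h | h <;>
    simp [h, CharTwo.neg_eq]

theorem refl_lt : ∀ i < 4, ∀ r < 24, chevD4.reflectRoot i r < 24 := by decide +kernel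

theorem n0_conj {r : ℕ} (hr : r < 24) (t : K) : MulAut.conj (n0 : GL chevD4.Idx K) (C.xg r t) =
    C.xg (chevD4.reflectRoot 0 (chevD4.reflectRoot 2 (chevD4.reflectRoot 3 r))) t := by
  have h3 := refl_lt 3 (by omega) r hr
  rw [n0, map_mul, map_mul, MulAut.mul_apply, MulAut.mul_apply, ng_conj (by omega) hr,
    ng_conj (by omega) h3, ng_conj (by omega) (refl_lt 2 (by omega) _ h3)]

theorem n0_P (a b0 b1 b2 c0 c1 c2 d e : K) : ∃ e', MulAut.conj (n0 : GL chevD4.Idx K)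
    (P a b0 b1 b2 c0 c1 c2 d e) = P d c0 c1 c2 b0 b1 b2 a e' := by
  refine ⟨?e, ?_⟩
  rotate_left
  have h := refl_tbl.1
  simp only [List.map_cons, List.map_nil, List.cons.injEq] at h
  obtain ⟨r1, r2, r3, r4, r5, r6, r7, r8, r9, -⟩ := h
  rw [P, Bp, Cp]
  simp only [map_mul]
  simp only [n0_conj (show 14 < 24 by omega), n0_conj (show 19 < 24 by omega), n0_conj (show 16 < 24 by omega),
    n0_conj (show 15 < 24 by omega), n0_conj (show 17 < 24 by omega), n0_conj (show 20 < 24 by omega),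
    n0_conj (show 21 < 24 by omega), n0_conj (show 22 < 24 by omega), n0_conj (show 23 < 24 by omega),
    r1, r2, r3, r4, r5, r6, r7, r8, r9]
  obtain ⟨s1, s2, s3, s4, s5, s6, s7, s8, s9⟩ :
    (∀ t : K, C.xg 14 t = P t 0 0 0 0 0 0 0 0) ∧ (∀ t : K, C.xg 19 t = P 0 t 0 0 0 0 0 0 0) ∧
    (∀ t : K, C.xg 16 t = P 0 0 t 0 0 0 0 0 0) ∧ (∀ t : K, C.xg 15 t = P 0 0 0 t 0 0 0 0 0) ∧
    (∀ t : K, C.xg 17 t = P 0 0 0 0 t 0 0 0 0) ∧ (∀ t : K, C.xg 20 t = P 0 0 0 0 0 t 0 0 0) ∧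
    (∀ t : K, C.xg 21 t = P 0 0 0 0 0 0 t 0 0) ∧ (∀ t : K, C.xg 22 t = P 0 0 0 0 0 0 0 t 0) ∧
    (∀ t : K, C.xg 23 t = P 0 0 0 0 0 0 0 0 t) := by simp [P, Bp, Cp, C.xg_zero]
  simp only [s1, s2, s3, s4, s5, s6, s7, s8, s9, P_mul, zero_add, add_zero, zero_mul, mul_zero]
  rfl

theorem n0_R (a b c d e : K) : ∃ e', MulAut.conj (n0 : GL chevD4.Idx K) (R φ a b c d e) = R φ d c b a e' :=
  n0_P ..

theorem n1_S (t : K) : MulAut.conj (n1 : GL chevD4.Idx K) (S φ t) = R φ 0 t 0 0 0 := by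
  have h := refl_tbl.2
  simp only [List.map_cons, List.map_nil, List.cons.injEq] at h
  obtain ⟨r1, r2, r3, r4, r5, -⟩ := h
  rw [S, S3, map_mul, map_mul, n1, ng_conj (by omega) (by omega), ng_conj (by omega) (by omega),
    ng_conj (by omega) (by omega), r1, r2, r3]
  simp [R, P, Bp, Cp, C.xg_zero]

theorem n1_top (e : K) : MulAut.conj (n1 : GL chevD4.Idx K) (R φ 0 0 0 0 e) = R φ 0 0 0 e 0 := by
  have h := refl_tbl.2
  simp only [List.map_cons, List.map_nil, List.cons.injEq] at h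
  obtain ⟨r1, r2, r3, r4, r5, -⟩ := h
  simp only [R, map_zero, P, Bp, Cp, C.xg_zero, one_mul, mul_one, n1]
  rw [ng_conj (by omega) (by omega), r5]

theorem n1_twentytwo (e : K) : MulAut.conj (n1 : GL chevD4.Idx K) (R φ 0 0 0 e 0) = R φ 0 0 0 0 e := by
  have h := refl_tbl.2
  simp only [List.map_cons, List.map_nil, List.cons.injEq] at h
  obtain ⟨r1, r2, r3, r4, r5, -⟩ := h
  simp only [R, map_zero, P, Bp, Cp, C.xg_zero, one_mul, mul_one, n1]
  rw [ng_conj (by omega) (by omega), r4]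

variable {q : ℕ} [Fintype K] (hφ : ∀ t, φ t = t ^ q) (hK : Fintype.card K = q ^ 3)
include hφ hK

theorem per (t : K) : φ (φ (φ t)) = t := frob_per hφ hK t

theorem S_G (t : K) : S φ t ∈ twistedD4 K q := by
  have h := D4.mem_twisted φ hφ (w := [(d4p1, t), (d4p3, t ^ q), (d4p4, t ^ q ^ 2)])
    (Or.inr ⟨t, (d4p1, d4p3, d4p4), by simp, rfl⟩)
  simpa [S, S3, C.wg_cons, C.wg_nil, hφ, ← pow_mul, ← pow_two, mul_assoc, d4p1, d4p3, d4p4] using h

theorem A_G (a : K) (ha : φ a = a) : R φ a 0 0 0 0 ∈ twistedD4 K q := by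
  have h := D4.mem_twisted φ hφ (w := [(d4p2, a)]) (Or.inl ⟨a, by rw [← hφ, ha], d4p2, by simp, rfl⟩)
  simpa [R, P, Bp, Cp, C.xg_zero, C.wg_cons, C.wg_nil, d4p2] using h

theorem n1_G : (n1 : GL chevD4.Idx K) ∈ twistedD4 K q := by
  have h := (D4.tw_orth φ).wN_mem (D4.gens φ hφ hK) (j := 1) (D4.rank_eq ▸ (by norm_num))
  rw [Twist.wN, D4.len_simple φ (by norm_num)] at h
  simpa [Twist.orbProd, n1] using h

theorem n0_G : (n0 : GL chevD4.Idx K) ∈ twistedD4 K q := by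
  have hj : 0 < chevD4.rank := D4.rank_eq ▸ (by norm_num)
  have h := (D4.tw_orth φ).wN_mem (D4.gens φ hφ hK) (j := 0) hj
  rw [Twist.wN, D4.len_simple φ (by norm_num)] at h
  have e : ∀ i, (D4.tw φ).act^[i] (C.ng 0) = C.ng ((D4.tw φ).p^[i] 0) :=
    fun i => (D4.tw φ).iter_ng hj i
  have hp0 : D4.sym.p 0 = 2 := (D4.node_check 0 (by norm_num)).1
  have hp2 : D4.sym.p 2 = 3 := (D4.node_check 2 (by norm_num)).1
  simp [Twist.orbProd, List.range_succ, e, Function.iterate_succ_apply'] at h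
  simpa [n0, D4.tw, SymData.twist, hp0, hp2, mul_assoc] using h

theorem conj_G {x g : GL chevD4.Idx K} (hx : x ∈ twistedD4 K q) (hg : g ∈ twistedD4 K q) :
    MulAut.conj x g ∈ twistedD4 K q := by
  rw [MulAut.conj_apply]; exact mul_mem (mul_mem hx hg) (inv_mem hx)

theorem B_G (b : K) : R φ 0 b 0 0 0 ∈ twistedD4 K q := by
  rw [← n1_S φ b]; exact conj_G φ hφ hK (n1_G φ hφ hK) (S_G φ hφ hK b)

theorem n0_B (c : K) : MulAut.conj (n0 : GL chevD4.Idx K) (R φ 0 c 0 0 0) = R φ 0 0 c 0 0 := by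
  have h := refl_tbl.1
  simp only [List.map_cons, List.map_nil, List.cons.injEq] at h
  obtain ⟨r1, r2, r3, r4, -⟩ := h
  simp only [R, map_zero, P, Bp, Cp, C.xg_zero, one_mul, mul_one, map_mul,
    n0_conj (show 19 < 24 by omega), n0_conj (show 16 < 24 by omega), n0_conj (show 15 < 24 by omega),
    r2, r3, r4]

theorem n0_A (a : K) : MulAut.conj (n0 : GL chevD4.Idx K) (R φ a 0 0 0 0) = R φ 0 0 0 a 0 := by
  have h := refl_tbl.1
  simp only [List.map_cons, List.map_nil, List.cons.injEq] at h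
  obtain ⟨r1, -⟩ := h
  simp only [R, map_zero, P, Bp, Cp, C.xg_zero, one_mul, mul_one]
  rw [n0_conj (by omega), r1]

theorem C_G (c : K) : R φ 0 0 c 0 0 ∈ twistedD4 K q := by
  rw [← n0_B φ hφ hK c]; exact conj_G φ hφ hK (n0_G φ hφ hK) (B_G φ hφ hK c)

theorem D_G (d : K) (hd : φ d = d) : R φ 0 0 0 d 0 ∈ twistedD4 K q := by
  rw [← n0_A φ hφ hK d]; exact conj_G φ hφ hK (n0_G φ hφ hK) (A_G φ hφ hK d hd)

theorem fixed_coords {a b c d e : K} (h : R φ a b c d e ∈ twistedD4 K q) :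
    φ a = a ∧ φ d = d ∧ φ e = e := by
  rw [D4.eq_fixed φ hφ hK] at h
  have h2 := h.2
  rw [R, act_P] at h2
  obtain ⟨h1, -, -, -, -, -, -, h8, h9⟩ := P_inj h2
  exact ⟨h1, h8, h9⟩

theorem Tr_fixed (x : K) : φ (Tr φ x) = Tr φ x := by
  simp only [Tr, map_add, per φ hφ hK]; ring

theorem N_fixed (x : K) : φ (N φ x) = N φ x := by
  simp only [N, map_mul, per φ hφ hK]; ring

/-- membership in the two classes -/
def Cls (g : GL chevD4.Idx K) : Prop :=
  ∃ h ∈ twistedD4 K q, h * g * h⁻¹ = R φ 0 0 0 0 1 ∨ h * g * h⁻¹ = R φ 0 1 0 0 0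

omit hφ hK in
theorem cls_conj {g h : GL chevD4.Idx K} (hh : h ∈ twistedD4 K q)
    (H : Cls φ (q := q) (MulAut.conj h g)) : Cls φ (q := q) g := by
  obtain ⟨k, hk, e⟩ := H
  refine ⟨k * h, mul_mem hk hh, ?_⟩
  simpa [MulAut.conj_apply, mul_assoc] using e

theorem N_ne {t : K} (ht : t ≠ 0) : N φ t ≠ 0 :=
  mul_ne_zero (mul_ne_zero ht ((map_ne_zero φ).2 ht)) ((map_ne_zero φ).2 ((map_ne_zero φ).2 ht))

theorem scale (a : Kˣ) (u : Kˣ) (hu : φ (u : K) = u) :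
    C.torus (D4.torVec φ a u) ∈ twistedD4 K q ∧
    (∀ b, MulAut.conj (C.torus (D4.torVec φ a u)) (R φ 0 b 0 0 0) =
      R φ 0 ((a : K) * u / (φ a * φ (φ a)) * b) 0 0 0) ∧
    (∀ e, MulAut.conj (C.torus (D4.torVec φ a u)) (R φ 0 0 0 0 e) = R φ 0 0 0 0 (u * e)) := by
  have hper := per φ hφ hK
  refine ⟨?_, ?_, ?_⟩
  · rw [D4.eq_fixed φ hφ hK]
    exact (D4.tw φ).torus_mem_fixed (D4.pinv_spec φ) ((D4.fixed_iff φ hper _).2 ⟨a, u, hu, rfl⟩)
  · intro b
    have ct : [19, 16, 15].map (fun r => [chevD4.cartan 0 r, chevD4.cartan 1 r, chevD4.cartan 2 r,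
        chevD4.cartan 3 r]) = [[1, 1, -1, -1], [-1, 1, 1, -1], [-1, 1, -1, 1]] := by decide +kernel
    simp only [List.map_cons, List.map_nil, List.cons.injEq] at ct
    obtain ⟨⟨a0, a1, a2, a3, -⟩, ⟨b0, b1, b2, b3, -⟩, ⟨c0, c1, c2, c3, -⟩, -⟩ := ct
    have chr : ∀ r, C.chrOf (D4.torVec φ a u) r = (a : K) ^ chevD4.cartan 0 r * (u : K) ^ chevD4.cartan 1 r *
        φ (a : K) ^ chevD4.cartan 2 r * φ (φ (a : K)) ^ chevD4.cartan 3 r := by
      intro r
      rw [Checked.chrOf, Units.coe_prod]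
      trans ∏ i : Fin 4, ([(a : K), u, φ a, φ (φ a)].getD i.1 1) ^ chevD4.cartan i.1 r
      · refine Fintype.prod_equiv (finCongr D4.rank_eq) _ _ fun i => ?_
        rw [Units.val_zpow_eq_zpow_val]
        congr 1
        obtain ⟨i, hi⟩ := i
        have hi' : i < 4 := D4.rank_eq ▸ hi
        interval_cases i <;> simp [D4.torVec, finCongr]
      · rw [Fin.prod_univ_four]; simp
    simp only [R, map_zero, P, Bp, Cp, C.xg_zero, one_mul, mul_one, map_mul, MulAut.conj_apply,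
      C.torus_xg _ (lt_nroots (show 19 < 24 by omega)), C.torus_xg _ (lt_nroots (show 16 < 24 by omega)),
      C.torus_xg _ (lt_nroots (show 15 < 24 by omega)), chr, a0, a1, a2, a3, b0, b1, b2, b3, c0, c1, c2, c3,
      map_div₀, hper, hu]
    congr 1
    · congr 1
      · congr 1; simp [zpow_neg]; field_simp; simp
      · congr 1; simp [zpow_neg]; field_simp; simp
    · congr 1; simp [zpow_neg]; field_simp; simp
  · intro e
    simp only [R, map_zero, P, Bp, Cp, C.xg_zero, one_mul, mul_one, MulAut.conj_apply,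
      C.torus_xg _ (lt_nroots (show 23 < 24 by omega))]
    congr 2
    have ct : chevD4.cartan 0 23 = 0 ∧ chevD4.cartan 1 23 = 1 ∧ chevD4.cartan 2 23 = 0 ∧
        chevD4.cartan 3 23 = 0 := by decide +kernel
    rw [Checked.chrOf, Units.coe_prod, Finset.prod_eq_single (⟨1, D4.rank_eq ▸ (by norm_num)⟩ : Fin chevD4.rank)]
    · simp [ct.2.1, D4.torVec]
    · rintro ⟨i, hi⟩ - hne
      have hi' : i < 4 := D4.rank_eq ▸ hi
      interval_cases i <;> simp_all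
    · simp

theorem cls_short {c : K} (hc : c ≠ 0) : Cls φ (q := q) (R φ 0 c 0 0 0) := by
  obtain ⟨a, ha⟩ := sqrt_exists c⁻¹
  have ha0 : a ≠ 0 := fun h => inv_ne_zero hc (by rw [← ha, h]; simp)
  obtain ⟨hm, hB, -⟩ := scale φ hφ hK (Units.mk0 a ha0) (Units.mk0 (N φ a) (N_ne φ hφ hK ha0))
    (N_fixed φ hφ hK a)
  refine ⟨_, hm, Or.inr ?_⟩
  rw [← MulAut.conj_apply, hB]
  congr 1
  simp only [Units.val_mk0, N]
  have := (map_ne_zero φ).2 ha0
  have := (map_ne_zero φ).2 ((map_ne_zero φ).2 ha0)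
  field_simp
  rw [ha]; field_simp

theorem cls_top {e : K} (he : e ≠ 0) (hfe : φ e = e) : Cls φ (q := q) (R φ 0 0 0 0 e) := by
  obtain ⟨hm, -, hE⟩ := scale φ hφ hK 1 (Units.mk0 e⁻¹ (inv_ne_zero he))
    (by simp [hfe])
  refine ⟨_, hm, Or.inl ?_⟩
  rw [← MulAut.conj_apply, hE]
  simp [inv_mul_cancel₀ he]

omit hφ hK in
theorem conj_invol {g : GL chevD4.Idx K} (h : g * g = 1) (x : GL chevD4.Idx K) :
    MulAut.conj x g * MulAut.conj x g = 1 := by rw [← map_mul, h, map_one]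

omit hφ hK in
theorem conj_ne_one {g : GL chevD4.Idx K} (h : g ≠ 1) (x : GL chevD4.Idx K) : MulAut.conj x g ≠ 1 :=
  fun e => h ((MulAut.conj x).map_eq_one_iff.1 e)

omit hφ hK in
theorem conj_of_invol {g : GL chevD4.Idx K} (hg : g * g = 1) (x : GL chevD4.Idx K) :
    MulAut.conj g x = g * x * g := by
  rw [MulAut.conj_apply, inv_eq_of_mul_eq_one_right hg]

/-- the case of two commuting coordinates -/
theorem cls_ac {a c e : K} (hG : R φ a 0 c 0 e ∈ twistedD4 K q) (hne : R φ a 0 c 0 e ≠ 1) :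
    Cls φ (q := q) (R φ a 0 c 0 e) := by
  obtain ⟨hfa, -, hfe⟩ := fixed_coords φ hφ hK hG
  by_cases hc : c = 0
  · subst hc
    by_cases ha : a = 0
    · subst ha
      have he : e ≠ 0 := by rintro rfl; exact hne (R_zero φ)
      exact cls_top φ hφ hK he hfe
    · have hd : φ (e / a) = e / a := by rw [map_div₀, hfa, hfe]
      have hg : R φ 0 0 0 (e / a) 0 * R φ 0 0 0 (e / a) 0 = 1 := by
        simp [R_mul, Tr, CharTwo.add_self_eq_zero, R_zero]
      refine cls_conj φ (D_G φ hφ hK (e / a) hd) ?_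
      rw [conj_of_invol hg, R_mul, R_mul]
      simp only [Tr, mul_zero, zero_mul, map_zero, zero_add, add_zero, CharTwo.add_self_eq_zero,
        div_mul_cancel₀ e ha]
      refine cls_conj φ (n0_G φ hφ hK) ?_
      rw [n0_A φ hφ hK]
      refine cls_conj φ (n1_G φ hφ hK) ?_
      rw [n1_twentytwo]
      exact cls_top φ hφ hK ha hfa
  · refine cls_conj φ (n0_G φ hφ hK) ?_
    obtain ⟨e1, h1⟩ := n0_R φ a 0 c 0 e
    rw [h1]
    have hN := N_ne φ hφ hK hc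
    obtain ⟨y, hy⟩ := sqrt_exists (a / N φ c)
    have hfy : φ y = y := sq_inj' (by rw [← map_pow, hy, map_div₀, hfa, N_fixed φ hφ hK])
    refine cls_conj φ (S_G φ hφ hK (c * y)) ?_
    obtain ⟨e2, h2⟩ := conj_S φ (per φ hφ hK) (c * y) 0 c 0 a e1 (map_zero φ)
    have hG2 := conj_G φ hφ hK (S_G φ hφ hK (c * y)) (h1 ▸ conj_G φ hφ hK (n0_G φ hφ hK) hG)
    rw [h2] at hG2 ⊢
    have k1 : (0 : K) + φ (c * y) * φ (φ c) + φ (φ (c * y)) * φ c + φ (c * y) * φ (φ (c * y)) * 0 = 0 := by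
      simp only [map_mul, hfy]
      linear_combination CharTwo.add_self_eq_zero (φ c * φ (φ c) * y)
    have k2 : a + Tr φ (c * y * 0) + Tr φ (φ (c * y) * φ (φ (c * y)) * c) + N φ (c * y) * 0 = 0 := by
      have hm : a = y ^ 2 * N φ c := by rw [hy, div_mul_cancel₀ a hN]
      simp only [Tr, map_mul, hfy, mul_zero, map_zero, per φ hφ hK]
      rw [hm, N]
      linear_combination 2 * CharTwo.add_self_eq_zero (y ^ 2 * (c * φ c * φ (φ c)))
    rw [k1, k2, mul_zero, add_zero] at hG2 ⊢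
    obtain ⟨-, -, hfe2⟩ := fixed_coords φ hφ hK hG2
    have hg : R φ 0 0 (e2 / c) 0 0 * R φ 0 0 (e2 / c) 0 0 = 1 := by
      simp [R_mul, Tr, CharTwo.add_self_eq_zero, R_zero]
    refine cls_conj φ (C_G φ hφ hK (e2 / c)) ?_
    rw [conj_of_invol hg, R_mul, R_mul]
    simp only [Tr, mul_zero, zero_mul, map_zero, zero_add, add_zero, CharTwo.add_self_eq_zero,
      div_mul_cancel₀ e2 hc, hfe2]
    exact cls_short φ hφ hK hc

theorem rel {a b c d e : K} (h : R φ a b c d e * R φ a b c d e = 1) : d * a + Tr φ (c * b) = 0 := by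
  rw [R_mul] at h
  have := (R_eq_one φ h).2.2.2.2
  rwa [CharTwo.add_self_eq_zero, zero_add] at this

theorem Tr_of_fixed {x : K} (hx : φ x = x) : Tr φ x = x := by
  simp [Tr, hx, CharTwo.add_self_eq_zero]

/-- involutions of the radical -/
theorem cls_radical {a b c d e : K} (hG : R φ a b c d e ∈ twistedD4 K q)
    (h2 : R φ a b c d e * R φ a b c d e = 1) (hne : R φ a b c d e ≠ 1) :
    Cls φ (q := q) (R φ a b c d e) := by
  obtain ⟨hfa, hfd, -⟩ := fixed_coords φ hφ hK hG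
  have hper := per φ hφ hK
  by_cases ha : a = 0
  · subst ha
    have hT : Tr φ (c * b) = 0 := by simpa using rel φ hφ hK h2
    by_cases hb : b = 0
    · subst hb
      by_cases hc : c = 0
      · subst hc
        refine cls_conj φ (n0_G φ hφ hK) ?_
        obtain ⟨e', h⟩ := n0_R φ 0 0 0 d e
        have hG' := conj_G φ hφ hK (n0_G φ hφ hK) hG
        have hne' := conj_ne_one hne (n0 : GL chevD4.Idx K)
        rw [h] at hG' hne' ⊢
        exact cls_ac φ hφ hK hG' hne'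
      · refine cls_conj φ (S_G φ hφ hK (d / c)) ?_
        obtain ⟨e', h⟩ := conj_S φ hper (d / c) 0 0 c d e (map_zero φ)
        have hG' := conj_G φ hφ hK (S_G φ hφ hK (d / c)) hG
        have hne' := conj_ne_one hne (S φ (d / c))
        rw [h] at hG' hne' ⊢
        rw [div_mul_cancel₀ d hc, Tr_of_fixed φ hφ hK hfd] at hG' hne' ⊢
        simp only [mul_zero, add_zero, map_zero, zero_add, CharTwo.add_self_eq_zero, Tr] at hG' hne' ⊢
        exact cls_ac φ hφ hK hG' hne'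
    · set w := c * b / N φ b with hw
      have hN := N_ne φ hφ hK hb
      have hTw : Tr φ w = 0 := by
        rw [hw, Tr, map_div₀, map_div₀, N_fixed φ hφ hK, N_fixed φ hφ hK, ← add_div, ← add_div]
        rw [Tr] at hT
        rw [hT, zero_div]
      have hww : φ w + φ (φ w) = w := by
        rw [Tr] at hTw
        linear_combination hTw - CharTwo.add_self_eq_zero w
      refine cls_conj φ (S_G φ hφ hK (b * w)) ?_
      obtain ⟨e', h⟩ := conj_S φ hper (b * w) 0 b c d e (map_zero φ)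
      have hG' := conj_G φ hφ hK (S_G φ hφ hK (b * w)) hG
      have hne' := conj_ne_one hne (S φ (b * w))
      rw [h] at hG' hne' ⊢
      have k1 : c + φ (b * w) * φ (φ b) + φ (φ (b * w)) * φ b + φ (b * w) * φ (φ (b * w)) * 0 = 0 := by
        have hb1 := (map_ne_zero φ).2 hb
        have hb2 := (map_ne_zero φ).2 hb1
        have e1 : φ b * φ (φ b) * w = c := by rw [hw, N]; field_simp
        simp only [map_mul]
        linear_combination CharTwo.add_self_eq_zero c + φ b * φ (φ b) * hww + e1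
      rw [k1, mul_zero, add_zero] at hG' hne' ⊢
      set d' := d + Tr φ (b * w * c) + Tr φ (φ (b * w) * φ (φ (b * w)) * b) + N φ (b * w) * 0
      refine cls_conj φ (n0_G φ hφ hK) ?_
      obtain ⟨e'', h'⟩ := n0_R φ 0 b 0 d' e'
      have hG'' := conj_G φ hφ hK (n0_G φ hφ hK) hG'
      have hne'' := conj_ne_one hne' (n0 : GL chevD4.Idx K)
      rw [h'] at hG'' hne'' ⊢
      exact cls_ac φ hφ hK hG'' hne''
  · refine cls_conj φ (S_G φ hφ hK (b / a)) ?_
    obtain ⟨e', h⟩ := conj_S φ hper (b / a) a b c d e hfa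
    have hG' := conj_G φ hφ hK (S_G φ hφ hK (b / a)) hG
    have h2' := conj_invol h2 (S φ (b / a))
    have hne' := conj_ne_one hne (S φ (b / a))
    rw [h] at hG' h2' hne' ⊢
    rw [div_mul_cancel₀ b ha, CharTwo.add_self_eq_zero] at hG' h2' hne' ⊢
    have hd := rel φ hφ hK h2'
    simp only [mul_zero, Tr, map_zero, add_zero, mul_eq_zero, or_iff_left ha] at hd
    rw [show Tr φ ((b / a) * c) = (b / a * c) + φ (b / a * c) + φ (φ (b / a * c)) from rfl] at hG' hne' ⊢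
    simp only [Tr] at hG' hne' ⊢
    rw [hd] at hG' hne' ⊢
    exact cls_ac φ hφ hK hG' hne'

/-- involutions of the unipotent radical of the Borel subgroup -/
theorem cls_of_pos {u : GL chevD4.Idx K} (hu : u ∈ chevD4.posUnipotent K) (hG : u ∈ twistedD4 K q)
    (h2 : u * u = 1) (hne : u ≠ 1) : Cls φ (q := q) u := by
  have hper := per φ hφ hK
  obtain ⟨a, b, b1, b2, c, c1, c2, d, e, t, t1, t2, rfl⟩ := exists_form hu
  obtain ⟨hfa, hfd, hfe, rfl, rfl, rfl, rfl, rfl, rfl⟩ : φ a = a ∧ φ d = d ∧ φ e = e ∧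
      b1 = φ b ∧ b2 = φ (φ b) ∧ c1 = φ c ∧ c2 = φ (φ c) ∧ t1 = φ t ∧ t2 = φ (φ t) := by
    have h := hG
    rw [D4.eq_fixed φ hφ hK] at h
    have hp : ∀ a b0 b1 b2 c0 c1 c2 d e : K, P a b0 b1 b2 c0 c1 c2 d e ∈ chevD4.group K := fun _ _ _ _ _ _ _ _ _ =>
      C.grp_le_group (fun r hr => (closed_Q.pos r hr).1) (P_mem _ _ _ _ _ _ _ _ _)
    have hs : ∀ a b c : K, S3 a b c ∈ chevD4.group K := fun _ _ _ =>
      C.grp_le_group (fun r hr => (closed_S.pos r hr).1) (S3_mem _ _ _)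
    have h3 := h.2
    rw [(D4.tw φ).act_mul (hp _ _ _ _ _ _ _ _ _) (hs _ _ _), act_P, act_S3] at h3
    obtain ⟨eP, eS⟩ := PS_inj h3
    obtain ⟨p1, p2, p3, p4, p5, p6, p7, p8, p9⟩ := P_inj eP
    obtain ⟨q1, q2, q3⟩ := S3_inj eS
    exact ⟨p1, p8, p9, p3.symm, by rw [p3, p4], p6.symm, by rw [p6, p7], q2.symm, by rw [q2, q3]⟩
  change Cls φ (q := q) (R φ a b c d e * S φ t)
  change R φ a b c d e * S φ t * (R φ a b c d e * S φ t) = 1 at h2
  change R φ a b c d e * S φ t ≠ 1 at hne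
  change R φ a b c d e * S φ t ∈ twistedD4 K q at hG
  by_cases ht : t = 0
  · subst ht
    have hS0 : S φ (0 : K) = 1 := by simp [S, S3, C.xg_zero]
    rw [hS0, mul_one] at h2 hne hG ⊢
    exact cls_radical φ hφ hK hG h2 hne
  have hN := N_ne φ hφ hK ht
  have ht1 := (map_ne_zero φ).2 ht
  have ht2 := (map_ne_zero φ).2 ht1
  have hsq : ∀ a b c d e : K, φ a = a → R φ a b c d e * S φ t * (R φ a b c d e * S φ t) = 1 →
      a = 0 ∧ φ t * φ (φ b) + φ (φ t) * φ b = 0 ∧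
        Tr φ (t * c) + Tr φ (φ t * φ (φ t) * b) = 0 := by
    intro a b c d e hfa h
    obtain ⟨e', he⟩ := conj_S φ hper t a b c d e hfa
    have h1 : R φ a b c d e * MulAut.conj (S φ t) (R φ a b c d e) = 1 := by
      rw [conj_of_invol (S_sq φ t)]
      simpa [mul_assoc] using h
    rw [he, R_mul] at h1
    obtain ⟨-, hb, hc, hd, -⟩ := R_eq_one φ h1
    rw [← add_assoc, CharTwo.add_self_eq_zero, zero_add, mul_eq_zero] at hb
    have ha := hb.resolve_left ht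
    subst ha
    simp only [mul_zero, add_zero] at hc hd
    rw [← add_assoc, ← add_assoc, CharTwo.add_self_eq_zero, zero_add] at hc hd
    exact ⟨rfl, hc, hd⟩
  obtain ⟨rfl, hbb, -⟩ := hsq a b c d e hfa h2
  set z := b / t with hz
  have hfz : φ z = z := by
    have e0 : φ z = φ (φ z) := by
      rw [hz]; simp only [map_div₀]
      rw [div_eq_div_iff ht1 ht2]
      linear_combination hbb - CharTwo.add_self_eq_zero (φ t * φ (φ b))
    have := congrArg (fun x => φ (φ x)) e0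
    simp only [hper] at this
    exact this.symm
  have hA := A_G φ hφ hK z hfz
  have hgA : R φ z 0 0 0 0 * R φ z 0 0 0 0 = 1 := by
    simp [R_mul, Tr, CharTwo.add_self_eq_zero, R_zero]
  refine cls_conj φ hA ?_
  obtain ⟨c', d', e', h6⟩ : ∃ c' d' e', MulAut.conj (R φ z 0 0 0 0) (R φ 0 b c d e * S φ t) =
      R φ 0 0 c' d' e' * S φ t := by
    obtain ⟨e7, h7⟩ := conj_S φ hper t z 0 0 0 0 hfz
    have hq : MulAut.conj (R φ z 0 0 0 0) (R φ 0 b c d e * S φ t) =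
        R φ z 0 0 0 0 * R φ 0 b c d e * MulAut.conj (S φ t) (R φ z 0 0 0 0) * S φ t := by
      rw [conj_of_invol hgA, MulAut.conj_apply]
      simp [mul_assoc]
    refine ⟨?c6, ?d6, ?e6, ?h6⟩
    rotate_left 3
    rw [hq, h7, R_mul, R_mul]
    have htz : z + 0 + z = 0 ∧ 0 + b + (0 + t * z) = 0 := by
      refine ⟨by rw [add_zero, CharTwo.add_self_eq_zero], ?_⟩
      simp [hz, mul_div_cancel₀ b ht, CharTwo.add_self_eq_zero]
    rw [htz.1, htz.2]
  have hG1 := conj_G φ hφ hK hA hG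
  have h21 := conj_invol h2 (R φ z 0 0 0 0)
  have hne1 := conj_ne_one hne (R φ z 0 0 0 0)
  rw [h6] at hG1 h21 hne1 ⊢
  obtain ⟨-, -, hT⟩ := hsq 0 0 c' d' e' (map_zero φ) h21
  simp only [mul_zero, Tr, map_zero, add_zero] at hT
  set w := t * c' / N φ t with hw
  have hww : φ w + φ (φ w) = w := by
    have : w + φ w + φ (φ w) = 0 := by
      rw [hw, map_div₀, map_div₀, N_fixed φ hφ hK, N_fixed φ hφ hK, ← add_div, ← add_div, hT, zero_div]
    linear_combination this - CharTwo.add_self_eq_zero w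
  have hgB : R φ 0 (t * w) 0 0 0 * R φ 0 (t * w) 0 0 0 = 1 := by
    simp [R_mul, Tr, CharTwo.add_self_eq_zero, R_zero]
  refine cls_conj φ (B_G φ hφ hK (t * w)) ?_
  obtain ⟨d'', e'', h7⟩ : ∃ d'' e'', MulAut.conj (R φ 0 (t * w) 0 0 0) (R φ 0 0 c' d' e' * S φ t) =
      R φ 0 0 0 d'' e'' * S φ t := by
    obtain ⟨e7, h7⟩ := conj_S φ hper t 0 (t * w) 0 0 0 (map_zero φ)
    have hq : MulAut.conj (R φ 0 (t * w) 0 0 0) (R φ 0 0 c' d' e' * S φ t) =
        R φ 0 (t * w) 0 0 0 * R φ 0 0 c' d' e' * MulAut.conj (S φ t) (R φ 0 (t * w) 0 0 0) * S φ t := by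
      rw [conj_of_invol hgB, MulAut.conj_apply]
      simp [mul_assoc]
    refine ⟨?d7, ?e7, ?h7⟩
    rotate_left 2
    rw [hq, h7, R_mul, R_mul]
    have k : (0 : K) + 0 + 0 = 0 ∧ t * w + 0 + (t * w + t * 0) = 0 ∧
        0 + c' + (0 + φ t * φ (φ (t * w)) + φ (φ t) * φ (t * w) + φ t * φ (φ t) * 0) = 0 := by
      refine ⟨by simp, by simp [CharTwo.add_self_eq_zero], ?_⟩
      have e1 : φ t * φ (φ t) * w = c' := by rw [hw, N]; field_simp
      simp only [map_mul]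
      linear_combination CharTwo.add_self_eq_zero c' + φ t * φ (φ t) * hww + e1
    rw [k.1, k.2.1, k.2.2]
  have hG2 := conj_G φ hφ hK (B_G φ hφ hK (t * w)) hG1
  have h22 := conj_invol h21 (R φ 0 (t * w) 0 0 0)
  have hne2 := conj_ne_one hne1 (R φ 0 (t * w) 0 0 0)
  rw [h7] at hG2 h22 hne2 ⊢
  have hfd'' : φ d'' = d'' := by
    have hS : R φ 0 0 0 d'' e'' ∈ twistedD4 K q := by
      simpa [mul_assoc, S_sq] using mul_mem hG2 (S_G φ hφ hK t)
    exact (fixed_coords φ hφ hK hS).2.1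
  have hgC : R φ 0 0 (d'' / t) 0 0 * R φ 0 0 (d'' / t) 0 0 = 1 := by
    simp [R_mul, Tr, CharTwo.add_self_eq_zero, R_zero]
  refine cls_conj φ (C_G φ hφ hK (d'' / t)) ?_
  obtain ⟨e3, h8⟩ : ∃ e3, MulAut.conj (R φ 0 0 (d'' / t) 0 0) (R φ 0 0 0 d'' e'' * S φ t) =
      R φ 0 0 0 0 e3 * S φ t := by
    obtain ⟨e7, h7⟩ := conj_S φ hper t 0 0 (d'' / t) 0 0 (map_zero φ)
    have hq : MulAut.conj (R φ 0 0 (d'' / t) 0 0) (R φ 0 0 0 d'' e'' * S φ t) =
        R φ 0 0 (d'' / t) 0 0 * R φ 0 0 0 d'' e'' * MulAut.conj (S φ t) (R φ 0 0 (d'' / t) 0 0) * S φ t := by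
      rw [conj_of_invol hgC, MulAut.conj_apply]
      simp [mul_assoc]
    refine ⟨?e8, ?h8⟩
    rotate_left 1
    rw [hq, h7, R_mul, R_mul, mul_div_cancel₀ d'' ht, Tr_of_fixed φ hφ hK hfd'']
    simp only [mul_zero, map_zero, Tr, zero_add, add_zero, CharTwo.add_self_eq_zero]
    rfl
  have hG3 := conj_G φ hφ hK (C_G φ hφ hK (d'' / t)) hG2
  have h23 := conj_invol h22 (R φ 0 0 (d'' / t) 0 0)
  have hne3 := conj_ne_one hne2 (R φ 0 0 (d'' / t) 0 0)
  rw [h8] at hG3 h23 hne3 ⊢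
  refine cls_conj φ (n1_G φ hφ hK) ?_
  have e1 : MulAut.conj (n1 : GL chevD4.Idx K) (R φ 0 0 0 0 e3 * S φ t) = R φ 0 t 0 e3 0 := by
    rw [map_mul, n1_top, n1_S, R_mul]
    simp [Tr]
  have hG4 := conj_G φ hφ hK (n1_G φ hφ hK) hG3
  have h24 := conj_invol h23 (n1 : GL chevD4.Idx K)
  have hne4 := conj_ne_one hne3 (n1 : GL chevD4.Idx K)
  rw [e1] at hG4 h24 hne4 ⊢
  exact cls_radical φ hφ hK hG4 h24 hne4

/-- every involution of the group is in one of the two classes -/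
theorem cls_of_group {g : GL chevD4.Idx K} (hg : g ∈ twistedD4 K q) (h2 : g * g = 1) (hne : g ≠ 1) :
    Cls φ (q := q) g := by
  classical
  have : Fact (Nat.Prime 2) := ⟨Nat.prime_two⟩
  have hq2 : 2 ≤ q := by
    by_contra hh
    have : Fintype.card K ≤ 1 := by rw [hK]; exact Nat.pow_le_one_iff (by norm_num) |>.2 (by omega)
    exact absurd (Fintype.one_lt_card (α := K)) (by omega)
  let G := ↥(twistedD4 K q)
  let U : Subgroup G := (chevD4.posUnipotent K ⊓ twistedD4 K q).subgroupOf (twistedD4 K q)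
  have hodd : ¬ 2 ∣ Nat.card (G ⧸ U) := by
    rw [← Subgroup.index_eq_card]
    have hU : Nat.card U = q ^ 12 := by
      rw [Nat.card_congr (Subgroup.subgroupOfEquivOfLe inf_le_right).toEquiv,
        D4.card_unipotent φ hφ (by omega) hK]
    have hG := D4.card_twisted φ hφ hq2 hK
    have e := Subgroup.card_mul_index U
    rw [hU] at e
    rw [← e, mul_assoc, mul_assoc] at hG
    have hi := Nat.eq_of_mul_eq_mul_left (by positivity) hG
    rw [hi]
    have heven : Even q := by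
      have h8 : Even (q ^ 3) := hK ▸ Nat.even_iff.2 (FiniteField.even_card_of_char_two (ringChar.eq K 2))
      exact (Nat.even_pow.1 h8).1
    have ho : ∀ n, n ≠ 0 → Odd (q ^ n - 1) := fun n hn =>
      Nat.Even.sub_odd (Nat.one_le_pow _ _ (by omega)) (heven.pow_of_ne_zero hn) odd_one
    have h3 : Odd (q ^ 8 + q ^ 4 + 1) :=
      ((heven.pow_of_ne_zero (by omega)).add (heven.pow_of_ne_zero (by omega))).add_one
    exact fun h => Nat.not_even_iff_odd.2 ((ho 2 (by omega)).mul ((ho 6 (by omega)).mul h3))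
      (even_iff_two_dvd.2 h)
  have hord : orderOf (⟨g, hg⟩ : G) = 2 := orderOf_eq_prime (Subtype.ext (by simp [pow_two, h2]))
    (fun e => hne (congrArg Subtype.val e))
  have hP : IsPGroup 2 (Subgroup.zpowers (⟨g, hg⟩ : G)) := IsPGroup.of_card (n := 1) (by
    rw [Nat.card_zpowers, hord, pow_one])
  obtain ⟨a, ha⟩ := hP.nonempty_fixed_point_of_prime_not_dvd_card (G ⧸ U) hodd
  induction a using QuotientGroup.induction_on with
  | _ k =>
    have hfix := ha ⟨⟨g, hg⟩, Subgroup.mem_zpowers _⟩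
    change (QuotientGroup.mk ((⟨g, hg⟩ : G) * k) : G ⧸ U) = QuotientGroup.mk k at hfix
    rw [eq_comm, QuotientGroup.eq, ← mul_assoc] at hfix
    have hc := Subgroup.mem_inf.1 (Subgroup.mem_subgroupOf.1 hfix)
    refine cls_conj φ (inv_mem k.2) ?_
    have e : MulAut.conj ((k : GL chevD4.Idx K)⁻¹) g = (k : GL chevD4.Idx K)⁻¹ * g * k := by
      rw [MulAut.conj_apply, inv_inv]
    refine cls_of_pos φ hφ hK (e ▸ hc.1) (e ▸ hc.2) (conj_invol h2 _) (conj_ne_one hne _)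

omit hφ hK in
/-- the two classes differ -/
theorem not_conj {h : GL chevD4.Idx K} (hh : h ∈ chevD4.group K) :
    h * R φ 0 0 0 0 1 * h⁻¹ ≠ R φ 0 1 0 0 0 := by
  intro heq
  obtain ⟨b, hb, n, hn, u, hu, rfl⟩ := C.exists_bnu hh
  obtain ⟨v, hv, dd, hdd, rfl⟩ := C.mem_borel.1 hb
  have e23 : R φ (0 : K) 0 0 0 1 = C.xg 23 1 := by simp [R, P, Bp, Cp, C.xg_zero]
  rw [e23] at heq
  have hc : ∀ w ∈ grp chevD4 K (C.inv n), w * C.xg 23 (1 : K) * w⁻¹ = C.xg 23 1 := by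
    intro w hw
    have hle : grp chevD4 K (C.inv n) ≤ Subgroup.centralizer {C.xg 23 (1 : K)} := by
      refine C.grp_le fun r hr t => Subgroup.mem_centralizer_singleton_iff.2 ?_
      have h : ∀ r < 24, chevD4.IsPosRoot r →
          r < 24 ∧ 23 < 24 ∧ 23 ≠ chevD4.neg r ∧ oddT r 23 = [] := by decide +kernel
      exact comm_nil (h r (nroots_eq ▸ hr.1.1) hr.1) t 1
    rw [Subgroup.mem_centralizer_singleton_iff.1 (hle hw), mul_inv_cancel_right]
  obtain ⟨k, hk, hkc⟩ := C.sg_conj hn (lt_nroots (show 23 < 24 by omega))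
  obtain ⟨χ, hχ, eχ⟩ := C.exists_chr hdd
  set ρ := C.sg n 23 with hρ
  have hρ24 : ρ < 24 := nroots_eq ▸ C.sg_lt hn (lt_nroots (show 23 < 24 by omega))
  have hY : v * C.xg ρ (χ ρ * (k * 1)) * v⁻¹ = R φ 0 1 0 0 0 := by
    rw [← heq, ← C.conj_xg_of_dg hχ eχ (lt_nroots hρ24), ← hkc]
    conv_rhs => rw [show v * dd * n * u * C.xg 23 1 * (v * dd * n * u)⁻¹ =
      v * dd * n * (u * C.xg 23 1 * u⁻¹) * n⁻¹ * dd⁻¹ * v⁻¹ by group, hc u hu]
    group
  set c := χ ρ * (k * 1) with hc'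
  have hc0 : c ≠ 0 := mul_ne_zero (hχ.ne ρ (lt_nroots hρ24)) (mul_ne_zero hk one_ne_zero)
  have hYpos : R φ (0 : K) 1 0 0 0 ∈ chevD4.posUnipotent K := by
    rw [posUnipotent_eq]
    exact grp_mem_mono (P_mem _ _ _ _ _ _ _ _ _) fun r hr => closed_Q.pos r hr
  have hpn : chevD4.IsPosRoot ρ := by
    by_contra hnp
    have hneg : chevD4.IsNegRoot ρ := by
      have h : ∀ r < 24, ¬ chevD4.IsPosRoot r → chevD4.IsNegRoot r := by decide +kernel
      exact h ρ hρ24 hnp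
    have hm : C.xg ρ c ∈ chevD4.borelSubgroup K ⊓ chevD4.negUnipotent K := by
      refine Subgroup.mem_inf.2 ⟨?_, C.xg_mem_neg hneg c⟩
      have : C.xg ρ c = v⁻¹ * R φ 0 1 0 0 0 * v := by rw [← hY]; group
      rw [this]
      exact C.mem_borel.2 ⟨_, mul_mem (mul_mem (inv_mem hv) hYpos) hv, 1, one_mem _, (mul_one _).symm⟩
    rw [C.borel_inf_neg, Subgroup.mem_bot] at hm
    exact hc0 (C.xg_eq_one (lt_nroots hρ24) hm)
  obtain ⟨a', p0, p1, p2, q0, q1, q2, d', e', s0, s1, s2, rfl⟩ := exists_form hv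
  set p := P a' p0 p1 p2 q0 q1 q2 d' e'
  have hpinv : p⁻¹ = P a' p0 p1 p2 q0 q1 q2 d' (e' + d' * a' + (q0 * p0 + q1 * p1 + q2 * p2)) := by
    refine inv_eq_of_mul_eq_one_right ?_
    rw [P_mul]
    simp only [CharTwo.add_self_eq_zero]
    rw [show e' + (e' + d' * a' + (q0 * p0 + q1 * p1 + q2 * p2)) + d' * a' + (q0 * p0 + q1 * p1 + q2 * p2) = 0
      by linear_combination CharTwo.add_self_eq_zero e' + CharTwo.add_self_eq_zero (d' * a') +
        CharTwo.add_self_eq_zero (q0 * p0 + q1 * p1 + q2 * p2), P_zero]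
  have hposList : ∀ r < 24, chevD4.IsPosRoot r → r ∈ [14, 15, 16, 17, 19, 20, 21, 22, 23] ∨ r ∈ [12, 13, 18] := by
    decide +kernel
  rcases hposList ρ hρ24 hpn with hr | hr
  · obtain ⟨a0, b00, b01, b02, c00, c01, c02, d0, e0, hform, hz⟩ : ∃ a0 b00 b01 b02 c00 c01 c02 d0 e0 : K,
        C.xg ρ c = P a0 b00 b01 b02 c00 c01 c02 d0 e0 ∧
          (a0 ≠ 0 ∨ (a0 = 0 ∧ (b00 = 0 ∨ b01 = 0))) := by
      simp only [List.mem_cons, List.not_mem_nil, or_false] at hr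
      obtain ⟨s1, s2, s3, s4, s5, s6, s7, s8, s9⟩ := singles c
      rcases hr with h | h | h | h | h | h | h | h | h <;> rw [h]
      · exact ⟨_, _, _, _, _, _, _, _, _, s1, Or.inl hc0⟩
      · exact ⟨_, _, _, _, _, _, _, _, _, s4, Or.inr ⟨rfl, Or.inl rfl⟩⟩
      · exact ⟨_, _, _, _, _, _, _, _, _, s3, Or.inr ⟨rfl, Or.inl rfl⟩⟩
      · exact ⟨_, _, _, _, _, _, _, _, _, s5, Or.inr ⟨rfl, Or.inl rfl⟩⟩
      · exact ⟨_, _, _, _, _, _, _, _, _, s2, Or.inr ⟨rfl, Or.inr rfl⟩⟩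
      · exact ⟨_, _, _, _, _, _, _, _, _, s6, Or.inr ⟨rfl, Or.inl rfl⟩⟩
      · exact ⟨_, _, _, _, _, _, _, _, _, s7, Or.inr ⟨rfl, Or.inl rfl⟩⟩
      · exact ⟨_, _, _, _, _, _, _, _, _, s8, Or.inr ⟨rfl, Or.inl rfl⟩⟩
      · exact ⟨_, _, _, _, _, _, _, _, _, s9, Or.inr ⟨rfl, Or.inl rfl⟩⟩
    obtain ⟨e1, h1⟩ := conj_S3 s0 s1 s2 a0 b00 b01 b02 c00 c01 c02 d0 e0
    have hY' : p * MulAut.conj (S3 s0 s1 s2) (C.xg ρ c) * p⁻¹ = R φ 0 1 0 0 0 := by
      rw [← hY, MulAut.conj_apply]; group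
    rw [hform, h1, hpinv, P_mul, P_mul, R] at hY'
    obtain ⟨ea, eb0, eb1, -⟩ := P_inj hY'
    have hcc : ∀ x y : K, x + y + x = y := fun x y => by
      linear_combination CharTwo.add_self_eq_zero x
    rw [hcc] at ea eb0 eb1
    rcases hz with hz | ⟨hz0, hz⟩
    · exact hz ea
    · subst hz0
      rw [mul_zero, add_zero] at eb0 eb1
      rcases hz with hz | hz
      · exact one_ne_zero (eb0.symm.trans hz)
      · rw [hz, map_one] at eb1; exact one_ne_zero eb1.symm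
  · obtain ⟨t0, t1, t2, hform, hz⟩ : ∃ t0 t1 t2 : K, C.xg ρ c = S3 t0 t1 t2 ∧
        (t0 ≠ 0 ∨ t1 ≠ 0 ∨ t2 ≠ 0) := by
      simp only [List.mem_cons, List.not_mem_nil, or_false] at hr
      rcases hr with h | h | h <;> rw [h]
      · exact ⟨0, 0, c, by simp [S3, C.xg_zero], Or.inr (Or.inr hc0)⟩
      · exact ⟨0, c, 0, by simp [S3, C.xg_zero], Or.inr (Or.inl hc0)⟩
      · exact ⟨c, 0, 0, by simp [S3, C.xg_zero], Or.inl hc0⟩
    obtain ⟨e1, h1⟩ := conj_S3 t0 t1 t2 a' p0 p1 p2 q0 q1 q2 d'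
      (e' + d' * a' + (q0 * p0 + q1 * p1 + q2 * p2))
    have hcomm : S3 s0 s1 s2 * S3 t0 t1 t2 * (S3 s0 s1 s2)⁻¹ = S3 t0 t1 t2 := by
      rw [S3_mul, add_comm s0, add_comm s1, add_comm s2, ← S3_mul, mul_inv_cancel_right]
    have hY' : p * MulAut.conj (S3 t0 t1 t2) p⁻¹ * S3 t0 t1 t2 = R φ 0 1 0 0 0 * S3 0 0 0 := by
      rw [show S3 (0 : K) 0 0 = 1 by simp [S3, C.xg_zero], mul_one, ← hY, hform, MulAut.conj_apply]
      conv_rhs => rw [show p * S3 s0 s1 s2 * S3 t0 t1 t2 * (p * S3 s0 s1 s2)⁻¹ =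
        p * (S3 s0 s1 s2 * S3 t0 t1 t2 * (S3 s0 s1 s2)⁻¹) * p⁻¹ by group, hcomm]
      group
    rw [hpinv, h1, P_mul, R] at hY'
    obtain ⟨q0', q1', q2'⟩ := S3_inj (PS_inj hY').2
    rcases hz with hz | hz | hz
    exacts [hz q0', hz q1', hz q2']

end Cfsg.Agent.Lib.Chev.D4Even
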