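import Cfsg.Agent.Lib.Chev.TwistOrder
import Cfsg.Agent.Lib.Chev.RootCent
import Cfsg.Agent.Lib.Chev.InvolMono

/-!
The radical of the middle maximal parabolic subgroup of `D₄(K)`, `char K = 2`, in coordinates, and the
action on it of the root elements of the other three nodes.
-/

set_option autoImplicit false

namespace Cfsg.Agent.Lib.Chev.D4Even

open Cfsg.Lie Cfsg.Agent.Lib Cfsg.Agent.Lib.Chev

variable {K : Type*} [Field K]

abbrev C : Checked chevD4 D4.fast := D4.checked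

theorem nroots_eq : chevD4.nroots = 24 := by decide +kernel

theorem lt_nroots {r : ℕ} (hr : r < 24) : r < chevD4.nroots := nroots_eq ▸ hr

/-- the commutator terms with odd coefficient -/
def oddT (r s : ℕ) : List (ℕ × ℕ × ℕ) :=
  ((D4.fast.commT r s).filter fun c => !(Nat.beq (c.2.1.natAbs % 2) 0)).map fun c => (c.1, c.2.2.1, c.2.2.2)

variable [CharP K 2]

theorem xg_sq {r : ℕ} (hr : r < 24) (t : K) : C.xg r t * C.xg r t = 1 := by
  rw [C.xg_add (lt_nroots hr), CharTwo.add_self_eq_zero, C.xg_zero]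

theorem xg_add' {r : ℕ} (hr : r < 24) (t u : K) : C.xg r t * C.xg r u = C.xg r (t + u) :=
  C.xg_add (lt_nroots hr) t u

/-- conjugation by a root element -/
theorem conj_odd {r s : ℕ} (hr : r < 24) (hs : s < 24) (hrs : s ≠ r) (hneg : s ≠ chevD4.neg r) (t u : K) :
    MulAut.conj (C.xg r t) (C.xg s u) =
      C.xg s u * C.wg ((oddT r s).map fun c => (c.1, t ^ c.2.1 * u ^ c.2.2)) := by
  have h1 : C.wg (chevD4.commWord K r s t u) =
      C.wg ((oddT r s).map fun c => (c.1, t ^ c.2.1 * u ^ c.2.2)) := by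
    have key : ∀ l : List (ℕ × ℤ × ℕ × ℕ),
        C.wg (l.map fun c => (c.1, (c.2.1 : K) * (-t) ^ c.2.2.1 * u ^ c.2.2.2)) =
        C.wg (((l.filter fun c => !(Nat.beq (c.2.1.natAbs % 2) 0)).map fun c =>
          (c.1, c.2.2.1, c.2.2.2)).map fun c => (c.1, t ^ c.2.1 * u ^ c.2.2)) := by
      intro l
      induction l with
      | nil => rfl
      | cons q l ih =>
        rw [List.map_cons, C.wg_cons, ih, Checked.intCast_of_parity (F := K) q.2.1, CharTwo.neg_eq]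
        cases hb : Nat.beq (q.2.1.natAbs % 2) 0
        · rw [List.filter_cons_of_pos (by simp [hb]), List.map_cons, List.map_cons, C.wg_cons]; simp
        · rw [List.filter_cons_of_neg (by simp [hb])]; simp [C.xg_zero]
    rw [ChevalleyDatum.commWord, key, ← C.commT_eq (lt_nroots hr) (lt_nroots hs), oddT]
  have h2 := C.comm (lt_nroots hr) (lt_nroots hs) hrs hneg t u
  rw [MulAut.conj_apply, C.xg_inv, CharTwo.neg_eq, mul_assoc, h2, ← mul_assoc, ← mul_assoc, xg_sq hr,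
    one_mul, h1]

theorem comm_nil {r s : ℕ} (h : r < 24 ∧ s < 24 ∧ s ≠ chevD4.neg r ∧ oddT r s = []) (t u : K) :
    C.xg r t * C.xg s u = C.xg s u * C.xg r t := by
  obtain ⟨hr, hs, hneg, h⟩ := h
  by_cases hrs : s = r
  · subst hrs; rw [xg_add' hr, xg_add' hr, add_comm]
  have := conj_odd hr hs hrs hneg t u
  rw [h, List.map_nil, C.wg_nil, mul_one, MulAut.conj_apply, mul_inv_eq_iff_eq_mul] at this
  exact this

theorem comm_one {r s : ℕ} (h : r < 24 ∧ s < 24 ∧ s ≠ r ∧ s ≠ chevD4.neg r ∧ oddT r s = [(23, 1, 1)])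
    (t u : K) : C.xg r t * C.xg s u = C.xg s u * C.xg 23 (t * u) * C.xg r t := by
  obtain ⟨hr, hs, hrs, hneg, h⟩ := h
  have := conj_odd hr hs hrs hneg t u
  rw [h, MulAut.conj_apply, mul_inv_eq_iff_eq_mul] at this
  simpa [C.wg_cons, C.wg_nil] using this

theorem tbl_Q : ∀ r ∈ [14, 15, 16, 17, 19, 20, 21, 22, 23], ∀ s ∈ [14, 15, 16, 17, 19, 20, 21, 22, 23],
    r + s ≠ 36 → r < 24 ∧ s < 24 ∧ s ≠ chevD4.neg r ∧ oddT r s = [] := by
  decide +kernel

theorem tbl_pair : ∀ p ∈ [(22, 14), (17, 19), (20, 16), (21, 15)],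
    p.1 < 24 ∧ p.2 < 24 ∧ p.2 ≠ p.1 ∧ p.2 ≠ chevD4.neg p.1 ∧ oddT p.1 p.2 = [(23, 1, 1)] := by
  decide +kernel

theorem commute_Q {r s : ℕ} (hr : r ∈ [14, 15, 16, 17, 19, 20, 21, 22, 23])
    (hs : s ∈ [14, 15, 16, 17, 19, 20, 21, 22, 23]) (h : r + s ≠ 36) (t u : K) :
    Commute (C.xg r t) (C.xg s u) := comm_nil (tbl_Q r hr s hs h) t u

/-- the part on the roots `19, 16, 15` -/
def Bp (b0 b1 b2 : K) : GL chevD4.Idx K := C.xg 19 b0 * C.xg 16 b1 * C.xg 15 b2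
/-- the part on the roots `17, 20, 21` -/
def Cp (c0 c1 c2 : K) : GL chevD4.Idx K := C.xg 17 c0 * C.xg 20 c1 * C.xg 21 c2

/-- elements of the radical -/
def P (a b0 b1 b2 c0 c1 c2 d e : K) : GL chevD4.Idx K :=
  C.xg 14 a * Bp b0 b1 b2 * Cp c0 c1 c2 * C.xg 22 d * C.xg 23 e

theorem Bp_mul (b0 b1 b2 b0' b1' b2' : K) :
    Bp b0 b1 b2 * Bp b0' b1' b2' = Bp (b0 + b0') (b1 + b1') (b2 + b2') := by
  have h1 := fun t u : K => commute_Q (r := 16) (s := 19) (by simp) (by simp) (by omega) t u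
  have h2 := fun t u : K => commute_Q (r := 15) (s := 19) (by simp) (by simp) (by omega) t u
  have h3 := fun t u : K => commute_Q (r := 15) (s := 16) (by simp) (by simp) (by omega) t u
  calc Bp b0 b1 b2 * Bp b0' b1' b2'
      = C.xg 19 b0 * C.xg 16 b1 * (C.xg 15 b2 * C.xg 19 b0') * C.xg 16 b1' * C.xg 15 b2' := by
        simp only [Bp, mul_assoc]
    _ = C.xg 19 b0 * (C.xg 16 b1 * C.xg 19 b0') * (C.xg 15 b2 * C.xg 16 b1') * C.xg 15 b2' := by
        rw [(h2 _ _).eq]; simp only [mul_assoc]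
    _ = (C.xg 19 b0 * C.xg 19 b0') * (C.xg 16 b1 * C.xg 16 b1') * (C.xg 15 b2 * C.xg 15 b2') := by
        rw [(h1 _ _).eq, (h3 _ _).eq]; simp only [mul_assoc]
    _ = Bp (b0 + b0') (b1 + b1') (b2 + b2') := by
        rw [xg_add' (by omega), xg_add' (by omega), xg_add' (by omega), Bp]

theorem Cp_mul (b0 b1 b2 b0' b1' b2' : K) :
    Cp b0 b1 b2 * Cp b0' b1' b2' = Cp (b0 + b0') (b1 + b1') (b2 + b2') := by
  have h1 := fun t u : K => commute_Q (r := 20) (s := 17) (by simp) (by simp) (by omega) t u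
  have h2 := fun t u : K => commute_Q (r := 21) (s := 17) (by simp) (by simp) (by omega) t u
  have h3 := fun t u : K => commute_Q (r := 21) (s := 20) (by simp) (by simp) (by omega) t u
  calc Cp b0 b1 b2 * Cp b0' b1' b2'
      = C.xg 17 b0 * C.xg 20 b1 * (C.xg 21 b2 * C.xg 17 b0') * C.xg 20 b1' * C.xg 21 b2' := by
        simp only [Cp, mul_assoc]
    _ = C.xg 17 b0 * (C.xg 20 b1 * C.xg 17 b0') * (C.xg 21 b2 * C.xg 20 b1') * C.xg 21 b2' := by
        rw [(h2 _ _).eq]; simp only [mul_assoc]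
    _ = (C.xg 17 b0 * C.xg 17 b0') * (C.xg 20 b1 * C.xg 20 b1') * (C.xg 21 b2 * C.xg 21 b2') := by
        rw [(h1 _ _).eq, (h3 _ _).eq]; simp only [mul_assoc]
    _ = Cp (b0 + b0') (b1 + b1') (b2 + b2') := by
        rw [xg_add' (by omega), xg_add' (by omega), xg_add' (by omega), Cp]

theorem commute_Bp {r : ℕ} (hr : r ∈ [14, 15, 16, 17, 19, 20, 21, 22, 23]) (h : r + 19 ≠ 36)
    (h' : r + 16 ≠ 36) (h'' : r + 15 ≠ 36) (t b0 b1 b2 : K) : Commute (C.xg r t) (Bp b0 b1 b2) :=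
  ((commute_Q hr (by simp) h t b0).mul_right (commute_Q hr (by simp) h' t b1)).mul_right
    (commute_Q hr (by simp) h'' t b2)

theorem commute_Cp {r : ℕ} (hr : r ∈ [14, 15, 16, 17, 19, 20, 21, 22, 23]) (h : r + 17 ≠ 36)
    (h' : r + 20 ≠ 36) (h'' : r + 21 ≠ 36) (t b0 b1 b2 : K) : Commute (C.xg r t) (Cp b0 b1 b2) :=
  ((commute_Q hr (by simp) h t b0).mul_right (commute_Q hr (by simp) h' t b1)).mul_right
    (commute_Q hr (by simp) h'' t b2)

theorem Cp_Bp (c0 c1 c2 b0 b1 b2 : K) :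
    Cp c0 c1 c2 * Bp b0 b1 b2 = Bp b0 b1 b2 * Cp c0 c1 c2 * C.xg 23 (c0 * b0 + c1 * b1 + c2 * b2) := by
  have z := fun (r : ℕ) (hr : r ∈ [15, 16, 17, 19, 20, 21]) (t u : K) => (commute_Q (r := 23) (s := r)
    (by simp) (by simp only [List.mem_cons, List.not_mem_nil, or_false] at hr ⊢; omega)
    (by simp only [List.mem_cons, List.not_mem_nil, or_false] at hr; omega) t u).eq
  have p := fun (r s : ℕ) (h : (r, s) ∈ [(22, 14), (17, 19), (20, 16), (21, 15)]) (t u : K) =>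
    comm_one (tbl_pair (r, s) h) t u
  have k := fun (r s : ℕ) (hr : r ∈ [14, 15, 16, 17, 19, 20, 21, 22, 23])
    (hs : s ∈ [14, 15, 16, 17, 19, 20, 21, 22, 23]) (h : r + s ≠ 36) (t u : K) => (commute_Q hr hs h t u).eq
  calc Cp c0 c1 c2 * Bp b0 b1 b2
      = C.xg 17 c0 * C.xg 20 c1 * (C.xg 21 c2 * C.xg 19 b0) * C.xg 16 b1 * C.xg 15 b2 := by
        simp only [Cp, Bp, mul_assoc]
    _ = C.xg 17 c0 * (C.xg 20 c1 * C.xg 19 b0) * (C.xg 21 c2 * C.xg 16 b1) * C.xg 15 b2 := by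
        rw [k 21 19 (by simp) (by simp) (by omega)]; simp only [mul_assoc]
    _ = (C.xg 17 c0 * C.xg 19 b0) * (C.xg 20 c1 * C.xg 16 b1) * (C.xg 21 c2 * C.xg 15 b2) := by
        rw [k 20 19 (by simp) (by simp) (by omega), k 21 16 (by simp) (by simp) (by omega)]
        simp only [mul_assoc]
    _ = C.xg 19 b0 * C.xg 17 c0 * (C.xg 16 b1 * C.xg 20 c1) * (C.xg 15 b2 * C.xg 21 c2) *
          C.xg 23 (c0 * b0 + c1 * b1 + c2 * b2) := by
        rw [p 17 19 (by simp), p 20 16 (by simp), p 21 15 (by simp)]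
        simp only [mul_assoc]
        rw [← mul_assoc (C.xg 23 (c0 * b0)), z 17 (by simp), mul_assoc]
        congr 2
        simp only [← mul_assoc]
        rw [← xg_add' (show 23 < 24 by omega) (c0 * b0 + c1 * b1),
          ← xg_add' (show 23 < 24 by omega) (c0 * b0)]
        simp only [mul_assoc]
        rw [← mul_assoc (C.xg 23 (c0 * b0)), z 16 (by simp), mul_assoc]
        congr 1
        rw [← mul_assoc (C.xg 23 (c1 * b1)), z 20 (by simp), mul_assoc,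
          ← mul_assoc (C.xg 23 (c0 * b0)), z 20 (by simp), mul_assoc]
        congr 1
        rw [← mul_assoc (C.xg 23 (c1 * b1)), z 15 (by simp), mul_assoc,
          ← mul_assoc (C.xg 23 (c0 * b0)), z 15 (by simp), mul_assoc]
        congr 1
        rw [z 21 (by simp) (c2 * b2),
          ← mul_assoc (C.xg 23 (c1 * b1)), z 21 (by simp), mul_assoc,
          ← mul_assoc (C.xg 23 (c0 * b0)), z 21 (by simp), mul_assoc]
    _ = C.xg 19 b0 * (C.xg 17 c0 * C.xg 16 b1) * (C.xg 20 c1 * C.xg 15 b2) * C.xg 21 c2 *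
          C.xg 23 (c0 * b0 + c1 * b1 + c2 * b2) := by simp only [mul_assoc]
    _ = C.xg 19 b0 * C.xg 16 b1 * (C.xg 17 c0 * C.xg 15 b2) * C.xg 20 c1 * C.xg 21 c2 *
          C.xg 23 (c0 * b0 + c1 * b1 + c2 * b2) := by
        rw [k 17 16 (by simp) (by simp) (by omega), k 20 15 (by simp) (by simp) (by omega)]
        simp only [mul_assoc]
    _ = Bp b0 b1 b2 * Cp c0 c1 c2 * C.xg 23 (c0 * b0 + c1 * b1 + c2 * b2) := by
        rw [k 17 15 (by simp) (by simp) (by omega)]; simp only [Bp, Cp, mul_assoc]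

theorem P_mul (a b0 b1 b2 c0 c1 c2 d e a' b0' b1' b2' c0' c1' c2' d' e' : K) :
    P a b0 b1 b2 c0 c1 c2 d e * P a' b0' b1' b2' c0' c1' c2' d' e' =
      P (a + a') (b0 + b0') (b1 + b1') (b2 + b2') (c0 + c0') (c1 + c1') (c2 + c2') (d + d')
        (e + e' + d * a' + (c0 * b0' + c1 * b1' + c2 * b2')) := by
  set T := c0 * b0' + c1 * b1' + c2 * b2'
  set B := Bp b0 b1 b2
  set B' := Bp b0' b1' b2'
  set W := Cp c0 c1 c2
  set W' := Cp c0' c1' c2'
  have zB : ∀ t, C.xg 23 t * B' = B' * C.xg 23 t := fun t =>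
    (commute_Bp (r := 23) (by simp) (by omega) (by omega) (by omega) t _ _ _).eq
  have zW : ∀ t, C.xg 23 t * W' = W' * C.xg 23 t := fun t =>
    (commute_Cp (r := 23) (by simp) (by omega) (by omega) (by omega) t _ _ _).eq
  have z14 : C.xg 23 e * C.xg 14 a' = C.xg 14 a' * C.xg 23 e :=
    (commute_Q (by simp) (by simp) (by omega) _ _).eq
  have z22 : ∀ t, C.xg 23 t * C.xg 22 d' = C.xg 22 d' * C.xg 23 t := fun t =>
    (commute_Q (by simp) (by simp) (by omega) _ _).eq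
  have a14B : B * C.xg 14 a' = C.xg 14 a' * B :=
    (commute_Bp (r := 14) (by simp) (by omega) (by omega) (by omega) a' _ _ _).symm.eq
  have a14W : W * C.xg 14 a' = C.xg 14 a' * W :=
    (commute_Cp (r := 14) (by simp) (by omega) (by omega) (by omega) a' _ _ _).symm.eq
  have dB : C.xg 22 d * B' = B' * C.xg 22 d :=
    (commute_Bp (r := 22) (by simp) (by omega) (by omega) (by omega) d _ _ _).eq
  have dW : C.xg 22 d * W' = W' * C.xg 22 d :=
    (commute_Cp (r := 22) (by simp) (by omega) (by omega) (by omega) d _ _ _).eq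
  have d14 : C.xg 22 d * C.xg 14 a' = C.xg 14 a' * C.xg 23 (d * a') * C.xg 22 d :=
    comm_one (tbl_pair (22, 14) (by simp)) _ _
  have zd : C.xg 23 (d * a') * C.xg 22 d = C.xg 22 d * C.xg 23 (d * a') :=
    (commute_Q (by simp) (by simp) (by omega) _ _).eq
  calc P a b0 b1 b2 c0 c1 c2 d e * P a' b0' b1' b2' c0' c1' c2' d' e'
      = C.xg 14 a * B * W * C.xg 22 d * (C.xg 23 e * C.xg 14 a') * B' * W' * C.xg 22 d' * C.xg 23 e' := by
        simp only [P, mul_assoc]; rfl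
    _ = C.xg 14 a * B * W * (C.xg 22 d * C.xg 14 a') * (C.xg 23 e * B') * W' * C.xg 22 d' * C.xg 23 e' := by
        rw [z14]; simp only [mul_assoc]
    _ = C.xg 14 a * B * (W * C.xg 14 a') * C.xg 22 d * (C.xg 23 (d * a') * B') * (C.xg 23 e * W') *
          C.xg 22 d' * C.xg 23 e' := by
        rw [d14, zB, mul_assoc (C.xg 14 a'), zd]; simp only [mul_assoc]
    _ = C.xg 14 a * (B * C.xg 14 a') * W * (C.xg 22 d * B') * (C.xg 23 (d * a') * W') *
          (C.xg 23 e * C.xg 22 d') * C.xg 23 e' := by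
        rw [a14W, zB, zW]; simp only [mul_assoc]
    _ = (C.xg 14 a * C.xg 14 a') * B * (W * B') * (C.xg 22 d * W') * (C.xg 23 (d * a') * C.xg 22 d') *
          (C.xg 23 e * C.xg 23 e') := by
        rw [a14B, dB, zW, z22]; simp only [mul_assoc]
    _ = C.xg 14 (a + a') * (B * B') * W * (C.xg 23 T * W') * (C.xg 22 d * C.xg 22 d') *
          (C.xg 23 (d * a') * C.xg 23 (e + e')) := by
        rw [Cp_Bp, dW, z22, xg_add' (by omega), xg_add' (by omega)]; simp only [mul_assoc]; rfl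
    _ = C.xg 14 (a + a') * (B * B') * (W * W') * (C.xg 23 T * C.xg 22 (d + d')) *
          C.xg 23 (d * a' + (e + e')) := by
        rw [zW, xg_add' (by omega), xg_add' (by omega)]; simp only [mul_assoc]
    _ = C.xg 14 (a + a') * (B * B') * (W * W') * C.xg 22 (d + d') *
          (C.xg 23 T * C.xg 23 (d * a' + (e + e'))) := by
        rw [(commute_Q (r := 23) (s := 22) (by simp) (by simp) (by omega) T (d + d')).eq]
        simp only [mul_assoc]
    _ = _ := by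
        rw [xg_add' (show 23 < 24 by omega), Bp_mul, Cp_mul, P,
          show e + e' + d * a' + T = T + (d * a' + (e + e')) by ring]

omit [CharP K 2] in
theorem singles (t : K) :
    C.xg 14 t = P t 0 0 0 0 0 0 0 0 ∧ C.xg 19 t = P 0 t 0 0 0 0 0 0 0 ∧
    C.xg 16 t = P 0 0 t 0 0 0 0 0 0 ∧ C.xg 15 t = P 0 0 0 t 0 0 0 0 0 ∧
    C.xg 17 t = P 0 0 0 0 t 0 0 0 0 ∧ C.xg 20 t = P 0 0 0 0 0 t 0 0 0 ∧
    C.xg 21 t = P 0 0 0 0 0 0 t 0 0 ∧ C.xg 22 t = P 0 0 0 0 0 0 0 t 0 ∧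
    C.xg 23 t = P 0 0 0 0 0 0 0 0 t := by
  simp [P, Bp, Cp, C.xg_zero]

theorem negs : chevD4.neg 18 = 5 ∧ chevD4.neg 13 = 10 ∧ chevD4.neg 12 = 11 := by decide +kernel

theorem tbl_18 :
    oddT 18 14 = [(19, 1, 1)] ∧ oddT 18 19 = [] ∧ oddT 18 16 = [(21, 1, 1)] ∧ oddT 18 15 = [(20, 1, 1)] ∧
    oddT 18 17 = [(22, 1, 1)] ∧ oddT 18 20 = [] ∧ oddT 18 21 = [] ∧ oddT 18 22 = [] ∧ oddT 18 23 = [] := by
  decide +kernel

theorem tbl_13 :
    oddT 13 14 = [(16, 1, 1)] ∧ oddT 13 19 = [(21, 1, 1)] ∧ oddT 13 16 = [] ∧ oddT 13 15 = [(17, 1, 1)] ∧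
    oddT 13 17 = [] ∧ oddT 13 20 = [(22, 1, 1)] ∧ oddT 13 21 = [] ∧ oddT 13 22 = [] ∧ oddT 13 23 = [] := by
  decide +kernel

theorem tbl_12 :
    oddT 12 14 = [(15, 1, 1)] ∧ oddT 12 19 = [(20, 1, 1)] ∧ oddT 12 16 = [(17, 1, 1)] ∧ oddT 12 15 = [] ∧
    oddT 12 17 = [] ∧ oddT 12 20 = [] ∧ oddT 12 21 = [(22, 1, 1)] ∧ oddT 12 22 = [] ∧ oddT 12 23 = [] := by
  decide +kernel

theorem conj_18 (s a b0 b1 b2 c0 c1 c2 d e : K) : ∃ e', MulAut.conj (C.xg 18 s) (P a b0 b1 b2 c0 c1 c2 d e) =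
    P a (b0 + s * a) b1 b2 c0 (c1 + s * b2) (c2 + s * b1) (d + s * c0) e' := by
  obtain ⟨n, -, -⟩ := negs
  obtain ⟨t1, t2, t3, t4, t5, t6, t7, t8, t9⟩ := tbl_18
  refine ⟨?e, ?_⟩
  rotate_left
  rw [P, Bp, Cp]
  simp only [map_mul]
  simp only [conj_odd (K := K) (show 18 < 24 by omega) (show 14 < 24 by omega) (by omega) (by omega),
    conj_odd (K := K) (show 18 < 24 by omega) (show 19 < 24 by omega) (by omega) (by omega),
    conj_odd (K := K) (show 18 < 24 by omega) (show 16 < 24 by omega) (by omega) (by omega),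
    conj_odd (K := K) (show 18 < 24 by omega) (show 15 < 24 by omega) (by omega) (by omega),
    conj_odd (K := K) (show 18 < 24 by omega) (show 17 < 24 by omega) (by omega) (by omega),
    conj_odd (K := K) (show 18 < 24 by omega) (show 20 < 24 by omega) (by omega) (by omega),
    conj_odd (K := K) (show 18 < 24 by omega) (show 21 < 24 by omega) (by omega) (by omega),
    conj_odd (K := K) (show 18 < 24 by omega) (show 22 < 24 by omega) (by omega) (by omega),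
    conj_odd (K := K) (show 18 < 24 by omega) (show 23 < 24 by omega) (by omega) (by omega),
    t1, t2, t3, t4, t5, t6, t7, t8, t9, List.map_cons, List.map_nil, C.wg_cons, C.wg_nil, pow_one, mul_one]
  obtain ⟨s1, s2, s3, s4, s5, s6, s7, s8, s9⟩ :
    (∀ t : K, C.xg 14 t = P t 0 0 0 0 0 0 0 0) ∧ (∀ t : K, C.xg 19 t = P 0 t 0 0 0 0 0 0 0) ∧
    (∀ t : K, C.xg 16 t = P 0 0 t 0 0 0 0 0 0) ∧ (∀ t : K, C.xg 15 t = P 0 0 0 t 0 0 0 0 0) ∧
    (∀ t : K, C.xg 17 t = P 0 0 0 0 t 0 0 0 0) ∧ (∀ t : K, C.xg 20 t = P 0 0 0 0 0 t 0 0 0) ∧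
    (∀ t : K, C.xg 21 t = P 0 0 0 0 0 0 t 0 0) ∧ (∀ t : K, C.xg 22 t = P 0 0 0 0 0 0 0 t 0) ∧
    (∀ t : K, C.xg 23 t = P 0 0 0 0 0 0 0 0 t) := by simp [P, Bp, Cp, C.xg_zero]
  simp only [s1, s2, s3, s4, s5, s6, s7, s8, s9, P_mul, zero_add, add_zero, zero_mul, mul_zero]
  rw [add_comm b0, add_comm c1, add_comm c2, add_comm d]

theorem conj_13 (s a b0 b1 b2 c0 c1 c2 d e : K) : ∃ e', MulAut.conj (C.xg 13 s) (P a b0 b1 b2 c0 c1 c2 d e) =
    P a b0 (b1 + s * a) b2 (c0 + s * b2) c1 (c2 + s * b0) (d + s * c1) e' := by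
  obtain ⟨-, n, -⟩ := negs
  obtain ⟨t1, t2, t3, t4, t5, t6, t7, t8, t9⟩ := tbl_13
  refine ⟨?e, ?_⟩
  rotate_left
  rw [P, Bp, Cp]
  simp only [map_mul]
  simp only [conj_odd (K := K) (show 13 < 24 by omega) (show 14 < 24 by omega) (by omega) (by omega),
    conj_odd (K := K) (show 13 < 24 by omega) (show 19 < 24 by omega) (by omega) (by omega),
    conj_odd (K := K) (show 13 < 24 by omega) (show 16 < 24 by omega) (by omega) (by omega),
    conj_odd (K := K) (show 13 < 24 by omega) (show 15 < 24 by omega) (by omega) (by omega),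
    conj_odd (K := K) (show 13 < 24 by omega) (show 17 < 24 by omega) (by omega) (by omega),
    conj_odd (K := K) (show 13 < 24 by omega) (show 20 < 24 by omega) (by omega) (by omega),
    conj_odd (K := K) (show 13 < 24 by omega) (show 21 < 24 by omega) (by omega) (by omega),
    conj_odd (K := K) (show 13 < 24 by omega) (show 22 < 24 by omega) (by omega) (by omega),
    conj_odd (K := K) (show 13 < 24 by omega) (show 23 < 24 by omega) (by omega) (by omega),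
    t1, t2, t3, t4, t5, t6, t7, t8, t9, List.map_cons, List.map_nil, C.wg_cons, C.wg_nil, pow_one, mul_one]
  obtain ⟨s1, s2, s3, s4, s5, s6, s7, s8, s9⟩ :
    (∀ t : K, C.xg 14 t = P t 0 0 0 0 0 0 0 0) ∧ (∀ t : K, C.xg 19 t = P 0 t 0 0 0 0 0 0 0) ∧
    (∀ t : K, C.xg 16 t = P 0 0 t 0 0 0 0 0 0) ∧ (∀ t : K, C.xg 15 t = P 0 0 0 t 0 0 0 0 0) ∧
    (∀ t : K, C.xg 17 t = P 0 0 0 0 t 0 0 0 0) ∧ (∀ t : K, C.xg 20 t = P 0 0 0 0 0 t 0 0 0) ∧
    (∀ t : K, C.xg 21 t = P 0 0 0 0 0 0 t 0 0) ∧ (∀ t : K, C.xg 22 t = P 0 0 0 0 0 0 0 t 0) ∧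
    (∀ t : K, C.xg 23 t = P 0 0 0 0 0 0 0 0 t) := by simp [P, Bp, Cp, C.xg_zero]
  simp only [s1, s2, s3, s4, s5, s6, s7, s8, s9, P_mul, zero_add, add_zero, zero_mul, mul_zero]
  rw [add_comm b1, add_comm c0, add_comm c2, add_comm d]

theorem conj_12 (s a b0 b1 b2 c0 c1 c2 d e : K) : ∃ e', MulAut.conj (C.xg 12 s) (P a b0 b1 b2 c0 c1 c2 d e) =
    P a b0 b1 (b2 + s * a) (c0 + s * b1) (c1 + s * b0) c2 (d + s * c2) e' := by
  obtain ⟨-, -, n⟩ := negs
  obtain ⟨t1, t2, t3, t4, t5, t6, t7, t8, t9⟩ := tbl_12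
  refine ⟨?e, ?_⟩
  rotate_left
  rw [P, Bp, Cp]
  simp only [map_mul]
  simp only [conj_odd (K := K) (show 12 < 24 by omega) (show 14 < 24 by omega) (by omega) (by omega),
    conj_odd (K := K) (show 12 < 24 by omega) (show 19 < 24 by omega) (by omega) (by omega),
    conj_odd (K := K) (show 12 < 24 by omega) (show 16 < 24 by omega) (by omega) (by omega),
    conj_odd (K := K) (show 12 < 24 by omega) (show 15 < 24 by omega) (by omega) (by omega),
    conj_odd (K := K) (show 12 < 24 by omega) (show 17 < 24 by omega) (by omega) (by omega),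
    conj_odd (K := K) (show 12 < 24 by omega) (show 20 < 24 by omega) (by omega) (by omega),
    conj_odd (K := K) (show 12 < 24 by omega) (show 21 < 24 by omega) (by omega) (by omega),
    conj_odd (K := K) (show 12 < 24 by omega) (show 22 < 24 by omega) (by omega) (by omega),
    conj_odd (K := K) (show 12 < 24 by omega) (show 23 < 24 by omega) (by omega) (by omega),
    t1, t2, t3, t4, t5, t6, t7, t8, t9, List.map_cons, List.map_nil, C.wg_cons, C.wg_nil, pow_one, mul_one]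
  obtain ⟨s1, s2, s3, s4, s5, s6, s7, s8, s9⟩ :
    (∀ t : K, C.xg 14 t = P t 0 0 0 0 0 0 0 0) ∧ (∀ t : K, C.xg 19 t = P 0 t 0 0 0 0 0 0 0) ∧
    (∀ t : K, C.xg 16 t = P 0 0 t 0 0 0 0 0 0) ∧ (∀ t : K, C.xg 15 t = P 0 0 0 t 0 0 0 0 0) ∧
    (∀ t : K, C.xg 17 t = P 0 0 0 0 t 0 0 0 0) ∧ (∀ t : K, C.xg 20 t = P 0 0 0 0 0 t 0 0 0) ∧
    (∀ t : K, C.xg 21 t = P 0 0 0 0 0 0 t 0 0) ∧ (∀ t : K, C.xg 22 t = P 0 0 0 0 0 0 0 t 0) ∧
    (∀ t : K, C.xg 23 t = P 0 0 0 0 0 0 0 0 t) := by simp [P, Bp, Cp, C.xg_zero]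
  simp only [s1, s2, s3, s4, s5, s6, s7, s8, s9, P_mul, zero_add, add_zero, zero_mul, mul_zero]
  rw [add_comm b2, add_comm c0, add_comm c1, add_comm d]

/-- the product of the root elements of the three outer simple roots -/
def S3 (s0 s1 s2 : K) : GL chevD4.Idx K := C.xg 18 s0 * C.xg 13 s1 * C.xg 12 s2

theorem conj_S3 (s0 s1 s2 a b0 b1 b2 c0 c1 c2 d e : K) : ∃ e',
    MulAut.conj (S3 s0 s1 s2) (P a b0 b1 b2 c0 c1 c2 d e) =
      P a (b0 + s0 * a) (b1 + s1 * a) (b2 + s2 * a) (c0 + s1 * b2 + s2 * b1 + s1 * s2 * a)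
        (c1 + s0 * b2 + s2 * b0 + s0 * s2 * a) (c2 + s0 * b1 + s1 * b0 + s0 * s1 * a)
        (d + (s0 * c0 + s1 * c1 + s2 * c2) + (s0 * s1 * b2 + s0 * s2 * b1 + s1 * s2 * b0) + s0 * s1 * s2 * a)
        e' := by
  obtain ⟨e1, h1⟩ := conj_12 s2 a b0 b1 b2 c0 c1 c2 d e
  obtain ⟨e2, h2⟩ := conj_13 s1 a b0 b1 (b2 + s2 * a) (c0 + s2 * b1) (c1 + s2 * b0) c2 (d + s2 * c2) e1
  obtain ⟨e3, h3⟩ := conj_18 s0 a b0 (b1 + s1 * a) (b2 + s2 * a) (c0 + s2 * b1 + s1 * (b2 + s2 * a))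
    (c1 + s2 * b0) (c2 + s1 * b0) (d + s2 * c2 + s1 * (c1 + s2 * b0)) e2
  refine ⟨e3, ?_⟩
  rw [S3, map_mul, map_mul, MulAut.mul_apply, MulAut.mul_apply, h1, h2, h3]
  congr 1 <;> ring

theorem refl_tbl : ([14, 19, 16, 15, 17, 20, 21, 22, 23].map fun r => chevD4.reflectRoot 0
      (chevD4.reflectRoot 2 (chevD4.reflectRoot 3 r))) = [22, 17, 20, 21, 19, 16, 15, 14, 23] ∧
    ([18, 13, 12, 22, 23].map (chevD4.reflectRoot 1)) = [19, 16, 15, 23, 22] := by
  decide +kernel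

end Cfsg.Agent.Lib.Chev.D4Even
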