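import Cfsg.Agent.Lib.Chev.FoldIso
import Cfsg.Agent.Lib.Chev.TwistD4
import Cfsg.Agent.Lib.Chev.TwistCox
import Cfsg.Agent.Lib.Chev.Data.G2

/-!
The triality fixed points of `D₄` form `G₂`.
-/

set_option autoImplicit false

namespace Cfsg.Agent.Lib.Chev.D4

open Cfsg.Lie Cfsg.Agent.Lib Cfsg.Agent.Lib.Chev

/-- the fixed subalgebra -/
def incG2 : List (List (ℕ × ℤ)) :=
  [[(0, 1), (2, 1), (3, 1)], [(1, 1)], [(4, -1)], [(5, -1)], [(6, -1), (7, -1), (10, 1)], [(8, 1), (11, -1), (12, -1)], [(9, 1), (14, 1), (15, 1)], [(13, 1)], [(18, 1)], [(16, 1), (17, 1), (22, 1)], [(19, -1), (20, -1), (23, 1)], [(21, 1), (24, -1), (25, -1)], [(26, -1)], [(27, -1)]]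

theorem fold_checks :
    Fold.symFoldCheck chevD4 chevG2 D4.fast G2.fast incG2 sym.p 3
      (fun j => [0, 1, 0, 0].getD j 0) (fun i => i) = true ∧
    Fold.topCheck chevD4 D4.fast 23 = true := by decide +kernel

theorem fold_proj : Fold.projZ incG2 chevD4 chevG2 * Fold.incZ incG2 chevD4 chevG2 = 1 := by
  decide +kernel

variable {F : Type*} [Field F] [Fintype F]

theorem diag_le_orb :
    chevD4.diagonalSubgroup F ⊓ (tw (RingEquiv.refl F)).fixed ≤ (tw (RingEquiv.refl F)).orbGens 3 := by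
  intro h hh
  obtain ⟨h1, h2⟩ := Subgroup.mem_inf.1 hh
  obtain ⟨c, hc, rfl⟩ := (tw (RingEquiv.refl F)).exists_fixed_torus (pinv_spec _)
    (torMap_per _ (Fold.refl_iterate 3)) ker_exp (by norm_num) h1 h2
  have hc' : ∀ i, c (pinv i) = c i := fun i =>
    (Fold.torMap_refl D4.checked symData symData' pinv c i).symm.trans (congrFun hc i)
  have h0 : (0 : ℕ) < chevD4.rank := by decide +kernel
  have h1' : (1 : ℕ) < chevD4.rank := by decide +kernel
  have m := mul_mem (Fold.orb_torus_mem D4.checked symData symData' (tw_orth (RingEquiv.refl F)) h0 (c ⟨0, h0⟩))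
    (Fold.orb_torus_mem D4.checked symData symData' (tw_orth (RingEquiv.refl F)) h1' (c ⟨1, h1'⟩))
  rw [show ∀ x y, D4.checked.torus (F := F) x * D4.checked.torus y = D4.checked.torus (x * y) from
    fun x y => (map_mul D4.checked.torusHom x y).symm] at m
  change D4.checked.torus c ∈ (symData.twist D4.checked symData' (RingEquiv.refl F)).orbGens 3
  convert m using 2
  funext ⟨i, hi⟩
  have hi' : i < 4 := rank_eq ▸ hi
  have e2 : pinv (⟨2, by decide +kernel⟩ : Fin chevD4.rank) = ⟨0, by decide +kernel⟩ := by decide +kernel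
  have e3 : pinv (⟨3, by decide +kernel⟩ : Fin chevD4.rank) = ⟨2, by decide +kernel⟩ := by decide +kernel
  have h2e := hc' ⟨2, by decide +kernel⟩
  rw [e2] at h2e
  have h3e := hc' ⟨3, by decide +kernel⟩
  rw [e3, ← h2e] at h3e
  interval_cases i <;>
    simp [List.range_succ, (node_check 0 (by norm_num)).1, (node_check 1 (by norm_num)).1,
      (node_check 2 (by norm_num)).1, Function.iterate_succ_apply', Pi.mulSingle_apply, Fin.ext_iff, ← h2e, ← h3e]

theorem folded : Nonempty (↥(tw (RingEquiv.refl F)).fixed ≃* ↥(chevG2.group F)) := by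
  refine Fold.exists_iso_sym D4.checked G2.checked symData symData' (tw_orth _) diag_le_orb ?_
    fold_checks.1 fold_proj (θD := 23) (θE := 11) (s := -1) (by decide +kernel) (by decide +kernel)
    (by decide +kernel) fold_checks.2
  exact (tw_orth _).irreducible_twist _ _ CoxeterMatrix.G₂ (fun i => i)
    (fun i hi => lt_of_lt_of_le hi (by rw [rank_eq]; norm_num)) (orbTab sym.p 3)
    (fun _ _ => rfl) twCox_check nd_cover
    (by intro i k; fin_cases i <;> fin_cases k <;> simp [CoxeterMatrix.G₂])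

end Cfsg.Agent.Lib.Chev.D4
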