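import Cfsg.Agent.Lib.Chev.RootCent
import Cfsg.Agent.Lib.Chev.Orders
import Cfsg.Agent.Lib.Chev.G2OddHom

/-!
The involutions of `G₂(F)` for a finite field of characteristic two.
-/

set_option autoImplicit false

namespace Cfsg.Agent.Lib.Chev.G2Even

open Cfsg.Lie Cfsg.Agent.Lib Cfsg.Agent.Lib.Chev

variable {F : Type*} [Field F]

abbrev C : Checked chevG2 G2.fast := G2.checked

theorem lt_nroots {r : ℕ} (hr : r < 12) : r < chevG2.nroots := by
  rw [G2Odd.nroots_eq]; exact hr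

/-- the commutator terms with odd coefficient -/
def oddT (r s : ℕ) : List (ℕ × ℕ × ℕ) :=
  ((G2.fast.commT r s).filter fun c => !(Nat.beq (c.2.1.natAbs % 2) 0)).map fun c => (c.1, c.2.2.1, c.2.2.2)

variable [CharP F 2]

theorem xg_sq {r : ℕ} (hr : r < 12) (t : F) : C.xg r t * C.xg r t = 1 := by
  rw [C.xg_add (lt_nroots hr), CharTwo.add_self_eq_zero, C.xg_zero]

/-- conjugation by a root element -/
theorem conj_odd {r s : ℕ} (hr : r < 12) (hs : s < 12) (hrs : s ≠ r) (hneg : s ≠ chevG2.neg r) (t u : F) :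
    MulAut.conj (C.xg r t) (C.xg s u) =
      C.xg s u * C.wg ((oddT r s).map fun c => (c.1, t ^ c.2.1 * u ^ c.2.2)) := by
  have h1 : C.wg (chevG2.commWord F r s t u) =
      C.wg ((oddT r s).map fun c => (c.1, t ^ c.2.1 * u ^ c.2.2)) := by
    have key : ∀ l : List (ℕ × ℤ × ℕ × ℕ),
        C.wg (l.map fun c => (c.1, (c.2.1 : F) * (-t) ^ c.2.2.1 * u ^ c.2.2.2)) =
        C.wg (((l.filter fun c => !(Nat.beq (c.2.1.natAbs % 2) 0)).map fun c =>
          (c.1, c.2.2.1, c.2.2.2)).map fun c => (c.1, t ^ c.2.1 * u ^ c.2.2)) := by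
      intro l
      induction l with
      | nil => rfl
      | cons q l ih =>
        rw [List.map_cons, C.wg_cons, ih, Checked.intCast_of_parity (F := F) q.2.1, CharTwo.neg_eq]
        cases hb : Nat.beq (q.2.1.natAbs % 2) 0
        · rw [List.filter_cons_of_pos (by simp [hb]), List.map_cons, List.map_cons, C.wg_cons]; simp
        · rw [List.filter_cons_of_neg (by simp [hb])]; simp [C.xg_zero]
    rw [ChevalleyDatum.commWord, key, ← C.commT_eq (lt_nroots hr) (lt_nroots hs), oddT]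
  have h2 := C.comm (lt_nroots hr) (lt_nroots hs) hrs hneg t u
  rw [MulAut.conj_apply, C.xg_inv, CharTwo.neg_eq, mul_assoc, h2, ← mul_assoc, ← mul_assoc, xg_sq hr,
    one_mul, h1]

theorem tbl_seven :
    oddT 7 6 = [(8, 1, 1), (9, 2, 1), (10, 3, 1), (11, 3, 2)] ∧
    oddT 7 8 = [(10, 2, 1), (11, 1, 2)] ∧ oddT 7 9 = [(10, 1, 1)] ∧
    oddT 7 10 = [] ∧ oddT 7 11 = [] := by
  decide +kernel

theorem comm_nil {r s : ℕ} (hr : r < 12) (hs : s < 12) (hrs : s ≠ r) (hneg : s ≠ chevG2.neg r)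
    (h : oddT r s = []) (t u : F) : C.xg r t * C.xg s u = C.xg s u * C.xg r t := by
  have := conj_odd hr hs hrs hneg t u
  rw [h, List.map_nil, C.wg_nil, mul_one, MulAut.conj_apply, mul_inv_eq_iff_eq_mul] at this
  exact this

theorem comm_one {r s c : ℕ} (hr : r < 12) (hs : s < 12) (hrs : s ≠ r) (hneg : s ≠ chevG2.neg r)
    (h : oddT r s = [(c, 1, 1)]) (t u : F) :
    C.xg r t * C.xg s u = C.xg s u * C.xg c (t * u) * C.xg r t := by
  have := conj_odd hr hs hrs hneg t u
  rw [h, MulAut.conj_apply, mul_inv_eq_iff_eq_mul] at this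
  simpa [C.wg_cons, C.wg_nil] using this

/-- elements of the radical `⟨X₆, X₈, X₉, X₁₀, X₁₁⟩` -/
def q5 (a b c d e : F) : GL chevG2.Idx F :=
  C.xg 6 a * C.xg 8 b * C.xg 9 c * C.xg 10 d * C.xg 11 e

theorem negs : chevG2.neg 6 = 5 ∧ chevG2.neg 7 = 4 ∧ chevG2.neg 8 = 3 ∧ chevG2.neg 9 = 2 ∧
    chevG2.neg 10 = 1 ∧ chevG2.neg 11 = 0 ∧ chevG2.neg 4 = 7 := by decide +kernel

theorem central_eleven {r : ℕ} (hr : r ∈ [6, 7, 8, 9, 10]) (x y : F) :
    C.xg r x * C.xg 11 y = C.xg 11 y * C.xg r x := by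
  have h : ∀ r ∈ [6, 7, 8, 9, 10], r < 12 ∧ 11 ≠ r ∧ 11 ≠ chevG2.neg r ∧ oddT r 11 = [] := by
    decide +kernel
  obtain ⟨h1, h2, h3, h4⟩ := h r hr
  exact comm_nil h1 (by omega) h2 h3 h4 x y

theorem q5_mul (a b c d e a' b' c' d' e' : F) :
    q5 a b c d e * q5 a' b' c' d' e' =
      q5 (a + a') (b + b') (c + c') (d + d') (e + e' + d * a' + c * b') := by
  have x := fun (r : ℕ) (hr : r < 12) (p q : F) => C.xg_add (lt_nroots hr) p q
  have h10_6 : C.xg 10 d * C.xg 6 a' = C.xg 6 a' * C.xg 11 (d * a') * C.xg 10 d :=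
    comm_one (by omega) (by omega) (by omega) (by rw [negs.2.2.2.2.1]; omega) (by decide +kernel) _ _
  have h9_8 : C.xg 9 c * C.xg 8 b' = C.xg 8 b' * C.xg 11 (c * b') * C.xg 9 c :=
    comm_one (by omega) (by omega) (by omega) (by rw [negs.2.2.2.1]; omega) (by decide +kernel) _ _
  have h9_6 : C.xg 9 c * C.xg 6 a' = C.xg 6 a' * C.xg 9 c :=
    comm_nil (by omega) (by omega) (by omega) (by rw [negs.2.2.2.1]; omega) (by decide +kernel) _ _
  have h8_6 : C.xg 6 a' * C.xg 8 b = C.xg 8 b * C.xg 6 a' :=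
    comm_nil (by omega) (by omega) (by omega) (by rw [negs.1]; omega) (by decide +kernel) _ _
  have h10_8 : C.xg 10 d * C.xg 8 b' = C.xg 8 b' * C.xg 10 d :=
    comm_nil (by omega) (by omega) (by omega) (by rw [negs.2.2.2.2.1]; omega) (by decide +kernel) _ _
  have h10_9 : C.xg 10 d * C.xg 9 c' = C.xg 9 c' * C.xg 10 d :=
    comm_nil (by omega) (by omega) (by omega) (by rw [negs.2.2.2.2.1]; omega) (by decide +kernel) _ _
  have hz : ∀ (r : ℕ), r ∈ [6, 7, 8, 9, 10] → ∀ p z : F, C.xg 11 z * C.xg r p = C.xg r p * C.xg 11 z :=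
    fun r hr p z => (central_eleven hr p z).symm
  calc q5 a b c d e * q5 a' b' c' d' e'
      = C.xg 6 a * C.xg 8 b * C.xg 9 c * C.xg 10 d * (C.xg 11 e * C.xg 6 a') * C.xg 8 b' * C.xg 9 c' *
          C.xg 10 d' * C.xg 11 e' := by simp only [q5, mul_assoc]
    _ = C.xg 6 a * C.xg 8 b * C.xg 9 c * (C.xg 10 d * C.xg 6 a') * (C.xg 11 e * C.xg 8 b') * C.xg 9 c' *
          C.xg 10 d' * C.xg 11 e' := by rw [hz 6 (by simp)]; simp only [mul_assoc]
    _ = C.xg 6 a * C.xg 8 b * (C.xg 9 c * C.xg 6 a') * C.xg 11 (d * a') * (C.xg 10 d * C.xg 8 b') *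
          (C.xg 11 e * C.xg 9 c') * C.xg 10 d' * C.xg 11 e' := by
        rw [h10_6, hz 8 (by simp)]; simp only [mul_assoc]
    _ = C.xg 6 a * (C.xg 8 b * C.xg 6 a') * C.xg 9 c * (C.xg 11 (d * a') * C.xg 8 b') *
          (C.xg 10 d * C.xg 9 c') * (C.xg 11 e * C.xg 10 d') * C.xg 11 e' := by
        rw [h9_6, h10_8, hz 9 (by simp)]; simp only [mul_assoc]
    _ = C.xg 6 a * C.xg 6 a' * C.xg 8 b * (C.xg 9 c * C.xg 8 b') * (C.xg 11 (d * a') * C.xg 9 c') *
          (C.xg 10 d * C.xg 10 d') * (C.xg 11 e * C.xg 11 e') := by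
        rw [← h8_6, hz 8 (by simp), h10_9, hz 10 (by simp)]; simp only [mul_assoc]
    _ = C.xg 6 a * C.xg 6 a' * C.xg 8 b * C.xg 8 b' * (C.xg 11 (c * b') * C.xg 9 c) * C.xg 9 c' *
          (C.xg 11 (d * a') * (C.xg 10 d * C.xg 10 d')) * (C.xg 11 e * C.xg 11 e') := by
        rw [h9_8, hz 9 (by simp) c' (d * a')]; simp only [mul_assoc]
    _ = C.xg 6 a * C.xg 6 a' * (C.xg 8 b * C.xg 8 b') * C.xg 9 c * (C.xg 11 (c * b') * C.xg 9 c') *
          (C.xg 10 (d + d') * C.xg 11 (d * a')) * (C.xg 11 e * C.xg 11 e') := by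
        rw [hz 9 (by simp) c, x 10 (by omega), hz 10 (by simp) (d + d')]; simp only [mul_assoc]
    _ = C.xg 6 (a + a') * C.xg 8 (b + b') * (C.xg 9 c * C.xg 9 c') * (C.xg 11 (c * b') * C.xg 10 (d + d')) *
          (C.xg 11 (d * a') * (C.xg 11 e * C.xg 11 e')) := by
        rw [hz 9 (by simp), x 6 (by omega), x 8 (by omega)]; simp only [mul_assoc]
    _ = q5 (a + a') (b + b') (c + c') (d + d') (e + e' + d * a' + c * b') := by
        rw [hz 10 (by simp), x 9 (by omega), mul_assoc, mul_assoc, mul_assoc, q5]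
        simp only [mul_assoc, x 11 (show 11 < 12 by omega)]
        rw [show c * b' + (d * a' + (e + e')) = e + e' + d * a' + c * b' by ring]

omit [CharP F 2] in
theorem q5_single (t : F) :
    q5 t 0 0 0 0 = C.xg 6 t ∧ q5 0 t 0 0 0 = C.xg 8 t ∧ q5 0 0 t 0 0 = C.xg 9 t ∧
    q5 0 0 0 t 0 = C.xg 10 t ∧ q5 0 0 0 0 t = C.xg 11 t := by
  simp [q5, C.xg_zero]

theorem q5_inj {a b c d e : F} (h : q5 a b c d e = 1) : a = 0 ∧ b = 0 ∧ c = 0 ∧ d = 0 ∧ e = 0 := by
  let t : ℕ → F := fun r => if r = 6 then a else if r = 8 then b else if r = 9 then c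
    else if r = 10 then d else e
  have hpos : ∀ r ∈ [6, 8, 9, 10, 11], chevG2.IsPosRoot r := by decide +kernel
  have e1 : C.wg ([6, 8, 9, 10, 11].map fun r => (r, t r)) =
      C.wg ([6, 8, 9, 10, 11].map fun r => (r, (0 : F))) := by
    have e2 : C.wg ([6, 8, 9, 10, 11].map fun r => (r, t r)) = q5 a b c d e := by
      simp [t, q5, C.wg_cons, C.wg_nil, mul_assoc]
    rw [e2, h]
    simp [C.wg_cons, C.wg_nil, C.xg_zero]
  have hco := C.ordered_inj _ (by simp) hpos t (fun _ => 0) e1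
  exact ⟨by simpa [t] using hco 6 (by simp), by simpa [t] using hco 8 (by simp),
    by simpa [t] using hco 9 (by simp), by simpa [t] using hco 10 (by simp),
    by simpa [t] using hco 11 (by simp)⟩

theorem q5_invol {a b c d e : F} (h : q5 a b c d e * q5 a b c d e = 1) : d * a + c * b = 0 := by
  rw [q5_mul] at h
  simp only [CharTwo.add_self_eq_zero, zero_add] at h
  exact (q5_inj h).2.2.2.2

/-- conjugation by `x₇(s)` on the radical -/
theorem conj_seven (s a b c d e : F) :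
    MulAut.conj (C.xg 7 s) (q5 a b c d e) = q5 a 0 0 0 0 * q5 0 (s * a) 0 0 0 * q5 0 0 (s ^ 2 * a) 0 0 *
      q5 0 0 0 (s ^ 3 * a) 0 * q5 0 0 0 0 (s ^ 3 * a ^ 2) *
      (q5 0 b 0 0 0 * q5 0 0 0 (s ^ 2 * b) 0 * q5 0 0 0 0 (s * b ^ 2)) *
      (q5 0 0 c 0 0 * q5 0 0 0 (s * c) 0) * q5 0 0 0 d 0 * q5 0 0 0 0 e := by
  have n := negs.2.1
  obtain ⟨t76, t78, t79, t710, t711⟩ := tbl_seven
  conv_lhs => rw [q5]
  rw [map_mul, map_mul, map_mul, map_mul,
    conj_odd (show 7 < 12 by omega) (show 6 < 12 by omega) (by omega) (by omega),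
    conj_odd (show 7 < 12 by omega) (show 8 < 12 by omega) (by omega) (by omega),
    conj_odd (show 7 < 12 by omega) (show 9 < 12 by omega) (by omega) (by omega),
    conj_odd (show 7 < 12 by omega) (show 10 < 12 by omega) (by omega) (by omega),
    conj_odd (show 7 < 12 by omega) (show 11 < 12 by omega) (by omega) (by omega), t76, t78, t79, t710, t711]
  simp [q5, C.wg_cons, C.wg_nil, C.xg_zero, mul_assoc]

/-- the normal form of the conjugate -/
theorem conj_seven' (s a b c d e : F) : ∃ e', MulAut.conj (C.xg 7 s) (q5 a b c d e) =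
    q5 a (s * a + b) (s ^ 2 * a + c) (s ^ 3 * a + s ^ 2 * b + s * c + d) e' := by
  refine ⟨?e, ?_⟩
  rotate_left
  rw [conj_seven]
  simp only [q5_mul, zero_add, add_zero, zero_mul, mul_zero]
  rfl

theorem sqrt_exists [Finite F] (x : F) : ∃ s : F, s ^ 2 = x := by
  have hi : Function.Injective fun y : F => y ^ 2 := fun y z h => by
    have h' : (y + z) ^ 2 = 0 := by
      rw [add_pow_char, show y ^ 2 = z ^ 2 from h, CharTwo.add_self_eq_zero]
    exact CharTwo.add_eq_zero.1 (pow_eq_zero_iff (two_ne_zero) |>.1 h')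
  exact (Finite.injective_iff_surjective.1 hi) x

/-- membership in the two classes -/
def Cls (g : GL chevG2.Idx F) : Prop :=
  ∃ h ∈ chevG2.group F, h * g * h⁻¹ = C.xg 11 1 ∨ h * g * h⁻¹ = C.xg 9 1

theorem cls_conj {g h : GL chevG2.Idx F} (hh : h ∈ chevG2.group F) (H : Cls (MulAut.conj h g)) : Cls g := by
  obtain ⟨k, hk, e⟩ := H
  refine ⟨k * h, mul_mem hk hh, ?_⟩
  simpa [MulAut.conj_apply, mul_assoc] using e

theorem xg_mem' {r : ℕ} (hr : r < 12) (t : F) : C.xg r t ∈ chevG2.group F :=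
  C.xg_mem_group (lt_nroots hr) t

theorem ng_conj {i : ℕ} (hi : i < 2) {r : ℕ} (hr : r < 12) (t : F) :
    MulAut.conj (C.ng i) (C.xg r t) = C.xg (chevG2.reflectRoot i r) t := by
  have hi' : i < chevG2.rank := by
    have : chevG2.rank = 2 := C.tables.rank
    omega
  rw [MulAut.conj_apply, C.ng_xg hi' (lt_nroots hr), mul_inv_cancel_right]
  congr 1
  rcases mul_self_eq_one_iff.1 (eta_sq (T := G2.fast) (F := F) i r) with h | h <;>
    simp [h, CharTwo.neg_eq]

theorem ng_mem' {i : ℕ} (hi : i < 2) : (C.ng i : GL chevG2.Idx F) ∈ chevG2.group F := by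
  refine C.monomial_le_group (C.ng_mem ?_)
  have : chevG2.rank = 2 := C.tables.rank
  omega

theorem cls_scale (r : ℕ) (hr : r = 9 ∨ r = 11) {c : F} (hc : c ≠ 0) : Cls (C.xg r c) := by
  have h9 : chevG2.cartan 0 9 = 1 ∧ chevG2.cartan 1 9 = 0 ∧ chevG2.cartan 0 11 = 0 ∧
      chevG2.cartan 1 11 = 1 := by decide +kernel
  rcases hr with rfl | rfl
  · refine ⟨G2Odd.tor (Units.mk0 c⁻¹ (inv_ne_zero hc)) 1, G2Odd.tor_mem _ _, Or.inr ?_⟩
    show _ * G2Odd.C.xg 9 c * _ = _
    rw [G2Odd.tor_xg _ _ (by omega), h9.1, h9.2.1]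
    simp [inv_mul_cancel₀ hc]
  · refine ⟨G2Odd.tor 1 (Units.mk0 c⁻¹ (inv_ne_zero hc)), G2Odd.tor_mem _ _, Or.inl ?_⟩
    show _ * G2Odd.C.xg 11 c * _ = _
    rw [G2Odd.tor_xg _ _ (by omega), h9.2.2.1, h9.2.2.2]
    simp [inv_mul_cancel₀ hc]

/-- the case of two commuting coordinates -/
theorem cls_ac [Finite F] {a c e : F} (hne : q5 a 0 c 0 e ≠ 1) : Cls (q5 a 0 c 0 e) := by
  by_cases hc : c = 0
  · subst hc
    by_cases ha : a = 0
    · subst ha
      have he : e ≠ 0 := by rintro rfl; exact hne (by simp [q5, C.xg_zero])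
      rw [(q5_single e).2.2.2.2]
      exact cls_scale 11 (Or.inr rfl) he
    · -- clear the highest coordinate
      refine cls_conj (xg_mem' (show 10 < 12 by omega) (e / a)) ?_
      have e1 : MulAut.conj (C.xg 10 (e / a)) (q5 a 0 0 0 e) = C.xg 6 a := by
        rw [q5, C.xg_zero, C.xg_zero, C.xg_zero, mul_one, mul_one, mul_one, map_mul,
          conj_odd (show 10 < 12 by omega) (show 6 < 12 by omega) (by omega) (by rw [negs.2.2.2.2.1]; omega),
          conj_odd (show 10 < 12 by omega) (show 11 < 12 by omega) (by omega) (by rw [negs.2.2.2.2.1]; omega),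
          show oddT 10 6 = [(11, 1, 1)] by decide +kernel, show oddT 10 11 = [] by decide +kernel]
        simp only [List.map_cons, List.map_nil, C.wg_cons, C.wg_nil, mul_one, pow_one]
        rw [mul_assoc, C.xg_add (lt_nroots (show 11 < 12 by omega)), div_mul_cancel₀ e ha,
          CharTwo.add_self_eq_zero, C.xg_zero, mul_one]
      rw [e1]
      refine cls_conj (ng_mem' (show 0 < 2 by omega)) ?_
      rw [ng_conj (by omega) (by omega)]
      refine cls_conj (ng_mem' (show 1 < 2 by omega)) ?_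
      rw [ng_conj (by omega) (by decide +kernel),
        show chevG2.reflectRoot 1 (chevG2.reflectRoot 0 6) = 11 by decide +kernel]
      exact cls_scale 11 (Or.inr rfl) ha
  · obtain ⟨s, hs⟩ := sqrt_exists (a / c)
    refine cls_conj (xg_mem' (show 4 < 12 by omega) s) ?_
    have hn4 : chevG2.neg 4 = 7 := negs.2.2.2.2.2.2
    have e1 : MulAut.conj (C.xg 4 s) (q5 a 0 c 0 e) = q5 0 0 c 0 (s * c ^ 2 + e) := by
      have h1 : MulAut.conj (C.xg 4 s) (q5 a 0 c 0 e) =
          q5 a 0 0 0 0 * (q5 0 0 c 0 0 * q5 (s ^ 2 * c) 0 0 0 0 * q5 0 0 0 0 (s * c ^ 2)) * q5 0 0 0 0 e := by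
        conv_lhs => rw [q5, C.xg_zero, C.xg_zero, mul_one, mul_one]
        rw [map_mul, map_mul,
          conj_odd (show 4 < 12 by omega) (show 6 < 12 by omega) (by omega) (by omega),
          conj_odd (show 4 < 12 by omega) (show 9 < 12 by omega) (by omega) (by omega),
          conj_odd (show 4 < 12 by omega) (show 11 < 12 by omega) (by omega) (by omega),
          show oddT 4 6 = [] by decide +kernel, show oddT 4 9 = [(6, 2, 1), (11, 1, 2)] by decide +kernel,
          show oddT 4 11 = [] by decide +kernel]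
        simp [q5, C.wg_cons, C.wg_nil, C.xg_zero, mul_assoc]
      rw [h1]
      simp only [q5_mul, zero_add, add_zero, mul_zero, zero_mul, hs, div_mul_cancel₀ a hc,
        CharTwo.add_self_eq_zero]
    rw [e1]
    set e' := s * c ^ 2 + e
    refine cls_conj (xg_mem' (show 8 < 12 by omega) (e' / c)) ?_
    have e2 : MulAut.conj (C.xg 8 (e' / c)) (q5 0 0 c 0 e') = C.xg 9 c := by
      rw [q5, C.xg_zero, C.xg_zero, C.xg_zero, one_mul, one_mul, mul_one, map_mul,
        conj_odd (show 8 < 12 by omega) (show 9 < 12 by omega) (by omega) (by rw [negs.2.2.1]; omega),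
        conj_odd (show 8 < 12 by omega) (show 11 < 12 by omega) (by omega) (by rw [negs.2.2.1]; omega),
        show oddT 8 9 = [(11, 1, 1)] by decide +kernel, show oddT 8 11 = [] by decide +kernel]
      simp only [List.map_cons, List.map_nil, C.wg_cons, C.wg_nil, mul_one, pow_one]
      rw [mul_assoc, C.xg_add (lt_nroots (show 11 < 12 by omega)), div_mul_cancel₀ e' hc,
        CharTwo.add_self_eq_zero, C.xg_zero, mul_one]
    rw [e2]
    exact cls_scale 9 (Or.inl rfl) hc

theorem conj_invol {g : GL chevG2.Idx F} (h : g * g = 1) (x : GL chevG2.Idx F) :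
    MulAut.conj x g * MulAut.conj x g = 1 := by rw [← map_mul, h, map_one]

theorem conj_ne_one {g : GL chevG2.Idx F} (h : g ≠ 1) (x : GL chevG2.Idx F) : MulAut.conj x g ≠ 1 :=
  fun e => h ((MulAut.conj x).map_eq_one_iff.1 e)

/-- involutions of the radical -/
theorem cls_q5 [Finite F] {a b c d e : F} (h2 : q5 a b c d e * q5 a b c d e = 1)
    (hne : q5 a b c d e ≠ 1) : Cls (q5 a b c d e) := by
  -- the case without the root `8`
  have key : ∀ a c d e : F, q5 a 0 c d e * q5 a 0 c d e = 1 → q5 a 0 c d e ≠ 1 →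
      (a = 0 ∨ d = 0) → Cls (q5 a 0 c d e) := by
    intro a c d e _ hne had
    by_cases hd : d = 0
    · subst hd; exact cls_ac hne
    obtain rfl := had.resolve_right hd
    by_cases hc : c = 0
    · subst hc
      refine cls_conj (ng_mem' (show 0 < 2 by omega)) ?_
      have e1 : MulAut.conj (C.ng 0) (q5 0 0 0 d e) = q5 d 0 0 0 e := by
        rw [q5, C.xg_zero, C.xg_zero, C.xg_zero, one_mul, one_mul, one_mul, map_mul,
          ng_conj (by omega) (by omega), ng_conj (by omega) (by omega),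
          show chevG2.reflectRoot 0 10 = 6 by decide +kernel, show chevG2.reflectRoot 0 11 = 11 by decide +kernel]
        simp [q5, C.xg_zero]
      rw [e1]
      exact cls_ac (e1 ▸ conj_ne_one hne _)
    · refine cls_conj (xg_mem' (show 7 < 12 by omega) (d / c)) ?_
      obtain ⟨e', he⟩ := conj_seven' (d / c) 0 0 c d e
      have hne' := conj_ne_one hne (C.xg 7 (d / c))
      rw [he] at hne' ⊢
      simp only [mul_zero, zero_add, div_mul_cancel₀ d hc, CharTwo.add_self_eq_zero] at hne' ⊢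
      exact cls_ac hne'
  have hrel := q5_invol h2
  by_cases ha : a = 0
  · subst ha
    rw [mul_zero, zero_add, mul_eq_zero] at hrel
    by_cases hb : b = 0
    · subst hb; exact key 0 c d e h2 hne (Or.inl rfl)
    obtain rfl := hrel.resolve_right hb
    refine cls_conj (ng_mem' (show 0 < 2 by omega)) ?_
    have e1 : MulAut.conj (C.ng 0) (q5 0 b 0 d e) = q5 d 0 b 0 e := by
      conv_lhs => rw [q5, C.xg_zero, C.xg_zero, one_mul, mul_one]
      rw [map_mul, map_mul, ng_conj (by omega) (by omega), ng_conj (by omega) (by omega),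
        ng_conj (by omega) (by omega), show chevG2.reflectRoot 0 8 = 9 by decide +kernel,
        show chevG2.reflectRoot 0 10 = 6 by decide +kernel, show chevG2.reflectRoot 0 11 = 11 by decide +kernel,
        ← (q5_single b).2.2.1, ← (q5_single d).1, ← (q5_single e).2.2.2.2]
      simp only [q5_mul, zero_add, add_zero, mul_zero, zero_mul]
    rw [e1]
    exact cls_ac (e1 ▸ conj_ne_one hne _)
  · refine cls_conj (xg_mem' (show 7 < 12 by omega) (b / a)) ?_
    obtain ⟨e', he⟩ := conj_seven' (b / a) a b c d e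
    have h2' := conj_invol h2 (C.xg 7 (b / a))
    have hne' := conj_ne_one hne (C.xg 7 (b / a))
    rw [he] at h2' hne' ⊢
    simp only [div_mul_cancel₀ b ha, CharTwo.add_self_eq_zero] at h2' hne' ⊢
    have := q5_invol h2'
    rw [mul_zero, add_zero, mul_eq_zero, or_iff_left ha] at this
    rw [this] at h2' hne' ⊢
    exact key a _ 0 e' h2' hne' (Or.inr rfl)

omit [CharP F 2] in
theorem pos_roots : chevG2.posRoots = [6, 7, 8, 9, 10, 11] := by decide +kernel

theorem exists_form {u : GL chevG2.Idx F} (hu : u ∈ chevG2.posUnipotent F) :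
    ∃ a b c d e t : F, u = q5 a b c d e * C.xg 7 t := by
  rw [posUnipotent_eq] at hu
  obtain ⟨t, hut⟩ := C.exists_ordered C.closedSet_pos hu
  rw [← C.posRoots_eq, pos_roots] at hut
  obtain ⟨e', he⟩ := conj_seven' (t 7) 0 (t 8) (t 9) (t 10) (t 11)
  refine ⟨t 6, t 8, t 9, t 7 ^ 2 * t 8 + t 7 * t 9 + t 10, e', t 7, ?_⟩
  have h1 : u = C.xg 6 (t 6) * (MulAut.conj (C.xg 7 (t 7)) (q5 0 (t 8) (t 9) (t 10) (t 11))) * C.xg 7 (t 7) := by
    rw [hut, MulAut.conj_apply, q5, C.xg_zero, one_mul]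
    simp [C.wg_cons, C.wg_nil, mul_assoc]
  rw [h1, he, ← (q5_single (t 6)).1, q5_mul]
  simp only [zero_add, add_zero, mul_zero, zero_mul]

/-- every involution of `U` is in one of the two classes -/
theorem cls_of_pos [Finite F] {u : GL chevG2.Idx F} (hu : u ∈ chevG2.posUnipotent F) (h2 : u * u = 1)
    (hne : u ≠ 1) : Cls u := by
  obtain ⟨a, b, c, d, e, t, rfl⟩ := exists_form hu
  by_cases ht : t = 0
  · subst ht
    rw [C.xg_zero, mul_one] at h2 hne ⊢
    exact cls_q5 h2 hne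
  have hsq : ∀ a b c d e : F, q5 a b c d e * C.xg 7 t * (q5 a b c d e * C.xg 7 t) = 1 →
      a = 0 ∧ c = t * b := by
    intro a b c d e h
    obtain ⟨e', he⟩ := conj_seven' t a b c d e
    have h1 : q5 a b c d e * MulAut.conj (C.xg 7 t) (q5 a b c d e) = 1 := by
      rw [MulAut.conj_apply, C.xg_inv, CharTwo.neg_eq]
      simpa [mul_assoc] using h
    rw [he, q5_mul] at h1
    obtain ⟨-, hb, -, hd, -⟩ := q5_inj h1
    have ha : a = 0 := by
      rw [← add_assoc, add_comm b (t * a), add_assoc, CharTwo.add_self_eq_zero, add_zero, mul_eq_zero] at hb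
      exact hb.resolve_left ht
    subst ha
    refine ⟨rfl, ?_⟩
    have h3 : t * (t * b + c) = 0 := by
      have e1 : t * (t * b + c) = d + (t ^ 3 * 0 + t ^ 2 * b + t * c + d) - (d + d) := by ring
      rw [e1, hd, CharTwo.add_self_eq_zero, sub_zero]
    exact (CharTwo.add_eq_zero.1 ((mul_eq_zero.1 h3).resolve_left ht)).symm
  obtain ⟨rfl, rfl⟩ := hsq _ _ _ _ _ h2
  -- clear the root `8`
  set s := b / t with hs
  refine cls_conj (xg_mem' (show 6 < 12 by omega) s) ?_
  obtain ⟨d', e', h6⟩ : ∃ d' e', MulAut.conj (C.xg 6 s) (q5 0 b (t * b) d e * C.xg 7 t) =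
      q5 0 0 0 d' e' * C.xg 7 t := by
    obtain ⟨e7, h7⟩ := conj_seven' t s 0 0 0 0
    have hq : MulAut.conj (C.xg 6 s) (q5 0 b (t * b) d e * C.xg 7 t) =
        q5 s 0 0 0 0 * q5 0 b (t * b) d e * MulAut.conj (C.xg 7 t) (q5 s 0 0 0 0) * C.xg 7 t := by
      rw [(q5_single s).1, MulAut.conj_apply, MulAut.conj_apply, C.xg_inv, C.xg_inv, CharTwo.neg_eq,
        CharTwo.neg_eq]
      simp [mul_assoc, xg_sq]
    refine ⟨d + t ^ 3 * s, e + e7 + d * s + t * b * (t * s), ?_⟩
    rw [hq, h7, q5_mul, q5_mul]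
    congr 1
    have htb : t * s = b := by rw [hs, mul_div_cancel₀ b ht]
    have ht2 : t ^ 2 * s = t * b := by rw [pow_two, mul_assoc, htb]
    simp only [zero_add, add_zero, mul_zero, zero_mul, CharTwo.add_self_eq_zero, htb, ht2]
  have h2' := conj_invol h2 (C.xg 6 s)
  have hne' := conj_ne_one hne (C.xg 6 s)
  rw [h6] at h2' hne' ⊢
  -- clear the root `10`
  set r := d' / t with hr
  refine cls_conj (xg_mem' (show 9 < 12 by omega) r) ?_
  obtain ⟨e'', h9⟩ : ∃ e'', MulAut.conj (C.xg 9 r) (q5 0 0 0 d' e' * C.xg 7 t) =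
      q5 0 0 0 0 e'' * C.xg 7 t := by
    obtain ⟨e7, h7⟩ := conj_seven' t 0 0 r 0 0
    have hq : MulAut.conj (C.xg 9 r) (q5 0 0 0 d' e' * C.xg 7 t) =
        q5 0 0 r 0 0 * q5 0 0 0 d' e' * MulAut.conj (C.xg 7 t) (q5 0 0 r 0 0) * C.xg 7 t := by
      rw [(q5_single r).2.2.1, MulAut.conj_apply, MulAut.conj_apply, C.xg_inv, C.xg_inv, CharTwo.neg_eq,
        CharTwo.neg_eq]
      simp [mul_assoc, xg_sq]
    refine ⟨e' + e7, ?_⟩
    rw [hq, h7, q5_mul, q5_mul]
    congr 1
    simp only [zero_add, add_zero, mul_zero, zero_mul, CharTwo.add_self_eq_zero, hr, mul_div_cancel₀ d' ht]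
  have h2'' := conj_invol h2' (C.xg 9 r)
  have hne'' := conj_ne_one hne' (C.xg 9 r)
  rw [h9] at h2'' hne'' ⊢
  refine cls_conj (ng_mem' (show 1 < 2 by omega)) ?_
  have e1 : MulAut.conj (C.ng 1) (q5 0 0 0 0 e'' * C.xg 7 t) = q5 0 t 0 e'' 0 := by
    rw [(q5_single e'').2.2.2.2, map_mul, ng_conj (by omega) (by omega), ng_conj (by omega) (by omega),
      show chevG2.reflectRoot 1 11 = 10 by decide +kernel, show chevG2.reflectRoot 1 7 = 8 by decide +kernel,
      ← (q5_single e'').2.2.2.1, ← (q5_single t).2.1, q5_mul]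
    simp
  have h3 := conj_invol h2'' (C.ng 1)
  have h4 := conj_ne_one hne'' (C.ng 1)
  rw [e1] at h3 h4 ⊢
  exact cls_q5 h3 h4

/-- every involution of the group is in one of the two classes -/
theorem cls_of_group [Fintype F] {g : GL chevG2.Idx F} (hg : g ∈ chevG2.group F) (h2 : g * g = 1)
    (hne : g ≠ 1) : Cls g := by
  have : Fact (Nat.Prime 2) := ⟨Nat.prime_two⟩
  let G := ↥(chevG2.group F)
  let K : Subgroup G := (chevG2.posUnipotent F).subgroupOf (chevG2.group F)
  have hodd : ¬ 2 ∣ Nat.card (G ⧸ K) := by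
    rw [← Subgroup.index_eq_card]
    have hK : Nat.card K = Fintype.card F ^ 6 := by
      rw [Nat.card_congr (Subgroup.subgroupOfEquivOfLe C.pos_le_group).toEquiv, posUnipotent_eq,
        C.card_grp C.closedSet_pos, C.ncard_pos, show G2.fast.npos = 6 by decide +kernel]
    have hG := card_G2 (F := F) rfl
    have e := Subgroup.card_mul_index K
    rw [one_mul, ← e, hK, mul_assoc] at hG
    have hq : 2 ≤ Fintype.card F := Fintype.one_lt_card
    have hi := Nat.eq_of_mul_eq_mul_left (by positivity) hG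
    rw [hi]
    have heven : Even (Fintype.card F) := Nat.even_iff.2 (FiniteField.even_card_of_char_two (ringChar.eq F 2))
    have ho : ∀ n, n ≠ 0 → Odd (Fintype.card F ^ n - 1) := fun n hn =>
      Nat.Even.sub_odd (Nat.one_le_pow _ _ (by omega)) (heven.pow_of_ne_zero hn) odd_one
    exact fun h => Nat.not_even_iff_odd.2 ((ho 2 (by omega)).mul (ho 6 (by omega))) (even_iff_two_dvd.2 h)
  have hord : orderOf (⟨g, hg⟩ : G) = 2 := orderOf_eq_prime (Subtype.ext (by simp [pow_two, h2]))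
    (fun e => hne (congrArg Subtype.val e))
  have hP : IsPGroup 2 (Subgroup.zpowers (⟨g, hg⟩ : G)) := IsPGroup.of_card (n := 1) (by
    rw [Nat.card_zpowers, hord, pow_one])
  obtain ⟨a, ha⟩ := hP.nonempty_fixed_point_of_prime_not_dvd_card (G ⧸ K) hodd
  induction a using QuotientGroup.induction_on with
  | _ k =>
    have hfix := ha ⟨⟨g, hg⟩, Subgroup.mem_zpowers _⟩
    change (QuotientGroup.mk ((⟨g, hg⟩ : G) * k) : G ⧸ K) = QuotientGroup.mk k at hfix
    rw [eq_comm, QuotientGroup.eq, ← mul_assoc] at hfix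
    have hc : (k : GL chevG2.Idx F)⁻¹ * g * k ∈ chevG2.posUnipotent F := by
      exact Subgroup.mem_subgroupOf.1 hfix
    refine cls_conj (inv_mem k.2) ?_
    rw [MulAut.conj_apply, inv_inv]
    refine cls_of_pos hc ?_ ?_
    · have := conj_invol h2 (k : GL chevG2.Idx F)⁻¹
      rwa [MulAut.conj_apply, inv_inv] at this
    · have := conj_ne_one hne (k : GL chevG2.Idx F)⁻¹
      rwa [MulAut.conj_apply, inv_inv] at this

end Cfsg.Agent.Lib.Chev.G2Even
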