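import Cfsg.Agent.Lib.Chev.G2OddHom
import Cfsg.Agent.Lib.Chev.RootCent
import Cfsg.Agent.Lib.Chev.Struct
import Cfsg.Agent.Lib.Chev.Coord
import Cfsg.Agent.Lib.Chev.Extra

/-!
The centraliser of the involution `tor (-1) 1` of `G₂(F)`, in odd characteristic.
-/

set_option autoImplicit false

namespace Cfsg.Agent.Lib.Chev.G2Odd

open Cfsg.Lie Cfsg.Agent.Lib Cfsg.Agent.Lib.Chev
open scoped MatrixGroups

variable {F : Type*} [Field F]

/-- the involution -/
def invol (F : Type*) [Field F] : GL chevG2.Idx F := tor (-1 : Fˣ) 1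

theorem neg_root : ∀ r < 12, chevG2.neg r = 11 - r := by decide +kernel

/-- `-1` in `SL₂` -/
theorem dT_neg_one_eq : dT (-1 : F) = -1 := by
  apply Subtype.ext
  rw [val_dT (neg_ne_zero.2 one_ne_zero), Matrix.SpecialLinearGroup.coe_neg,
    Matrix.SpecialLinearGroup.coe_one, Matrix.one_fin_two]
  simp

theorem phi_seven_neg_one : phi 7 (-1 : SL(2, F)) = invol F := by
  rw [← dT_neg_one_eq, phi_dT (by omega), hg_seven (neg_ne_zero.2 one_ne_zero), invol]
  congr 1
  exact Units.ext (by simp)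

theorem phi_eleven_neg_one : phi 11 (-1 : SL(2, F)) = invol F := by
  rw [← dT_neg_one_eq, phi_dT (by omega), hg_eleven (neg_ne_zero.2 one_ne_zero), invol]
  congr 1
  · exact Units.ext (by simp)
  · exact Units.ext (by simp)

theorem invol_ne_one (h2 : (2 : F) ≠ 0) : invol F ≠ 1 := by
  intro h
  rw [← tor_one] at h
  have := congrArg Units.val (tor_inj h).1
  simp only [Units.val_neg, Units.val_one] at this
  exact h2 (by linear_combination -this)

theorem cd_eq_one_iff (d : Fˣ) (s : SL(2, F)) : cd d s = 1 ↔ s = 1 := by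
  refine ⟨fun h => toGL_inj ?_, fun h => by rw [h, map_one]⟩
  have := congrArg Matrix.SpecialLinearGroup.toGL h
  rwa [toGL_cd, map_one, conj_eq_one_iff, ← map_one Matrix.SpecialLinearGroup.toGL] at this

theorem phi_inj_seven_eleven (h2 : (2 : F) ≠ 0) {r : ℕ} (hr : r = 7 ∨ r = 11) :
    Function.Injective (phi (F := F) r) := by
  have hr12 : r < 12 := by omega
  have hrn : r < chevG2.nroots := by rw [nroots_eq]; exact hr12
  have hpos : chevG2.IsPosRoot r := by
    have : chevG2.IsPosRoot 7 ∧ chevG2.IsPosRoot 11 := by decide +kernel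
    rcases hr with rfl | rfl
    exacts [this.1, this.2]
  have hneg : chevG2.IsPosRoot r ∧ ∀ t : F, C.xg (chevG2.neg r) t ∈ chevG2.negUnipotent F := by
    refine ⟨hpos, fun t => ?_⟩
    rw [negUnipotent_eq]
    exact C.xg_mem ((C.neg_pos_iff (C.root.neg_lt r hrn)).1 (by rcases hr with rfl | rfl <;> decide +kernel)) t
  rw [injective_iff_map_eq_one]
  -- the entry below the diagonal of a kernel element vanishes
  have hlow : ∀ s : SL(2, F), phi r s = 1 → s.1 1 0 = 0 := by
    intro s hs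
    by_contra hc
    have e : s = RootPair.upT ((s.1 0 0 - 1) / s.1 1 0) * RootPair.loT (s.1 1 0) *
        RootPair.upT ((s.1 1 1 - 1) / s.1 1 0) := by
      have hd := RootPair.det_eq s
      apply Subtype.ext
      simp only [Matrix.SpecialLinearGroup.coe_mul, RootPair.val_upT, RootPair.val_loT, Matrix.mul_fin_two]
      conv_lhs => rw [Matrix.eta_fin_two s.1]
      generalize s.1 0 0 = a, s.1 0 1 = b, s.1 1 0 = c, s.1 1 1 = d at hd hc ⊢
      ext i j
      fin_cases i <;> fin_cases j <;> simp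
      all_goals field_simp
      all_goals first
        | linear_combination hd
        | linear_combination -hd
        | ring
    rw [e, map_mul, map_mul, phi_up hr12, phi_up hr12, phi_lo hr12] at hs
    have hy : C.xg (chevG2.neg r) (s.1 1 0) ∈ chevG2.posUnipotent F := by
      have := mul_mem (mul_mem (inv_mem (C.xg_mem_pos hpos ((s.1 0 0 - 1) / s.1 1 0)))
        (one_mem (chevG2.posUnipotent F))) (inv_mem (C.xg_mem_pos hpos ((s.1 1 1 - 1) / s.1 1 0)))
      rw [← hs] at this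
      convert this using 1
      group
    have h1 : C.xg (chevG2.neg r) (s.1 1 0) ∈ chevG2.borelSubgroup F ⊓ chevG2.negUnipotent F :=
      Subgroup.mem_inf.2 ⟨Subgroup.mem_sup_left hy, hneg.2 _⟩
    rw [C.borel_inf_neg, Subgroup.mem_bot] at h1
    exact hc (C.xg_eq_one (C.root.neg_lt r hrn) h1)
  intro s hs
  have hc := hlow s hs
  -- conjugating by `wT` exchanges the entries off the diagonal
  have hb : s.1 0 1 = 0 := by
    have := hlow (RootPair.wT * s * RootPair.wT⁻¹) (by rw [map_mul, map_mul, hs, mul_one, ← map_mul, mul_inv_cancel, map_one])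
    simpa [RootPair.val_wT, Matrix.mul_fin_two, Matrix.adjugate_fin_two, Matrix.mul_apply,
      Matrix.vecMul, dotProduct, Fin.sum_univ_two] using this
  have hd := RootPair.det_eq s
  rw [hb, zero_mul, sub_zero] at hd
  -- a commutator with an upper unitriangular element
  have hsq : s.1 0 0 ^ 2 = 1 := by
    have hk : phi r (s * RootPair.upT 1 * s⁻¹ * (RootPair.upT 1)⁻¹) = 1 := by
      rw [map_mul, map_mul, map_mul, hs, map_inv, map_inv, hs]; simp
    have e : s * RootPair.upT 1 * s⁻¹ * (RootPair.upT 1)⁻¹ = RootPair.upT (s.1 0 0 ^ 2 - 1) := by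
      rw [mul_inv_eq_iff_eq_mul, mul_inv_eq_iff_eq_mul]
      apply Subtype.ext
      ext i j
      fin_cases i <;> fin_cases j <;>
        simp [RootPair.val_upT, Matrix.mul_apply, Fin.sum_univ_two, hc, hb]
      linear_combination (-s.1 0 0) * hd
    rw [e, phi_up hr12] at hk
    have := C.xg_eq_one hrn hk
    linear_combination this
  rcases sq_eq_one_iff.1 hsq with ha | ha
  · apply Subtype.ext
    ext i j
    fin_cases i <;> fin_cases j <;> simp [hc, hb, ha]
    simpa [ha] using hd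
  · exfalso
    have e : s = -1 := by
      apply Subtype.ext
      ext i j
      fin_cases i <;> fin_cases j <;> simp [hc, hb, ha]
      rw [ha] at hd
      linear_combination -hd
    rw [e] at hs
    rcases hr with rfl | rfl
    · exact invol_ne_one h2 (phi_seven_neg_one.symm.trans hs)
    · exact invol_ne_one h2 (phi_eleven_neg_one.symm.trans hs)

/-- An element of `GL₂` acting on `SL₂` trivially by conjugation is scalar. -/
theorem scalar_of_comm {g : GL (Fin 2) F} (h : ∀ s : SL(2, F), g * s.toGL = s.toGL * g) :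
    g.1 0 1 = 0 ∧ g.1 1 0 = 0 ∧ g.1 1 1 = g.1 0 0 := by
  have h1 := congrArg Units.val (h (RootPair.upT 1))
  have h2 := congrArg Units.val (h (RootPair.loT 1))
  simp only [Units.val_mul] at h1 h2
  have a := congrFun (congrFun h1 0) 0
  have b := congrFun (congrFun h1 0) 1
  have c := congrFun (congrFun h2 0) 0
  simp [RootPair.val_upT, Matrix.mul_apply, Fin.sum_univ_two] at a b
  simp [RootPair.val_loT, Matrix.mul_apply, Fin.sum_univ_two] at c
  refine ⟨c, a, ?_⟩
  linear_combination -b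

/-- scalar matrices -/
def scal : Fˣ →* GL (Fin 2) F := Units.map (Matrix.scalar (Fin 2) : F →+* Matrix (Fin 2) (Fin 2) F).toMonoidHom

theorem val_scal (a : Fˣ) : ((scal a : GL (Fin 2) F) : Matrix (Fin 2) (Fin 2) F) = !![(a : F), 0; 0, a] := by
  show Matrix.scalar (Fin 2) (a : F) = _
  ext i j
  fin_cases i <;> fin_cases j <;> simp

theorem scal_comm (a : Fˣ) (g : GL (Fin 2) F) : scal a * g = g * scal a := by
  apply Units.ext
  exact (Matrix.scalar_commute (a : F) (fun r => mul_comm _ _) _).eq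

theorem det_scal (a : Fˣ) : Matrix.GeneralLinearGroup.det (scal a) = a ^ 2 := by
  apply Units.ext
  simp [Matrix.GeneralLinearGroup.val_det_apply, val_scal, Matrix.det_fin_two, sq]

theorem eq_scal {g : GL (Fin 2) F} (h : g.1 0 1 = 0 ∧ g.1 1 0 = 0 ∧ g.1 1 1 = g.1 0 0) :
    ∃ a, g = scal a := by
  have hne : g.1 0 0 ≠ 0 := by
    intro h0
    have := (Matrix.GeneralLinearGroup.det g).ne_zero
    rw [Matrix.GeneralLinearGroup.val_det_apply, Matrix.det_fin_two, h.1, h0] at this
    simp at this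
  refine ⟨Units.mk0 _ hne, Units.ext ?_⟩
  rw [val_scal]
  ext i j
  fin_cases i <;> fin_cases j <;> simp [h.1, h.2.1, h.2.2]

theorem slc_scal (a : Fˣ) : slc (scal a) = dT ((a⁻¹ : Fˣ) : F) := by
  refine toGL_inj ?_
  rw [toGL_slc, det_scal, mul_inv_eq_iff_eq_mul]
  apply Units.ext
  rw [Units.val_mul, val_scal, val_dd]
  show _ = (dT ((a⁻¹ : Fˣ) : F) : SL(2, F)).1 * _
  rw [val_dT (Units.ne_zero _)]
  simp [Matrix.mul_fin_two, sq]

theorem big_scal (g : Pairs F) (a b : Fˣ) (ha : g.1.1 = scal a) (hb : g.1.2 = scal b) :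
    big g = tor (a * b)⁻¹ 1 := by
  rw [big_apply, ha, hb, det_scal, slc_scal, slc_scal, phi_dT (by omega), phi_dT (by omega),
    hg_seven (Units.ne_zero _), hg_eleven (Units.ne_zero _), Units.mk0_val, Units.mk0_val, tor_mul, tor_mul]
  congr 1
  · simp [mul_comm]
  · simp

theorem big_ker (h2 : (2 : F) ≠ 0) {g : Pairs F} :
    big g = 1 ↔ ∃ a : Fˣ, g.1 = (scal a, scal a⁻¹) := by
  constructor
  · intro h
    rw [big_apply] at h
    set e := Matrix.GeneralLinearGroup.det g.1.2 with he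
    have hτ : tor 1 e = (phi 7 (slc g.1.1) * phi 11 (slc g.1.2))⁻¹ :=
      eq_inv_of_mul_eq_one_right h
    have hd : Matrix.GeneralLinearGroup.det g.1.1 = e⁻¹ := mul_eq_one_iff_eq_inv.1 (mem_Pairs.1 g.2)
    have c1 : ∀ s, cd e⁻¹ s = (slc g.1.1)⁻¹ * s * slc g.1.1 := fun s => by
      refine phi_inj_seven_eleven h2 (Or.inl rfl) ?_
      rw [← tor_phi_seven, hτ, inv_inv, map_mul, map_mul, map_inv]
      calc (phi 7 (slc g.1.1) * phi 11 (slc g.1.2))⁻¹ * phi 7 s * (phi 7 (slc g.1.1) * phi 11 (slc g.1.2))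
          = (phi 11 (slc g.1.2))⁻¹ * ((phi 7 (slc g.1.1))⁻¹ * phi 7 s * phi 7 (slc g.1.1)) *
              phi 11 (slc g.1.2) := by group
        _ = (phi 11 (slc g.1.2))⁻¹ * (phi 11 (slc g.1.2) *
              ((phi 7 (slc g.1.1))⁻¹ * phi 7 s * phi 7 (slc g.1.1))) := by
            rw [mul_assoc]
            congr 1
            rw [← map_inv, ← map_mul, ← map_mul, phi_comm]
        _ = _ := by group
    have c2 : ∀ s, cd e s = (slc g.1.2)⁻¹ * s * slc g.1.2 := fun s => by
      refine phi_inj_seven_eleven h2 (Or.inr rfl) ?_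
      rw [← tor_phi_eleven, hτ, inv_inv, map_mul, map_mul, map_inv]
      have hc : (phi 7 (slc g.1.1))⁻¹ * phi 11 s = phi 11 s * (phi 7 (slc g.1.1))⁻¹ := by
        rw [← map_inv, phi_comm]
      calc (phi 7 (slc g.1.1) * phi 11 (slc g.1.2))⁻¹ * phi 11 s * (phi 7 (slc g.1.1) * phi 11 (slc g.1.2))
          = (phi 11 (slc g.1.2))⁻¹ * ((phi 7 (slc g.1.1))⁻¹ * phi 11 s) * phi 7 (slc g.1.1) *
              phi 11 (slc g.1.2) := by group
        _ = _ := by rw [hc]; group
    have scalar : ∀ (g : GL (Fin 2) F), (∀ s, cd (Matrix.GeneralLinearGroup.det g) s =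
        (slc g)⁻¹ * s * slc g) → ∃ a, g = scal a := by
      intro g hg
      refine eq_scal (scalar_of_comm fun s => ?_)
      have := congrArg Matrix.SpecialLinearGroup.toGL (hg s)
      rw [toGL_cd, map_mul, map_mul, map_inv, toGL_slc] at this
      set D := dd (Matrix.GeneralLinearGroup.det g)
      calc g * s.toGL = g * D⁻¹ * (D * s.toGL * D⁻¹) * D := by group
        _ = g * D⁻¹ * ((g * D⁻¹)⁻¹ * s.toGL * (g * D⁻¹)) * D := by rw [this]
        _ = s.toGL * g := by group
    obtain ⟨a, ha⟩ := scalar g.1.1 (by rw [hd]; exact c1)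
    obtain ⟨b, hb⟩ := scalar g.1.2 c2
    have h' : big g = 1 := by rw [big_apply]; exact h
    rw [big_scal g a b ha hb, ← tor_one] at h'
    refine ⟨a, Prod.ext ha ?_⟩
    rw [hb]
    have h'' := (tor_inj h').1
    rw [inv_eq_one] at h''
    exact congrArg _ (eq_inv_of_mul_eq_one_right h'')
  · rintro ⟨a, h⟩
    rw [big_scal g a a⁻¹ (congrArg Prod.fst h) (congrArg Prod.snd h), mul_inv_cancel, inv_one, tor_one]

/-- the four roots of the centraliser -/
theorem xg_mem_range {r : ℕ} (hr : r ∈ [0, 4, 7, 11]) (t : F) : C.xg r t ∈ (big (F := F)).range := by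
  have hn : chevG2.neg 7 = 4 ∧ chevG2.neg 11 = 0 := by decide +kernel
  simp only [List.mem_cons, List.not_mem_nil, or_false] at hr
  rcases hr with rfl | rfl | rfl | rfl
  · exact ⟨slPair (1, RootPair.loT t), by rw [big_slPair, map_one, one_mul, phi_lo (by omega), hn.2]⟩
  · exact ⟨slPair (RootPair.loT t, 1), by rw [big_slPair, map_one, mul_one, phi_lo (by omega), hn.1]⟩
  · exact ⟨slPair (RootPair.upT t, 1), by rw [big_slPair, map_one, mul_one, phi_up (by omega)]⟩
  · exact ⟨slPair (1, RootPair.upT t), by rw [big_slPair, map_one, one_mul, phi_up (by omega)]⟩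

theorem invol_xg {r : ℕ} (hr : r < 12) (t : F) :
    invol F * C.xg r t * (invol F)⁻¹ = C.xg r ((-1) ^ chevG2.cartan 0 r * t) := by
  rw [invol, tor_xg _ _ hr]
  simp

theorem big_comm (g : Pairs F) : big g * invol F = invol F * big g := by
  rw [← phi_seven_neg_one, ← mul_one (phi 7 (-1 : SL(2, F))), ← map_one (phi (F := F) 11),
    ← big_slPair (-1, 1), ← map_mul, ← map_mul]
  congr 1
  refine Subtype.ext (Prod.ext ?_ ?_)
  · show g.1.1 * (-1 : SL(2, F)).toGL = (-1 : SL(2, F)).toGL * g.1.1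
    rw [show (-1 : SL(2, F)).toGL = scal (-1) from Units.ext (by
      rw [val_scal]
      show ((-1 : SL(2, F)) : Matrix (Fin 2) (Fin 2) F) = _
      rw [Matrix.SpecialLinearGroup.coe_neg, Matrix.SpecialLinearGroup.coe_one, Matrix.one_fin_two]
      simp), scal_comm]
  · show g.1.2 * (1 : SL(2, F)).toGL = (1 : SL(2, F)).toGL * g.1.2
    simp

theorem cent_le (h2 : (2 : F) ≠ 0) {g : GL chevG2.Idx F} (hg : g ∈ chevG2.group F)
    (hc : g * invol F = invol F * g) : g ∈ (big (F := F)).range := by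
  have hi : invol F ∈ chevG2.diagonalSubgroup F := tor_mem_diag _ _
  have hone : (-1 : F) ≠ 1 := fun h => h2 (by linear_combination -h)
  obtain ⟨b, hb, n, hn, u, hu, rfl⟩ := C.exists_bnu hg
  obtain ⟨v, hv, d0, hd0, rfl⟩ := C.mem_borel.1 hb
  set i := invol F with hidef
  set d := i * n * i⁻¹ * n⁻¹ with hd
  have hdd : d ∈ chevG2.diagonalSubgroup F := by
    have := C.mono_conj_diag hn _ (inv_mem hi)
    rw [hd, show i * n * i⁻¹ * n⁻¹ = i * (n * i⁻¹ * n⁻¹) by group]
    exact mul_mem hi this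
  have hb' : i * v * i⁻¹ * (d0 * d) ∈ chevG2.borelSubgroup F := C.mem_borel.2
    ⟨_, (C.diag_normalizes_posUnipotent hi v).1 hv, _, mul_mem hd0 hdd, rfl⟩
  have hu' : i * u * i⁻¹ ∈ grp chevG2 F (C.inv n) :=
    C.diag_normalizes (fun r hr => hr.1.1) hi hu
  have e : i * v * i⁻¹ * (d0 * d) * n * (i * u * i⁻¹) = v * d0 * n * u := by
    calc i * v * i⁻¹ * (d0 * d) * n * (i * u * i⁻¹)
        = i * v * i⁻¹ * d0 * i * n * u * i⁻¹ := by rw [hd]; group
      _ = i * v * (i⁻¹ * d0) * i * n * u * i⁻¹ := by group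
      _ = i * v * (d0 * i⁻¹) * i * n * u * i⁻¹ := by rw [C.diag_comm (inv_mem hi) hd0]
      _ = i * (v * d0 * n * u) * i⁻¹ := by group
      _ = _ := by rw [← hc]; group
  obtain ⟨eb, eu⟩ := (C.bnu_unique hb' hb hn hn hu' hu e).2 rfl
  have hUD : ∀ x : GL chevG2.Idx F, x ∈ chevG2.posUnipotent F →
      x ∈ chevG2.diagonalSubgroup F → x = 1 := fun x h1 h2 => by
    have : x ∈ chevG2.posUnipotent F ⊓ chevG2.diagonalSubgroup F := Subgroup.mem_inf.2 ⟨h1, h2⟩
    rwa [C.pos_inf_diag, Subgroup.mem_bot] at this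
  have hvfix : i * v * i⁻¹ = v := by
    have h1 : v⁻¹ * (i * v * i⁻¹) = d0 * (d0 * d)⁻¹ := by
      calc v⁻¹ * (i * v * i⁻¹) = v⁻¹ * (i * v * i⁻¹ * (d0 * d)) * (d0 * d)⁻¹ := by group
        _ = _ := by rw [eb]; group
    have h3 := hUD _ (mul_mem (inv_mem hv) ((C.diag_normalizes_posUnipotent hi v).1 hv))
      (h1 ▸ mul_mem hd0 (inv_mem (mul_mem hd0 hdd)))
    exact (inv_mul_eq_one.1 h3).symm
  have hd1 : d = 1 := by
    rw [hvfix] at eb
    simpa [mul_assoc] using eb
  -- fixed elements of `U`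
  have hU : ∀ x ∈ chevG2.posUnipotent F, i * x * i⁻¹ = x → x ∈ (big (F := F)).range := by
    intro x hx hfix
    rw [posUnipotent_eq] at hx
    obtain ⟨t, -, rfl⟩ := C.exists_coord C.closedSet_pos hx
    obtain ⟨χ, hχ, eχ⟩ := C.exists_chr hi
    have hl := C.rootList_sorted {r | chevG2.IsPosRoot r}
    have hmem : ∀ r ∈ C.rootList {r | chevG2.IsPosRoot r}, r < chevG2.nroots := fun r hr =>
      (C.mem_rootList.1 hr).1
    rw [C.diag_conj_wg hχ eχ _ (fun p hp => by
      obtain ⟨r, hr, rfl⟩ := List.mem_map.1 hp; exact hmem r hr), List.map_map] at hfix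
    have hco := C.ordered_inj _ hl (fun r hr => (C.mem_rootList.1 hr).2) (fun r => χ r * t r) t hfix
    refine Subgroup.list_prod_mem _ fun y hy => ?_
    obtain ⟨p, hp, rfl⟩ := List.mem_map.1 hy
    obtain ⟨r, hr, rfl⟩ := List.mem_map.1 hp
    have hrn := hmem r hr
    have hr12 : r < 12 := by rwa [nroots_eq] at hrn
    by_cases h4 : r ∈ [0, 4, 7, 11]
    · exact xg_mem_range h4 _
    have hχr : χ r = -1 := by
      have e1 := invol_xg (F := F) hr12 1
      rw [C.conj_xg_of_dg hχ eχ hrn] at e1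
      have e2 := C.xg_inj hrn e1
      rw [mul_one, mul_one] at e2
      rw [e2]
      have : ∀ r < 12, r ∉ [0, 4, 7, 11] → chevG2.cartan 0 r ∈ [1, -1, 3, -3] := by decide +kernel
      have h5 := this r hr12 h4
      simp only [List.mem_cons, List.not_mem_nil, or_false] at h5
      rcases h5 with h5 | h5 | h5 | h5 <;> rw [h5] <;> norm_num [zpow_ofNat, zpow_neg]
    have h0 : t r = 0 := by
      have := hco r hr
      rw [hχr] at this
      have : (2 : F) * t r = 0 := by linear_combination -this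
      exact (mul_eq_zero.1 this).resolve_left h2
    simp [h0, C.xg_zero, one_mem]
  have hvR := hU v hv hvfix
  have huU : u ∈ chevG2.posUnipotent F := by
    rw [posUnipotent_eq]; exact grp_mem_mono hu fun r hr => hr.1
  have huR := hU u huU eu
  -- the monomial part
  have hdR : ∀ x ∈ chevG2.diagonalSubgroup F, x ∈ (big (F := F)).range := fun x hx => by
    obtain ⟨c0, c1, rfl⟩ := exists_tor hx
    exact ⟨torPair c0 c1, big_torPair c0 c1⟩
  have hnc : i * n * i⁻¹ = n := mul_inv_eq_one.1 hd1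
  have hsg : ∀ r < 12, ((-1 : F) ^ chevG2.cartan 0 (C.sg n r)) = (-1) ^ chevG2.cartan 0 r := by
    intro r hr
    have hrn : r < chevG2.nroots := by rw [nroots_eq]; exact hr
    obtain ⟨c, hc0, hcr⟩ := C.sg_conj hn hrn
    have hs12 : C.sg n r < 12 := by rw [← nroots_eq]; exact C.sg_lt hn hrn
    have h1 : i * (n * C.xg r 1 * n⁻¹) * i⁻¹ =
        (i * n * i⁻¹) * (i * C.xg r 1 * i⁻¹) * (i * n * i⁻¹)⁻¹ := by group
    rw [hnc, hidef, invol_xg hr, hcr, hcr, invol_xg hs12] at h1
    have h3 := C.xg_inj (C.sg_lt hn hrn) h1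
    exact mul_right_cancel₀ hc0 (by linear_combination h3)
  have hmem4 : ∀ r < 12, r ∈ [0, 4, 7, 11] → C.sg n r ∈ [0, 4, 7, 11] := by
    intro r hr hr4
    have hrn : r < chevG2.nroots := by rw [nroots_eq]; exact hr
    have hs12 : C.sg n r < 12 := by rw [← nroots_eq]; exact C.sg_lt hn hrn
    by_contra h
    have hodd : ∀ r < 12, r ∉ [0, 4, 7, 11] → chevG2.cartan 0 r ∈ [1, -1, 3, -3] := by decide +kernel
    have heven : ∀ r < 12, r ∈ [0, 4, 7, 11] → chevG2.cartan 0 r ∈ [0, 2, -2] := by decide +kernel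
    have h1 := hodd _ hs12 h
    have h2 := heven r hr hr4
    have h3 := hsg r hr
    simp only [List.mem_cons, List.not_mem_nil, or_false] at h1 h2
    rcases h1 with h1 | h1 | h1 | h1 <;> rcases h2 with h2 | h2 | h2 <;> rw [h1, h2] at h3 <;>
      norm_num [zpow_ofNat, zpow_neg] at h3 <;> exact hone h3
  have hpair : ∀ r < 12, ∀ s < 12, G2.fast.pr (C.sg n r) (C.sg n s) = G2.fast.pr r s := by
    intro r hr s hs
    have hrn : r < chevG2.nroots := by rw [nroots_eq]; exact hr
    have hsn : s < chevG2.nroots := by rw [nroots_eq]; exact hs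
    rw [C.pr_eq (C.sg_lt hn hrn) (C.sg_lt hn hsn), C.pr_eq hrn hsn, C.pair_sg hn hrn hsn]
  -- normalise at the two roots
  have key : ∀ m : GL chevG2.Idx F, m ∈ chevG2.monomialSubgroup F → C.sg m 7 = 7 → C.sg m 11 = 11 →
      m ∈ chevG2.diagonalSubgroup F := by
    intro m hm h7 h11
    refine C.mem_diag_of_simple_pos hm fun k hk => ?_
    have hp : ∀ r s, r < 12 → s < 12 → G2.fast.pr (C.sg m r) (C.sg m s) = G2.fast.pr r s := by
      intro r s hr hs
      have hrn : r < chevG2.nroots := by rw [nroots_eq]; exact hr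
      have hsn : s < chevG2.nroots := by rw [nroots_eq]; exact hs
      rw [C.pr_eq (C.sg_lt hm hrn) (C.sg_lt hm hsn), C.pr_eq hrn hsn, C.pair_sg hm hrn hsn]
    have h6 : C.sg m 6 = 6 := by
      have huniq : ∀ x < 12, G2.fast.pr 7 x = G2.fast.pr 7 6 → G2.fast.pr 11 x = G2.fast.pr 11 6 → x = 6 := by
        decide +kernel
      have a := hp 7 6 (by omega) (by omega)
      have b := hp 11 6 (by omega) (by omega)
      rw [h7] at a
      rw [h11] at b
      exact huniq _ (by rw [← nroots_eq]; exact C.sg_lt hm (by rw [nroots_eq]; omega)) a b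
    have hk2 : k = 0 ∨ k = 1 := by
      have : chevG2.rank = 2 := C.tables.rank
      omega
    have hp2 : chevG2.IsPosRoot 7 ∧ chevG2.IsPosRoot 6 := by decide +kernel
    rcases hk2 with rfl | rfl
    · rw [simple_zero, h7]; exact hp2.1
    · rw [simple_one, h6]; exact hp2.2
  have hw : ∀ r, r = 7 ∨ r = 11 → ∃ w ∈ (big (F := F)).range, w ∈ chevG2.monomialSubgroup F ∧
      C.sg w r = chevG2.neg r ∧ (r = 7 → C.sg w 11 = 11 ∧ C.sg w 0 = 0) ∧
      (r = 11 → C.sg w 7 = 7 ∧ C.sg w 4 = 4) := by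
    intro r hr
    have hr12 : r < 12 := by omega
    have hrn : r < chevG2.nroots := by rw [nroots_eq]; exact hr12
    set w := C.wg (chevG2.nWord r (1 : F)) with hwdef
    have hwm : w ∈ chevG2.monomialSubgroup F :=
      Subgroup.mem_sup_right (Subgroup.subset_closure ⟨r, hrn, C.val_wg _⟩)
    have hsw : ∀ s < 12, ∀ c : F, w * C.xg s 1 * w⁻¹ = C.xg (chevG2.neg r) c → c ≠ 0 →
        s = r → C.sg w s = chevG2.neg r := by
      intro s hs c he hc0 _
      obtain ⟨c', hc', h'⟩ := C.sg_conj hwm (show s < chevG2.nroots by rw [nroots_eq]; exact hs)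
      rw [h', mul_one] at he
      by_contra hne
      exact hc' (C.eq_zero_of_xg_eq (C.sg_lt hwm (by rw [nroots_eq]; exact hs)) (C.root.neg_lt r hrn) hne he)
    have hfix : ∀ s < 12, w * C.xg s 1 * w⁻¹ = C.xg s 1 → C.sg w s = s := by
      intro s hs he
      obtain ⟨c', hc', h'⟩ := C.sg_conj hwm (show s < chevG2.nroots by rw [nroots_eq]; exact hs)
      rw [h', mul_one] at he
      by_contra hne
      exact hc' (C.eq_zero_of_xg_eq (C.sg_lt hwm (by rw [nroots_eq]; exact hs))
        (by rw [nroots_eq]; exact hs) hne he)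
    have hwphi : w = phi r (nT 1) := (phi_nT hr12 1).symm
    refine ⟨w, ?_, hwm, ?_, ?_, ?_⟩
    · rw [hwphi]
      rcases hr with rfl | rfl
      · exact ⟨slPair (nT 1, 1), by rw [big_slPair, map_one, mul_one]⟩
      · exact ⟨slPair (1, nT 1), by rw [big_slPair, map_one, one_mul]⟩
    · exact hsw r hr12 _ (C.nWord_conj en_ok hrn one_ne_zero 1) (by simp) rfl
    · rintro rfl
      have hn0 : chevG2.neg 11 = 0 := by decide +kernel
      constructor <;> refine hfix _ (by omega) ?_
      · rw [hwphi, ← phi_up (show 11 < 12 by omega), phi_comm, mul_inv_cancel_right]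
      · rw [hwphi, ← hn0, ← phi_lo (show 11 < 12 by omega), phi_comm, mul_inv_cancel_right]
    · rintro rfl
      have hn4 : chevG2.neg 7 = 4 := by decide +kernel
      constructor <;> refine hfix _ (by omega) ?_
      · rw [hwphi, ← phi_up (show 7 < 12 by omega), ← phi_comm, mul_inv_cancel_right]
      · rw [hwphi, ← hn4, ← phi_lo (show 7 < 12 by omega), ← phi_comm, mul_inv_cancel_right]
  have hnR : n ∈ (big (F := F)).range := by
    have s7 := hmem4 7 (by omega) (by simp)
    have s11 := hmem4 11 (by omega) (by simp)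
    have p1 := hpair 7 (by omega) 6 (by omega)
    have p2 := hpair 7 (by omega) 11 (by omega)
    have hx : ∀ a ∈ [0, 4, 7, 11], (∃ x < 12, G2.fast.pr a x = G2.fast.pr 7 6) → a = 7 ∨ a = 4 := by
      decide +kernel
    have h7 : C.sg n 7 = 7 ∨ C.sg n 7 = 4 :=
      hx _ s7 ⟨_, by rw [← nroots_eq]; exact C.sg_lt hn (by rw [nroots_eq]; omega), p1⟩
    have hy : ∀ a ∈ [7, 4], ∀ b ∈ [0, 4, 7, 11], G2.fast.pr a b = G2.fast.pr 7 11 → b = 11 ∨ b = 0 := by
      decide +kernel
    have h11 : C.sg n 11 = 11 ∨ C.sg n 11 = 0 :=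
      hy _ (by rcases h7 with h | h <;> simp [h]) _ s11 p2
    obtain ⟨w7, hw7R, hw7m, a1, a2, -⟩ := hw 7 (Or.inl rfl)
    obtain ⟨w11, hw11R, hw11m, b1, -, b2⟩ := hw 11 (Or.inr rfl)
    obtain ⟨a3, a4⟩ := a2 rfl
    obtain ⟨b3, b4⟩ := b2 rfl
    have l7 : 7 < chevG2.nroots := by rw [nroots_eq]; omega
    have l11 : 11 < chevG2.nroots := by rw [nroots_eq]; omega
    have hneg2 : chevG2.neg 7 = 4 ∧ chevG2.neg 11 = 0 ∧ chevG2.neg 4 = 7 ∧ chevG2.neg 0 = 11 := by
      decide +kernel
    have fix4 : ∀ (m : GL chevG2.Idx F), m ∈ chevG2.monomialSubgroup F → C.sg m 7 = 4 →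
        C.sg m 4 = 7 := by
      intro m hm h
      rw [← hneg2.1, C.sg_neg hm l7, h, hneg2.2.2.1]
    have fix0 : ∀ (m : GL chevG2.Idx F), m ∈ chevG2.monomialSubgroup F → C.sg m 11 = 0 →
        C.sg m 0 = 11 := by
      intro m hm h
      rw [← hneg2.2.1, C.sg_neg hm l11, h, hneg2.2.2.2]
    -- choose the correcting element
    have : ∃ w ∈ (big (F := F)).range, w ∈ chevG2.monomialSubgroup F ∧ C.sg (w * n) 7 = 7 ∧
        C.sg (w * n) 11 = 11 := by
      rcases h7 with h7 | h7 <;> rcases h11 with h11 | h11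
      · exact ⟨1, one_mem _, one_mem _, by rw [one_mul, h7], by rw [one_mul, h11]⟩
      · exact ⟨w11, hw11R, hw11m, by rw [C.sg_mul hw11m hn l7, h7, b3],
          by rw [C.sg_mul hw11m hn l11, h11, fix0 _ hw11m (by rw [b1, hneg2.2.1])]⟩
      · exact ⟨w7, hw7R, hw7m, by rw [C.sg_mul hw7m hn l7, h7, fix4 _ hw7m (by rw [a1, hneg2.1])],
          by rw [C.sg_mul hw7m hn l11, h11, a3]⟩
      · refine ⟨w7 * w11, mul_mem hw7R hw11R, mul_mem hw7m hw11m, ?_, ?_⟩
        · rw [mul_assoc, C.sg_mul hw7m (mul_mem hw11m hn) l7, C.sg_mul hw11m hn l7, h7, b4,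
            fix4 _ hw7m (by rw [a1, hneg2.1])]
        · rw [mul_assoc, C.sg_mul hw7m (mul_mem hw11m hn) l11, C.sg_mul hw11m hn l11, h11,
            fix0 _ hw11m (by rw [b1, hneg2.2.1]), a3]
    obtain ⟨w, hwR, hwm, e7, e11⟩ := this
    have := mul_mem (inv_mem hwR) (hdR _ (key _ (mul_mem hwm hn) e7 e11))
    rwa [inv_mul_cancel_left] at this
  exact mul_mem (mul_mem (mul_mem hvR (hdR _ hd0)) hnR) huR

end Cfsg.Agent.Lib.Chev.G2Odd
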