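import Cfsg.Agent.Lib.Chev.G2OddCent
import Cfsg.Agent.Lib.Chev.Orders
import Cfsg.Agent.Lib.Classical.Order

/-!
The involutions of `G₂(F)` for a finite field of odd order and their centralisers.
-/

set_option autoImplicit false

namespace Cfsg.Agent.Lib.Chev.G2Odd

open Cfsg.Lie Cfsg.Agent.Lib Cfsg.Agent.Lib.Chev
open scoped MatrixGroups

variable {F : Type*} [Field F] [Fintype F]

/-- the involution as an element of the group -/
def inv0 (F : Type*) [Field F] : ↥(chevG2.group F) := ⟨invol F, tor_mem _ _⟩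

/-- the homomorphism into the group -/
noncomputable def bigG : Pairs F →* ↥(chevG2.group F) := (big (F := F)).codRestrict _ big_mem

omit [Fintype F] in
theorem bigG_eq {g g' : Pairs F} : bigG g = bigG g' ↔ big g = big g' := Subtype.ext_iff

theorem range_bigG (h2 : (2 : F) ≠ 0) :
    (bigG (F := F)).range = Subgroup.centralizer ({inv0 F} : Set ↥(chevG2.group F)) := by
  ext x
  rw [Subgroup.mem_centralizer_singleton_iff]
  constructor
  · rintro ⟨g, rfl⟩
    exact Subtype.ext (big_comm g)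
  · intro h
    obtain ⟨g, hg⟩ := cent_le h2 x.2 (congrArg Subtype.val h)
    exact ⟨g, Subtype.ext hg⟩

/-- pairs with inverse determinants as triples -/
def pairsEquiv : Pairs F ≃ SL(2, F) × SL(2, F) × Fˣ where
  toFun g := (slc g.1.1, slc g.1.2, Matrix.GeneralLinearGroup.det g.1.1)
  invFun x := ⟨(x.1.toGL * dd x.2.2, x.2.1.toGL * dd x.2.2⁻¹),
    mem_Pairs.2 (by simp [map_mul, det_toGL, det_dd])⟩
  left_inv g := by
    have hd : Matrix.GeneralLinearGroup.det g.1.2 = (Matrix.GeneralLinearGroup.det g.1.1)⁻¹ :=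
      (mul_eq_one_iff_inv_eq.1 (mem_Pairs.1 g.2)).symm
    refine Subtype.ext (Prod.ext ?_ ?_)
    · show (slc g.1.1).toGL * _ = _
      rw [toGL_slc]; group
    · show (slc g.1.2).toGL * dd (Matrix.GeneralLinearGroup.det g.1.1)⁻¹ = _
      rw [toGL_slc, hd]; group
  right_inv x := by
    refine Prod.ext (slc_toGL_mul_dd _ _) (Prod.ext (slc_toGL_mul_dd _ _) ?_)
    simp [map_mul, det_toGL, det_dd]

theorem card_ker_bigG (h2 : (2 : F) ≠ 0) :
    Nat.card (bigG (F := F)).ker = Nat.card Fˣ := by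
  refine Nat.card_congr (Equiv.ofBijective (fun a : Fˣ => (⟨⟨(scal a, scal a⁻¹), mem_Pairs.2 (by
      rw [det_scal, det_scal, ← mul_pow, mul_inv_cancel, one_pow])⟩, by
      rw [MonoidHom.mem_ker]
      exact Subtype.ext ((big_ker h2).2 ⟨a, rfl⟩)⟩ : (bigG (F := F)).ker)) ⟨?_, ?_⟩).symm
  · intro a b h
    have := congrArg (fun g : (bigG (F := F)).ker => (g.1.1.1 : Matrix (Fin 2) (Fin 2) F) 0 0) h
    exact Units.ext (by simpa [val_scal] using this)
  · rintro ⟨g, hg⟩
    rw [MonoidHom.mem_ker] at hg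
    obtain ⟨a, ha⟩ := (big_ker h2).1 (congrArg Subtype.val hg)
    exact ⟨a, Subtype.ext (Subtype.ext ha.symm)⟩

theorem card_cent (h2 : (2 : F) ≠ 0) :
    Nat.card (Subgroup.centralizer ({inv0 F} : Set ↥(chevG2.group F))) =
      Fintype.card F ^ 2 * (Fintype.card F ^ 2 - 1) ^ 2 := by
  have h := Subgroup.card_mul_index (bigG (F := F)).ker
  rw [Subgroup.index_ker, range_bigG h2, card_ker_bigG h2, Nat.card_congr pairsEquiv, Nat.card_prod,
    Nat.card_prod, Classical.card_SL_two] at h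
  have hpos : 0 < Nat.card Fˣ := Nat.card_pos
  refine Nat.eq_of_mul_eq_mul_left hpos ?_
  rw [h]
  ring

omit [Fintype F] in
theorem big_slPair_ker (h2 : (2 : F) ≠ 0) {s : SL(2, F) × SL(2, F)} :
    bigG (slPair s) = 1 ↔ s = 1 ∨ s = (-1, -1) := by
  have e1 : ((-1 : SL(2, F)) : SL(2, F)).toGL = scal (-1 : Fˣ) := by
    apply Units.ext
    rw [val_scal]
    show ((-1 : SL(2, F)) : Matrix (Fin 2) (Fin 2) F) = _
    rw [Matrix.SpecialLinearGroup.coe_neg, Matrix.SpecialLinearGroup.coe_one, Matrix.one_fin_two]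
    simp
  rw [show bigG (slPair s) = 1 ↔ big (slPair s) = 1 from Subtype.ext_iff, big_ker h2]
  constructor
  · rintro ⟨a, ha⟩
    have h1 : s.1.toGL = scal a := congrArg Prod.fst ha
    have h2' : s.2.toGL = scal a⁻¹ := congrArg Prod.snd ha
    have hd := congrArg Matrix.GeneralLinearGroup.det h1
    rw [det_toGL, det_scal] at hd
    have ha2 : a = 1 ∨ a = -1 := by
      have := congrArg Units.val hd
      rw [Units.val_one, Units.val_pow_eq_pow_val] at this
      rcases sq_eq_one_iff.1 this.symm with h | h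
      · exact Or.inl (Units.ext h)
      · exact Or.inr (Units.ext (by simpa using h))
    rcases ha2 with rfl | rfl
    · rw [map_one] at h1; rw [inv_one, map_one] at h2'
      exact Or.inl (Prod.ext (toGL_inj (by rw [h1, Prod.fst_one, map_one]))
        (toGL_inj (by rw [h2', Prod.snd_one, map_one])))
    · rw [inv_neg, inv_one] at h2'
      exact Or.inr (Prod.ext (toGL_inj (h1.trans e1.symm)) (toGL_inj (h2'.trans e1.symm)))
  · rintro (rfl | rfl)
    · exact ⟨1, by simp [slPair]⟩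
    · exact ⟨-1, by rw [inv_neg, inv_one]; exact Prod.ext e1 e1⟩

omit [Fintype F] in
theorem left_inj (h2 : (2 : F) ≠ 0) :
    Function.Injective ((bigG (F := F)).comp (slPair.comp (MonoidHom.inl _ _))) := by
  rw [injective_iff_map_eq_one]
  intro s hs
  rcases (big_slPair_ker h2).1 hs with h | h
  · exact congrArg Prod.fst h
  · have := congrArg (fun p : SL(2, F) × SL(2, F) => (p.2 : Matrix (Fin 2) (Fin 2) F) 0 0) h
    simp at this
    exact absurd this (fun h => h2 (by linear_combination h))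

omit [Fintype F] in
theorem right_inj (h2 : (2 : F) ≠ 0) :
    Function.Injective ((bigG (F := F)).comp (slPair.comp (MonoidHom.inr _ _))) := by
  rw [injective_iff_map_eq_one]
  intro s hs
  rcases (big_slPair_ker h2).1 hs with h | h
  · exact congrArg Prod.snd h
  · have := congrArg (fun p : SL(2, F) × SL(2, F) => (p.1 : Matrix (Fin 2) (Fin 2) F) 0 0) h
    simp at this
    exact absurd this (fun h => h2 (by linear_combination h))

omit [Fintype F] in
theorem inv0_eq : bigG (slPair ((-1 : SL(2, F)), 1)) = inv0 F := by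
  refine Subtype.ext ?_
  show big _ = invol F
  rw [big_slPair, phi_seven_neg_one, map_one, mul_one]

/-- The structure of the centraliser. -/
theorem cent_struct (h2 : (2 : F) ≠ 0) :
    ∃ L₁ L₂ : Subgroup ↥(chevG2.group F), Nonempty (L₁ ≃* SL(2, F)) ∧ Nonempty (L₂ ≃* SL(2, F)) ∧
      (∀ x ∈ L₁, ∀ y ∈ L₂, x * y = y * x) ∧ L₁ ⊓ L₂ = Subgroup.zpowers (inv0 F) ∧
      L₁ ⊔ L₂ ≤ Subgroup.centralizer ({inv0 F} : Set ↥(chevG2.group F)) ∧
      (L₁ ⊔ L₂).relIndex (Subgroup.centralizer ({inv0 F} : Set ↥(chevG2.group F))) = 2 := by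
  classical
  set f := (bigG (F := F)).comp slPair with hf
  refine ⟨(f.comp (MonoidHom.inl _ _)).range, (f.comp (MonoidHom.inr _ _)).range,
    ⟨(MonoidHom.ofInjective (left_inj h2)).symm⟩, ⟨(MonoidHom.ofInjective (right_inj h2)).symm⟩,
    ?_, ?_, ?_, ?_⟩
  · rintro _ ⟨a, rfl⟩ _ ⟨b, rfl⟩
    simp only [MonoidHom.comp_apply, MonoidHom.inl_apply, MonoidHom.inr_apply, ← map_mul,
      Prod.mk_mul_mk, mul_one, one_mul]
  · refine le_antisymm ?_ ((Subgroup.zpowers_le).2 (Subgroup.mem_inf.2 ⟨⟨-1, inv0_eq⟩, ⟨-1, ?_⟩⟩))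
    · rintro x ⟨⟨a, rfl⟩, b, hb⟩
      have h1 : bigG (slPair (a, b⁻¹)) = 1 := by
        have : f (1, b) = f (a, 1) := hb
        show f (a, b⁻¹) = 1
        rw [show (a, b⁻¹) = (a, (1 : SL(2, F))) * (1, b)⁻¹ by simp, map_mul, map_inv, this, mul_inv_cancel]
      rcases (big_slPair_ker h2).1 h1 with h | h
      · rw [show a = 1 from congrArg Prod.fst h, map_one]
        exact one_mem _
      · rw [show a = -1 from congrArg Prod.fst h]
        exact ⟨1, (zpow_one _).trans inv0_eq.symm⟩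
    · refine Subtype.ext ?_
      show big (slPair (1, -1)) = invol F
      rw [big_slPair, map_one, one_mul, phi_eleven_neg_one]
  · rw [← range_bigG h2]
    refine sup_le ?_ ?_ <;> rintro x ⟨a, rfl⟩ <;> exact ⟨_, rfl⟩
  · have hsup : (f.comp (MonoidHom.inl _ _)).range ⊔ (f.comp (MonoidHom.inr _ _)).range = f.range := by
      refine le_antisymm (sup_le ?_ ?_) ?_
      · rintro x ⟨a, rfl⟩; exact ⟨_, rfl⟩
      · rintro x ⟨a, rfl⟩; exact ⟨_, rfl⟩
      · rintro x ⟨⟨a, b⟩, rfl⟩
        rw [show (a, b) = ((a, 1) : SL(2, F) × SL(2, F)) * (1, b) by simp, map_mul]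
        exact Subgroup.mul_mem_sup ⟨a, rfl⟩ ⟨b, rfl⟩
    rw [hsup]
    have hle : f.range ≤ Subgroup.centralizer ({inv0 F} : Set ↥(chevG2.group F)) := by
      rw [← range_bigG h2]; rintro x ⟨a, rfl⟩; exact ⟨_, rfl⟩
    have hker : Nat.card f.ker = 2 := by
      have e : (f.ker : Set (SL(2, F) × SL(2, F))) = {1, (-1, -1)} := by
        ext s
        exact big_slPair_ker h2
      rw [← SetLike.coe_sort_coe, e, Nat.card_coe_set_eq, Set.ncard_pair]
      intro h
      have := congrArg (fun p : SL(2, F) × SL(2, F) => (p.1 : Matrix (Fin 2) (Fin 2) F) 0 0) h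
      simp at this
      exact h2 (by linear_combination this)
    have h1 := Subgroup.card_mul_index f.ker
    rw [Subgroup.index_ker, hker, Nat.card_prod, Classical.card_SL_two] at h1
    have h3 : Nat.card f.range *
        f.range.relIndex (Subgroup.centralizer ({inv0 F} : Set ↥(chevG2.group F))) =
        Fintype.card F ^ 2 * (Fintype.card F ^ 2 - 1) ^ 2 := by
      rw [← card_cent h2, Subgroup.relIndex]
      conv_rhs => rw [← Subgroup.card_mul_index
        (f.range.subgroupOf (Subgroup.centralizer ({inv0 F} : Set ↥(chevG2.group F))))]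
      rw [Nat.card_congr (Subgroup.subgroupOfEquivOfLe hle).toEquiv]
    have hpos : 0 < Nat.card f.range := Nat.card_pos
    refine Nat.eq_of_mul_eq_mul_left hpos ?_
    rw [h3]
    linear_combination -h1

/-- the elliptic or split pair -/
def quo (l : Fˣ) : GL (Fin 2) F :=
  ⟨!![0, (l : F); 1, 0], !![0, 1; ((l⁻¹ : Fˣ) : F), 0], by simp [Matrix.one_fin_two],
    by simp [Matrix.one_fin_two]⟩

omit [Fintype F] in
theorem det_quo (l : Fˣ) : Matrix.GeneralLinearGroup.det (quo l) = -l := by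
  apply Units.ext
  rw [Matrix.GeneralLinearGroup.val_det_apply]
  show Matrix.det !![0, (l : F); 1, 0] = _
  simp [Matrix.det_fin_two]

/-- the standard involution with a given parameter -/
def std (l : Fˣ) : Pairs F := ⟨(quo l, quo l⁻¹), mem_Pairs.2 (by simp [det_quo])⟩

theorem exists_norm (hF : Odd (Fintype.card F)) {l : F} (hl : l ≠ 0) (c : F) :
    ∃ u w : F, u ^ 2 - l * w ^ 2 = c := by
  obtain ⟨u, w, h⟩ := FiniteField.exists_root_sum_quadratic
    (f := Polynomial.X ^ 2 - Polynomial.C c) (g := Polynomial.C (-l) * Polynomial.X ^ 2)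
    (by rw [Polynomial.degree_X_pow_sub_C (by norm_num)]; rfl)
    (by rw [Polynomial.degree_C_mul_X_pow 2 (neg_ne_zero.2 hl)]; rfl)
    (Nat.odd_iff.1 hF)
  exact ⟨u, w, by simp at h; linear_combination h⟩

/-- A nonscalar square root of a scalar is `SL₂`-conjugate to the standard one. -/
theorem exists_conj_quo (hF : Odd (Fintype.card F)) {g : GL (Fin 2) F} {l : Fˣ}
    (hg : g * g = scal l) (hn : ¬ ∃ a, g = scal a) : ∃ s : SL(2, F), g * s.toGL = s.toGL * quo l := by
  have hv := congrArg Units.val hg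
  rw [Units.val_mul, val_scal] at hv
  set a := g.1 0 0 with ha
  set b := g.1 0 1 with hb
  set c := g.1 1 0 with hc
  set d := g.1 1 1 with hd
  have h00 := congrFun (congrFun hv 0) 0
  have h01 := congrFun (congrFun hv 0) 1
  have h10 := congrFun (congrFun hv 1) 0
  have h11 := congrFun (congrFun hv 1) 1
  simp [Matrix.mul_apply, Fin.sum_univ_two] at h00 h01 h10 h11
  rw [← ha, ← hb, ← hc] at h00
  rw [← ha, ← hb, ← hd] at h01
  rw [← ha, ← hc, ← hd] at h10
  rw [← hb, ← hc, ← hd] at h11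
  have htr : a + d = 0 := by
    by_contra h
    have hb0 : b = 0 := (mul_eq_zero.1 (show b * (a + d) = 0 by linear_combination h01)).resolve_right h
    have hc0 : c = 0 := (mul_eq_zero.1 (show c * (a + d) = 0 by linear_combination h10)).resolve_right h
    have had : (a - d) * (a + d) = 0 := by linear_combination h00 - h11
    exact hn (eq_scal ⟨hb0, hc0, ((sub_eq_zero.1 ((mul_eq_zero.1 had).resolve_right h))).symm⟩)
  -- a vector with unit volume
  obtain ⟨x, y, hxy⟩ : ∃ x y : F, x * (c * x + d * y) - y * (a * x + b * y) = 1 := by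
    by_cases hc0 : c = 0
    · by_cases ha0 : a = 0
      · exact absurd h00 (by simp [hc0, ha0, eq_comm])
      have h20 : (-2 * a : F) ≠ 0 := by
        refine mul_ne_zero (neg_ne_zero.2 ?_) ha0
        intro h
        have : CharP F 2 := CharTwo.of_one_ne_zero_of_two_eq_zero one_ne_zero h
        exact (Nat.not_even_iff_odd.2 hF) (Nat.even_iff.2 (FiniteField.even_card_of_char_two
          (ringChar.eq F 2)))
      refine ⟨(1 + b) / (-2 * a), 1, ?_⟩
      rw [hc0]
      have : (1 + b) / (-2 * a) * (-2 * a) = 1 + b := div_mul_cancel₀ _ h20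
      linear_combination this + ((1 + b) / (-2 * a)) * htr
    · obtain ⟨u, w, h⟩ := exists_norm hF l.ne_zero c
      refine ⟨(u + a * w) / c, w, ?_⟩
      field_simp
      linear_combination h - w ^ 2 * h00 + (u + a * w) * w * htr
  refine ⟨⟨!![x, a * x + b * y; y, c * x + d * y], by rw [Matrix.det_fin_two_of]; linear_combination hxy⟩,
    Units.ext ?_⟩
  rw [Units.val_mul, Units.val_mul, Matrix.eta_fin_two g.1]
  show !![a, b; c, d] * !![x, a * x + b * y; y, c * x + d * y] =
    !![x, a * x + b * y; y, c * x + d * y] * !![0, (l : F); 1, 0]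
  rw [Matrix.mul_fin_two, Matrix.mul_fin_two]
  ext i j
  fin_cases i <;> fin_cases j <;> simp
  · linear_combination x * h00 + y * h01
  · linear_combination x * h10 + y * h11

theorem conj_std (hF : Odd (Fintype.card F)) {g : Pairs F} {l : Fˣ} (h1 : g.1.1 * g.1.1 = scal l)
    (h2 : g.1.2 * g.1.2 = scal l⁻¹) (n1 : ¬ ∃ a, g.1.1 = scal a) (n2 : ¬ ∃ a, g.1.2 = scal a) :
    IsConj (bigG g) (bigG (std l)) := by
  obtain ⟨s, hs⟩ := exists_conj_quo hF h1 n1
  obtain ⟨t, ht⟩ := exists_conj_quo hF h2 n2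
  refine isConj_iff.2 ⟨bigG (slPair (s⁻¹, t⁻¹)), ?_⟩
  rw [← map_inv, ← map_mul, ← map_mul]
  congr 1
  refine Subtype.ext (Prod.ext ?_ ?_)
  · show s⁻¹.toGL * g.1.1 * (s⁻¹.toGL)⁻¹ = quo l
    rw [map_inv, inv_inv, mul_assoc, hs, inv_mul_cancel_left]
  · show t⁻¹.toGL * g.1.2 * (t⁻¹.toGL)⁻¹ = quo l⁻¹
    rw [map_inv, inv_inv, mul_assoc, ht, inv_mul_cancel_left]

omit [Fintype F] in
theorem not_scal_of_off {g : GL (Fin 2) F} (h : g.1 0 1 ≠ 0) : ¬ ∃ a, g = scal a := by
  rintro ⟨a, rfl⟩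
  exact h (by simp [val_scal])

omit [Fintype F] in
theorem not_scal_of_diag {g : GL (Fin 2) F} (h : g.1 0 0 ≠ g.1 1 1) : ¬ ∃ a, g = scal a := by
  rintro ⟨a, rfl⟩
  exact h (by simp [val_scal])

/-- `n₇ n₁₁` -/
noncomputable def z0 : GL chevG2.Idx F := phi 7 (nT 1) * phi 11 (nT 1)

/-- its pair -/
def z0Pair : Pairs F := slPair (nT 1, nT 1)

omit [Fintype F] in
theorem big_z0Pair : big (z0Pair (F := F)) = z0 := big_slPair _

theorem conj_z0_tor (hF : Odd (Fintype.card F)) (c0 c1 : Fˣ) :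
    IsConj (bigG (z0Pair * torPair c0 c1)) (bigG (std (-c1⁻¹))) := by
  have hw : (nT (1 : F)).toGL.1 = !![0, 1; -1, 0] := by
    show (nT (1 : F)).1 = _
    rw [nT_one, RootPair.val_wT]
  have e1 : ((z0Pair * torPair c0 c1).1.1 : Matrix (Fin 2) (Fin 2) F) =
      !![0, (c0 : F)⁻¹; -((c0 : F) * (c1 : F)⁻¹), 0] := by
    show (nT (1 : F)).toGL.1 * ((dT (c0 : F)).1 * (dd c1⁻¹).1) = _
    rw [hw, val_dT c0.ne_zero, val_dd, Matrix.mul_fin_two, Matrix.mul_fin_two]
    simp
  have e2 : ((z0Pair * torPair c0 c1).1.2 : Matrix (Fin 2) (Fin 2) F) = !![0, 1; -(c1 : F), 0] := by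
    show (nT (1 : F)).toGL.1 * (dd c1).1 = _
    rw [hw, val_dd, Matrix.mul_fin_two]
    simp
  refine conj_std hF ?_ ?_ (not_scal_of_off ?_) (not_scal_of_off ?_)
  · apply Units.ext
    rw [Units.val_mul, e1, val_scal, Matrix.mul_fin_two]
    simp
    field_simp
  · apply Units.ext
    rw [Units.val_mul, e2, val_scal, Matrix.mul_fin_two]
    simp [inv_neg]
  · rw [e1]; simp
  · rw [e2]; simp

omit [Fintype F] in
theorem ng_tor (i : ℕ) (hi : i < chevG2.rank) (a0 a1 b0 b1 : Fˣ)
    (h : ∀ v < 12, (a0 : F) ^ chevG2.cartan 0 (chevG2.reflectRoot i v) *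
      (a1 : F) ^ chevG2.cartan 1 (chevG2.reflectRoot i v) =
      (b0 : F) ^ chevG2.cartan 0 v * (b1 : F) ^ chevG2.cartan 1 v) :
    C.ng i * tor a0 a1 * (C.ng i)⁻¹ = tor b0 b1 := by
  rw [mul_inv_eq_iff_eq_mul]
  refine Units.ext ?_
  rw [Units.val_mul, Units.val_mul, C.val_ng, val_tor, val_tor, C.nMat_dg hi]
  congr 1
  exact dg_congr fun v hv => h v (by rwa [nroots_eq] at hv)

omit [Fintype F] in
theorem ng_one_tor (c0 c1 : Fˣ) :
    C.ng 1 * tor c0 c1 * (C.ng 1)⁻¹ = tor c0 (c0 ^ 3 * c1⁻¹) := by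
  refine ng_tor 1 (by decide +kernel) _ _ _ _ fun v hv => ?_
  have e : ∀ v < 12, chevG2.cartan 0 (chevG2.reflectRoot 1 v) = chevG2.cartan 0 v + 3 * chevG2.cartan 1 v ∧
      chevG2.cartan 1 (chevG2.reflectRoot 1 v) = -chevG2.cartan 1 v := by decide +kernel
  rw [(e v hv).1, (e v hv).2, zpow_add₀ c0.ne_zero, zpow_neg]
  push_cast
  rw [mul_zpow, inv_zpow, zpow_mul, show ((3 : ℤ)) = ((3 : ℕ) : ℤ) from rfl, zpow_natCast]
  ring

omit [Fintype F] in
theorem ng_zero_tor (c0 c1 : Fˣ) :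
    C.ng 0 * tor c0 c1 * (C.ng 0)⁻¹ = tor (c1 * c0⁻¹) c1 := by
  refine ng_tor 0 (by decide +kernel) _ _ _ _ fun v hv => ?_
  have e : ∀ v < 12, chevG2.cartan 0 (chevG2.reflectRoot 0 v) = -chevG2.cartan 0 v ∧
      chevG2.cartan 1 (chevG2.reflectRoot 0 v) = chevG2.cartan 1 v + chevG2.cartan 0 v := by decide +kernel
  rw [(e v hv).1, (e v hv).2, zpow_add₀ c1.ne_zero, zpow_neg]
  push_cast
  rw [mul_zpow, inv_zpow]
  ring

omit [Fintype F] in
theorem exists_ng_z0 : ∃ a0 a1 : Fˣ, C.ng 1 * z0 (F := F) * (C.ng 1)⁻¹ = z0 * tor a0 a1 := by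
  have l : ∀ r < 12, r < chevG2.nroots := fun r hr => by rw [nroots_eq]; exact hr
  have h0 : (0 : ℕ) < chevG2.rank := by decide +kernel
  have h1 : (1 : ℕ) < chevG2.rank := by decide +kernel
  have hlt : ∀ i < 2, ∀ r < 12, chevG2.reflectRoot i r < 12 := by decide +kernel
  have n0 : phi (F := F) 7 (nT 1) = C.ng 0 := by
    rw [phi_nT (by omega), Checked.ng, simple_zero]
  have hsgi : ∀ i, ∀ hi : i < chevG2.rank, ∀ r < 12,
      C.sg (C.ng i : GL chevG2.Idx F)⁻¹ r = chevG2.reflectRoot i r := by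
    intro i hi r hr
    have h := C.sg_sg_inv (F := F) (C.ng_mem hi) (l r hr)
    rw [C.sg_ng hi (C.sg_lt (inv_mem (C.ng_mem hi)) (l r hr))] at h
    have := congrArg (chevG2.reflectRoot i) h
    rwa [C.root.refl_refl i hi _ (C.sg_lt (inv_mem (C.ng_mem hi)) (l r hr))] at this
  have n11 : ∃ d ∈ chevG2.diagonalSubgroup F, phi (F := F) 11 (nT 1) =
      d * (C.ng 1 * C.ng 0 * C.ng 1 * (C.ng 0)⁻¹ * (C.ng 1)⁻¹) := by
    have step : ∀ (i s : ℕ), i < chevG2.rank → s < 12 → ∀ a : F, ∃ η : F, η ≠ 0 ∧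
        C.ng i * C.wg (chevG2.nWord s a) * (C.ng i)⁻¹ =
          C.wg (chevG2.nWord (chevG2.reflectRoot i s) (η * a)) := by
      intro i s hi hs a
      refine ⟨eta G2.fast F i s, eta_ne_zero i s, ?_⟩
      rw [C.wg_conj hi _ (C.nWord_lt (l s hs) a), mul_inv_cancel_right]
      congr 1
      have he : eta G2.fast F i (chevG2.neg s) = eta G2.fast F i s := by
        rw [eta, eta, show G2.fast.en i (chevG2.neg s) = G2.fast.en i s from C.root.en_neg i hi s (l s hs)]
      have hinv : (eta G2.fast F i s)⁻¹ = eta G2.fast F i s :=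
        inv_eq_of_mul_eq_one_right (eta_sq i s)
      simp only [ChevalleyDatum.nWord, List.map_cons, List.map_nil, C.root.refl_neg' hi (l s hs), he,
        mul_inv_rev, hinv, List.cons.injEq, Prod.mk.injEq, true_and, and_true]
      ring
    have e6 : (C.ng 1 : GL chevG2.Idx F) = C.wg (chevG2.nWord 6 1) := by rw [Checked.ng, simple_one]
    obtain ⟨η, hη, hs1⟩ := step 0 6 h0 (by omega) 1
    obtain ⟨η', hη', hs2⟩ := step 1 (chevG2.reflectRoot 0 6) h1 (hlt 0 (by omega) 6 (by omega)) (η * 1)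
    have r11 : chevG2.reflectRoot 1 (chevG2.reflectRoot 0 6) = 11 := by decide +kernel
    rw [r11, ← hs1, ← e6] at hs2
    have hne : η' * (η * 1) ≠ 0 := mul_ne_zero hη' (by simpa using hη)
    refine ⟨(C.hg 11 (η' * (η * 1)))⁻¹, inv_mem (C.hg_mem (l 11 (by omega)) hne), ?_⟩
    rw [eq_inv_mul_iff_mul_eq,
      show C.ng 1 * C.ng 0 * C.ng 1 * (C.ng 0)⁻¹ * (C.ng 1)⁻¹ =
        C.ng 1 * (C.ng 0 * C.ng 1 * (C.ng 0)⁻¹) * ((C.ng 1)⁻¹ : GL chevG2.Idx F) by group, hs2,
      ← phi_dT (show 11 < 12 by omega), ← map_mul, ← phi_nT (show 11 < 12 by omega)]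
    congr 1
    apply Subtype.ext
    simp [dT, nT, RootPair.val_upT, RootPair.val_loT, Matrix.mul_fin_two, hne, hη, hη']
  obtain ⟨d, hd, n11⟩ := n11
  have hz : z0 (F := F) ∈ chevG2.monomialSubgroup F ∧ ∀ r < 12, C.sg (z0 (F := F)) r = chevG2.neg r := by
    have hm : (C.ng 1 * C.ng 0 * C.ng 1 * (C.ng 0)⁻¹ * (C.ng 1)⁻¹ : GL chevG2.Idx F) ∈
        chevG2.monomialSubgroup F :=
      mul_mem (mul_mem (mul_mem (mul_mem (C.ng_mem h1) (C.ng_mem h0)) (C.ng_mem h1))
        (inv_mem (C.ng_mem h0))) (inv_mem (C.ng_mem h1))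
    refine ⟨?_, fun r hr => ?_⟩
    · rw [z0, n0, n11]
      exact mul_mem (C.ng_mem h0) (mul_mem (C.diag_le_monomial hd) hm)
    rw [z0, n0, n11]
    have ha := hlt 1 (by omega) r hr
    have hb := hlt 0 (by omega) _ ha
    have hc := hlt 1 (by omega) _ hb
    have hd' := hlt 0 (by omega) _ hc
    have he := hlt 1 (by omega) _ hd'
    rw [C.sg_mul (C.ng_mem h0) (mul_mem (C.diag_le_monomial hd) hm) (l r hr),
      C.sg_mul (C.diag_le_monomial hd) hm (l r hr), C.sg_diag hd (C.sg_lt hm (l r hr)),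
      C.sg_mul (mul_mem (mul_mem (mul_mem (C.ng_mem h1) (C.ng_mem h0)) (C.ng_mem h1)) (inv_mem (C.ng_mem h0)))
        (inv_mem (C.ng_mem h1)) (l r hr), hsgi 1 h1 r hr,
      C.sg_mul (mul_mem (mul_mem (C.ng_mem h1) (C.ng_mem h0)) (C.ng_mem h1)) (inv_mem (C.ng_mem h0)) (l _ ha),
      hsgi 0 h0 _ ha,
      C.sg_mul (mul_mem (C.ng_mem h1) (C.ng_mem h0)) (C.ng_mem h1) (l _ hb), C.sg_ng h1 (l _ hb),
      C.sg_mul (C.ng_mem h1) (C.ng_mem h0) (l _ hc), C.sg_ng h0 (l _ hc), C.sg_ng h1 (l _ hd'),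
      C.sg_ng h0 (l _ he)]
    have : ∀ r < 12, chevG2.reflectRoot 0 (chevG2.reflectRoot 1 (chevG2.reflectRoot 0
      (chevG2.reflectRoot 1 (chevG2.reflectRoot 0 (chevG2.reflectRoot 1 r))))) = chevG2.neg r := by
      decide +kernel
    exact this r hr
  obtain ⟨hzm, hzsg⟩ := hz
  set x := C.ng 1 * z0 (F := F) * (C.ng 1)⁻¹ with hx
  have hxm : x ∈ chevG2.monomialSubgroup F := mul_mem (mul_mem (C.ng_mem h1) hzm) (inv_mem (C.ng_mem h1))
  have hdiag : (z0 (F := F))⁻¹ * x ∈ chevG2.diagonalSubgroup F := by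
    refine C.mem_diag_of_simple_pos (mul_mem (inv_mem hzm) hxm) fun i hi => ?_
    have hs : chevG2.simple i < 12 := by rw [← nroots_eq]; exact C.root.simple_lt i hi
    have hr1 := hlt 1 (by omega) _ hs
    have hn1 : chevG2.neg (chevG2.reflectRoot 1 (chevG2.simple i)) < 12 := by rw [neg_root _ hr1]; omega
    have hsx : C.sg x (chevG2.simple i) = C.sg (z0 (F := F)) (chevG2.simple i) := by
      rw [hx, C.sg_mul (mul_mem (C.ng_mem h1) hzm) (inv_mem (C.ng_mem h1)) (l _ hs), hsgi 1 h1 _ hs,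
        C.sg_mul (C.ng_mem h1) hzm (l _ hr1), hzsg _ hr1, C.sg_ng h1 (l _ hn1), hzsg _ hs]
      have : ∀ r < 12, chevG2.reflectRoot 1 (chevG2.neg (chevG2.reflectRoot 1 r)) = chevG2.neg r := by
        decide +kernel
      exact this _ hs
    rw [C.sg_mul (inv_mem hzm) hxm (l _ hs), hsx, C.sg_inv_sg hzm (l _ hs)]
    exact C.root.pos_simple hi
  obtain ⟨a0, a1, h⟩ := exists_tor hdiag
  exact ⟨a0, a1, by rw [← h, mul_inv_cancel_left]⟩

/-- Every involution of the centraliser of `inv0` is conjugate to it. -/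
theorem conj_of_mem (hF : Odd (Fintype.card F)) (h2 : (2 : F) ≠ 0) {x : ↥(chevG2.group F)}
    (hx : x ∈ Subgroup.centralizer ({inv0 F} : Set ↥(chevG2.group F))) (ho : orderOf x = 2) :
    IsConj x (inv0 F) := by
  classical
  rw [← range_bigG h2] at hx
  obtain ⟨g, rfl⟩ := hx
  have hne : bigG g ≠ 1 := fun h => by rw [h, orderOf_one] at ho; omega
  have hsq : bigG (g * g) = 1 := by
    have := pow_orderOf_eq_one (bigG g)
    rw [ho, pow_two, ← map_mul] at this
    exact this
  obtain ⟨l, hl⟩ := (big_ker h2).1 (congrArg Subtype.val hsq)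
  have l1 : g.1.1 * g.1.1 = scal l := congrArg Prod.fst hl
  have l2 : g.1.2 * g.1.2 = scal l⁻¹ := congrArg Prod.snd hl
  by_cases hs : (∃ a, g.1.1 = scal a) ∨ ∃ b, g.1.2 = scal b
  · -- scalar pairs
    have key : ∀ (u v : GL (Fin 2) F) (m : Fˣ), u * u = scal m → v * v = scal m⁻¹ →
        Matrix.GeneralLinearGroup.det u * Matrix.GeneralLinearGroup.det v = 1 →
        (∃ a, u = scal a) → ∃ b, v = scal b := by
      rintro u v m hu hv hd ⟨a, rfl⟩
      by_contra hn
      have hm : scal (a * a) = scal m := by rw [map_mul]; exact hu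
      have hm' : (a : F) * a = m := by
        simpa [val_scal] using congrArg (fun g : GL (Fin 2) F => (g : Matrix (Fin 2) (Fin 2) F) 0 0) hm
      obtain ⟨s, hs⟩ := exists_conj_quo hF hv hn
      have hdv := congrArg Matrix.GeneralLinearGroup.det hs
      rw [map_mul, map_mul, det_toGL, mul_one, one_mul, det_quo] at hdv
      rw [det_scal, hdv] at hd
      have e := congrArg Units.val hd
      rw [Units.val_mul, Units.val_pow_eq_pow_val, Units.val_neg, Units.val_inv_eq_inv_val, Units.val_one,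
        ← hm'] at e
      field_simp at e
      exact h2 (by linear_combination -e)
    obtain ⟨⟨a, ha⟩, b, hb⟩ : (∃ a, g.1.1 = scal a) ∧ ∃ b, g.1.2 = scal b := by
      rcases hs with h | h
      · exact ⟨h, key _ _ _ l1 l2 (mem_Pairs.1 g.2) h⟩
      · exact ⟨key _ _ _ l2 (by rwa [inv_inv]) (by rw [mul_comm]; exact mem_Pairs.1 g.2) h, h⟩
    have hab : (a * b) ^ 2 = 1 := by
      have := congrArg Subtype.val hsq
      change big (g * g) = 1 at this
      rw [map_mul, big_scal g a b ha hb, tor_mul, ← tor_one, mul_one] at this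
      have h1 := (tor_inj this).1
      rw [← mul_inv, inv_eq_one] at h1
      rwa [sq]
    have hcases : a * b = 1 ∨ a * b = -1 := by
      have := congrArg Units.val hab
      rw [Units.val_pow_eq_pow_val, Units.val_one] at this
      rcases sq_eq_one_iff.1 this with h | h
      · exact Or.inl (Units.ext h)
      · exact Or.inr (Units.ext (by simpa using h))
    rcases hcases with h | h
    · exact absurd (Subtype.ext (show big g = 1 by rw [big_scal g a b ha hb, h, inv_one, tor_one])) hne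
    · rw [show bigG g = inv0 F from Subtype.ext (show big g = invol F by
        rw [big_scal g a b ha hb, h, inv_neg, inv_one]; rfl)]
  · push Not at hs
    refine (conj_std hF l1 l2 (fun ⟨a, h⟩ => hs.1 a h) (fun ⟨a, h⟩ => hs.2 a h)).trans ?_
    obtain ⟨a0, a1, hz⟩ := exists_ng_z0 (F := F)
    have h0 : (0 : ℕ) < chevG2.rank := by decide +kernel
    have h1 : (1 : ℕ) < chevG2.rank := by decide +kernel
    let n : ℕ → ↥(chevG2.group F) := fun i =>
      if hi : i < chevG2.rank then ⟨C.ng i, C.monomial_le_group (C.ng_mem hi)⟩ else 1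
    -- move to a split parameter
    set c1 : Fˣ := -l⁻¹ with hc1
    set c0 : Fˣ := -(c1 * a1⁻¹) with hc0
    refine IsConj.trans (b := bigG (z0Pair * torPair c0 c1)) ?_ ?_
    · rw [show l = -c1⁻¹ by rw [hc1, inv_neg, inv_inv, neg_neg]]
      exact (conj_z0_tor hF c0 c1).symm
    refine IsConj.trans (b := bigG (z0Pair * torPair (a0 * c0) (a1 * (c0 ^ 3 * c1⁻¹)))) ?_ ?_
    · refine isConj_iff.2 ⟨n 1, Subtype.ext ?_⟩
      simp only [n, dif_pos h1, Subgroup.coe_mul, Subgroup.coe_inv]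
      show C.ng 1 * big _ * (C.ng 1)⁻¹ = big _
      rw [map_mul, map_mul, big_z0Pair, big_torPair, big_torPair, ← tor_mul, ← ng_one_tor, ← mul_assoc z0,
        ← hz]
      group
    set k : Fˣ := c1 * a1⁻¹ with hk
    have hl' : -(a1 * (c0 ^ 3 * c1⁻¹))⁻¹ = k⁻¹ * k⁻¹ := by
      apply Units.ext
      rw [hc0, hk]
      push_cast
      field_simp
    refine (conj_z0_tor hF _ _).trans ?_
    rw [hl']
    refine IsConj.trans (b := bigG (torPair 1 (-1))) ?_ ?_
    · have e : bigG (torPair (1 : Fˣ) (-1)) =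
          bigG (⟨(scal k⁻¹ * dd (-1), scal k * dd (-1)), mem_Pairs.2 (by
            simp [map_mul, det_scal, det_dd, ← mul_pow])⟩ : Pairs F) := by
        refine bigG_eq.2 ?_
        rw [big_torPair, big_apply]
        show _ = phi 7 (slc (scal k⁻¹ * dd (-1))) * phi 11 (slc (scal k * dd (-1))) *
          tor 1 (Matrix.GeneralLinearGroup.det (scal k * dd (-1)))
        have hs : ∀ a : Fˣ, slc (scal a * dd (-1)) = dT ((a⁻¹ : Fˣ) : F) := fun a => by
          rw [← slc_scal]
          refine toGL_inj ?_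
          rw [toGL_slc, toGL_slc, map_mul, det_dd, map_mul dd]
          group
        rw [hs, hs, phi_dT (by omega), phi_dT (by omega), hg_seven (Units.ne_zero _),
          hg_eleven (Units.ne_zero _), Units.mk0_val, Units.mk0_val, tor_mul, tor_mul, map_mul, det_scal,
          det_dd]
        congr 1
        · simp
        · simp
      rw [e]
      refine (conj_std hF ?_ ?_ (not_scal_of_diag ?_) (not_scal_of_diag ?_)).symm
      · apply Units.ext
        simp only [Units.val_mul, val_scal, val_dd, Matrix.mul_fin_two]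
        simp
      · apply Units.ext
        simp only [Units.val_mul, val_scal, val_dd, Matrix.mul_fin_two, mul_inv_rev, inv_inv]
        simp
      · simp only [Units.val_mul, val_scal, val_dd, Matrix.mul_fin_two]
        simp
        exact fun h => h2 (by
          have := mul_right_cancel₀ (b := (k : F)⁻¹) (inv_ne_zero k.ne_zero)
            (show (-1 : F) * (k : F)⁻¹ = 1 * (k : F)⁻¹ by linear_combination h)
          linear_combination -this)
      · simp only [Units.val_mul, val_scal, val_dd, Matrix.mul_fin_two]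
        simp
        exact fun h => h2 (by
          have := mul_right_cancel₀ (b := (k : F)) k.ne_zero
            (show (-1 : F) * (k : F) = 1 * (k : F) by linear_combination h)
          linear_combination -this)
    refine isConj_iff.2 ⟨n 1 * n 0, Subtype.ext ?_⟩
    simp only [n, dif_pos h1, dif_pos h0, Subgroup.coe_mul, Subgroup.coe_inv]
    show C.ng 1 * C.ng 0 * big _ * (C.ng 1 * C.ng 0)⁻¹ = invol F
    rw [big_torPair, show C.ng 1 * C.ng 0 * tor 1 (-1) * (C.ng 1 * C.ng 0)⁻¹ =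
      C.ng 1 * (C.ng 0 * tor 1 (-1) * (C.ng 0)⁻¹) * ((C.ng 1)⁻¹ : GL chevG2.Idx F) by group,
      ng_zero_tor, ng_one_tor, invol]
    congr 1
    · simp
    · norm_num

/-- The index of the centraliser is odd. -/
theorem index_odd (hF : Odd (Fintype.card F)) (h2 : (2 : F) ≠ 0) :
    ¬ 2 ∣ Nat.card (↥(chevG2.group F) ⧸ Subgroup.centralizer ({inv0 F} : Set ↥(chevG2.group F))) := by
  intro h
  set K := Subgroup.centralizer ({inv0 F} : Set ↥(chevG2.group F))
  have e := Subgroup.card_mul_index K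
  rw [card_cent h2] at e
  rw [← Subgroup.index_eq_card] at h
  have hG := card_G2 (F := F) rfl
  rw [one_mul, ← e] at hG
  set q := Fintype.card F
  have hq : 2 ≤ q := Fintype.one_lt_card
  have h6 : q ^ 6 - 1 = (q ^ 2 - 1) * (q ^ 4 + q ^ 2 + 1) := by
    have a1 : 1 ≤ q ^ 2 := Nat.one_le_pow _ _ (by omega)
    have a2 : 1 ≤ q ^ 6 := Nat.one_le_pow _ _ (by omega)
    zify [a1, a2]; ring
  have hi : K.index = q ^ 4 * (q ^ 4 + q ^ 2 + 1) := by
    have hpos : 0 < q ^ 2 * (q ^ 2 - 1) ^ 2 := by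
      have : 4 ≤ q ^ 2 := by nlinarith
      have : 0 < q ^ 2 - 1 := by omega
      positivity
    refine Nat.eq_of_mul_eq_mul_left hpos ?_
    rw [hG, h6]; ring
  rw [hi] at h
  have ho : Odd (q ^ 4 * (q ^ 4 + q ^ 2 + 1)) := by
    refine (hF.pow).mul ?_
    exact ((hF.pow).add_odd hF.pow).add_odd odd_one
  exact (Nat.not_even_iff_odd.2 ho) (even_iff_two_dvd.2 h)

omit [Fintype F] in
theorem two_ne_zero_of_odd [Fintype F] (hF : Odd (Fintype.card F)) : (2 : F) ≠ 0 := by
  intro h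
  have : CharP F 2 := CharTwo.of_one_ne_zero_of_two_eq_zero one_ne_zero h
  exact (Nat.not_even_iff_odd.2 hF) (Nat.even_iff.2 (FiniteField.even_card_of_char_two (ringChar.eq F 2)))

/-- All involutions are conjugate. -/
theorem isConj_inv0 (hF : Odd (Fintype.card F)) (s : ↥(chevG2.group F)) (hs : orderOf s = 2) :
    IsConj s (inv0 F) := by
  have h2 := two_ne_zero_of_odd hF
  have : Fact (Nat.Prime 2) := ⟨Nat.prime_two⟩
  have hP : IsPGroup 2 (Subgroup.zpowers s) := IsPGroup.of_card (n := 1) (by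
    rw [Nat.card_zpowers, hs, pow_one])
  obtain ⟨a, ha⟩ := hP.nonempty_fixed_point_of_prime_not_dvd_card
    (↥(chevG2.group F) ⧸ Subgroup.centralizer ({inv0 F} : Set ↥(chevG2.group F))) (index_odd hF h2)
  induction a using QuotientGroup.induction_on with
  | _ g =>
    have hfix := ha ⟨s, Subgroup.mem_zpowers s⟩
    change (QuotientGroup.mk (s * g) : ↥(chevG2.group F) ⧸ _) = QuotientGroup.mk g at hfix
    rw [eq_comm, QuotientGroup.eq, ← mul_assoc] at hfix
    have hc : IsConj s (g⁻¹ * s * g) := isConj_iff.2 ⟨g⁻¹, by rw [inv_inv]⟩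
    refine hc.trans (conj_of_mem hF h2 hfix ?_)
    rw [show g⁻¹ * s * g = MulAut.conj g⁻¹ s by rw [MulAut.conj_apply, inv_inv],
      MulEquiv.orderOf_eq, hs]

end Cfsg.Agent.Lib.Chev.G2Odd
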