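import Cfsg.Agent.Lib.Chev.Cent

/-!
Subgroups of `U` normalised by `U`, coordinates of their elements, and the extraction of a root subgroup from a
commutator word modulo such a subgroup.
-/

set_option autoImplicit false

namespace Cfsg.Agent.Lib.Chev

open Cfsg.Lie Cfsg.Agent.Lib

variable {D : ChevalleyDatum} {T : Fast} {F : Type*} [Field F]

namespace Checked

variable (C : Checked D T)
include C

theorem pos_normalizes {S : Set ℕ} (hS : ∀ r ∈ S, D.IsPosRoot r)
    (h : ∀ m, D.IsPosRoot m → ∀ k ∈ S, k ≠ m → ∀ c ∈ D.commTerms m k, c.1 ∈ S)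
    {v y : GL D.Idx F} (hv : v ∈ D.posUnipotent F) (hy : y ∈ grp D F S) : v * y * v⁻¹ ∈ grp D F S := by
  have key : ∀ m, D.IsPosRoot m → ∀ a : F, ∀ y ∈ grp D F S,
      C.xg m a * y * (C.xg m a)⁻¹ ∈ grp D F S := by
    intro m hm a y hy
    have h1 := C.conj_xg_mem_grp (S := S) (m := m) (fun k hk b t => ?_) (-a) hy
    · rwa [neg_neg, ← C.xg_inv] at h1
    · by_cases hkm : k = m
      · subst hkm
        rw [C.xg_add hm.1, C.xg_add hm.1]
        convert C.xg_mem hk t using 2
        ring
      rw [C.xg_conj_eq hm.1 (hS k hk).1 hkm (C.ne_neg_of_pos hm (hS k hk))]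
      refine mul_mem (C.xg_mem hk t) (C.wg_mem _ fun q hq => ?_)
      obtain ⟨c, hc, rfl⟩ := List.mem_map.1 hq
      exact h m hm k hk hkm c hc
  have hle : D.posUnipotent F ≤ Subgroup.normalizer (grp D F S : Set (GL D.Idx F)) := by
    rw [posUnipotent_eq]
    refine C.grp_le fun m hm a => C.mem_normalizer_of_conj (fun y hy => key m hm a y hy) fun y hy => ?_
    have := key m hm (-a) y hy
    rwa [← C.xg_inv, inv_inv] at this
  exact (Subgroup.mem_normalizer_iff.1 (hle hv) y).1 hy

theorem coord_zero {S : Set ℕ} (hS : ClosedSet D S) (t : ℕ → F)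
    (hu : C.wg ((C.rootList {r | D.IsPosRoot r}).map fun r => (r, t r)) ∈ grp D F S) :
    ∀ r, D.IsPosRoot r → r ∉ S → t r = 0 := by
  classical
  obtain ⟨t', e⟩ := C.exists_ordered hS hu
  let P := C.rootList {r | D.IsPosRoot r}
  let t'' : ℕ → F := fun r => if r ∈ S then t' r else 0
  have e' : C.wg (P.map fun r => (r, t'' r)) = C.wg ((C.rootList S).map fun r => (r, t' r)) := by
    have h1 : C.wg (P.map fun r => (r, t'' r)) =
        C.wg ((P.filter fun r => decide (r ∈ S)).map fun r => (r, t'' r)) := by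
      rw [show (P.filter fun r => decide (r ∈ S)).map (fun r => (r, t'' r)) =
        (P.map fun r => (r, t'' r)).filter (fun q => decide (q.1 ∈ S)) by rw [List.filter_map]; rfl]
      refine (C.wg_filter_pair _ _ fun q hq hf => ?_).symm
      obtain ⟨x, _, rfl⟩ := List.mem_map.1 hq
      simp only [decide_eq_false_iff_not] at hf
      exact if_neg hf
    have h2 : P.filter (fun r => decide (r ∈ S)) = C.rootList S := by
      simp only [P, rootList, List.filter_filter]
      refine List.filter_congr fun r _ => ?_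
      by_cases hr : r ∈ S
      · simp [hr, hS.pos r hr]
      · simp [hr]
    rw [h1, h2]
    exact congrArg C.wg (List.map_congr_left fun r hr => by simp [t'', (C.mem_rootList.1 hr).2])
  have hco := C.ordered_inj P (C.rootList_sorted _) (fun r hr => (C.mem_rootList.1 hr).2) t t''
    (by rw [e', e])
  intro r hr hrS
  rw [hco r (C.mem_rootList.2 ⟨hr.1, hr⟩)]
  exact if_neg hrS

theorem wg_mem_of_zero {S : Set ℕ} (l : List ℕ) (t : ℕ → F) (h : ∀ r ∈ l, r ∉ S → t r = 0) :
    C.wg (l.map fun r => (r, t r)) ∈ grp D F S := by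
  refine Subgroup.list_prod_mem _ fun x hx => ?_
  obtain ⟨p, hp, rfl⟩ := List.mem_map.1 hx
  obtain ⟨r, hr, rfl⟩ := List.mem_map.1 hp
  by_cases hS : r ∈ S
  · exact C.xg_mem hS _
  · rw [h r hr hS, C.xg_zero]; exact one_mem _

/-- dropping letters of a normalised subgroup -/
theorem drop_letters {Q : Subgroup (GL D.Idx F)}
    (hQ : ∀ v ∈ D.posUnipotent F, ∀ y ∈ Q, v * y * v⁻¹ ∈ Q) (p : ℕ × F → Bool) :
    ∀ w : List (ℕ × F), (∀ q ∈ w, D.IsPosRoot q.1) → (∀ q ∈ w, p q = false → C.xg q.1 q.2 ∈ Q) →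
      ∃ y ∈ Q, C.wg w = C.wg (w.filter p) * y
  | [], _, _ => ⟨1, one_mem _, by simp [C.wg_nil]⟩
  | q :: w, hpos, hmem => by
    obtain ⟨y, hy, e⟩ := drop_letters hQ p w (fun x hx => hpos x (by simp [hx]))
      fun x hx => hmem x (by simp [hx])
    cases hq : p q
    · rw [List.filter_cons_of_neg (by simp [hq]), C.wg_cons, e]
      have hU : C.wg (w.filter p) ∈ D.posUnipotent F := by
        rw [posUnipotent_eq]
        exact C.wg_mem _ fun x hx => hpos x (by simp [(List.mem_filter.1 hx).1])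
      refine ⟨(C.wg (w.filter p))⁻¹ * C.xg q.1 q.2 * C.wg (w.filter p) * y, mul_mem ?_ hy, by group⟩
      have := hQ _ (inv_mem hU) _ (hmem q (by simp) hq)
      rwa [inv_inv] at this
    · exact ⟨y, hy, by rw [List.filter_cons_of_pos hq, C.wg_cons, C.wg_cons, e, mul_assoc]⟩

end Checked

end Cfsg.Agent.Lib.Chev
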