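import Cfsg.Agent.Lib.Chev.InvolOrthCert

/-!
A second invariant of an element: the rank of `g - 1` on an invariant coordinate subspace.
-/

set_option autoImplicit false

namespace Cfsg.Agent.Lib.Chev

open Cfsg.Lie

/-- the coordinates in `mask` span a subspace stable under all root elements in characteristic two -/
def Fast.idealChk (T : Fast) (mask : ℕ) : Bool :=
  allBelow T.n fun r => allBelow (T.l + T.n) fun b => !(mask.testBit b) ||
    (T.applyX ⟨r, 1, 1, 0⟩ ⟨b, 0, 0, 1⟩).all fun q =>
      Nat.beq (q.c.natAbs % 2) 0 || mask.testBit q.b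

/-- the columns outside `mask` are cleared -/
def maskedChk (N mask : ℕ) (cols mcols : List ℕ) : Bool :=
  allBelow N fun b => Nat.beq (mcols.getD b 0) (bif mask.testBit b then cols.getD b 0 else 0)

variable {D : ChevalleyDatum} {T : Fast} {F : Type*} [Field F] [CharP F 2]

namespace SLData

variable (H : SLData D T)
include H

/-- the projection on the coordinates of `mask` -/
def proj (_ : SLData D T) (F : Type*) [Field F] (mask : ℕ) : Matrix D.Idx D.Idx F :=
  Matrix.diagonal (Sum.elim (fun i => if mask.testBit i.val then 1 else 0)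
    (fun u => if mask.testBit (D.rank + u.val) then 1 else 0))

theorem proj_vec {mask b : ℕ} (hb : b < D.rank + D.nroots) :
    (H.proj F mask).mulVec (vecOf D F b) = if mask.testBit b then vecOf D F b else 0 := by
  funext x
  rw [proj, Matrix.mulVec_diagonal]
  unfold vecOf
  rcases x with i | u <;> by_cases hl : b < D.rank <;>
    simp only [hl, if_true, if_false, bh_apply, bv_apply, Sum.elim_inl, Sum.elim_inr, mul_zero]
  · by_cases h : i.val = b
    · subst h; by_cases hm : mask.testBit i.val <;> simp [hm, bh_apply]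
    · by_cases hm : mask.testBit b <;> simp [h, hm, bh_apply]
  · by_cases hm : mask.testBit b <;> simp [hm, bv_apply]
  · by_cases hm : mask.testBit b <;> simp [hm, bh_apply]
  · by_cases h : u.val = b - D.rank
    · obtain rfl : b = D.rank + u.val := by omega
      by_cases hm : mask.testBit (D.rank + u.val) <;> simp [hm, bv_apply]
    · by_cases hm : mask.testBit b <;> simp [h, hm, bv_apply]

theorem ideal_x {mask : ℕ} (h : T.idealChk mask = true) {r : ℕ} (hr : r < D.nroots) (t : F) :
    D.x F r t * H.proj F mask = H.proj F mask * D.x F r t * H.proj F mask := by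
  refine ext_vecOf fun b hb => ?_
  rw [← Matrix.mulVec_mulVec, ← Matrix.mulVec_mulVec, ← Matrix.mulVec_mulVec, H.proj_vec hb]
  by_cases hm : mask.testBit b
  swap
  · simp [hm]
  rw [if_pos hm]
  simp only [Fast.idealChk, allBelow_iff] at h
  have hb' : b < T.l + T.n := by rw [← H.chk.tables.rank, ← H.chk.tables.nroots]; exact hb
  have hq := h r (H.chk.tables.nroots ▸ hr) b hb'
  rw [hm] at hq
  simp only [Bool.not_true, Bool.false_or, List.all_eq_true, Bool.or_eq_true] at hq
  obtain ⟨hval, he⟩ := applyX_sound (T := T) (X := T.aux) t (1 : F) H.chk.tables H.chk.root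
    ⟨r, 1, 1, 0⟩ hr ⟨b, 0, 0, 1⟩ hb
  simp only [tmVal, Int.cast_one, pow_zero, pow_one, one_mul, mul_one, one_smul] at he
  rw [he]
  revert hq hval
  generalize T.applyX ⟨r, 1, 1, 0⟩ ⟨b, 0, 0, 1⟩ = l
  intro hq hval
  induction l with
  | nil => simp
  | cons q l ih =>
    rw [tmsVal_cons, Matrix.mulVec_add, ← ih (fun x hx => hq x (by simp [hx]))
      (fun x hx => hval x (by simp [hx]))]
    congr 1
    rw [tmVal, Matrix.mulVec_smul, H.proj_vec (hval q (by simp))]
    rcases hq q (by simp) with e | e
    · rw [Checked.intCast_of_parity (F := F) q.c, if_pos e]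
      simp
    · rw [if_pos e]

theorem ideal_mem {mask : ℕ} (h : T.idealChk mask = true) {g : GL D.Idx F} (hg : g ∈ D.group F) :
    (g : Matrix D.Idx D.Idx F) * H.proj F mask =
      H.proj F mask * (g : Matrix D.Idx D.Idx F) * H.proj F mask := by
  unfold ChevalleyDatum.group at hg
  induction hg using Subgroup.closure_induction'' with
  | mem x hx =>
    obtain ⟨⟨r, hr⟩, t, e⟩ := hx
    rw [e, ← x_eq_xMat hr t]
    exact H.ideal_x h hr t
  | inv_mem x hx =>
    obtain ⟨⟨r, hr⟩, t, e⟩ := hx
    have : x = H.chk.xg r t := Units.ext (e.trans (x_eq_xMat hr t).symm)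
    rw [this, H.chk.xg_inv, H.chk.val_xg]
    exact H.ideal_x h hr _
  | one =>
    rw [Units.val_one, one_mul, mul_one, proj, Matrix.diagonal_mul_diagonal]
    congr 1
    funext x
    rcases x with i | u <;> simp
  | mul x y _ _ hx hy =>
    rw [Units.val_mul]
    calc (x : Matrix D.Idx D.Idx F) * y * H.proj F mask
        = (x : Matrix D.Idx D.Idx F) * (y * H.proj F mask) := mul_assoc _ _ _
      _ = (x : Matrix D.Idx D.Idx F) * H.proj F mask * (y * H.proj F mask) := by
        conv_lhs => rw [hy]
        simp only [mul_assoc]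
      _ = H.proj F mask * (x : Matrix D.Idx D.Idx F) * (H.proj F mask * y * H.proj F mask) := by
        conv_lhs => rw [hx]
        simp only [mul_assoc]
      _ = H.proj F mask * ((x : Matrix D.Idx D.Idx F) * y) * H.proj F mask := by
        rw [← hy]; simp only [mul_assoc]

theorem ideal_rank_le {mask : ℕ} (h : T.idealChk mask = true) {g k : GL D.Idx F}
    (hk : k ∈ D.group F) :
    (((((k * g * k⁻¹ : GL D.Idx F) : Matrix D.Idx D.Idx F)) - 1) * H.proj F mask).rank ≤
      (((g : Matrix D.Idx D.Idx F) - 1) * H.proj F mask).rank := by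
  have e : (((k * g * k⁻¹ : GL D.Idx F) : Matrix D.Idx D.Idx F) - 1) * H.proj F mask =
      (k : Matrix D.Idx D.Idx F) * (((g : Matrix D.Idx D.Idx F) - 1) * H.proj F mask) *
        (((k⁻¹ : GL D.Idx F) : Matrix D.Idx D.Idx F) * H.proj F mask) := by
    rw [show ((k⁻¹ : GL D.Idx F) : Matrix D.Idx D.Idx F) * H.proj F mask =
      H.proj F mask * ((k⁻¹ : GL D.Idx F) : Matrix D.Idx D.Idx F) * H.proj F mask from
        H.ideal_mem h (inv_mem hk)]
    have hP : H.proj F mask * H.proj F mask = H.proj F mask := by
      rw [proj, Matrix.diagonal_mul_diagonal]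
      congr 1
      funext x
      rcases x with i | u <;> simp
    calc (((k * g * k⁻¹ : GL D.Idx F) : Matrix D.Idx D.Idx F) - 1) * H.proj F mask
        = (k : Matrix D.Idx D.Idx F) * ((g : Matrix D.Idx D.Idx F) - 1) *
            (((k⁻¹ : GL D.Idx F) : Matrix D.Idx D.Idx F) * H.proj F mask) := by
          simp [mul_sub, sub_mul, mul_assoc]
      _ = _ := by
          conv_lhs => rw [H.ideal_mem h (inv_mem hk)]
          simp only [← mul_assoc]
          rw [mul_assoc _ (H.proj F mask) (H.proj F mask), hP]
  rw [e]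
  exact (Matrix.rank_mul_le_left _ _).trans (Matrix.rank_mul_le_right _ _)

theorem ideal_rank_conj {mask : ℕ} (h : T.idealChk mask = true) {g g' k : GL D.Idx F}
    (hk : k ∈ D.group F) (e : k * g * k⁻¹ = g') :
    (((g' : Matrix D.Idx D.Idx F) - 1) * H.proj F mask).rank =
      (((g : Matrix D.Idx D.Idx F) - 1) * H.proj F mask).rank := by
  refine le_antisymm (e ▸ H.ideal_rank_le h hk) ?_
  have e' : k⁻¹ * g' * k⁻¹⁻¹ = g := by rw [← e]; group
  exact e' ▸ H.ideal_rank_le h (inv_mem hk)

theorem ideal_rank_eq {S cols mcols B P : List ℕ} {pre sel : List (List ℕ)} {k mask : ℕ}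
    (hc : T.colsChk S cols = true) (hmc : maskedChk (T.l + T.n) mask cols mcols = true)
    (h : rankChk (T.l + T.n) mcols B P pre sel k = true) :
    (((H.X F S : Matrix D.Idx D.Idx F) - 1) * H.proj F mask).rank = k := by
  refine H.rank_of_chk (fun b hb => ?_) h
  simp only [maskedChk, allBelow_iff] at hmc
  rw [Nat.eq_of_beq_eq_true (hmc b (by rw [← H.chk.tables.rank, ← H.chk.tables.nroots]; exact hb)),
    ← Matrix.mulVec_mulVec, H.proj_vec hb]
  cases hm : mask.testBit b
  · simp [H.vec_zero]
  · rw [cond_true, if_pos rfl]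
    exact H.col_sound hc hb

end SLData

end Cfsg.Agent.Lib.Chev
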