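import Cfsg.Agent.Lib.Chev.InvolOrthThm
import Cfsg.Agent.Lib.Chev.Twist

/-!
Involutions of the fixed points of a twist of order two in characteristic two: lemmas.
-/

set_option autoImplicit false

namespace Cfsg.Agent.Lib.Chev

open Cfsg.Lie Cfsg.Agent.Lib

/-- A twist of order two with orthogonal node orbits lying on two mutually orthogonal sides. -/
structure TwoTwist {D : ChevalleyDatum} {T : Fast} (H : SLData D T) {K : Type*} [Field K]
    (τ : Twist H.chk K) (φ : K ≃+* K) (side : ℕ → Bool) : Prop where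
  ρ_ρ : ∀ r < D.nroots, τ.ρ (τ.ρ r) = r
  p_p : ∀ i < D.rank, τ.p (τ.p i) = i
  f_eq : ∀ r < D.nroots, τ.f r = φ
  φ_φ : ∀ t, φ (φ t) = t
  φ_ne : ∃ t, φ t ≠ t
  node_orth : ∀ j < D.rank, τ.p j ≠ j → D.cartan j (D.simple (τ.p j)) = 0
  side_p : ∀ j < D.rank, τ.p j ≠ j → side (τ.p j) ≠ side j
  side_orth : ∀ i < D.rank, ∀ j < D.rank, τ.p i ≠ i → τ.p j ≠ j → side i ≠ side j →
    D.cartan i (D.simple j) = 0

variable {D : ChevalleyDatum} {T : Fast} {K : Type*} [Field K] [CharP K 2]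

namespace TwoTwist

variable {H : SLData D T} {τ : Twist H.chk K} {φ : K ≃+* K} {side : ℕ → Bool}
  (W : TwoTwist H τ φ side)
include W

theorem act_xg {r : ℕ} (hr : r < D.nroots) (t : K) :
    τ.act (H.chk.xg r t) = H.chk.xg (τ.ρ r) (φ t) := by
  rw [τ.map_xg r hr, W.f_eq r hr]
  rcases Bool.eq_false_or_eq_true (τ.ε r) with h | h <;> simp [h, sgn, CharTwo.neg_eq]

theorem act_wg : ∀ w : List (ℕ × K), (∀ p ∈ w, p.1 < D.nroots) →
    τ.act (H.chk.wg w) = H.chk.wg (w.map fun p => (τ.ρ p.1, φ p.2))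
  | [], _ => by simpa [H.chk.wg_nil] using τ.act_one
  | p :: w, h => by
    have hp := h p (by simp)
    have hw : ∀ x ∈ w, x.1 < D.nroots := fun x hx => h x (by simp [hx])
    rw [H.chk.wg_cons, τ.act_mul (H.chk.xg_mem_group hp _) (H.chk.wg_mem_group w hw),
      W.act_xg hp, act_wg w hw, List.map_cons, H.chk.wg_cons]

theorem φ_inv {t : K} : φ t⁻¹ = (φ t)⁻¹ := map_inv₀ φ t

/-- fixed elements have fixed cell data -/
theorem fixed_cell {y b n u : GL D.Idx K} (hy : y ∈ τ.fixed) (hb : b ∈ D.borelSubgroup K)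
    (hn : n ∈ D.monomialSubgroup K) (hu : u ∈ grp D K (H.chk.inv n)) (e : y = b * n * u) :
    τ.Comm n ∧ u ∈ τ.fixed := by
  have hu' : u ∈ D.group K := H.chk.grp_le_group (fun r hr => hr.1.1) hu
  have hn' := H.chk.monomial_le_group hn
  have hb' := H.chk.borel_le_group hb
  have ea : τ.act b * τ.act n * τ.act u = b * n * u := by
    rw [← τ.act_mul hb' hn', ← τ.act_mul (mul_mem hb' hn') hu', ← e, hy.2]
  have hact : τ.act u ∈ grp D K (H.chk.inv (τ.act n)) := by
    refine grp_mem_mono (τ.act_grp (fun r hr => hr.1.1) hu) ?_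
    rintro _ ⟨r, hr, rfl⟩
    refine ⟨τ.ρ_pos r hr.1, ?_⟩
    rw [τ.sg_act hn hr.1.1, τ.ρ_neg_iff (H.chk.sg_lt hn hr.1.1)]
    exact hr.2
  have han := τ.act_monomial hn
  have hd := (H.chk.bnu_unique (τ.act_borel hb) hb han hn hact hu ea).1
  have hd' : τ.act n * n⁻¹ ∈ D.diagonalSubgroup K := by
    have := H.chk.mono_conj_diag hn _ (inv_mem hd)
    rwa [mul_inv_rev, inv_inv, show n * (n⁻¹ * τ.act n) * n⁻¹ = τ.act n * n⁻¹ by group] at this
  have hsg : ∀ r < D.nroots, H.chk.sg (τ.act n) r = H.chk.sg n r := fun r hr => by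
    have h1 := H.chk.sg_mul (H.chk.diag_le_monomial hd') hn hr
    rw [inv_mul_cancel_right, H.chk.sg_diag hd' (H.chk.sg_lt hn hr)] at h1
    exact h1
  refine ⟨fun r hr => by rw [← hsg _ (τ.ρ_lt r hr), τ.sg_act hn hr], hu', ?_⟩
  have hact' : τ.act u ∈ grp D K (H.chk.inv n) := by rwa [H.chk.inv_congr hsg] at hact
  have ea' : τ.act b * (τ.act n * n⁻¹) * n * τ.act u = b * n * u := by
    rw [← ea]; group
  exact ((H.chk.bnu_unique (mul_mem (τ.act_borel hb) (Subgroup.mem_sup_right hd')) hb hn hn hact' hu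
    ea').2 rfl).2

/-- the factors of a fixed `v m` are fixed -/
theorem fixed_vm {v m : GL D.Idx K} (hy : v * m ∈ τ.fixed) (hv : v ∈ D.posUnipotent K)
    (hm : m ∈ D.monomialSubgroup K) : v ∈ τ.fixed ∧ m ∈ τ.fixed := by
  have hv' := H.chk.pos_le_group hv
  have hm' := H.chk.monomial_le_group hm
  have e : τ.act v * τ.act m * 1 = v * m * 1 := by
    rw [← τ.act_mul hv' hm', hy.2]
  have h1 := (H.chk.bnu_unique (Subgroup.mem_sup_left (τ.act_pos hv)) (Subgroup.mem_sup_left hv)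
    (τ.act_monomial hm) hm (one_mem _) (one_mem _) e).1
  have hd : τ.act m * m⁻¹ ∈ D.diagonalSubgroup K := by
    have := H.chk.mono_conj_diag hm _ (inv_mem h1)
    rwa [mul_inv_rev, inv_inv, show m * (m⁻¹ * τ.act m) * m⁻¹ = τ.act m * m⁻¹ by group] at this
  rw [mul_one, mul_one] at e
  have e2 : v⁻¹ * τ.act v = (τ.act m * m⁻¹)⁻¹ := by
    rw [inv_mul_eq_iff_eq_mul, mul_inv_rev, inv_inv, ← mul_assoc, eq_mul_inv_iff_mul_eq, e]
  have hmem : v⁻¹ * τ.act v ∈ D.posUnipotent K ⊓ D.diagonalSubgroup K :=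
    Subgroup.mem_inf.2 ⟨mul_mem (inv_mem hv) (τ.act_pos hv), e2 ▸ inv_mem hd⟩
  rw [H.chk.pos_inf_diag, Subgroup.mem_bot, inv_mul_eq_one] at hmem
  rw [← hmem] at e
  exact ⟨⟨hv', hmem.symm⟩, hm', mul_left_cancel e⟩

theorem ρ_eq_simple {j : ℕ} (hj : j < D.rank) : τ.ρ (D.simple j) = D.simple (τ.p j) := τ.ρ_simple j hj

theorem orth_nodes {j : ℕ} (hj : j < D.rank) (hjk : τ.p j ≠ j) :
    pair D (D.simple j) (D.simple (τ.p j)) = 0 ∧ pair D (D.simple (τ.p j)) (D.simple j) = 0 := by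
  have hk := τ.p_lt j hj
  refine ⟨by rw [H.chk.root.pair_simple hj]; exact W.node_orth j hj hjk, ?_⟩
  rw [H.chk.root.pair_simple hk]
  have := W.node_orth _ hk (by rw [W.p_p j hj]; exact fun e => hjk e.symm)
  rwa [W.p_p j hj] at this

theorem refl_fix {i r : ℕ} (hi : i < D.rank) (hr : r < D.nroots) (h : D.cartan i r = 0) :
    D.reflectRoot i r = r := by
  refine H.chk.root.key_inj (H.chk.root.refl_lt i hi r hr) hr ?_
  rw [H.chk.root.refl_key i hi r hr, h, zero_mul, sub_zero]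

theorem refl_partner {j : ℕ} (hj : j < D.rank) (hjk : τ.p j ≠ j) :
    D.reflectRoot j (D.simple (τ.p j)) = D.simple (τ.p j) ∧
      D.reflectRoot (τ.p j) (D.simple j) = D.simple j := by
  have hk := τ.p_lt j hj
  obtain ⟨h1, h2⟩ := W.orth_nodes hj hjk
  rw [H.chk.root.pair_simple hj] at h1
  rw [H.chk.root.pair_simple hk] at h2
  exact ⟨W.refl_fix hj (H.chk.root.simple_lt _ hk) h1, W.refl_fix hk (H.chk.root.simple_lt _ hj) h2⟩

theorem ng_commute {j : ℕ} (hj : j < D.rank) (hjk : τ.p j ≠ j) :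
    Commute (H.chk.ng j : GL D.Idx K) (H.chk.ng (τ.p j)) := by
  have hk := τ.p_lt j hj
  have hp := H.chk.root.simple_lt j hj
  have hq := H.chk.root.simple_lt _ hk
  obtain ⟨h1, h2⟩ := W.orth_nodes hj hjk
  refine H.commute_wg _ fun p hp' => ?_
  refine (H.commute_wg _ fun q hq' => ?_).symm
  have key : ∀ a b, (a = D.simple (τ.p j) ∨ a = D.neg (D.simple (τ.p j))) →
      (b = D.simple j ∨ b = D.neg (D.simple j)) → ∀ t u : K, Commute (H.chk.xg a t) (H.chk.xg b u) := by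
    rintro a b (rfl | rfl) (rfl | rfl) t u
    · exact H.commute_orth hq hp h2 t u
    · exact H.commute_orth hq (H.chk.root.neg_lt _ hp) (by rw [H.chk.pair_neg hp, h2, neg_zero]) t u
    · exact (H.commute_orth hp (H.chk.root.neg_lt _ hq) (by rw [H.chk.pair_neg hq, h1, neg_zero]) u t).symm
    · have h3 : pair D (D.simple j) (D.neg (D.simple (τ.p j))) = 0 := by
        rw [H.chk.pair_neg hq, h1, neg_zero]
      have h4 := ((H.sl_facts hp).2 _ (H.chk.root.neg_lt _ hq) h3).1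
      exact H.commute_orth (H.chk.root.neg_lt _ hq) (H.chk.root.neg_lt _ hp)
        (by rw [H.chk.pair_neg hp, h4, neg_zero]) t u
  simp only [ChevalleyDatum.nWord, List.mem_cons, List.not_mem_nil, or_false] at hp' hq'
  refine (key p.1 q.1 ?_ ?_ p.2 q.2)
  · rcases hp' with rfl | rfl | rfl <;> simp
  · rcases hq' with rfl | rfl | rfl <;> simp

omit W in
theorem act_ng' {i : ℕ} (hi : i < D.rank) : τ.act (H.chk.ng i) = H.chk.ng (τ.p i) := τ.act_ng hi

/-- `n_j n_{p j}` is fixed -/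
theorem ng_pair_fixed {j : ℕ} (hj : j < D.rank) (hjk : τ.p j ≠ j) :
    (H.chk.ng j * H.chk.ng (τ.p j) : GL D.Idx K) ∈ τ.fixed := by
  have hk := τ.p_lt j hj
  refine ⟨mul_mem (H.chk.ng_mem_group hj) (H.chk.ng_mem_group hk), ?_⟩
  rw [τ.act_mul (H.chk.ng_mem_group hj) (H.chk.ng_mem_group hk), τ.act_ng hj, τ.act_ng hk, W.p_p j hj]
  exact (W.ng_commute hj hjk).eq.symm

theorem ng_single_fixed {j : ℕ} (hj : j < D.rank) (hjk : τ.p j = j) :
    (H.chk.ng j : GL D.Idx K) ∈ τ.fixed :=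
  ⟨H.chk.ng_mem_group hj, by rw [τ.act_ng hj, hjk]⟩

end TwoTwist

namespace SLData

variable (H : SLData D T)
include H

/-- one step up -/
theorem step_up {z m : GL D.Idx K} {i : ℕ} (hi : i < D.rank) (hm : m ∈ D.monomialSubgroup K)
    {b b' : GL D.Idx K} (hb : b ∈ D.borelSubgroup K) (hb' : b' ∈ D.borelSubgroup K)
    (e : z = b * m * b') (h1 : D.IsPosRoot (H.chk.sg m⁻¹ (D.simple i)))
    (h2 : D.IsPosRoot (H.chk.sg (H.chk.ng i * m) (D.simple i))) :
    (H.chk.inv (H.chk.ng i * m * H.chk.ng i)).ncard = (H.chk.inv m).ncard + 2 ∧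
      ∃ c ∈ D.borelSubgroup K, ∃ c' ∈ D.borelSubgroup K,
        H.chk.ng i * z * H.chk.ng i = c * (H.chk.ng i * m * H.chk.ng i) * c' := by
  have hng := H.chk.ng_mem (F := K) hi
  have hk := mul_mem hng hm
  constructor
  · have e1 := H.chk.inv_step hi hk h2
    have e2 := H.chk.inv_step hi (inv_mem hm) h1
    have e3 : (H.chk.inv (H.chk.ng i * m)).ncard = (H.chk.inv (m⁻¹ * H.chk.ng i)).ncard := by
      rw [← H.chk.ncard_inv_inv hk, mul_inv_rev, H.ng_inv_two]
    rw [H.chk.ncard_inv_inv hm] at e2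
    omega
  · obtain ⟨τ₁, hmo⟩ := H.chk.sg_spec (inv_mem hm)
    obtain ⟨b₁, h₁, b₂, h₂, e₁⟩ := DoubleCoset.mem_doubleCoset.1
      ((H.chk.bn_step hi hm hb hmo).1 h1)
    obtain ⟨τ₂, hmo'⟩ := H.chk.sg_spec (inv_mem (inv_mem hk))
    obtain ⟨c₁, hc₁, c₂, hc₂, e₂⟩ := DoubleCoset.mem_doubleCoset.1
      ((H.chk.bn_step hi (inv_mem hk) (inv_mem (mul_mem h₂ hb')) hmo').1 (by rw [inv_inv]; exact h2))
    refine ⟨b₁ * c₂⁻¹, mul_mem h₁ (inv_mem hc₂), c₁⁻¹, inv_mem hc₁, ?_⟩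
    have e₃ : (H.chk.ng i * m) * (b₂ * b') * H.chk.ng i =
        c₂⁻¹ * (H.chk.ng i * m * H.chk.ng i) * c₁⁻¹ := by
      have := congrArg (·⁻¹) e₂
      simp only [mul_inv_rev, inv_inv, H.ng_inv_two] at this
      simpa only [← mul_assoc] using this
    rw [e, show H.chk.ng i * (b * m * b') * H.chk.ng i = H.chk.ng i * b * m * b' * H.chk.ng i by group,
      e₁, show b₁ * (H.chk.ng i * m) * b₂ * b' * H.chk.ng i =
        b₁ * ((H.chk.ng i * m) * (b₂ * b') * H.chk.ng i) by group, e₃]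
    group

/-- conjugating down by a node -/
theorem inv_down {m : GL D.Idx K} {i : ℕ} (hi : i < D.rank) (hm : m ∈ D.monomialSubgroup K)
    (h2 : m * m = 1) (hneg : D.IsNegRoot (H.chk.sg m (D.simple i)))
    (hne : H.chk.sg m (D.simple i) ≠ D.neg (D.simple i)) :
    (H.chk.inv (H.chk.ng i * m * H.chk.ng i)).ncard + 2 = (H.chk.inv m).ncard := by
  have R := H.chk.root
  have hng := H.chk.ng_mem (F := K) hi
  have hp := R.simple_lt i hi
  have hminv : m⁻¹ = m := inv_eq_of_mul_eq_one_right h2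
  have h1 := H.chk.ncard_inv_mul_ng hi hm hneg
  have hmn : H.chk.ng i * m ∈ D.monomialSubgroup K := mul_mem hng hm
  have hs : D.IsNegRoot (H.chk.sg (H.chk.ng i * m) (D.simple i)) := by
    rw [H.chk.sg_mul hng hm hp, H.chk.sg_ng hi (H.chk.sg_lt hm hp)]
    have hlt := H.chk.sg_lt hm hp
    have h3 := (H.chk.refl_pos hi ((H.chk.neg_pos_iff hlt).2 hneg) fun h' => hne (by
      rw [← R.neg_neg' hlt, h'])).1
    rw [R.refl_neg' hi hlt] at h3
    exact (H.chk.neg_pos_iff (R.refl_lt i hi _ hlt)).1 h3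
  have h2' := H.chk.ncard_inv_mul_ng hi hmn hs
  have h4 : (H.chk.inv (H.chk.ng i * m)).ncard = (H.chk.inv (m * H.chk.ng i)).ncard := by
    rw [← H.chk.ncard_inv_inv (mul_mem hm hng), mul_inv_rev, hminv, H.ng_inv_two]
  omega

/-- `x_{-i}(s) m` lies in a higher cell -/
theorem neg_step {m : GL D.Idx K} {i : ℕ} (hi : i < D.rank) (hm : m ∈ D.monomialSubgroup K)
    (hpos : D.IsPosRoot (H.chk.sg m⁻¹ (D.simple i))) {s : K} (hs : s ≠ 0) :
    (H.chk.inv (H.chk.ng i * m)).ncard = (H.chk.inv m).ncard + 1 ∧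
      ∃ u ∈ D.borelSubgroup K, H.chk.xg (D.neg (D.simple i)) s * m =
        H.chk.xg (D.simple i) s⁻¹ * H.chk.hg (D.simple i) s⁻¹ * (H.chk.ng i * m) * u := by
  have hng := H.chk.ng_mem (F := K) hi
  have hp := H.chk.root.simple_lt i hi
  constructor
  · rw [← H.chk.ncard_inv_inv (mul_mem hng hm), mul_inv_rev, H.ng_inv_two,
      H.chk.inv_step hi (inv_mem hm) hpos, H.chk.ncard_inv_inv hm]
  · obtain ⟨c, -, hc⟩ := H.chk.sg_conj (inv_mem hm) hp
    refine ⟨m⁻¹ * H.chk.xg (D.simple i) s⁻¹ * m,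
      by rw [show m⁻¹ * H.chk.xg (D.simple i) s⁻¹ * m =
        m⁻¹ * H.chk.xg (D.simple i) s⁻¹ * m⁻¹⁻¹ by rw [inv_inv], hc]
         exact H.chk.xg_mem_borel hpos _, ?_⟩
    rw [H.chk.xg_neg_eq hi hs, CharTwo.neg_eq]
    group

/-- absorb a negated simple root into the orthogonal product -/
theorem grow {J : Set ℕ} {l : List ℕ} {c : ℕ → K} {m : GL D.Idx K} {j : ℕ} {c0 t : K}
    (hl : H.OrthIn J l) (hm : m ∈ D.monomialSubgroup K)
    (hmM : m ∈ H.msub K J) (h2 : m * m = 1) (hfix : ∀ r ∈ l, H.chk.sg m r = r) (hj : j < D.rank)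
    (hflip : H.chk.sg m (D.simple j) = D.neg (D.simple j))
    (hconj : ∀ u, m * H.chk.xg (D.simple j) u * m⁻¹ = H.chk.xg (D.neg (D.simple j)) (c0 * u))
    (ht : t ≠ 0) (hct : c0 * t = t⁻¹) :
    D.InRootSub J (D.simple j) ∧ H.OrthIn J (D.neg (D.simple j) :: l) ∧
      ∃ n ∈ D.monomialSubgroup K,
        n = H.chk.xg (D.simple j) t * H.chk.xg (D.neg (D.simple j)) t⁻¹ * H.chk.xg (D.simple j) t ∧
        (n * m) * (n * m) = 1 ∧ n * m ∈ H.msub K J ∧
        (∀ r < D.nroots, H.chk.sg (n * m) r = D.reflectRoot j (H.chk.sg m r)) ∧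
        (∀ r ∈ D.neg (D.simple j) :: l, H.chk.sg (n * m) r = r) ∧
        H.chk.xg (D.simple j) t * (H.chk.wg (l.map fun r => (r, c r)) * m) *
            (H.chk.xg (D.simple j) t)⁻¹ =
          H.chk.wg ((D.neg (D.simple j) :: l).map fun r =>
            (r, Function.update c (D.neg (D.simple j)) t⁻¹ r)) * (n * m) := by
  classical
  have R := H.chk.root
  set a := D.simple j with hadef
  have hp : a < D.nroots := R.simple_lt j hj
  have hq : D.neg a < D.nroots := R.neg_lt a hp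
  have hneg : D.IsNegRoot (H.chk.sg m a) := by
    rw [hflip]; exact (H.chk.neg_neg_iff hp).2 (R.pos_simple hj)
  have hjJ := H.simple_of_neg hm hmM hj hneg
  have haJ : D.InRootSub J a := (H.chk.inRootSub_simple H.supp J hj).2 hjJ
  have hnaJ : D.InRootSub J (D.neg a) := (H.chk.inRootSub_neg H.supp J hp).2 haJ
  have horth : ∀ r ∈ l, pair D r a = 0 := by
    intro r hr
    have h := H.chk.pair_sg hm (hl.2.1 r hr).1 hp
    rw [hfix r hr, hflip, H.chk.pair_neg hp] at h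
    omega
  have horth' : ∀ r ∈ l, pair D a r = 0 := fun r hr =>
    ((H.sl_facts (hl.2.1 r hr).1).2 a hp (horth r hr)).1
  have hnegl : D.neg a ∉ l := by
    intro h
    have h1 := horth _ h
    have h2' := (H.sl_facts hq).1
    rw [H.chk.pair_neg hp, h1] at h2'
    exact absurd h2' (by norm_num)
  have hen : ∀ i < D.rank, T.en i (D.simple i) = true := R.en_simple
  set A := H.chk.xg a t with hAdef
  set B := H.chk.xg (D.neg a) t⁻¹ with hBdef
  set n := A * B * A with hndef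
  have hAA : A⁻¹ = A := H.xg_inv_two a t
  have hBB : B⁻¹ = B := H.xg_inv_two _ _
  have hmA : m * A * m⁻¹ = B := by rw [hAdef, hconj, hct]
  have hminv : m⁻¹ = m := inv_eq_of_mul_eq_one_right h2
  have hmB : m * B * m⁻¹ = A := by
    rw [← hmA]
    calc m * (m * A * m⁻¹) * m⁻¹ = m * m * A * (m * m)⁻¹ := by group
      _ = A := by rw [h2]; group
  have hbraid : n = B * A * B := H.braid_two hen hp ht
  have hnword : n = H.chk.hg a t * H.chk.ng j := by
    rw [← H.chk.nWord_eq_hg_mul]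
    simp only [ChevalleyDatum.nWord, H.chk.wg_cons, H.chk.wg_nil, mul_one, CharTwo.neg_eq, hndef, hAdef,
      hBdef, ← mul_assoc, ← hadef]
  have hnm : n ∈ D.monomialSubgroup K := by
    rw [hnword]
    exact mul_mem (H.chk.diag_le_monomial (H.chk.hg_mem hp ht)) (H.chk.ng_mem hj)
  have hnM : n ∈ H.msub K J :=
    mul_mem (mul_mem (H.chk.xg_mem haJ t) (H.chk.xg_mem hnaJ t⁻¹)) (H.chk.xg_mem haJ t)
  have hsgn : ∀ r < D.nroots, H.chk.sg n r = D.reflectRoot j r := fun r hr => by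
    rw [hnword, H.chk.sg_mul (H.chk.diag_le_monomial (H.chk.hg_mem hp ht)) (H.chk.ng_mem hj) hr,
      H.chk.sg_diag (H.chk.hg_mem hp ht) (H.chk.sg_lt (H.chk.ng_mem hj) hr), H.chk.sg_ng hj hr]
  set m' := n * m with hm'def
  have hm' : m' ∈ D.monomialSubgroup K := mul_mem hnm hm
  have h2' : m' * m' = 1 := by
    have e : m * n * m⁻¹ = n := by
      calc m * n * m⁻¹ = (m * A * m⁻¹) * (m * B * m⁻¹) * (m * A * m⁻¹) := by rw [hndef]; group
        _ = n := by rw [hmA, hmB, hbraid]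
    calc m' * m' = n * (m * n * m⁻¹) * (m * m) := by rw [hm'def]; group
      _ = n * n⁻¹ := by
        rw [e, h2, mul_one]
        congr 1
        rw [hndef, mul_inv_rev, mul_inv_rev, hAA, hBB, mul_assoc]
      _ = 1 := mul_inv_cancel n
  have hsg' : ∀ r < D.nroots, H.chk.sg m' r = D.reflectRoot j (H.chk.sg m r) := fun r hr => by
    rw [hm'def, H.chk.sg_mul hnm hm hr, hsgn _ (H.chk.sg_lt hm hr)]
  have hfixneg : H.chk.sg m' (D.neg a) = D.neg a := by
    rw [hsg' _ hq, H.chk.sg_neg hm hp, hflip, R.neg_neg' hp, hadef, R.refl_simple hj]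
  have hfix' : ∀ r ∈ l, H.chk.sg m' r = r := by
    intro r hr
    have hr' := (hl.2.1 r hr).1
    have h0 := horth' r hr
    rw [hadef, R.pair_simple hj] at h0
    rw [hsg' r hr', hfix r hr]
    refine R.key_inj (R.refl_lt j hj r hr') hr' ?_
    rw [R.refl_key j hj r hr', h0, zero_mul, sub_zero]
  set X := H.chk.wg (l.map fun r => (r, c r)) with hXdef
  have hXA : Commute A X := H.commute_wg _ fun p hp' => by
    obtain ⟨r, hr, rfl⟩ := List.mem_map.1 hp'
    exact H.commute_orth hp (hl.2.1 r hr).1 (horth' r hr) t (c r)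
  have hB' : Commute m' B := H.fix_commute hm' h2' hq hfixneg t⁻¹
  have hXB : Commute B X := H.commute_wg _ fun p hp' => by
    obtain ⟨r, hr, rfl⟩ := List.mem_map.1 hp'
    exact (H.commute_orth (hl.2.1 r hr).1 hq (by rw [H.chk.pair_neg hp, horth r hr, neg_zero])
      (c r) t⁻¹).symm
  have e : A * (X * m) * A⁻¹ = B * X * m' := by
    calc A * (X * m) * A⁻¹ = X * A * m * A := by rw [← mul_assoc A, hXA.eq, hAA]
      _ = X * A * (m * A * m⁻¹) * m := by group
      _ = X * (n * A⁻¹) * m := by rw [hmA, hndef]; group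
      _ = X * (n * A * m) := by rw [hAA]; simp only [mul_assoc]
      _ = X * (m' * (m⁻¹ * A * m)) := by rw [hm'def]; group
      _ = X * (m' * B) := by rw [hminv]; congr 2; rw [← hmA, hminv]
      _ = B * X * m' := by rw [hB'.eq, ← mul_assoc, hXB.eq]
  refine ⟨haJ, ⟨List.nodup_cons.2 ⟨hnegl, hl.1⟩, ?_, ?_⟩, n, hnm, rfl, h2', mul_mem hnM hmM, hsg', ?_, ?_⟩
  · intro r hr
    rcases List.mem_cons.1 hr with rfl | hr
    exacts [hnaJ, hl.2.1 r hr]
  · intro r hr s hs hne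
    rcases List.mem_cons.1 hr with rfl | hr <;> rcases List.mem_cons.1 hs with rfl | hs
    · exact absurd rfl hne
    · exact ((H.sl_facts (hl.2.1 s hs).1).2 _ hq (by rw [H.chk.pair_neg hp, horth s hs, neg_zero])).1
    · rw [H.chk.pair_neg hp, horth r hr, neg_zero]
    · exact hl.2.2 r hr s hs hne
  · intro r hr
    rcases List.mem_cons.1 hr with rfl | hr
    exacts [hfixneg, hfix' r hr]
  · rw [e, List.map_cons, H.chk.wg_cons, Function.update_self]
    congr 2
    rw [hXdef]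
    congr 1
    refine List.map_congr_left fun r hr => ?_
    rw [Function.update_of_ne (fun e' : r = D.neg a => hnegl (e' ▸ hr))]

end SLData

end Cfsg.Agent.Lib.Chev
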