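import Cfsg.Agent.Lib.Chev.InvolOrthTwistThm
import Cfsg.Agent.Lib.Chev.InvolOrthCert

/-!
Certificates for the classification of stable orthogonal products under a twist of order two.
-/

set_option autoImplicit false

namespace Cfsg.Agent.Lib.Chev

open Cfsg.Lie Cfsg.Agent.Lib

namespace Fast

variable (T : Fast)

/-- a word in the node orbits, written in the nodes -/
def expandW (p : ℕ → ℕ) (wd : List ℕ) : List ℕ :=
  wd.flatMap fun j => bif Nat.beq (p j) j then [j] else [j, p j]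

/-- extension of the `k`-th stable representative by one orbit -/
def stepChkT (p rf : ℕ → ℕ) (reps : List (List ℕ)) (k : ℕ) (es : List (ℕ × List ℕ × ℕ)) : Bool :=
  ((reps.getD k []).all fun r => Nat.blt r T.n) &&
  allBelow T.n fun b => !(((reps.getD k []).all fun r => beqI (T.pr r b) 0) &&
      (Nat.beq (rf b) b || beqI (T.pr b (rf b)) 0)) ||
    match es.find? fun e => Nat.beq e.1 b with
    | none => false
    | some e => e.2.1.all (fun i => Nat.blt i T.l) && Nat.blt e.2.2 reps.length &&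
        (((bif Nat.beq (rf b) b then b :: reps.getD k [] else b :: rf b :: reps.getD k [])).map
          (T.actW (expandW p e.2.1))).isPerm (reps.getD e.2.2 [])

/-- a fixed word `w` with `w S = y w` and a word in the node orbits taking `y` to `S'` -/
def redOKT (p rf : ℕ → ℕ) (S S' w y wd : List ℕ) : Bool :=
  T.wordEqChk (w ++ S) (y ++ w) && T.wordEqChk (w.map rf) w && T.commList S' &&
    (wd.all fun i => Nat.blt i T.l) && (y.map (T.actW (expandW p wd))).isPerm S'

end Fast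

variable {D : ChevalleyDatum} {T : Fast} {K : Type*} [Field K] [CharP K 2]

namespace TwoTwist

variable {H : SLData D T} {τ : Twist H.chk K} {φ : K ≃+* K} {side : ℕ → Bool}
  (W : TwoTwist H τ φ side)
include W

theorem act_X {l : List ℕ} (hl : ∀ r ∈ l, r < D.nroots) : τ.act (H.X K l) = H.X K (l.map τ.ρ) := by
  rw [SLData.X, W.act_wg _ (fun p hp => ?_), SLData.X, List.map_map, List.map_map]
  · congr 1
    exact List.map_congr_left fun r _ => by simp
  · obtain ⟨r, hr, rfl⟩ := List.mem_map.1 hp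
    exact hl r hr

/-- a word in the node orbits is realised by a fixed monomial element -/
theorem expand_spec : ∀ wd : List ℕ, (∀ i ∈ wd, i < D.rank) →
    ∃ k ∈ D.monomialSubgroup K, k ∈ τ.fixed ∧ ∀ r < D.nroots,
      H.chk.sg k r = T.actW (Fast.expandW τ.p wd) r ∧
      ∀ t : K, k * H.chk.xg r t * k⁻¹ = H.chk.xg (H.chk.sg k r) t
  | [], _ => ⟨1, one_mem _, one_mem _, fun r hr => by
      have e : H.chk.sg (1 : GL D.Idx K) r = r := H.chk.sg_diag (one_mem _) hr
      refine ⟨e, fun t => by rw [e]; group⟩⟩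
  | i :: wd, h => by
    have hi := h i (by simp)
    obtain ⟨k, hk, hkf, hk'⟩ := expand_spec wd fun j hj => h j (by simp [hj])
    have key : ∀ n ∈ D.monomialSubgroup K, n ∈ τ.fixed → ∀ hd : List ℕ,
        Fast.expandW τ.p (i :: wd) = hd ++ Fast.expandW τ.p wd →
        (∀ r < D.nroots, H.chk.sg n r = T.actW hd r ∧
          ∀ t : K, n * H.chk.xg r t * n⁻¹ = H.chk.xg (H.chk.sg n r) t) →
        ∃ k ∈ D.monomialSubgroup K, k ∈ τ.fixed ∧ ∀ r < D.nroots,
          H.chk.sg k r = T.actW (Fast.expandW τ.p (i :: wd)) r ∧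
          ∀ t : K, k * H.chk.xg r t * k⁻¹ = H.chk.xg (H.chk.sg k r) t := by
      intro n hn hnf hd e hn'
      refine ⟨k * n, mul_mem hk hn, mul_mem hkf hnf, fun r hr => ?_⟩
      have hlt := H.chk.sg_lt hn hr
      have esg := H.chk.sg_mul hk hn hr
      refine ⟨?_, fun t => ?_⟩
      · rw [esg, (hk' _ hlt).1, e, (hn' r hr).1]
        simp [Fast.actW, List.foldl_append]
      · rw [show k * n * H.chk.xg r t * (k * n)⁻¹ = k * (n * H.chk.xg r t * n⁻¹) * k⁻¹ by group,
          (hn' r hr).2, (hk' _ hlt).2, esg]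
    have one : ∀ j < D.rank, ∀ r < D.nroots,
        H.chk.sg (H.chk.ng j : GL D.Idx K) r = T.w j r := fun j hj r hr => by
      rw [H.chk.sg_ng hj hr, H.chk.refl j hj r hr]
    by_cases hp : τ.p i = i
    · refine key _ (H.chk.ng_mem hi) (W.ng_single_fixed hi hp) [i] ?_ fun r hr => ⟨?_, fun t => ?_⟩
      · simp [Fast.expandW, hp]
      · rw [one i hi r hr]; rfl
      · exact sg_ng_conj (H := H) hi hr t
    · have hq := τ.p_lt i hi
      refine key (H.chk.ng (τ.p i) * H.chk.ng i) (mul_mem (H.chk.ng_mem hq) (H.chk.ng_mem hi))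
        ((W.ng_commute hi hp).eq ▸ W.ng_pair_fixed hi hp) [i, τ.p i] ?_ fun r hr => ⟨?_, fun t => ?_⟩
      · have : Nat.beq (τ.p i) i = false :=
          Bool.eq_false_iff.2 fun e => hp (Nat.eq_of_beq_eq_true e)
        simp [Fast.expandW, this]
      · rw [H.chk.sg_mul (H.chk.ng_mem hq) (H.chk.ng_mem hi) hr, one i hi r hr,
          one _ hq _ (H.chk.refl i hi r hr ▸ H.chk.root.refl_lt i hi r hr)]
        rfl
      · exact sg_ng_pair_conj (H := H) hq hi hr t

/-- the conjugation of a product by a word in the node orbits -/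
theorem expand_conj (wd : List ℕ) (hwd : ∀ i ∈ wd, i < D.rank) {l : List ℕ}
    (hl : ∀ r ∈ l, r < D.nroots) :
    ∃ k ∈ τ.fixed, k * H.X K l * k⁻¹ = H.X K (l.map (T.actW (Fast.expandW τ.p wd))) := by
  obtain ⟨k, -, hkf, hk⟩ := W.expand_spec wd hwd
  refine ⟨k, hkf, ?_⟩
  rw [SLData.X, H.conj_word (fun p => (T.actW (Fast.expandW τ.p wd) p.1, p.2))]
  · rw [SLData.X, List.map_map, List.map_map]; rfl
  · intro p hp
    obtain ⟨r, hr, rfl⟩ := List.mem_map.1 hp
    rw [(hk r (hl r hr)).2, (hk r (hl r hr)).1]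

/-- the orbits of stable orthogonal lists -/
theorem orbit_rep {rf pf : ℕ → ℕ} (hrf : τ.ρ = rf) (hpf : τ.p = pf) {reps : List (List ℕ)}
    {steps : ℕ → List (ℕ × List ℕ × ℕ)} (h0 : reps.getD 0 [] = []) (hlen : 0 < reps.length)
    (hsteps : ∀ k < reps.length, T.stepChkT pf rf reps k (steps k) = true) :
    ∀ (m : ℕ) (l : List ℕ), l.length = m → H.OrthIn Set.univ l → (∀ r ∈ l, τ.ρ r ∈ l) →
      ∃ wd : List ℕ, (∀ i ∈ wd, i < D.rank) ∧
        ∃ j < reps.length, (l.map (T.actW (Fast.expandW τ.p wd))).Perm (reps.getD j []) := by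
  intro m
  induction m using Nat.strong_induction_on with
  | _ m ih =>
  intro l hm hl hst
  rcases l with _ | ⟨b, l₀⟩
  · exact ⟨[], by simp, 0, hlen, by rw [h0]; rfl⟩
  obtain ⟨hnd, hr, hp⟩ := hl
  obtain ⟨hbl, hnd₀⟩ := List.nodup_cons.1 hnd
  have hb := (hr b (by simp)).1
  obtain ⟨o, l', ho, hperm, hbo⟩ : ∃ o l', o = (bif Nat.beq (τ.ρ b) b then [b] else [b, τ.ρ b]) ∧
      (b :: l₀).Perm (o ++ l') ∧ b ∈ o := by
    by_cases e : τ.ρ b = b
    · exact ⟨[b], l₀, by simp [e], List.Perm.refl _, by simp⟩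
    · have hmem : τ.ρ b ∈ l₀ := by simpa [e] using hst b (by simp)
      refine ⟨[b, τ.ρ b], l₀.erase (τ.ρ b), ?_, (List.perm_cons_erase hmem).cons b, by simp⟩
      rw [Bool.eq_false_iff.2 fun e' : Nat.beq (τ.ρ b) b = true => e (Nat.eq_of_beq_eq_true e')]
      rfl
  have hnd' : (o ++ l').Nodup := hperm.nodup_iff.1 hnd
  obtain ⟨-, hndl', hdis⟩ := List.nodup_append.1 hnd'
  have hsub : ∀ r ∈ l', r ∈ b :: l₀ := fun r h => hperm.mem_iff.2 (List.mem_append_right _ h)
  have hosub : ∀ r ∈ o, r ∈ b :: l₀ := fun r h => hperm.mem_iff.2 (List.mem_append_left _ h)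
  have hoρ : ∀ r ∈ o, ∃ s ∈ o, τ.ρ s = r := by
    by_cases e : τ.ρ b = b
    · rw [ho, e, show Nat.beq b b = true by simp]
      simp [e]
    · rw [ho, Bool.eq_false_iff.2 fun e' : Nat.beq (τ.ρ b) b = true => e (Nat.eq_of_beq_eq_true e')]
      simp [W.ρ_ρ b hb]
  have hst' : ∀ r ∈ l', τ.ρ r ∈ l' := by
    intro r h
    have h1 := hperm.mem_iff.1 (hst r (hsub r h))
    refine (List.mem_append.1 h1).resolve_left fun h2 => ?_
    obtain ⟨s, hs, es⟩ := hoρ _ h2
    exact hdis s hs r h (τ.ρ_inj s (hr s (hosub s hs)).1 r (hr r (hsub r h)).1 es)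
  have hlt' : l'.length < m := by
    have := hperm.length_eq
    have hpos : 0 < o.length := List.length_pos_of_mem hbo
    simp only [List.length_cons, List.length_append] at this hm
    omega
  obtain ⟨wd, hwd, k, hk, hkperm⟩ := ih _ hlt' l' rfl
    ⟨hndl', fun r h => hr r (hsub r h), fun r h1 s h2 => hp r (hsub r h1) s (hsub s h2)⟩ hst'
  obtain ⟨g, hg, hgf, hgs⟩ := W.expand_spec wd hwd
  have hcomm := τ.comm_of_fixed hg hgf
  set R := T.actW (Fast.expandW τ.p wd) with hR
  have hlt : ∀ r < D.nroots, R r < D.nroots := fun r hr' => (hgs r hr').1 ▸ H.chk.sg_lt hg hr'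
  have hRρ : ∀ r < D.nroots, τ.ρ (R r) = R (τ.ρ r) := fun r hr' => by
    rw [← (hgs r hr').1, ← hcomm r hr', (hgs _ (τ.ρ_lt r hr')).1]
  have hRinj : ∀ r < D.nroots, ∀ s < D.nroots, R r = R s → r = s := fun r hr' s hs' e => by
    rw [← (hgs r hr').1, ← (hgs s hs').1] at e
    rw [← H.chk.sg_inv_sg hg hr', e, H.chk.sg_inv_sg hg hs']
  have hRpair : ∀ r < D.nroots, ∀ s < D.nroots, pair D (R r) (R s) = pair D r s := fun r hr' s hs' => by
    rw [← (hgs r hr').1, ← (hgs s hs').1, H.chk.pair_sg hg hr' hs']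
  have hs := hsteps k hk
  rw [Fast.stepChkT, Bool.and_eq_true] at hs
  have hb'' := allBelow_iff.1 hs.2 (R b) (H.chk.tables.nroots ▸ hlt b hb)
  have hρb := hr _ (hst b (by simp))
  have horth : (((reps.getD k []).all fun r => beqI (T.pr r (R b)) 0) &&
      (Nat.beq (rf (R b)) (R b) || beqI (T.pr (R b) (rf (R b))) 0)) = true := by
    rw [Bool.and_eq_true, List.all_eq_true, Bool.or_eq_true]
    refine ⟨fun r hr' => ?_, ?_⟩
    · obtain ⟨x, hx, rfl⟩ := List.mem_map.1 (hkperm.mem_iff.2 hr')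
      have hxlt := (hr x (hsub x hx)).1
      rw [H.chk.pr_eq (hlt x hxlt) (hlt b hb), hRpair x hxlt b hb,
        hp x (hsub x hx) b (by simp) (fun e => hdis b hbo x hx e.symm), beqI_self]
    · rw [← hrf, hRρ b hb]
      by_cases e : τ.ρ b = b
      · left; rw [e]; simp
      · right
        rw [H.chk.pr_eq (hlt b hb) (hlt _ hρb.1), hRpair b hb _ hρb.1,
          hp b (by simp) _ (hst b (by simp)) (Ne.symm e), beqI_self]
  rw [horth, Bool.not_true, Bool.false_or] at hb''
  split at hb''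
  · exact absurd hb'' (by simp)
  next e he =>
    simp only [Bool.and_eq_true, List.all_eq_true, Nat.blt_eq, List.isPerm_iff] at hb''
    refine ⟨wd ++ e.2.1, fun i hi => ?_, e.2.2, hb''.1.2, ?_⟩
    · rcases List.mem_append.1 hi with hi | hi
      exacts [hwd i hi, H.chk.tables.rank ▸ hb''.1.1 i hi]
    · have e1 : ∀ L : List ℕ, L.map (T.actW (Fast.expandW τ.p (wd ++ e.2.1))) =
          (L.map R).map (T.actW (Fast.expandW τ.p e.2.1)) := fun L => by
        simp [hR, Fast.expandW, Fast.actW, List.flatMap_append, List.foldl_append]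
      refine (hperm.map _).trans ?_
      rw [e1, List.map_append]
      refine List.Perm.trans (((hkperm.append_left (o.map R))).map _) ?_
      have h2 := hb''.2
      rw [← hpf, ← hrf] at h2
      convert h2 using 2
      rw [ho, hRρ b hb]
      by_cases e' : τ.ρ b = b
      · simp [e']
      · have hne : R (τ.ρ b) ≠ R b := fun h => e' (hRinj _ hρb.1 b hb h)
        rw [Bool.eq_false_iff.2 fun h : Nat.beq (τ.ρ b) b = true => e' (Nat.eq_of_beq_eq_true h),
          Bool.eq_false_iff.2 fun h : Nat.beq (R (τ.ρ b)) (R b) = true => hne (Nat.eq_of_beq_eq_true h)]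
        rfl

/-- soundness of a reduction -/
theorem red_sound {rf pf : ℕ → ℕ} (hrf : τ.ρ = rf) (hpf : τ.p = pf) {S S' w y wd : List ℕ}
    (h : T.redOKT pf rf S S' w y wd = true) :
    ∃ k ∈ τ.fixed, k * H.X K S * k⁻¹ = H.X K S' := by
  simp only [Fast.redOKT, Bool.and_eq_true, List.all_eq_true, Nat.blt_eq, List.isPerm_iff] at h
  obtain ⟨⟨⟨⟨h1, h2⟩, h3⟩, h4⟩, h5⟩ := h
  obtain ⟨hX, hu, hv⟩ := H.wordEq_sound (F := K) h1
  obtain ⟨hXw, -, -⟩ := H.wordEq_sound (F := K) h2
  have hw : ∀ r ∈ w, r < D.nroots := fun r hr => hu r (List.mem_append_left _ hr)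
  have hwf : H.X K w ∈ τ.fixed := ⟨H.X_mem hw, by rw [W.act_X hw, hrf, hXw]⟩
  obtain ⟨c, hc, ec⟩ := W.expand_conj wd (fun i hi => H.chk.tables.rank ▸ h4 i hi)
    (l := y) fun r hr => hv r (List.mem_append_left _ hr)
  refine ⟨c * H.X K w, mul_mem hc hwf, ?_⟩
  rw [hpf] at ec
  rw [← H.X_perm h5.symm (H.commute_of_commList h3).2] at ec
  rw [← ec, mul_assoc c, ← H.X_append, hX, H.X_append]
  group

/-- every involution of the fixed points is conjugate there to one of the representatives -/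
theorem exists_rep [Finite K] {rf pf : ℕ → ℕ} (hrf : τ.ρ = rf) (hpf : τ.p = pf) {reps : List (List ℕ)}
    {steps : ℕ → List (ℕ × List ℕ × ℕ)} (h0 : reps.getD 0 [] = []) (hlen : 0 < reps.length)
    (hsteps : ∀ k < reps.length, T.stepChkT pf rf reps k (steps k) = true)
    (hcomm : reps.all T.commList = true) {g : GL D.Idx K} (hg : g ∈ τ.fixed) (h2 : g * g = 1)
    (h1 : g ≠ 1) :
    ∃ j, 0 < j ∧ j < reps.length ∧ ∃ k ∈ τ.fixed, k * g * k⁻¹ = H.X K (reps.getD j []) := by
  obtain ⟨k, hk, l, hl, hst, e⟩ := W.split_fixed hg h2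
  obtain ⟨wd, hwd, j, hj, hperm⟩ := W.orbit_rep hrf hpf h0 hlen hsteps _ l rfl hl hst
  obtain ⟨k', hk', e'⟩ := W.expand_conj wd hwd (l := l) fun r hr => (hl.2.1 r hr).1
  have hjc : T.commList (reps.getD j []) = true := by
    refine List.all_eq_true.1 hcomm _ ?_
    rw [List.getD_eq_getElem _ _ hj]; exact List.getElem_mem hj
  have hX : k' * k * g * (k' * k)⁻¹ = H.X K (reps.getD j []) := by
    rw [H.X_perm hperm.symm (H.commute_of_commList hjc).2, ← e', show H.X K l = k * g * k⁻¹ from e.symm]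
    group
  refine ⟨j, Nat.pos_of_ne_zero fun hj0 => h1 ?_, hj, k' * k, mul_mem hk' hk, hX⟩
  rw [hj0, h0, show H.X K [] = 1 from rfl, conj_eq_one_iff] at hX
  exact hX

end TwoTwist

end Cfsg.Agent.Lib.Chev
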