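import Cfsg.Agent.Lib.Chev.InvolOrthTwist
import Cfsg.Agent.Lib.Chev.TwistOrb
import Cfsg.Agent.Lib.Chev.TwistU

/-!
The reduction of an involution fixed by a twist of order two to a stable orthogonal product of root
elements, by a fixed element.
-/

set_option autoImplicit false

namespace Cfsg.Agent.Lib.Chev

open Cfsg.Lie Cfsg.Agent.Lib

variable {D : ChevalleyDatum} {T : Fast} {K : Type*} [Field K] [CharP K 2]

namespace TwoTwist

variable {H : SLData D T} {τ : Twist H.chk K} {φ : K ≃+* K} {side : ℕ → Bool}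
  (W : TwoTwist H τ φ side)
include W

/-- conjugate by a fixed element to a stable orthogonal product -/
def SplitT (_ : TwoTwist H τ φ side) (J : Set ℕ) (y : GL D.Idx K) : Prop :=
  ∃ k ∈ H.msub K J, k ∈ τ.fixed ∧ ∃ l, H.OrthIn J l ∧ (∀ r ∈ l, τ.ρ r ∈ l) ∧
    k * y * k⁻¹ = H.chk.wg (l.map fun r => (r, (1 : K)))

theorem SplitT.of_conj {J : Set ℕ} {y k : GL D.Idx K} (hk : k ∈ H.msub K J) (hkf : k ∈ τ.fixed)
    (h : W.SplitT J (k * y * k⁻¹)) : W.SplitT J y := by
  obtain ⟨k', hk', hkf', l, hl, hst, e⟩ := h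
  exact ⟨k' * k, mul_mem hk' hk, mul_mem hkf' hkf, l, hl, hst, by rw [← e]; group⟩

theorem perm_ρ {l : List ℕ} (hnd : l.Nodup) (hlt : ∀ r ∈ l, r < D.nroots) (hst : ∀ r ∈ l, τ.ρ r ∈ l) :
    (l.map τ.ρ).Perm l := by
  refine (List.subperm_of_subset (hnd.map_on fun x hx y hy e => τ.ρ_inj x (hlt x hx) y (hlt y hy) e)
    ?_).perm_of_length_le (by simp)
  intro r hr
  obtain ⟨x, hx, rfl⟩ := List.mem_map.1 hr
  exact hst x hx

theorem sq_inj {a b : K} (h : a * a = b * b) : a = b := by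
  rcases mul_self_eq_mul_self_iff.1 h with h | h
  · exact h
  · rwa [CharTwo.neg_eq] at h

theorem scale [Finite K] {J : Set ℕ} {l : List ℕ} (hl : H.OrthIn J l) (hst : ∀ r ∈ l, τ.ρ r ∈ l)
    (c : ℕ → K) (hc : ∀ r ∈ l, c r ≠ 0) (hce : ∀ r ∈ l, c (τ.ρ r) = φ (c r)) :
    W.SplitT J (H.chk.wg (l.map fun r => (r, c r))) := by
  classical
  choose s hs using fun r => isSquare_of_charTwo' ((c r)⁻¹)
  have hs0 : ∀ r ∈ l, s r ≠ 0 := by
    intro r hr h
    have := hs r
    rw [h, mul_zero] at this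
    exact inv_ne_zero (hc r hr) this
  have hse : ∀ r ∈ l, s (τ.ρ r) = φ (s r) := fun r hr =>
    W.sq_inj (by rw [← hs, hce r hr, ← map_inv₀, hs r, map_mul])
  have hlt : ∀ r ∈ l, r < D.nroots := fun r hr => (hl.2.1 r hr).1
  set g : ℕ → GL D.Idx K := fun a => H.chk.hg a (s a) with hg
  have key : ∀ l' : List ℕ, l'.Nodup → (∀ r ∈ l', r ∈ l) → ∀ r ∈ l, ∀ t : K,
      (l'.map g).prod * H.chk.xg r t * ((l'.map g).prod)⁻¹ =
        H.chk.xg r ((if r ∈ l' then (c r)⁻¹ else 1) * t) := by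
    intro l'
    induction l' with
    | nil => intro _ _ r _ t; simp
    | cons a l' ih =>
      intro hnd hsub r hr t
      obtain ⟨hal, hnd'⟩ := List.nodup_cons.1 hnd
      have ha := hsub a (by simp)
      rw [List.map_cons, List.prod_cons,
        show g a * (l'.map g).prod * H.chk.xg r t * (g a * (l'.map g).prod)⁻¹ =
          g a * ((l'.map g).prod * H.chk.xg r t * ((l'.map g).prod)⁻¹) * (g a)⁻¹ by group,
        ih hnd' (fun x hx => hsub x (by simp [hx])) r hr t]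
      rw [hg]
      dsimp only
      rw [H.chk.hg_xg (hlt a ha) (hlt r hr) (hs0 a ha), ← mul_assoc]
      congr 2
      by_cases hra : r = a
      · subst hra
        rw [if_neg hal, if_pos (by simp), (H.sl_facts (hlt r hr)).1, zpow_two, mul_one, ← hs]
      · rw [hl.2.2 a ha r hr (Ne.symm hra), zpow_zero, one_mul]
        by_cases h : r ∈ l'
        · rw [if_pos h, if_pos (by simp [h])]
        · rw [if_neg h, if_neg (by simp [h, hra])]
  have hgD : ∀ a ∈ l, g a ∈ D.diagonalSubgroup K := fun a ha => H.chk.hg_mem (hlt a ha) (hs0 a ha)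
  have hdM : (l.map g).prod ∈ H.msub K J := list_prod_mem fun x hx => by
    obtain ⟨a, ha, rfl⟩ := List.mem_map.1 hx
    exact H.hg_mem_msub (hl.2.1 a ha) _
  have hmemG : ∀ x ∈ l.map g, x ∈ D.group K := fun x hx => by
    obtain ⟨a, ha, rfl⟩ := List.mem_map.1 hx
    exact H.chk.diag_le_group (hgD a ha)
  have hdf : (l.map g).prod ∈ τ.fixed := by
    refine ⟨list_prod_mem hmemG, ?_⟩
    rw [τ.act_list_prod _ hmemG, List.map_map,
      show l.map (τ.act ∘ g) = (l.map τ.ρ).map g from ?_]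
    · refine ((W.perm_ρ hl.1 hlt hst).map g).prod_eq' ?_
      refine List.Pairwise.map g (R := fun a b => a ∈ l ∧ b ∈ l)
        (fun a b h => H.chk.diag_comm (hgD a h.1) (hgD b h.2)) ?_
      refine List.pairwise_of_forall_mem_list fun a ha b hb => ?_
      obtain ⟨x, hx, rfl⟩ := List.mem_map.1 ha
      obtain ⟨y, hy, rfl⟩ := List.mem_map.1 hb
      exact ⟨hst x hx, hst y hy⟩
    · rw [List.map_map]
      refine List.map_congr_left fun a ha => ?_
      simp only [Function.comp_apply, hg]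
      rw [τ.act_hg (hlt a ha) (hs0 a ha), W.f_eq a (hlt a ha), hse a ha]
  refine ⟨_, hdM, hdf, l, hl, hst, ?_⟩
  rw [H.conj_word (fun p => (p.1, (1 : K))), List.map_map]
  · rfl
  · intro p hp
    obtain ⟨r, hr, rfl⟩ := List.mem_map.1 hp
    rw [key l hl.1 (fun x hx => hx) r hr, if_pos hr, inv_mul_cancel₀ (hc r hr)]

/-- the data after conjugation by a fixed monomial element -/
theorem conj_data {J : Set ℕ} {l : List ℕ} {c : ℕ → K} {m n : GL D.Idx K}
    (hn : n ∈ D.monomialSubgroup K) (hnM : n ∈ H.msub K J) (hnf : n ∈ τ.fixed)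
    (hn1 : ∀ r < D.nroots, ∀ t : K, n * H.chk.xg r t * n⁻¹ = H.chk.xg (H.chk.sg n r) t)
    (hl : H.OrthIn J l) (hst : ∀ r ∈ l, τ.ρ r ∈ l) (hc : ∀ r ∈ l, c r ≠ 0)
    (hce : ∀ r ∈ l, c (τ.ρ r) = φ (c r)) (hm : m ∈ D.monomialSubgroup K)
    (hfix : ∀ r ∈ l, H.chk.sg m r = r) :
    ∃ (l' : List ℕ) (c' : ℕ → K), l'.length = l.length ∧ H.OrthIn J l' ∧ (∀ r ∈ l', τ.ρ r ∈ l') ∧
      (∀ r ∈ l', c' r ≠ 0) ∧ (∀ r ∈ l', c' (τ.ρ r) = φ (c' r)) ∧
      (∀ r ∈ l', H.chk.sg (n * m * n⁻¹) r = r) ∧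
      n * (H.chk.wg (l.map fun r => (r, c r)) * m) * n⁻¹ =
        H.chk.wg (l'.map fun r => (r, c' r)) * (n * m * n⁻¹) := by
  have hlt : ∀ r ∈ l, r < D.nroots := fun r hr => (hl.2.1 r hr).1
  have hcomm := τ.comm_of_fixed hn hnf
  have hinj : ∀ r ∈ l, H.chk.sg n⁻¹ (H.chk.sg n r) = r := fun r hr => H.chk.sg_inv_sg hn (hlt r hr)
  refine ⟨l.map (H.chk.sg n), fun r => c (H.chk.sg n⁻¹ r), by simp,
    ⟨hl.1.map_on fun x hx y hy e => by rw [← hinj x hx, e, hinj y hy], ?_, ?_⟩, ?_, ?_, ?_, ?_, ?_⟩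
  · intro r hr
    obtain ⟨x, hx, rfl⟩ := List.mem_map.1 hr
    exact H.sg_mem_sub hn hnM (hl.2.1 x hx)
  · intro r hr s hs hne
    obtain ⟨x, hx, rfl⟩ := List.mem_map.1 hr
    obtain ⟨y, hy, rfl⟩ := List.mem_map.1 hs
    rw [H.chk.pair_sg hn (hlt x hx) (hlt y hy)]
    exact hl.2.2 x hx y hy fun e => hne (by rw [e])
  · intro r hr
    obtain ⟨x, hx, rfl⟩ := List.mem_map.1 hr
    exact List.mem_map.2 ⟨τ.ρ x, hst x hx, hcomm x (hlt x hx)⟩
  · intro r hr
    obtain ⟨x, hx, rfl⟩ := List.mem_map.1 hr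
    dsimp only
    rw [hinj x hx]
    exact hc x hx
  · intro r hr
    obtain ⟨x, hx, rfl⟩ := List.mem_map.1 hr
    rw [← hcomm x (hlt x hx)]
    dsimp only
    rw [hinj x hx, hinj _ (hst x hx), hce x hx]
  · intro r hr
    obtain ⟨x, hx, rfl⟩ := List.mem_map.1 hr
    have hw := H.chk.sg_lt hn (hlt x hx)
    rw [H.chk.sg_mul (mul_mem hn hm) (inv_mem hn) hw, hinj x hx, H.chk.sg_mul hn hm (hlt x hx),
      hfix x hx]
  · rw [show n * (H.chk.wg (l.map fun r => (r, c r)) * m) * n⁻¹ =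
      (n * H.chk.wg (l.map fun r => (r, c r)) * n⁻¹) * (n * m * n⁻¹) by group,
      H.conj_word (fun p => (H.chk.sg n p.1, p.2))]
    · rw [List.map_map, List.map_map]
      congr 2
      refine List.map_congr_left fun r hr => ?_
      simp only [Function.comp_apply, hinj r hr]
    · intro p hp
      obtain ⟨r, hr, rfl⟩ := List.mem_map.1 hp
      exact hn1 r (hlt r hr) _

omit W in
theorem sg_ng_conj {j : ℕ} (hj : j < D.rank) {r : ℕ} (hr : r < D.nroots) (t : K) :
    H.chk.ng j * H.chk.xg r t * (H.chk.ng j)⁻¹ = H.chk.xg (H.chk.sg (H.chk.ng (F := K) j) r) t := by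
  rw [H.ng_conj hj hr, H.chk.sg_ng hj hr]

omit W in
theorem sg_ng_pair_conj {j k : ℕ} (hj : j < D.rank) (hk : k < D.rank) {r : ℕ} (hr : r < D.nroots)
    (t : K) : H.chk.ng j * H.chk.ng k * H.chk.xg r t * (H.chk.ng j * H.chk.ng k)⁻¹ =
      H.chk.xg (H.chk.sg (H.chk.ng (F := K) j * H.chk.ng k) r) t := by
  have hnj := H.chk.ng_mem (F := K) hj
  have hnk := H.chk.ng_mem (F := K) hk
  rw [show H.chk.ng j * H.chk.ng k * H.chk.xg r t * (H.chk.ng j * H.chk.ng k)⁻¹ =
    H.chk.ng j * (H.chk.ng k * H.chk.xg r t * (H.chk.ng k)⁻¹) * (H.chk.ng j)⁻¹ by group,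
    sg_ng_conj (H := H) hk hr, sg_ng_conj (H := H) hj (H.chk.sg_lt hnk hr), ← H.chk.sg_mul hnj hnk hr]

/-- the image of the partner node -/
theorem sg_partner {m : GL D.Idx K} (hc : τ.Comm m) {j : ℕ} (hj : j < D.rank) :
    H.chk.sg m (D.simple (τ.p j)) = τ.ρ (H.chk.sg m (D.simple j)) := by
  rw [← W.ρ_eq_simple hj]
  exact hc _ (H.chk.root.simple_lt j hj)

/-- an involution cannot only exchange the two sides -/
theorem not_all_swapped {m : GL D.Idx K} (hm : m ∈ D.monomialSubgroup K) (hc : τ.Comm m)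
    (h2 : m * m = 1)
    (hsw : ∀ j < D.rank, D.IsNegRoot (H.chk.sg m (D.simple j)) →
      τ.p j ≠ j ∧ H.chk.sg m (D.simple j) = D.neg (D.simple (τ.p j)))
    {j₀ : ℕ} (hj₀ : j₀ < D.rank) (hneg₀ : D.IsNegRoot (H.chk.sg m (D.simple j₀))) : False := by
  classical
  have R := H.chk.root
  let N : ℕ → Prop := fun j => D.IsNegRoot (H.chk.sg m (D.simple j))
  have hNp : ∀ j < D.rank, N j → N (τ.p j) := fun j hj h => by
    show D.IsNegRoot (H.chk.sg m (D.simple (τ.p j)))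
    rw [W.sg_partner hc hj]
    exact (τ.ρ_neg_iff (H.chk.sg_lt hm (R.simple_lt j hj))).2 h
  have himg : ∀ j < D.rank, N j → ∀ i < D.rank,
      T.aux.coef (H.chk.sg m (D.simple j)) i = if i = τ.p j then -1 else 0 := fun j hj h i hi => by
    rw [(hsw j hj h).2, R.coef_neg (R.simple_lt _ (τ.p_lt j hj)) hi,
      R.coef_simple _ (τ.p_lt j hj) i hi]
    split_ifs <;> simp
  have hout : ∀ x < D.rank, ¬ N x → ∀ r, D.IsPosRoot r → T.aux.coef r x ≠ 0 →
      D.IsPosRoot (H.chk.sg m r) := by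
    intro x hx hxN r hr hrx
    refine (H.chk.key_trichotomy (H.chk.sg_lt hm hr.1)).resolve_right fun hn => ?_
    have hxlt := R.simple_lt x hx
    have hxpos : D.IsPosRoot (H.chk.sg m (D.simple x)) :=
      (H.chk.key_trichotomy (H.chk.sg_lt hm hxlt)).resolve_right hxN
    have hzero : ∀ i < D.rank, ¬ N i → T.aux.coef (H.chk.sg m (D.simple x)) i = 0 := by
      intro i hi hiN
      have h1 : T.aux.coef (H.chk.sg m r) i ≤ 0 := by
        have := H.chk.coef_nonneg ((H.chk.neg_pos_iff (H.chk.sg_lt hm hr.1)).2 hn) hi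
        rw [R.coef_neg (H.chk.sg_lt hm hr.1) hi] at this
        omega
      rw [H.chk.coef_sg hm hr.1 hi] at h1
      have hterm : ∀ y ∈ Finset.range D.rank,
          0 ≤ T.aux.coef r y * T.aux.coef (H.chk.sg m (D.simple y)) i := fun y hy => by
        have hy' := Finset.mem_range.1 hy
        by_cases hyN : N y
        · rw [himg y hy' hyN i hi, if_neg (fun e : i = τ.p y => hiN (e ▸ hNp y hy' hyN)), mul_zero]
        · exact mul_nonneg (H.chk.coef_nonneg hr hy') (H.chk.coef_nonneg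
            ((H.chk.key_trichotomy (H.chk.sg_lt hm (R.simple_lt y hy'))).resolve_right hyN) hi)
      have h3 := (Finset.sum_eq_zero_iff_of_nonneg hterm).1
        (le_antisymm h1 (Finset.sum_nonneg hterm)) x (Finset.mem_range.2 hx)
      rcases mul_eq_zero.1 h3 with h | h
      · exact absurd h hrx
      · exact h
    have e : H.chk.sg m (H.chk.sg m (D.simple x)) = D.simple x := by
      conv_lhs => arg 2; rw [← inv_eq_of_mul_eq_one_right h2]
      exact H.chk.sg_inv_sg hm hxlt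
    have h4 := R.coef_simple x hx x hx
    rw [← e, H.chk.coef_sg hm (H.chk.sg_lt hm hxlt) hx, if_pos rfl, Finset.sum_eq_zero] at h4
    · exact zero_ne_one h4
    intro y hy
    have hy' := Finset.mem_range.1 hy
    by_cases hyN : N y
    · rw [himg y hy' hyN x hx, if_neg (fun e' : x = τ.p y => hxN (e' ▸ hNp y hy' hyN)), mul_zero]
    · rw [hzero y hy' hyN, zero_mul]
  suffices key : ∀ d (n : GL D.Idx K), n ∈ D.monomialSubgroup K → (H.chk.inv n).ncard = d →
      (∀ x < D.rank, ¬ N x → ∀ r, D.IsPosRoot r → T.aux.coef r x ≠ 0 → D.IsPosRoot (H.chk.sg n r)) →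
      ∀ (s : Bool) (r : ℕ), r < D.nroots →
        (∀ x < D.rank, ¬ (N x ∧ side x = s) → T.aux.coef r x = 0) →
        ∀ x < D.rank, ¬ (N x ∧ side x = s) → T.aux.coef (H.chk.sg n r) x = 0 by
    have hne := W.side_p j₀ hj₀ (hsw j₀ hj₀ hneg₀).1
    have h := key _ m hm rfl hout (side j₀) (D.simple j₀) (R.simple_lt j₀ hj₀) (fun x hx hx' => by
      rw [R.coef_simple j₀ hj₀ x hx, if_neg fun e : x = j₀ => hx' ⟨e ▸ hneg₀, by rw [e]⟩])
      (τ.p j₀) (τ.p_lt j₀ hj₀) fun h => hne h.2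
    rw [himg j₀ hj₀ hneg₀ _ (τ.p_lt j₀ hj₀), if_pos rfl] at h
    exact absurd h (by norm_num)
  intro d
  induction d using Nat.strong_induction_on with
  | _ d ih =>
  intro n hn hd hprop s r hr hsupp
  by_cases hall : ∀ i < D.rank, D.IsPosRoot (H.chk.sg n (D.simple i))
  · rw [H.chk.sg_diag (H.chk.mem_diag_of_simple_pos hn hall) hr]
    exact hsupp
  push Not at hall
  obtain ⟨i, hi, hnp⟩ := hall
  have hilt := R.simple_lt i hi
  have hneg := (H.chk.key_trichotomy (H.chk.sg_lt hn hilt)).resolve_left hnp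
  have hiN : N i := by
    by_contra hiN
    exact hnp (hprop i hi hiN _ (R.pos_simple hi) (by rw [R.coef_simple i hi i hi, if_pos rfl]; norm_num))
  have hng := H.chk.ng_mem (F := K) hi
  have hcount := H.chk.ncard_inv_mul_ng hi hn hneg
  have hn' : n * H.chk.ng i ∈ D.monomialSubgroup K := mul_mem hn hng
  have hsg : ∀ u < D.nroots, H.chk.sg (n * H.chk.ng i) u = H.chk.sg n (D.reflectRoot i u) := fun u hu => by
    rw [H.chk.sg_mul hn hng hu, H.chk.sg_ng hi hu]
  have hlt' := R.refl_lt i hi r hr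
  have he : H.chk.sg n r = H.chk.sg (n * H.chk.ng i) (D.reflectRoot i r) := by
    rw [hsg _ hlt', R.refl_refl i hi r hr]
  rw [he]
  refine ih _ (by omega) _ hn' rfl (fun x hx hxN u hu hux => ?_) s _ hlt' fun x hx hx' => ?_
  · have hxi : x ≠ i := fun e => hxN (e ▸ hiN)
    have hui : u ≠ D.simple i := fun e => by
      rw [e, R.coef_simple i hi x hx, if_neg hxi] at hux
      exact hux rfl
    rw [hsg u hu.1]
    refine hprop x hx hxN _ (H.chk.refl_pos hi hu hui).1 ?_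
    rw [R.coef_refl hi hu.1 hx, if_neg hxi, mul_zero, sub_zero]
    exact hux
  · rw [R.coef_refl hi hr hx, hsupp x hx hx', zero_sub, neg_eq_zero, mul_eq_zero]
    by_cases hxi : x = i
    · subst hxi
      left
      rw [R.cartan_lin x hx r hr]
      refine Finset.sum_eq_zero fun y hy => ?_
      have hy' := Finset.mem_range.1 hy
      by_cases hyN : N y ∧ side y = s
      · rw [W.side_orth x hx y hy' (hsw x hx hiN).1 (hsw y hy' hyN.1).1
          fun e => hx' ⟨hiN, e.trans hyN.2⟩, mul_zero]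
      · rw [hsupp y hy' hyN, zero_mul]
    · right; rw [if_neg hxi]

/-- A stable orthogonal product times a commuting fixed monomial involution. -/
theorem split_mono [Finite K] {J : Set ℕ} : ∀ (d k : ℕ) (l : List ℕ) (c : ℕ → K) (m : GL D.Idx K),
    D.nroots - l.length = d → (H.chk.inv m).ncard = k → H.OrthIn J l → (∀ r ∈ l, τ.ρ r ∈ l) →
    (∀ r ∈ l, c r ≠ 0) → (∀ r ∈ l, c (τ.ρ r) = φ (c r)) →
    m ∈ D.monomialSubgroup K → m ∈ H.msub K J → m ∈ τ.fixed → m * m = 1 →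
    (∀ r ∈ l, H.chk.sg m r = r) → W.SplitT J (H.chk.wg (l.map fun r => (r, c r)) * m) := by
  intro d
  induction d using Nat.strong_induction_on with
  | _ d ihd =>
  intro k
  induction k using Nat.strong_induction_on with
  | _ k ihk =>
  intro l c m hd hk hl hst hc hce hm hmM hmf h2 hfix
  classical
  have R := H.chk.root
  have hcm := τ.comm_of_fixed hm hmf
  by_cases hall : ∀ i < D.rank, D.IsPosRoot (H.chk.sg m (D.simple i))
  · rw [H.diag_invol_eq_one (H.chk.mem_diag_of_simple_pos hm hall) h2, mul_one]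
    exact W.scale hl hst c hc hce
  by_cases hA : ∃ j < D.rank, D.IsNegRoot (H.chk.sg m (D.simple j)) ∧
      H.chk.sg m (D.simple j) ≠ D.neg (D.simple j) ∧
      H.chk.sg m (D.simple j) ≠ D.neg (D.simple (τ.p j))
  · obtain ⟨j, hj, hneg, hne, hne'⟩ := hA
    have hjJ := H.simple_of_neg hm hmM hj hneg
    have hdown := H.inv_down hj hm h2 hneg hne
    suffices main : ∀ n : GL D.Idx K, n ∈ D.monomialSubgroup K → n ∈ H.msub K J → n ∈ τ.fixed →
        (∀ r < D.nroots, ∀ t : K, n * H.chk.xg r t * n⁻¹ = H.chk.xg (H.chk.sg n r) t) →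
        (H.chk.inv (n * m * n⁻¹)).ncard < k → W.SplitT J (H.chk.wg (l.map fun r => (r, c r)) * m) by
      have hnj := H.chk.ng_mem (F := K) hj
      by_cases hpj : τ.p j = j
      · refine main (H.chk.ng j) hnj (H.ng_mem_msub hj hjJ) (W.ng_single_fixed hj hpj)
          (fun r hr t => sg_ng_conj (H := H) hj hr t) ?_
        rw [H.ng_inv_two]
        omega
      · have hkk := τ.p_lt j hj
        have hnk := H.chk.ng_mem (F := K) hkk
        have hnegk : D.IsNegRoot (H.chk.sg m (D.simple (τ.p j))) := by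
          rw [W.sg_partner hcm hj]
          exact (τ.ρ_neg_iff (H.chk.sg_lt hm (R.simple_lt j hj))).2 hneg
        have hkJ := H.simple_of_neg hm hmM hkk hnegk
        obtain ⟨hfkj, hfjk⟩ := W.refl_partner hj hpj
        have hklt := R.simple_lt _ hkk
        have hm1 : H.chk.ng j * m * H.chk.ng j ∈ D.monomialSubgroup K := mul_mem (mul_mem hnj hm) hnj
        have hs1 : H.chk.sg (H.chk.ng j * m * H.chk.ng j) (D.simple (τ.p j)) =
            D.reflectRoot j (H.chk.sg m (D.simple (τ.p j))) := by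
          rw [H.chk.sg_mul (mul_mem hnj hm) hnj hklt, H.chk.sg_ng hj hklt, hfkj,
            H.chk.sg_mul hnj hm hklt, H.chk.sg_ng hj (H.chk.sg_lt hm hklt)]
        have hlt := H.chk.sg_lt hm hklt
        have hnek : H.chk.sg m (D.simple (τ.p j)) ≠ D.neg (D.simple (τ.p j)) := fun e => hne (by
          refine τ.ρ_inj _ (H.chk.sg_lt hm (R.simple_lt j hj)) _ (R.neg_lt _ (R.simple_lt j hj)) ?_
          rw [← W.sg_partner hcm hj, e, τ.ρ_neg _ (R.simple_lt j hj), W.ρ_eq_simple hj])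
        have hnej : H.chk.sg m (D.simple (τ.p j)) ≠ D.neg (D.simple j) := fun e => hne' (by
          refine τ.ρ_inj _ (H.chk.sg_lt hm (R.simple_lt j hj)) _ (R.neg_lt _ hklt) ?_
          rw [← W.sg_partner hcm hj, e, τ.ρ_neg _ hklt, W.ρ_eq_simple hkk, W.p_p j hj])
        have hneg1 : D.IsNegRoot (H.chk.sg (H.chk.ng j * m * H.chk.ng j) (D.simple (τ.p j))) := by
          rw [hs1]
          have h3 := (H.chk.refl_pos hj ((H.chk.neg_pos_iff hlt).2 hnegk) fun h' => hnej (by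
            rw [← R.neg_neg' hlt, h'])).1
          rw [R.refl_neg' hj hlt] at h3
          exact (H.chk.neg_pos_iff (R.refl_lt j hj _ hlt)).1 h3
        have hne1 : H.chk.sg (H.chk.ng j * m * H.chk.ng j) (D.simple (τ.p j)) ≠
            D.neg (D.simple (τ.p j)) := by
          rw [hs1]
          intro e
          refine hnek (R.refl_inj hj hlt (R.neg_lt _ hklt) ?_)
          rw [e, R.refl_neg' hj hklt, hfkj]
        have h21 : H.chk.ng j * m * H.chk.ng j * (H.chk.ng j * m * H.chk.ng j) = 1 := by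
          have e : H.chk.ng j * m * (H.chk.ng j)⁻¹ * (H.chk.ng j * m * (H.chk.ng j)⁻¹) = 1 := by
            rw [conj_mul, h2]; group
          rwa [H.ng_inv_two] at e
        have hdown2 := H.inv_down hkk hm1 h21 hneg1 hne1
        refine main (H.chk.ng (τ.p j) * H.chk.ng j) (mul_mem hnk hnj)
          (mul_mem (H.ng_mem_msub hkk hkJ) (H.ng_mem_msub hj hjJ))
          ((W.ng_commute hj hpj).eq ▸ W.ng_pair_fixed hj hpj)
          (fun r hr t => sg_ng_pair_conj (H := H) hkk hj hr t) ?_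
        rw [mul_inv_rev, H.ng_inv_two, H.ng_inv_two,
          show H.chk.ng (τ.p j) * H.chk.ng j * m * (H.chk.ng j * H.chk.ng (τ.p j)) =
            H.chk.ng (τ.p j) * (H.chk.ng j * m * H.chk.ng j) * H.chk.ng (τ.p j) by group]
        omega
    intro n hn hnM hnf hn1 hlt
    obtain ⟨l', c', hlen, hl', hst', hc', hce', hfix', e⟩ :=
      W.conj_data hn hnM hnf hn1 hl hst hc hce hm hfix
    refine SplitT.of_conj W hnM hnf ?_
    rw [e]
    exact ihk _ hlt l' c' _ (by omega) rfl hl' hst' hc' hce' (mul_mem (mul_mem hn hm) (inv_mem hn))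
      (mul_mem (mul_mem hnM hmM) (inv_mem hnM)) (mul_mem (mul_mem hnf hmf) (inv_mem hnf))
      (by rw [conj_mul, h2]; group) hfix'
  push Not at hA
  by_cases hB : ∃ j < D.rank, H.chk.sg m (D.simple j) = D.neg (D.simple j)
  swap
  · push Not at hB hall
    obtain ⟨j₀, hj₀, hnp⟩ := hall
    refine (W.not_all_swapped hm hcm h2 (fun j hj hneg => ⟨fun e => hB j hj ?_, hA j hj hneg (hB j hj)⟩)
      hj₀ ((H.chk.key_trichotomy (H.chk.sg_lt hm (R.simple_lt j₀ hj₀))).resolve_left hnp)).elim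
    rw [hA j hj hneg (hB j hj), e]
  obtain ⟨j, hj, hflip⟩ := hB
  have hjlt := R.simple_lt j hj
  obtain ⟨c0, hc0, hconj⟩ := H.chk.sg_conj hm hjlt
  rw [hflip] at hconj
  obtain ⟨t, ht⟩ := isSquare_of_charTwo' (c0⁻¹)
  have ht0 : t ≠ 0 := by
    rintro rfl
    rw [mul_zero] at ht
    exact inv_ne_zero hc0 ht
  have hct : c0 * t = t⁻¹ := by
    have : c0 = (t * t)⁻¹ := by rw [← ht, inv_inv]
    rw [this]; field_simp
  have hconjk : ∀ u : K, m * H.chk.xg (D.simple (τ.p j)) u * m⁻¹ =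
      H.chk.xg (D.neg (D.simple (τ.p j))) (φ c0 * u) := fun u => by
    have hx := H.chk.xg_mem_group (F := K) hjlt
    have e := congrArg τ.act (hconj (φ u))
    rw [τ.act_mul (mul_mem hmf.1 (hx _)) (inv_mem hmf.1), τ.act_mul hmf.1 (hx _), τ.act_inv hmf.1,
      hmf.2, W.act_xg hjlt, W.act_xg (R.neg_lt _ hjlt), W.φ_φ, τ.ρ_neg _ hjlt, W.ρ_eq_simple hj,
      map_mul, W.φ_φ] at e
    exact e
  obtain ⟨haJ, hl1, n1, hn1, en1, h21, hm1M, hsg1, hfix1, e1⟩ :=
    H.grow hl hm hmM h2 hfix hj hflip hconj ht0 hct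
  by_cases hpj : τ.p j = j
  · have hφc : φ c0 = c0 := by
      have h1 := hconjk 1
      rw [hpj, hconj, mul_one, mul_one] at h1
      exact (H.chk.xg_inj (R.neg_lt _ hjlt) h1).symm
    have hφt : φ t = t := W.sq_inj (by rw [← map_mul, ← ht, map_inv₀, hφc])
    have hφti : φ t⁻¹ = t⁻¹ := by rw [map_inv₀, hφt]
    have hρj : τ.ρ (D.simple j) = D.simple j := by rw [W.ρ_eq_simple hj, hpj]
    have hρn : τ.ρ (D.neg (D.simple j)) = D.neg (D.simple j) := by rw [τ.ρ_neg _ hjlt, hρj]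
    have hAf : H.chk.xg (D.simple j) t ∈ τ.fixed :=
      ⟨H.chk.xg_mem_group hjlt t, by rw [W.act_xg hjlt, hρj, hφt]⟩
    have hBf : H.chk.xg (D.neg (D.simple j)) t⁻¹ ∈ τ.fixed :=
      ⟨H.chk.xg_mem_group (R.neg_lt _ hjlt) _, by rw [W.act_xg (R.neg_lt _ hjlt), hρn, hφti]⟩
    have hlen := H.length_le hl1
    simp only [List.length_cons] at hlen
    refine SplitT.of_conj W (H.chk.xg_mem haJ t) hAf ?_
    rw [e1]
    refine ihd _ (by rw [List.length_cons]; omega) _ _ _ _ rfl rfl hl1 ?_ ?_ ?_ (mul_mem hn1 hm) hm1M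
      (mul_mem (en1 ▸ mul_mem (mul_mem hAf hBf) hAf) hmf) h21 hfix1
    · intro r hr
      rcases List.mem_cons.1 hr with rfl | hr
      · rw [hρn]; exact List.mem_cons_self
      · exact List.mem_cons_of_mem _ (hst r hr)
    · intro r hr
      rcases List.mem_cons.1 hr with rfl | hr
      · rw [Function.update_self]; exact inv_ne_zero ht0
      · rw [Function.update_of_ne (fun e' : r = D.neg (D.simple j) => (List.nodup_cons.1 hl1.1).1 (e' ▸ hr))]
        exact hc r hr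
    · intro r hr
      rcases List.mem_cons.1 hr with rfl | hr
      · rw [hρn, Function.update_self, hφti]
      · have hni := (List.nodup_cons.1 hl1.1).1
        rw [Function.update_of_ne (fun e' : r = D.neg (D.simple j) => hni (e' ▸ hr)),
          Function.update_of_ne (fun e' : τ.ρ r = D.neg (D.simple j) => hni (e' ▸ hst r hr))]
        exact hce r hr
  · set k' := τ.p j with hk'
    have hkk : k' < D.rank := τ.p_lt j hj
    have hklt := R.simple_lt k' hkk
    obtain ⟨hfkj, -⟩ := W.refl_partner hj hpj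
    obtain ⟨ho1, ho2⟩ := W.orth_nodes hj hpj
    have hflipk : H.chk.sg m (D.simple k') = D.neg (D.simple k') := by
      rw [hk', W.sg_partner hcm hj, hflip, τ.ρ_neg _ hjlt, W.ρ_eq_simple hj]
    have hflip1 : H.chk.sg (n1 * m) (D.simple k') = D.neg (D.simple k') := by
      rw [hsg1 _ hklt, hflipk, R.refl_neg' hj hklt, hfkj]
    have hnj := R.neg_lt _ hjlt
    have hnk := R.neg_lt _ hklt
    have o3 : pair D (D.simple j) (D.neg (D.simple k')) = 0 := by
      rw [H.chk.pair_neg hklt, ho1, neg_zero]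
    have o4 : pair D (D.simple k') (D.neg (D.simple j)) = 0 := by
      rw [H.chk.pair_neg hjlt, ho2, neg_zero]
    have o5 : pair D (D.neg (D.simple j)) (D.simple k') = 0 := ((H.sl_facts hklt).2 _ hnj o4).1
    have o6 : pair D (D.neg (D.simple j)) (D.neg (D.simple k')) = 0 := by
      rw [H.chk.pair_neg hklt, o5, neg_zero]
    have hn1B : ∀ u : K, Commute n1 (H.chk.xg (D.neg (D.simple k')) u) := fun u => by
      rw [en1]
      exact ((H.commute_orth hjlt hnk o3 t u).mul_left (H.commute_orth hnj hnk o6 t⁻¹ u)).mul_left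
        (H.commute_orth hjlt hnk o3 t u)
    have hconj1 : ∀ u : K, n1 * m * H.chk.xg (D.simple k') u * (n1 * m)⁻¹ =
        H.chk.xg (D.neg (D.simple k')) (φ c0 * u) := fun u => by
      rw [show n1 * m * H.chk.xg (D.simple k') u * (n1 * m)⁻¹ =
        n1 * (m * H.chk.xg (D.simple k') u * m⁻¹) * n1⁻¹ by group, hconjk, (hn1B _).eq]
      group
    have hct2 : φ c0 * φ t = (φ t)⁻¹ := by rw [← map_mul, hct, map_inv₀]
    obtain ⟨hbJ, hl2, n2, hn2, en2, h22, hm2M, -, hfix2, e2⟩ :=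
      H.grow (c := Function.update c (D.neg (D.simple j)) t⁻¹) hl1 (mul_mem hn1 hm) hm1M h21 hfix1 hkk
        hflip1 hconj1 ((map_ne_zero _).2 ht0) hct2
    have hρj : τ.ρ (D.simple j) = D.simple k' := W.ρ_eq_simple hj
    have hρk : τ.ρ (D.simple k') = D.simple j := by rw [W.ρ_eq_simple hkk, hk', W.p_p j hj]
    have hρnj : τ.ρ (D.neg (D.simple j)) = D.neg (D.simple k') := by rw [τ.ρ_neg _ hjlt, hρj]
    have hρnk : τ.ρ (D.neg (D.simple k')) = D.neg (D.simple j) := by rw [τ.ρ_neg _ hklt, hρk]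
    have hcAA := H.commute_orth (F := K) hklt hjlt ho2 (φ t) t
    have hgA : ∀ {r : ℕ} (_ : r < D.nroots) (u : K), H.chk.xg r u ∈ D.group K :=
      fun hr u => H.chk.xg_mem_group hr u
    have hAf : H.chk.xg (D.simple k') (φ t) * H.chk.xg (D.simple j) t ∈ τ.fixed :=
      ⟨mul_mem (hgA hklt _) (hgA hjlt _), by
        rw [τ.act_mul (hgA hklt _) (hgA hjlt _), W.act_xg hklt, W.act_xg hjlt, hρk, hρj, W.φ_φ]
        exact hcAA.eq.symm⟩
    have hact1 : τ.act n1 = n2 := by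
      rw [en1, en2, τ.act_mul (mul_mem (hgA hjlt _) (hgA hnj _)) (hgA hjlt _),
        τ.act_mul (hgA hjlt _) (hgA hnj _), W.act_xg hjlt, W.act_xg hnj, hρj, hρnj, W.φ_inv]
    have hn1g : n1 ∈ D.group K := H.chk.monomial_le_group hn1
    have hn2g : n2 ∈ D.group K := H.chk.monomial_le_group hn2
    have hact2 : τ.act n2 = n1 := by
      rw [en1, en2, τ.act_mul (mul_mem (hgA hklt _) (hgA hnk _)) (hgA hklt _),
        τ.act_mul (hgA hklt _) (hgA hnk _), W.act_xg hklt, W.act_xg hnk, hρk, hρnk, map_inv₀, W.φ_φ]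
    have hcn : Commute n2 n1 := by
      rw [en2]
      have hb : Commute (H.chk.xg (D.neg (D.simple k')) (φ t)⁻¹) n1 := (hn1B _).symm
      have ha : Commute (H.chk.xg (D.simple k') (φ t)) n1 := by
        rw [en1]
        exact ((hcAA).mul_right (H.commute_orth hklt hnj o4 _ _)).mul_right hcAA
      exact (ha.mul_left hb).mul_left ha
    have hmf2 : n2 * (n1 * m) ∈ τ.fixed := by
      rw [← mul_assoc]
      refine mul_mem ⟨mul_mem hn2g hn1g, ?_⟩ hmf
      rw [τ.act_mul hn2g hn1g, hact2, hact1]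
      exact hcn.eq.symm
    have hlen := H.length_le hl2
    simp only [List.length_cons] at hlen
    refine SplitT.of_conj W (mul_mem (H.chk.xg_mem hbJ _) (H.chk.xg_mem haJ _)) hAf ?_
    rw [show H.chk.xg (D.simple k') (φ t) * H.chk.xg (D.simple j) t *
        (H.chk.wg (l.map fun r => (r, c r)) * m) *
        (H.chk.xg (D.simple k') (φ t) * H.chk.xg (D.simple j) t)⁻¹ =
      H.chk.xg (D.simple k') (φ t) * (H.chk.xg (D.simple j) t *
        (H.chk.wg (l.map fun r => (r, c r)) * m) * (H.chk.xg (D.simple j) t)⁻¹) *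
        (H.chk.xg (D.simple k') (φ t))⁻¹ by group, e1, e2]
    have hni := List.nodup_cons.1 hl2.1
    have hni1 := (List.nodup_cons.1 hni.2).1
    have hjk : D.neg (D.simple j) ≠ D.neg (D.simple k') := fun e => hni.1 (by rw [e]; exact List.mem_cons_self)
    refine ihd _ (by simp only [List.length_cons]; omega) _ _ _ _ rfl rfl hl2 ?_ ?_ ?_
      (mul_mem hn2 (mul_mem hn1 hm)) hm2M hmf2 h22 hfix2
    · intro r hr
      simp only [List.mem_cons] at hr ⊢
      rcases hr with rfl | rfl | hr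
      exacts [Or.inr (Or.inl hρnk), Or.inl hρnj, Or.inr (Or.inr (hst r hr))]
    · intro r hr
      simp only [List.mem_cons] at hr
      rcases hr with rfl | rfl | hr
      · rw [Function.update_self]; exact inv_ne_zero ((map_ne_zero _).2 ht0)
      · rw [Function.update_of_ne hjk, Function.update_self]; exact inv_ne_zero ht0
      · rw [Function.update_of_ne (fun e' : r = D.neg (D.simple k') => hni.1 (e' ▸ List.mem_cons_of_mem _ hr)),
          Function.update_of_ne (fun e' : r = D.neg (D.simple j) => hni1 (e' ▸ hr))]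
        exact hc r hr
    · intro r hr
      simp only [List.mem_cons] at hr
      rcases hr with rfl | rfl | hr
      · rw [hρnk, Function.update_of_ne hjk, Function.update_self, Function.update_self, map_inv₀,
          W.φ_φ]
      · rw [hρnj, Function.update_self, Function.update_of_ne hjk, Function.update_self, W.φ_inv]
      · rw [Function.update_of_ne (fun e' : r = D.neg (D.simple k') => hni.1 (e' ▸ List.mem_cons_of_mem _ hr)),
          Function.update_of_ne (fun e' : r = D.neg (D.simple j) => hni1 (e' ▸ hr)),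
          Function.update_of_ne (fun e' : τ.ρ r = D.neg (D.simple k') => hni.1 (e' ▸ List.mem_cons_of_mem _ (hst r hr))),
          Function.update_of_ne (fun e' : τ.ρ r = D.neg (D.simple j) => hni1 (e' ▸ hst r hr))]
        exact hce r hr

theorem exists_longest (J : Set ℕ) (hJ : ∀ j ∈ J, τ.p j ∈ J) :
    ∃ n ∈ D.monomialSubgroup K, n ∈ H.msub K J ∧ n ∈ τ.fixed ∧
      ∀ j < D.rank, j ∈ J → D.IsNegRoot (H.chk.sg n (D.simple j)) := by
  have R := H.chk.root
  suffices key : ∀ d (n : GL D.Idx K), n ∈ D.monomialSubgroup K → n ∈ H.msub K J → n ∈ τ.fixed →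
      D.nroots - (H.chk.inv n).ncard = d → ∃ n ∈ D.monomialSubgroup K, n ∈ H.msub K J ∧ n ∈ τ.fixed ∧
        ∀ j < D.rank, j ∈ J → D.IsNegRoot (H.chk.sg n (D.simple j)) from
    key _ 1 (one_mem _) (one_mem _) (one_mem _) rfl
  intro d
  induction d using Nat.strong_induction_on with
  | _ d ih =>
    intro n hn hnM hnf hd
    by_cases h : ∀ j < D.rank, j ∈ J → D.IsNegRoot (H.chk.sg n (D.simple j))
    · exact ⟨n, hn, hnM, hnf, h⟩
    push Not at h
    obtain ⟨j, hj, hjJ, hnn⟩ := h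
    have hpos := (H.chk.key_trichotomy (H.chk.sg_lt hn (R.simple_lt j hj))).resolve_right hnn
    have hle : ∀ x : GL D.Idx K, x ∈ D.monomialSubgroup K → (H.chk.inv x).ncard ≤ D.nroots :=
      fun x hx => by rw [← H.chk.len_eq hx]; exact H.chk.len_le _
    have hnj := H.chk.ng_mem (F := K) hj
    have h1 := H.chk.inv_step hj hn hpos
    by_cases hpj : τ.p j = j
    · have := hle _ (mul_mem hn hnj)
      exact ih _ (by omega) _ (mul_mem hn hnj) (mul_mem hnM (H.ng_mem_msub hj hjJ))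
        (mul_mem hnf (W.ng_single_fixed hj hpj)) rfl
    · have hk := τ.p_lt j hj
      have hnk := H.chk.ng_mem (F := K) hk
      have hpos' : D.IsPosRoot (H.chk.sg (n * H.chk.ng j) (D.simple (τ.p j))) := by
        rw [H.chk.sg_mul hn hnj (R.simple_lt _ hk), H.chk.sg_ng hj (R.simple_lt _ hk),
          (W.refl_partner hj hpj).1, W.sg_partner (τ.comm_of_fixed hn hnf) hj]
        exact τ.ρ_pos _ hpos
      have h2 := H.chk.inv_step hk (mul_mem hn hnj) hpos'
      have := hle _ (mul_mem (mul_mem hn hnj) hnk)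
      exact ih _ (by omega) _ (mul_mem (mul_mem hn hnj) hnk)
        (mul_mem (mul_mem hnM (H.ng_mem_msub hj hjJ)) (H.ng_mem_msub hk (hJ j hjJ)))
        (by rw [mul_assoc]; exact mul_mem hnf (W.ng_pair_fixed hj hpj)) rfl

/-- an exchanged pair of nodes leads to a longer cell -/
theorem swap_longer {J : Set ℕ} {v m : GL D.Idx K} (hv : v ∈ D.posUnipotent K)
    (hm : m ∈ D.monomialSubgroup K) (hmM : m ∈ H.msub K J) (hmf : m ∈ τ.fixed) (h2 : m * m = 1)
    {j : ℕ} (hj : j < D.rank) (hpj : τ.p j ≠ j) (hjJ : j ∈ J) (hkJ : τ.p j ∈ J)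
    (hsw : H.chk.sg m (D.simple j) = D.simple (τ.p j)) :
    ∃ k ∈ H.msub K J, k ∈ τ.fixed ∧ ∃ n' ∈ D.monomialSubgroup K, n' ∈ H.msub K J ∧
      ∃ b₁ ∈ D.borelSubgroup K, ∃ b₂ ∈ D.borelSubgroup K,
        k * (v * m) * k⁻¹ = b₁ * n' * b₂ ∧ (H.chk.inv m).ncard < (H.chk.inv n').ncard := by
  classical
  have R := H.chk.root
  set k := τ.p j with hkdef
  have hk : k < D.rank := τ.p_lt j hj
  set p := D.simple j with hpdef
  set q := D.simple k with hqdef
  have hp : p < D.nroots := R.simple_lt j hj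
  have hq : q < D.nroots := R.simple_lt k hk
  have hρp : τ.ρ p = q := W.ρ_eq_simple hj
  have hρq : τ.ρ q = p := by rw [hqdef, W.ρ_eq_simple hk, hkdef, W.p_p j hj]
  have hswk : H.chk.sg m q = p := by
    rw [hqdef, hkdef, W.sg_partner (τ.comm_of_fixed hm hmf) hj, hsw]; exact hρq
  obtain ⟨ho1, ho2⟩ := W.orth_nodes hj hpj
  obtain ⟨hf1, hf2⟩ := W.refl_partner hj hpj
  set S : Set ℕ := {p, q} with hS
  set R' : Set ℕ := {r | D.IsPosRoot r ∧ r ∉ S} with hR'
  have hpp := R.pos_simple hj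
  have hqp := R.pos_simple hk
  have hht : ∀ i < D.rank, H.chk.ht (D.simple i) = 1 := fun i hi => by
    rw [Checked.ht, Finset.sum_eq_single i]
    · rw [R.coef_simple i hi i hi, if_pos rfl]
    · intro a ha hai
      rw [R.coef_simple i hi a (Finset.mem_range.1 ha), if_neg hai]
    · intro h; exact absurd (Finset.mem_range.2 hi) h
  have hSc : ∀ s ∈ S, D.IsPosRoot s ∧ H.chk.ht s = 1 := by
    intro s hs
    rcases hs with rfl | rfl
    exacts [⟨hpp, hht j hj⟩, ⟨hqp, hht k hk⟩]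
  have hnorm : ∀ s ∈ S, ∀ r ∈ R', ∀ a t : K,
      H.chk.xg s (-a) * H.chk.xg r t * H.chk.xg s a ∈ grp D K R' := by
    intro s hs r hr a t
    obtain ⟨hsp, hs1⟩ := hSc s hs
    rw [H.chk.xg_conj_eq hsp.1 hr.1.1 (fun e => hr.2 (e ▸ hs)) (H.chk.ne_neg_of_pos hsp hr.1)]
    refine mul_mem (H.chk.xg_mem hr t) (H.chk.wg_mem _ fun c hc => ?_)
    obtain ⟨d, hd, rfl⟩ := List.mem_map.1 hc
    refine ⟨(H.chk.commTerms_gt hsp hr.1 d hd).1, fun h => ?_⟩
    have h1 := (H.chk.ht_commTerms hsp hr.1 d hd).1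
    have h3 : H.chk.ht d.1 = 1 := (hSc _ h).2
    omega
  have hconjR : ∀ s ∈ S, ∀ (a : K) (g : GL D.Idx K), g ∈ grp D K R' →
      H.chk.xg s a * g * H.chk.xg s a ∈ grp D K R' := fun s hs a g hg => by
    have := H.chk.conj_xg_mem_grp (hnorm s hs) a hg
    rwa [CharTwo.neg_eq] at this
  have hcpq : ∀ a b : K, Commute (H.chk.xg p a) (H.chk.xg q b) := H.commute_orth hp hq ho1
  obtain ⟨t, ht, s, hs, rfl⟩ := H.chk.grp_split 0 S (by
    rw [posUnipotent_eq] at hv
    exact grp_mem_mono hv fun r hr => ⟨hr, Nat.zero_le r⟩)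
  have ht' : t ∈ grp D K R' := grp_mem_mono ht fun r hr => ⟨hr.1.1, hr.2⟩
  let PQ : Subgroup (GL D.Idx K) :=
    { carrier := {g | ∃ a b : K, g = H.chk.xg p a * H.chk.xg q b}
      one_mem' := ⟨0, 0, by rw [H.chk.xg_zero, H.chk.xg_zero, one_mul]⟩
      mul_mem' := by
        rintro x y ⟨a, b, rfl⟩ ⟨c, d, rfl⟩
        refine ⟨a + c, b + d, ?_⟩
        rw [← H.chk.xg_add hp, ← H.chk.xg_add hq]
        simp only [mul_assoc]
        congr 1
        rw [← mul_assoc, (hcpq c b).symm.eq, mul_assoc]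
      inv_mem' := by
        rintro x ⟨a, b, rfl⟩
        exact ⟨a, b, by rw [mul_inv_rev, H.xg_inv_two, H.xg_inv_two, (hcpq a b).eq]⟩ }
  obtain ⟨a0, b0, rfl⟩ : s ∈ PQ := by
    refine (H.chk.grp_le (H := PQ) fun r hr u => ?_) (grp_mem_mono hs fun r hr => hr.2)
    rcases hr with rfl | rfl
    exacts [⟨u, 0, by rw [H.chk.xg_zero, mul_one]⟩, ⟨0, u, by rw [H.chk.xg_zero, one_mul]⟩]
  obtain ⟨e, he0, hce⟩ := H.chk.sg_conj hm hp
  rw [hsw] at hce
  obtain ⟨e', he'0, hce'⟩ := H.chk.sg_conj hm hq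
  rw [hswk] at hce'
  obtain ⟨a, ha⟩ : ∃ a : K, a + a0 + e' * φ a ≠ 0 := by
    by_contra hcon
    push Not at hcon
    have h0 : a0 = 0 := by simpa using hcon 0
    have h1 : e' = 1 := by
      have := hcon 1
      rw [h0, add_zero, map_one, mul_one] at this
      rw [← neg_eq_of_add_eq_zero_right this, CharTwo.neg_eq]
    obtain ⟨u, hu⟩ := W.φ_ne
    have := hcon u
    rw [h0, h1, add_zero, one_mul] at this
    exact hu (by rw [← neg_eq_of_add_eq_zero_right this, CharTwo.neg_eq])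
  set a' := a + a0 + e' * φ a with ha'
  set b' := φ a + b0 + e * a with hb'
  set x := H.chk.xg p a * H.chk.xg q (φ a) with hx
  have hxf : x ∈ τ.fixed := by
    refine ⟨mul_mem (H.chk.xg_mem_group hp _) (H.chk.xg_mem_group hq _), ?_⟩
    rw [hx, τ.act_mul (H.chk.xg_mem_group hp _) (H.chk.xg_mem_group hq _), W.act_xg hp, W.act_xg hq,
      hρp, hρq, W.φ_φ]
    exact (hcpq _ _).eq.symm
  have hxi : x⁻¹ = x := by rw [hx, mul_inv_rev, H.xg_inv_two, H.xg_inv_two, (hcpq _ _).eq]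
  set t' := H.chk.xg p a * (H.chk.xg q (φ a) * t * H.chk.xg q (φ a)) * H.chk.xg p a with ht'def
  have ht'R : t' ∈ grp D K R' := hconjR p (by simp [hS]) _ _ (hconjR q (by simp [hS]) _ _ ht')
  have hmid : m * x * m⁻¹ = H.chk.xg q (e * a) * H.chk.xg p (e' * φ a) := by
    rw [hx, show m * (H.chk.xg p a * H.chk.xg q (φ a)) * m⁻¹ =
      (m * H.chk.xg p a * m⁻¹) * (m * H.chk.xg q (φ a) * m⁻¹) by group, hce, hce']
  have hz : x * (t * (H.chk.xg p a0 * H.chk.xg q b0) * m) * x⁻¹ =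
      t' * (H.chk.xg p a' * H.chk.xg q b') * m := by
    have h3 : x * t = t' * x := by
      have : t' = x * t * x := by
        rw [ht'def, hx]
        conv_rhs => arg 2; rw [(hcpq a (φ a)).eq]
        simp only [mul_assoc]
      have hxx : x * x = 1 := by nth_rw 2 [← hxi]; exact mul_inv_cancel x
      rw [this, mul_assoc (x * t) x x, hxx, mul_one]
    rw [hxi, show x * (t * (H.chk.xg p a0 * H.chk.xg q b0) * m) * x =
      x * t * ((H.chk.xg p a0 * H.chk.xg q b0) * (m * x * m⁻¹)) * m by group, hmid, h3, hx]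
    congr 1
    rw [mul_assoc]
    congr 1
    rw [ha', hb', ← H.chk.xg_add hp, ← H.chk.xg_add hp, ← H.chk.xg_add hq, ← H.chk.xg_add hq,
      (hcpq (e' * φ a) (e * a)).symm.eq]
    have hc : ∀ u w : K, H.chk.xg p u * H.chk.xg q w = H.chk.xg q w * H.chk.xg p u := fun u w => (hcpq u w).eq
    simp only [mul_assoc]
    congr 1
    rw [← mul_assoc, ← hc a0 (φ a)]
    simp only [mul_assoc]
    congr 1
    rw [← mul_assoc (H.chk.xg q b0), ← hc (e' * φ a) b0]
    simp only [mul_assoc]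
    rw [← mul_assoc (H.chk.xg q (φ a)), ← hc (e' * φ a) (φ a)]
    simp only [mul_assoc]
  -- reflect
  have hnj := H.chk.ng_mem (F := K) hj
  have hnk := H.chk.ng_mem (F := K) hk
  set n : GL D.Idx K := H.chk.ng j * H.chk.ng k with hn
  have hnm : n ∈ D.monomialSubgroup K := mul_mem hnj hnk
  have hnM : n ∈ H.msub K J := mul_mem (H.ng_mem_msub hj hjJ) (H.ng_mem_msub hk hkJ)
  have hnf : n ∈ τ.fixed := W.ng_pair_fixed hj hpj
  have hsgn : ∀ r < D.nroots, H.chk.sg n r = D.reflectRoot j (D.reflectRoot k r) := fun r hr => by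
    rw [hn, H.chk.sg_mul hnj hnk hr, H.chk.sg_ng hk hr, H.chk.sg_ng hj (R.refl_lt k hk r hr)]
  have hnp : H.chk.sg n p = D.neg p := by rw [hsgn p hp, hpdef, hf2, R.refl_simple hj]
  have hnq : H.chk.sg n q = D.neg q := by
    rw [hsgn q hq, hqdef, R.refl_simple hk, R.refl_neg' hj hq, hf1]
  have hn1 : ∀ r < D.nroots, ∀ u : K, n * H.chk.xg r u * n⁻¹ = H.chk.xg (H.chk.sg n r) u :=
    fun r hr u => sg_ng_pair_conj (H := H) hj hk hr u
  have hnR : n * t' * n⁻¹ ∈ D.borelSubgroup K := by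
    refine Subgroup.mem_sup_left (H.chk.conj_noninv hnm (grp_mem_mono ht'R fun r hr => ⟨hr.1, fun h => ?_⟩))
    have hne1 : r ≠ q := fun e => hr.2 (by simp [hS, e])
    obtain ⟨h4, h5⟩ := H.chk.refl_pos hk hr.1 hne1
    refine H.chk.not_pos_and_neg ?_ h.2
    rw [hsgn r hr.1.1]
    refine (H.chk.refl_pos hj h4 fun e => hr.2 ?_).1
    have : r = p := R.refl_inj hk hr.1.1 hp (by rw [e, hpdef, hf2])
    simp [hS, this]
  set m2 := n * m * n⁻¹ with hm2def
  have hm2 : m2 ∈ D.monomialSubgroup K := mul_mem (mul_mem hnm hm) (inv_mem hnm)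
  have hm2M : m2 ∈ H.msub K J := mul_mem (mul_mem hnM hmM) (inv_mem hnM)
  have hm2i : m2⁻¹ = m2 := by
    rw [hm2def, conj_inv, inv_eq_of_mul_eq_one_right h2]
  have hm2k : H.chk.sg m2⁻¹ q = p := by
    have hni : H.chk.sg n⁻¹ q = D.neg q := by
      have := H.chk.sg_inv_sg hnm (R.neg_lt q hq)
      rwa [H.chk.sg_neg hnm hq, hnq, R.neg_neg' hq] at this
    rw [hm2i, hm2def, H.chk.sg_mul (mul_mem hnm hm) (inv_mem hnm) hq, hni,
      H.chk.sg_mul hnm hm (R.neg_lt q hq), H.chk.sg_neg hm hq, hswk, H.chk.sg_neg hnm hp, hnp,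
      R.neg_neg' hp]
  have hm2j : H.chk.sg m2⁻¹ p = q := by
    have hni : H.chk.sg n⁻¹ p = D.neg p := by
      have := H.chk.sg_inv_sg hnm (R.neg_lt p hp)
      rwa [H.chk.sg_neg hnm hp, hnp, R.neg_neg' hp] at this
    rw [hm2i, hm2def, H.chk.sg_mul (mul_mem hnm hm) (inv_mem hnm) hp, hni,
      H.chk.sg_mul hnm hm (R.neg_lt p hp), H.chk.sg_neg hm hp, hsw, H.chk.sg_neg hnm hq, hnq,
      R.neg_neg' hq]
  have hlen : (H.chk.inv m2).ncard = (H.chk.inv m).ncard := by
    have h3 : H.chk.sg (H.chk.ng j * m) p = q := by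
      rw [H.chk.sg_mul hnj hm hp, hsw, H.chk.sg_ng hj hq, hqdef, hf1]
    have hup := (H.step_up (b := 1) (b' := 1) hj hm (one_mem _) (one_mem _)
      (show m = 1 * m * 1 by group)
      (by rw [inv_eq_of_mul_eq_one_right h2, ← hpdef, hsw]; exact hqp)
      (by rw [← hpdef, h3]; exact hqp)).1
    have hmj := mul_mem (mul_mem hnj hm) hnj
    have hs1 : H.chk.sg (H.chk.ng j * m * H.chk.ng j) q = D.neg p := by
      rw [H.chk.sg_mul (mul_mem hnj hm) hnj hq, H.chk.sg_ng hj hq, hqdef, hf1, ← hqdef,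
        H.chk.sg_mul hnj hm hq, hswk, H.chk.sg_ng hj hp, hpdef, R.refl_simple hj]
    have hne : D.neg p ≠ D.neg q := fun h => hpj (R.simple_inj hk hj (R.neg_inj hp hq h).symm)
    have h21 : H.chk.ng j * m * H.chk.ng j * (H.chk.ng j * m * H.chk.ng j) = 1 := by
      have e : H.chk.ng j * m * (H.chk.ng j)⁻¹ * (H.chk.ng j * m * (H.chk.ng j)⁻¹) = 1 := by
        rw [conj_mul, h2]; group
      rwa [H.ng_inv_two] at e
    have hdown := H.inv_down hk hmj h21
      (by rw [← hqdef, hs1]; exact (H.chk.neg_neg_iff hp).2 hpp) (by rw [← hqdef, hs1]; exact hne)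
    have : m2 = H.chk.ng k * (H.chk.ng j * m * H.chk.ng j) * H.chk.ng k := by
      rw [hm2def, hn, (W.ng_commute hj hpj).eq, mul_inv_rev, H.ng_inv_two, H.ng_inv_two, hkdef]
      group
    rw [this]
    omega
  have hkfix : n * x ∈ τ.fixed := mul_mem hnf hxf
  have hkM : n * x ∈ H.msub K J := mul_mem hnM (mul_mem
    (H.chk.xg_mem ((H.chk.inRootSub_simple H.supp J hj).2 hjJ) _)
    (H.chk.xg_mem ((H.chk.inRootSub_simple H.supp J hk).2 hkJ) _))
  refine ⟨n * x, hkM, hkfix, ?_⟩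
  have hz2 : n * x * (t * (H.chk.xg p a0 * H.chk.xg q b0) * m) * (n * x)⁻¹ =
      n * t' * n⁻¹ * (H.chk.xg (D.neg p) a' * H.chk.xg (D.neg q) b') * m2 := by
    rw [← hnp, ← hnq, ← hn1 p hp, ← hn1 q hq, hm2def,
      show n * x * (t * (H.chk.xg p a0 * H.chk.xg q b0) * m) * (n * x)⁻¹ =
        n * (x * (t * (H.chk.xg p a0 * H.chk.xg q b0) * m) * x⁻¹) * n⁻¹ by group, hz]
    group
  have hposk : D.IsPosRoot (H.chk.sg m2⁻¹ q) := by rw [hm2k]; exact hpp
  have hposj : D.IsPosRoot (H.chk.sg m2⁻¹ p) := by rw [hm2j]; exact hqp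
  by_cases hb0 : b' = 0
  · obtain ⟨hl1, u, hu, eu⟩ := H.neg_step hj hm2 hposj ha
    refine ⟨H.chk.ng j * m2, mul_mem hnj hm2, mul_mem (H.ng_mem_msub hj hjJ) hm2M,
      n * t' * n⁻¹ * (H.chk.xg p a'⁻¹ * H.chk.hg p a'⁻¹),
      mul_mem hnR (mul_mem (H.chk.xg_mem_borel hpp _)
        (Subgroup.mem_sup_right (H.chk.hg_mem hp (inv_ne_zero ha)))), u, hu, ?_, by omega⟩
    rw [hz2, hb0, H.chk.xg_zero, mul_one, mul_assoc, eu]
    simp only [← hpdef, mul_assoc]
  · obtain ⟨hl1, u, hu, eu⟩ := H.neg_step hk hm2 hposk hb0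
    set m3 := H.chk.ng k * m2 with hm3def
    have hm3 : m3 ∈ D.monomialSubgroup K := mul_mem hnk hm2
    have hpos3 : D.IsPosRoot (H.chk.sg m3⁻¹ p) := by
      rw [hm3def, mul_inv_rev, H.ng_inv_two, H.chk.sg_mul (inv_mem hm2) hnk hp, H.chk.sg_ng hk hp,
        hpdef, hf2]
      exact hposj
    obtain ⟨hl2, u', hu', eu'⟩ := H.neg_step hj hm3 hpos3 ha
    have hnp' := R.neg_lt p hp
    have hqnp : pair D q (D.neg p) = 0 := by rw [H.chk.pair_neg hp, ho2, neg_zero]
    have hc1 : Commute (H.chk.xg q b'⁻¹) (H.chk.xg (D.neg p) a') := H.commute_orth hq hnp' hqnp _ _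
    have hc2 : Commute (H.chk.hg q b'⁻¹) (H.chk.xg (D.neg p) a') := by
      have := H.chk.hg_xg hq hnp' (inv_ne_zero hb0) a'
      rw [hqnp, zpow_zero, one_mul, mul_inv_eq_iff_eq_mul] at this
      exact this
    refine ⟨H.chk.ng j * m3, mul_mem hnj hm3,
      mul_mem (H.ng_mem_msub hj hjJ) (mul_mem (H.ng_mem_msub hk hkJ) hm2M),
      n * t' * n⁻¹ * (H.chk.xg q b'⁻¹ * H.chk.hg q b'⁻¹) * (H.chk.xg p a'⁻¹ * H.chk.hg p a'⁻¹),
      mul_mem (mul_mem hnR (mul_mem (H.chk.xg_mem_borel hqp _)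
        (Subgroup.mem_sup_right (H.chk.hg_mem hq (inv_ne_zero hb0)))))
        (mul_mem (H.chk.xg_mem_borel hpp _)
          (Subgroup.mem_sup_right (H.chk.hg_mem hp (inv_ne_zero ha)))), u' * u, mul_mem hu' hu, ?_,
      by omega⟩
    rw [hz2, mul_assoc, mul_assoc (H.chk.xg (D.neg p) a'), eu, ← hqdef,
      show H.chk.xg (D.neg p) a' * (H.chk.xg q b'⁻¹ * H.chk.hg q b'⁻¹ * m3 * u) =
        H.chk.xg (D.neg p) a' * (H.chk.xg q b'⁻¹ * H.chk.hg q b'⁻¹) * m3 * u by group,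
      ((hc1.mul_left hc2).symm).eq,
      show H.chk.xg q b'⁻¹ * H.chk.hg q b'⁻¹ * H.chk.xg (D.neg p) a' * m3 * u =
        H.chk.xg q b'⁻¹ * H.chk.hg q b'⁻¹ * (H.chk.xg (D.neg p) a' * m3) * u by group, eu', ← hpdef]
    simp only [mul_assoc]

/-- Every fixed involution of a stable subsystem subgroup splits by a fixed element. -/
theorem split [Finite K] (J : Finset ℕ) : (∀ j ∈ J, j < D.rank ∧ τ.p j ∈ J) →
    ∀ y : GL D.Idx K, y ∈ H.msub K (↑J : Set ℕ) → y ∈ τ.fixed → y * y = 1 →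
    W.SplitT (↑J : Set ℕ) y := by
  induction J using Finset.strongInduction with
  | _ J ihJ =>
  intro hJ y0 hy0 hy0f hy02
  have R := H.chk.root
  have hJp : ∀ j ∈ (↑J : Set ℕ), τ.p j ∈ (↑J : Set ℕ) := fun j hj => (hJ j hj).2
  suffices key : ∀ d (n b u y : GL D.Idx K), y ∈ H.msub K (↑J : Set ℕ) → y ∈ τ.fixed → y * y = 1 →
      n ∈ D.monomialSubgroup K → n ∈ H.msub K (↑J : Set ℕ) → b ∈ D.borelSubgroup K →
      u ∈ grp D K (H.chk.inv n) → y = b * n * u → D.nroots - (H.chk.inv n).ncard = d →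
      W.SplitT (↑J : Set ℕ) y by
    obtain ⟨n, hn, hnM, b, hb, u, hu, e⟩ := H.exists_bnu_sub hy0
    exact key _ n b u y0 hy0 hy0f hy02 hn hnM hb hu e rfl
  intro d
  induction d using Nat.strong_induction_on with
  | _ d ih =>
  intro n b u y hy hyf hy2 hn hnM hb hu e hd
  classical
  obtain ⟨-, huf⟩ := W.fixed_cell hyf hb hn hu e
  have hu' : u ∈ grp D K {r | D.IsPosRoot r ∧ D.InRootSub (↑J : Set ℕ) r} :=
    grp_mem_mono hu fun r hr => ⟨hr.1, H.node_mem_of_neg hn hnM hr.1 hr.2⟩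
  have huM : u ∈ H.msub K (↑J : Set ℕ) := grp_mem_mono hu' fun r hr => hr.2
  have hbM : b ∈ H.msub K (↑J : Set ℕ) := by
    have : b = y * u⁻¹ * n⁻¹ := by rw [e]; group
    rw [this]
    exact mul_mem (mul_mem hy (inv_mem huM)) (inv_mem hnM)
  refine SplitT.of_conj W huM huf ?_
  have huB : u * b ∈ D.borelSubgroup K := mul_mem (Subgroup.mem_sup_left (by
    rw [posUnipotent_eq]; exact grp_mem_mono hu' fun r hr => hr.1)) hb
  obtain ⟨v, hvU, h, hh, hvh⟩ := H.chk.mem_borel.1 huB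
  set m := h * n with hmdef
  have hm : m ∈ D.monomialSubgroup K := mul_mem (H.chk.diag_le_monomial hh) hn
  have hinv : H.chk.inv m = H.chk.inv n := H.chk.inv_congr fun r hr => by
    rw [hmdef, H.chk.sg_mul (H.chk.diag_le_monomial hh) hn hr, H.chk.sg_diag hh (H.chk.sg_lt hn hr)]
  have ev : u * y * u⁻¹ = v * m := by
    calc u * y * u⁻¹ = u * b * n := by rw [e]; group
      _ = v * m := by rw [hvh, hmdef]; group
  rw [ev]
  have hvL : v ∈ D.leviSubgroup K (↑J : Set ℕ) := by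
    have : v = u * b * h⁻¹ := by rw [hvh]; group
    rw [this, H.chk.levi_eq]
    exact mul_mem (Subgroup.mem_sup_right (mul_mem huM hbM)) (Subgroup.mem_sup_left (inv_mem hh))
  have hvM : v ∈ H.msub K (↑J : Set ℕ) := by
    rw [posUnipotent_eq] at hvU
    exact H.levi_part (S' := {r | D.InRootSub (↑J : Set ℕ) r}) (fun r hr => hr) (fun r hr => hr)
      (fun r _ hr => hr) hvU hvL
  have hy1M : v * m ∈ H.msub K (↑J : Set ℕ) := by
    rw [← ev]; exact mul_mem (mul_mem huM hy) (inv_mem huM)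
  have hy1f : v * m ∈ τ.fixed := by
    rw [← ev]; exact mul_mem (mul_mem huf hyf) (inv_mem huf)
  obtain ⟨hvf, hmf⟩ := W.fixed_vm hy1f hvU hm
  have hcm := τ.comm_of_fixed hm hmf
  have hmM : m ∈ H.msub K (↑J : Set ℕ) := by
    have := mul_mem (inv_mem hvM) hy1M
    simpa using this
  have hy12 : v * m * (v * m) = 1 := by rw [← ev, conj_mul, hy2]; group
  obtain ⟨hm2, hmv, hvno⟩ := H.mono_part hvU hm hy12
  have hminv : m⁻¹ = m := inv_eq_of_mul_eq_one_right hm2
  have longer : ∀ (k z : GL D.Idx K), k ∈ H.msub K (↑J : Set ℕ) → k ∈ τ.fixed →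
      z = k * (v * m) * k⁻¹ →
      ∀ n' ∈ D.monomialSubgroup K, n' ∈ H.msub K (↑J : Set ℕ) →
      ∀ b₁ ∈ D.borelSubgroup K, ∀ b₂ ∈ D.borelSubgroup K, z = b₁ * n' * b₂ →
      (H.chk.inv n).ncard < (H.chk.inv n').ncard → W.SplitT (↑J : Set ℕ) (v * m) := by
    intro k z hk hkf ez n' hn' hn'M b₁ h₁ b₂ h₂ ez' hlt
    obtain ⟨b', hb', u', hu'', e'⟩ := H.to_bnu hn' h₁ h₂ ez'
    refine SplitT.of_conj W hk hkf ?_
    rw [← ez]
    have hle : (H.chk.inv n').ncard ≤ D.nroots := by rw [← H.chk.len_eq hn']; exact H.chk.len_le _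
    exact ih _ (by omega) n' b' u' z (by rw [ez]; exact mul_mem (mul_mem hk hy1M) (inv_mem hk))
      (by rw [ez]; exact mul_mem (mul_mem hkf hy1f) (inv_mem hkf))
      (by rw [ez, conj_mul, hy12]; group) hn' hn'M hb' hu'' e' rfl
  by_cases hstep : ∃ j < D.rank, j ∈ J ∧ D.IsPosRoot (H.chk.sg m (D.simple j)) ∧
      H.chk.sg m (D.simple j) ≠ D.simple j
  · obtain ⟨j, hj, hjJ, hpos, hne⟩ := hstep
    have hp := R.simple_lt j hj
    have hnj := H.chk.ng_mem (F := K) hj
    have hnjM : (H.chk.ng j : GL D.Idx K) ∈ H.msub K (↑J : Set ℕ) := H.ng_mem_msub hj hjJ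
    have hvB : v ∈ D.borelSubgroup K := Subgroup.mem_sup_left hvU
    by_cases hswap : τ.p j ≠ j ∧ H.chk.sg m (D.simple j) = D.simple (τ.p j)
    · obtain ⟨k, hkM, hkf, n', hn', hn'M, b₁, h₁, b₂, h₂, ez, hlt⟩ :=
        W.swap_longer hvU hm hmM hmf hm2 hj hswap.1 hjJ (hJp j hjJ) hswap.2
      exact longer k _ hkM hkf rfl n' hn' hn'M b₁ h₁ b₂ h₂ ez (by rw [← hinv]; exact hlt)
    have hs : D.IsPosRoot (H.chk.sg (H.chk.ng j * m) (D.simple j)) := by
      rw [H.chk.sg_mul hnj hm hp, H.chk.sg_ng hj (H.chk.sg_lt hm hp)]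
      exact (H.chk.refl_pos hj hpos hne).1
    obtain ⟨hlen, c, hc, c', hc', ec⟩ := H.step_up hj hm hvB (one_mem _)
      (show v * m = v * m * 1 by group) (by rw [hminv]; exact hpos) hs
    by_cases hpj : τ.p j = j
    · refine longer (H.chk.ng j) _ hnjM (W.ng_single_fixed hj hpj) rfl _
        (mul_mem (mul_mem hnj hm) hnj) (mul_mem (mul_mem hnjM hmM) hnjM) c hc c' hc' ?_
        (by rw [hlen, hinv]; omega)
      rw [H.ng_inv_two]; exact ec
    · have hne2 : H.chk.sg m (D.simple j) ≠ D.simple (τ.p j) := fun h' => hswap ⟨hpj, h'⟩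
      have hk := τ.p_lt j hj
      have hkl := R.simple_lt _ hk
      have hnk := H.chk.ng_mem (F := K) hk
      have hnkM : (H.chk.ng (τ.p j) : GL D.Idx K) ∈ H.msub K (↑J : Set ℕ) :=
        H.ng_mem_msub hk (hJp j hjJ)
      have hm1 : H.chk.ng j * m * H.chk.ng j ∈ D.monomialSubgroup K := mul_mem (mul_mem hnj hm) hnj
      have hi1 : (H.chk.ng j * m * H.chk.ng j)⁻¹ = H.chk.ng j * m * H.chk.ng j := by
        rw [mul_inv_rev (H.chk.ng j * m), mul_inv_rev (H.chk.ng j) m, H.ng_inv_two, hminv]; exact (mul_assoc _ _ _).symm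
      obtain ⟨hf1, -⟩ := W.refl_partner hj hpj
      have hmk : D.IsPosRoot (H.chk.sg m (D.simple (τ.p j))) := by
        rw [W.sg_partner hcm hj]; exact τ.ρ_pos _ hpos
      have hnej : H.chk.sg m (D.simple (τ.p j)) ≠ D.simple j := fun h' => hne2 (by
        refine τ.ρ_inj _ (H.chk.sg_lt hm hp) _ hkl ?_
        rw [← W.sg_partner hcm hj, h', W.ρ_eq_simple hk, W.p_p j hj])
      have hnek : H.chk.sg m (D.simple (τ.p j)) ≠ D.simple (τ.p j) := fun h' => hne (by
        refine τ.ρ_inj _ (H.chk.sg_lt hm hp) _ hp ?_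
        rw [← W.sg_partner hcm hj, h', W.ρ_eq_simple hj])
      have hlt := H.chk.sg_lt hm hkl
      have hs1 : H.chk.sg (H.chk.ng j * m * H.chk.ng j) (D.simple (τ.p j)) =
          D.reflectRoot j (H.chk.sg m (D.simple (τ.p j))) := by
        rw [H.chk.sg_mul (mul_mem hnj hm) hnj hkl, H.chk.sg_ng hj hkl, hf1,
          H.chk.sg_mul hnj hm hkl, H.chk.sg_ng hj hlt]
      have hp1 := (H.chk.refl_pos hj hmk hnej).1
      obtain ⟨hlen2, d₁, hd₁, d₂, hd₂, ed⟩ := H.step_up hk hm1 hc hc' ec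
        (by rw [hi1, hs1]; exact hp1) (by
          rw [H.chk.sg_mul hnk hm1 hkl, H.chk.sg_ng hk (H.chk.sg_lt hm1 hkl), hs1]
          refine (H.chk.refl_pos hk hp1 fun h' => hnek ?_).1
          exact R.refl_inj hj hlt hkl (by rw [h', hf1]))
      refine longer (H.chk.ng (τ.p j) * H.chk.ng j) _ (mul_mem hnkM hnjM)
        ((W.ng_commute hj hpj).eq ▸ W.ng_pair_fixed hj hpj) rfl _
        (mul_mem (mul_mem hnk hm1) hnk) (mul_mem (mul_mem hnkM (mul_mem (mul_mem hnjM hmM) hnjM)) hnkM)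
        d₁ hd₁ d₂ hd₂ ?_ (by rw [hlen2, hlen, hinv]; omega)
      rw [← ed, mul_inv_rev, H.ng_inv_two, H.ng_inv_two]
      group
  push Not at hstep
  have hdich : ∀ j < D.rank, j ∈ (↑J : Set ℕ) →
      H.chk.sg m (D.simple j) = D.simple j ∨ D.IsNegRoot (H.chk.sg m (D.simple j)) := fun j hj hjJ => by
    rcases H.chk.key_trichotomy (H.chk.sg_lt hm (R.simple_lt j hj)) with h' | h'
    exacts [Or.inl (hstep j hj hjJ h'), Or.inr h']
  by_cases hallpos : ∀ i < D.rank, D.IsPosRoot (H.chk.sg m (D.simple i))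
  · have hmd := H.chk.mem_diag_of_simple_pos hm hallpos
    have hm1 := H.diag_invol_eq_one hmd hm2
    by_cases hv1 : v = 1
    · refine ⟨1, one_mem _, one_mem _, [], ⟨List.nodup_nil, by simp, by simp⟩, by simp, ?_⟩
      simp [hv1, hm1, H.chk.wg_nil]
    obtain ⟨w, hw, hwM, hwf, hwneg⟩ := W.exists_longest (↑J : Set ℕ) hJp
    set z := w * (v * m) * w⁻¹ with hzdef
    have hzM : z ∈ H.msub K (↑J : Set ℕ) := mul_mem (mul_mem hwM hy1M) (inv_mem hwM)
    have hzB : z ∉ D.borelSubgroup K := by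
      intro hzB
      refine hv1 ?_
      rw [hzdef, hm1, mul_one] at hzB
      obtain ⟨σ, hmo⟩ := H.chk.sg_spec hw
      have hclosed : ClosedSet D {r | D.IsPosRoot r ∧ D.InRootSub (↑J : Set ℕ) r} := by
        refine ⟨fun r hr => hr.1, fun r hr s hs _ c hc => ⟨(H.chk.commTerms_gt hr.1 hs.1 c hc).1, ?_⟩⟩
        obtain ⟨a, a', -, -, -, hco⟩ := H.chk.commTerms_comb hr.1.1 hs.1.1 c hc
        refine (H.chk.inRootSub_iff H.supp _).2
          ⟨(H.chk.commTerms_gt hr.1 hs.1 c hc).1.1, fun k hk hkJ => ?_⟩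
        rw [show T.aux.coef c.1 k = _ from hco k hk]
        have h1 : T.cf r k = 0 := ((H.chk.inRootSub_iff H.supp _).1 hr.2).2 k hk hkJ
        have h2 : T.cf s k = 0 := ((H.chk.inRootSub_iff H.supp _).1 hs.2).2 k hk hkJ
        simp [h1, h2]
      refine H.chk.eq_one_of_conj_mem_borel hclosed hmo (fun r hr => ?_)
        (H.levi_part (S := {r | D.IsPosRoot r}) (S' := {r | D.IsPosRoot r ∧ D.InRootSub (↑J : Set ℕ) r}) (fun r hr => hr) (fun r hr => hr.2)
          (fun r hr hr' => ⟨hr, hr'⟩) (by rw [← posUnipotent_eq]; exact hvU) hvL) hzB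
      refine (H.chk.key_trichotomy (H.chk.sg_lt hw hr.1.1)).resolve_left fun hp' => ?_
      have h1 := ((R.pos_iff _).1 hp').2
      have h2 : T.key (H.chk.sg w r) ≤ 0 := by
        rw [H.chk.key_sigma hmo hr.1.1]
        refine Finset.sum_nonpos fun k hk => ?_
        have hk' := Finset.mem_range.1 hk
        by_cases hkJ : k ∈ (↑J : Set ℕ)
        · exact mul_nonpos_of_nonneg_of_nonpos (H.chk.coef_nonneg hr.1 hk')
            ((R.neg_iff _).1 (hwneg k hk' hkJ)).2.le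
        · rw [((H.chk.inRootSub_iff H.supp _).1 hr.2).2 k hk' hkJ, zero_mul]
      simp only [Fast.aux] at h1
      omega
    obtain ⟨n', hn', hn'M, b', hb', u', hu'', e'⟩ := H.exists_bnu_sub hzM
    refine longer w z hwM hwf rfl n' hn' hn'M b' hb' u'
      (Subgroup.mem_sup_left (by rw [posUnipotent_eq]; exact grp_mem_mono hu'' fun r hr => hr.1)) e' ?_
    have h0 : (H.chk.inv n).ncard = 0 := by
      rw [← hinv, ← H.chk.len_eq hm]
      rw [(H.chk.cls_toN_eq_one hm).2 hmd, BN.len_one]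
    rw [h0]
    by_contra hcon
    rw [not_lt, Nat.le_zero, Set.ncard_eq_zero (H.chk.inv_finite n')] at hcon
    refine hzB ?_
    have hu1 : u' = 1 := by
      rw [hcon] at hu''
      have : grp D K (∅ : Set ℕ) ≤ ⊥ := H.chk.grp_le fun r hr => absurd hr (Set.notMem_empty r)
      exact Subgroup.mem_bot.1 (this hu'')
    rw [e', hu1, mul_one]
    refine mul_mem hb' (Subgroup.mem_sup_right (H.chk.mem_diag_of_simple_pos hn' fun i hi => ?_))
    refine (H.chk.key_trichotomy (H.chk.sg_lt hn' (R.simple_lt i hi))).resolve_right fun hng => ?_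
    have : D.simple i ∈ H.chk.inv n' := ⟨R.pos_simple hi, hng⟩
    rw [hcon] at this
    exact this
  push Not at hallpos
  obtain ⟨j₀, hj₀, hnp⟩ := hallpos
  have hneg₀ := (H.chk.key_trichotomy (H.chk.sg_lt hm (R.simple_lt j₀ hj₀))).resolve_left hnp
  have hj₀J : j₀ ∈ J := H.simple_of_neg hm hmM hj₀ hneg₀
  set L := J.filter fun j => j < D.rank → H.chk.sg m (D.simple j) = D.simple j with hLdef
  have hLss : L ⊂ J := by
    refine Finset.filter_ssubset.2 ⟨j₀, hj₀J, fun h' => hnp ?_⟩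
    rw [h' hj₀]; exact R.pos_simple hj₀
  have hLst : ∀ j ∈ L, j < D.rank ∧ τ.p j ∈ L := by
    intro j hjL
    obtain ⟨hjJ, hjf⟩ := Finset.mem_filter.1 hjL
    obtain ⟨hj, hpJ⟩ := hJ j hjJ
    refine ⟨hj, Finset.mem_filter.2 ⟨hpJ, fun _ => ?_⟩⟩
    rw [W.sg_partner hcm hj, hjf hj, W.ρ_eq_simple hj]
  have hLeq : (↑L : Set ℕ) =
      {j | j ∈ (↑J : Set ℕ) ∧ (j < D.rank → H.chk.sg m (D.simple j) = D.simple j)} := by
    ext j; simp [hLdef]
  have hLsub : ∀ r, D.InRootSub (↑L : Set ℕ) r → D.InRootSub (↑J : Set ℕ) r := fun r hr => by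
    rw [H.chk.inRootSub_iff H.supp] at hr ⊢
    exact ⟨hr.1, fun k hk hkJ => hr.2 k hk fun h' => hkJ (Finset.mem_of_mem_filter k h')⟩
  have hfixL : ∀ r, D.InRootSub (↑L : Set ℕ) r → H.chk.sg m r = r := by
    intro r hr
    refine H.chk.root_ext (H.chk.sg_lt hm hr.1) hr.1 fun i hi => ?_
    rw [H.chk.coef_sg hm hr.1 hi, Finset.sum_congr rfl (g := fun x =>
      if x = i then T.aux.coef r x else 0) ?_]
    · rw [Finset.sum_ite_eq', if_pos (Finset.mem_range.2 hi)]
    intro x hx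
    have hx' := Finset.mem_range.1 hx
    by_cases hxL : x ∈ L
    · rw [(Finset.mem_filter.1 hxL).2 hx', R.coef_simple x hx' i hi]
      by_cases hxi : x = i
      · subst hxi; simp
      · rw [if_neg (Ne.symm hxi), mul_zero, if_neg hxi]
    · rw [((H.chk.inRootSub_iff H.supp _).1 hr).2 x hx' hxL, zero_mul]; simp
  have hvL' : v ∈ H.msub K (↑L : Set ℕ) := by
    refine grp_mem_mono (H.levi_part (S' := {r | D.InRootSub (↑J : Set ℕ) r ∧ D.InRootSub (↑L : Set ℕ) r})
      (fun r hr => hr.1) (fun r hr => hr.1) (fun r hr hrJ => ⟨hrJ, ?_⟩) hvno hvL) (fun r hr => hr.2)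
    rw [hLeq]
    exact (H.pos_image_fix hm hr.1 hrJ ((H.chk.key_trichotomy (H.chk.sg_lt hm hr.1.1)).resolve_right
      fun h' => hr.2 ⟨hr.1, h'⟩) hdich).1
  have hcomm : ∀ x ∈ H.msub K (↑L : Set ℕ), Commute m x := by
    intro x hx
    have hle : H.msub K (↑L : Set ℕ) ≤ Subgroup.centralizer {m} := H.chk.grp_le fun r hr t => by
      rw [Subgroup.mem_centralizer_singleton_iff]
      exact (H.fix_commute hm hm2 hr.1 (hfixL r hr) t).eq.symm
    exact (Subgroup.mem_centralizer_singleton_iff.1 (hle hx)).symm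
  have hv2 : v * v = 1 := by
    rw [(hcomm v hvL').eq, mul_inv_cancel_right] at hmv
    exact eq_inv_iff_mul_eq_one.1 hmv
  obtain ⟨k, hk, hkf, l, hl, hst, ek⟩ := ihJ L hLss hLst v hvL' hvf hv2
  refine SplitT.of_conj W (grp_mem_mono hk hLsub) hkf ?_
  have e2 : k * (v * m) * k⁻¹ = H.chk.wg (l.map fun r => (r, (1 : K))) * m := by
    rw [← ek]
    calc k * (v * m) * k⁻¹ = k * v * (m * k⁻¹) := by group
      _ = k * v * k⁻¹ * m := by rw [(hcomm k⁻¹ (inv_mem hk)).eq]; group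
  rw [e2]
  exact W.split_mono _ _ l (fun _ => 1) m rfl rfl ⟨hl.1, fun r hr => hLsub r (hl.2.1 r hr), hl.2.2⟩ hst
    (fun _ _ => one_ne_zero) (fun _ _ => (map_one φ).symm) hm hmM hmf hm2
    fun r hr => hfixL r (hl.2.1 r hr)

/-- Every involution of the fixed points is conjugate there to a stable orthogonal product. -/
theorem split_fixed [Finite K] {g : GL D.Idx K} (hg : g ∈ τ.fixed) (h2 : g * g = 1) :
    ∃ k ∈ τ.fixed, ∃ l, H.OrthIn Set.univ l ∧ (∀ r ∈ l, τ.ρ r ∈ l) ∧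
      k * g * k⁻¹ = H.chk.wg (l.map fun r => (r, (1 : K))) := by
  have hall : ∀ r < D.nroots, D.InRootSub (↑(Finset.range D.rank) : Set ℕ) r := fun r hr =>
    (H.chk.inRootSub_iff H.supp _).2 ⟨hr, fun k hk hkJ => absurd (Finset.mem_range.2 hk) hkJ⟩
  have hgM : g ∈ H.msub K (↑(Finset.range D.rank) : Set ℕ) :=
    H.chk.group_le (K := H.msub K _) (fun r hr t => H.chk.xg_mem (hall r hr) t) hg.1
  obtain ⟨k, -, hkf, l, hl, hst, e⟩ := W.split (Finset.range D.rank)
    (fun j hj => ⟨Finset.mem_range.1 hj, Finset.mem_range.2 (τ.p_lt j (Finset.mem_range.1 hj))⟩) g hgM hg h2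
  exact ⟨k, hkf, l, ⟨hl.1, fun r hr => (H.chk.inRootSub_iff H.supp _).2
    ⟨(hl.2.1 r hr).1, fun k _ h => absurd (Set.mem_univ k) h⟩, hl.2.2⟩, hst, e⟩

end TwoTwist

end Cfsg.Agent.Lib.Chev
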