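import Cfsg.Agent.Lib.Chev.Parabolic
import Cfsg.Agent.Lib.Chev.Order
import Cfsg.Agent.Lib.Chev.TwistAlpha
import Cfsg.Agent.Lib.Chev.ClsBN
import Cfsg.Agent.Lib.Chev.ClsCoord

/-!
Elements of a parabolic subgroup centralising its unipotent radical are unipotent.
-/

set_option autoImplicit false

namespace Cfsg.Agent.Lib.Chev

open Cfsg.Lie Cfsg.Agent.Lib

/-- For each pair of fundamental roots `a i ≠ a j` some positive root involving `a i` can be extended by
`a j`. -/
def Fast.extOK (T : Fast) : Bool :=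
  allBelow T.l fun i => allBelow T.l fun j => Nat.beq i j ||
    (List.range T.n).any fun r => ltI 0 (T.key r) && !(beqI (T.cf r i) 0) &&
      match (decode (T.code (T.sp j) r))[0]? with
      | some (u, _) => allBelow T.l fun k => beqI (T.cf u k) (T.cf r k + cond (Nat.beq k j) 1 0)
      | none => false

theorem extOK_all : (G2.fast.extOK && B2.fast.extOK && D4.fast.extOK && F4.fast.extOK && E6.fast.extOK &&
    E7.fast.extOK && E8.fast.extOK) = true := by decide +kernel

theorem exists_checked_ext {D : ChevalleyDatum}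
    (hD : D ∈ [chevG2, chevB2, chevD4, chevF4, chevE6, chevE7, chevE8]) :
    ∃ T : Fast, Checked D T ∧ T.suppOK = true ∧ T.extOK = true := by
  have h := extOK_all
  simp only [Bool.and_eq_true] at h
  obtain ⟨⟨⟨⟨⟨⟨h1, h2⟩, h3⟩, h4⟩, h5⟩, h6⟩, h7⟩ := h
  simp only [List.mem_cons, List.not_mem_nil, or_false] at hD
  rcases hD with rfl | rfl | rfl | rfl | rfl | rfl | rfl
  exacts [⟨_, G2.checked, suppOK_G2, h1⟩, ⟨_, B2.checked, suppOK_B2, h2⟩, ⟨_, D4.checked, suppOK_D4, h3⟩,
    ⟨_, F4.checked, suppOK_F4, h4⟩, ⟨_, E6.checked, suppOK_E6, h5⟩, ⟨_, E7.checked, suppOK_E7, h6⟩,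
    ⟨_, E8.checked, suppOK_E8, h7⟩]

variable {D : ChevalleyDatum} {T : Fast} {F : Type*} [Field F]

namespace Checked

variable (C : Checked D T)
include C

theorem wg_map_eq_filter (p : ℕ → Prop) [DecidablePred p] (t : ℕ → F) :
    ∀ l : List ℕ, (∀ r ∈ l, ¬ p r → t r = 0) →
      C.wg (l.map fun r => (r, t r)) = C.wg ((l.filter fun r => decide (p r)).map fun r => (r, t r))
  | [], _ => rfl
  | m :: l, h => by
    have ih := wg_map_eq_filter p t l fun r hr => h r (by simp [hr])
    rw [List.map_cons, C.wg_cons, ih]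
    by_cases hm : p m
    · rw [List.filter_cons_of_pos (by simpa using hm), List.map_cons, C.wg_cons]
    · rw [List.filter_cons_of_neg (by simpa using hm), h m (by simp) hm, C.xg_zero, one_mul]

theorem wg_extend {S : Set ℕ} (hS : ∀ r ∈ S, D.IsPosRoot r) (t : ℕ → F) [DecidablePred (· ∈ S)] :
    C.wg ((C.rootList {r | D.IsPosRoot r}).map fun r => (r, if r ∈ S then t r else 0)) =
      C.wg ((C.rootList S).map fun r => (r, t r)) := by
  classical
  rw [C.wg_map_eq_filter (· ∈ S) (fun r => if r ∈ S then t r else 0) _ (fun r _ hr => if_neg hr)]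
  have e : ((C.rootList {r | D.IsPosRoot r}).filter fun r => decide (r ∈ S)) = C.rootList S := by
    unfold rootList
    rw [List.filter_filter]
    refine List.filter_congr fun r _ => ?_
    by_cases h : r ∈ S
    · simp [h, hS r h]
    · simp [h]
  rw [e]
  congr 1
  exact List.map_congr_left fun r hr => by rw [if_pos (C.mem_rootList.1 hr).2]

/-- A non-trivial root element lies in a group of roots only if its root is one of them. -/
theorem mem_of_xg_mem {S : Set ℕ} (hS : ClosedSet D S) {s : ℕ} (hs : D.IsPosRoot s) {a : F}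
    (h : C.xg s a ∈ grp D F S) (hns : s ∉ S) : a = 0 := by
  classical
  obtain ⟨t, ht⟩ := C.exists_ordered hS h
  have h1 : C.xg s a = C.wg ((C.rootList {r | D.IsPosRoot r}).map fun r => (r, if r = s then a else 0)) := by
    rw [C.wg_map_eq_filter (· = s) (fun r => if r = s then a else 0) _ (fun r _ hr => if_neg hr)]
    have hnd : (C.rootList {r | D.IsPosRoot r}).Nodup := (C.rootList_sorted _).imp fun h => ne_of_lt h
    rw [List.filter_eq, List.count_eq_one_of_mem hnd (C.mem_rootList.2 ⟨hs.1, hs⟩)]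
    simp [C.wg_cons, C.wg_nil]
  have h2 := ht.symm.trans h1
  rw [← C.wg_extend hS.pos t] at h2
  have := C.ordered_inj _ (C.rootList_sorted _) (fun r hr => (C.mem_rootList.1 hr).2) _ _ h2 s
    (C.mem_rootList.2 ⟨hs.1, hs⟩)
  simpa [hns] using this.symm

variable (hsupp : T.suppOK = true) (J : Set ℕ)
include hsupp

/-- The roots of the radical above a given one. -/
def radAbove (_ : Checked D T) (_ : T.suppOK = true) (J : Set ℕ) (r : ℕ) : Set ℕ :=
  {s | D.IsPosRoot s ∧ ¬ D.InRootSub J s ∧ r < s}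

theorem radAbove_ideal {m r s : ℕ} (hm : D.IsPosRoot m) (hs : s ∈ C.radAbove hsupp J r) :
    ∀ c ∈ D.commTerms m s, c.1 ∈ C.radAbove hsupp J r := fun c hc =>
  have h := C.radRoots_ideal hsupp J hm (r := s) ⟨hs.1, hs.2.1⟩ c hc
  ⟨h.1, h.2, hs.2.2.trans (C.commTerms_gt hm hs.1 c hc).2.2⟩

theorem radAbove_closed (r : ℕ) : ClosedSet D (C.radAbove hsupp J r) where
  pos _ hs := hs.1
  closed _ hm _ hs _ := C.radAbove_ideal hsupp J hm.1 hs

/-- The leading term of a conjugate. -/
theorem conj_leading {r : ℕ} (hr : r ∈ C.radRoots J) {v : GL D.Idx F} (hv : v ∈ D.posUnipotent F)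
    (t : F) : ∃ y ∈ grp D F (C.radAbove hsupp J r), v * C.xg r t * v⁻¹ = C.xg r t * y := by
  have hconj : ∀ {v y : GL D.Idx F}, v ∈ D.posUnipotent F → y ∈ grp D F (C.radAbove hsupp J r) →
      v * y * v⁻¹ ∈ grp D F (C.radAbove hsupp J r) := fun hv hy =>
    C.conj_grp_ideal (fun s hs => hs.1) (fun m hm k hk _ => C.radAbove_ideal hsupp J hm hk) hv hy
  let H : Subgroup (GL D.Idx F) :=
    { carrier := {v | v ∈ D.posUnipotent F ∧ ∀ t : F, ∃ y ∈ grp D F (C.radAbove hsupp J r),
        v * C.xg r t * v⁻¹ = C.xg r t * y}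
      one_mem' := ⟨one_mem _, fun t => ⟨1, one_mem _, by simp⟩⟩
      mul_mem' := by
        rintro v w ⟨hv, h1⟩ ⟨hw, h2⟩
        refine ⟨mul_mem hv hw, fun t => ?_⟩
        obtain ⟨y, hy, e⟩ := h2 t
        obtain ⟨z, hz, e'⟩ := h1 t
        refine ⟨z * (v * y * v⁻¹), mul_mem hz (hconj hv hy), ?_⟩
        calc v * w * C.xg r t * (v * w)⁻¹ = v * (w * C.xg r t * w⁻¹) * v⁻¹ := by group
          _ = v * C.xg r t * v⁻¹ * (v * y * v⁻¹) := by rw [e]; group
          _ = C.xg r t * (z * (v * y * v⁻¹)) := by rw [e', mul_assoc]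
      inv_mem' := by
        rintro v ⟨hv, h1⟩
        refine ⟨inv_mem hv, fun t => ?_⟩
        obtain ⟨y, hy, e⟩ := h1 t
        refine ⟨(v⁻¹ * y * v)⁻¹, inv_mem ?_, ?_⟩
        · have := hconj (inv_mem hv) hy
          rwa [inv_inv] at this
        · calc v⁻¹ * C.xg r t * v⁻¹⁻¹ = v⁻¹ * (C.xg r t * y) * y⁻¹ * v := by group
            _ = v⁻¹ * (v * C.xg r t * v⁻¹) * y⁻¹ * v := by rw [e]
            _ = C.xg r t * (v⁻¹ * y * v)⁻¹ := by group }
  have hle : D.posUnipotent F ≤ H := by
    rw [posUnipotent_eq]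
    refine C.grp_le fun m hm a => ⟨by rw [posUnipotent_eq]; exact C.xg_mem hm a, fun t => ?_⟩
    by_cases hmr : r = m
    · subst hmr
      refine ⟨1, one_mem _, ?_⟩
      rw [C.xg_inv, C.xg_add hm.1, C.xg_add hm.1, mul_one]
      congr 1; ring
    · have h := C.xg_conj_eq hm.1 hr.1.1 hmr (C.ne_neg_of_pos hm hr.1) (-a) t
      rw [neg_neg] at h
      refine ⟨C.wg (D.commWord F m r (-a) t), C.wg_mem _ fun p hp => ?_, by rw [C.xg_inv]; exact h⟩
      obtain ⟨c, hc, rfl⟩ := List.mem_map.1 hp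
      have h' := C.radRoots_ideal hsupp J hm hr c hc
      exact ⟨h'.1, h'.2, (C.commTerms_gt hm hr.1 c hc).2.2⟩
  exact (hle hv).2 t

/-- The same for elements of the Borel subgroup. -/
theorem borel_leading {r : ℕ} (hr : r ∈ C.radRoots J) {v d : GL D.Idx F} (hv : v ∈ D.posUnipotent F)
    {χ : ℕ → F} (hχ : IsChr D χ) (e : (d : Matrix D.Idx D.Idx F) = dg D χ) (t : F) :
    ∃ y ∈ grp D F (C.radAbove hsupp J r), v * d * C.xg r t * (v * d)⁻¹ = C.xg r (χ r * t) * y := by
  obtain ⟨y, hy, h⟩ := C.conj_leading hsupp J hr hv (χ r * t)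
  refine ⟨y, hy, ?_⟩
  rw [← h, ← C.conj_xg_of_dg hχ e hr.1.1 t]
  group

variable (hext : T.extOK = true) (hJ : ∃ i, i < D.rank ∧ i ∉ J)
include hext hJ

theorem exists_ext {j : ℕ} (hj : j < D.rank) (hjJ : j ∈ J) :
    ∃ r u : ℕ, ∃ m : ℤ, r ∈ C.radRoots J ∧ u ∈ C.radRoots J ∧
      (decode (T.code (D.simple j) r))[0]? = some (u, m) ∧
      ∀ k < D.rank, T.cf u k = T.cf r k + if k = j then 1 else 0 := by
  obtain ⟨i, hi, hiJ⟩ := hJ
  have hl : T.l = D.rank := C.tables.rank.symm
  have h := allBelow_iff.1 hext i (by rw [hl]; exact hi)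
  have h := allBelow_iff.1 h j (by rw [hl]; exact hj)
  rw [Bool.or_eq_true] at h
  have hij : ¬ Nat.beq i j = true := fun e => hiJ (Nat.eq_of_beq_eq_true e ▸ hjJ)
  obtain ⟨r, hr, h⟩ := List.any_eq_true.1 (h.resolve_left hij)
  rw [List.mem_range, show T.n = D.nroots from C.tables.nroots.symm] at hr
  rw [Bool.and_eq_true, Bool.and_eq_true] at h
  obtain ⟨⟨hpos, hne⟩, h⟩ := h
  rw [← C.tables.simple j hj] at h
  cases hd : (decode (T.code (D.simple j) r))[0]? with
  | none => simp [hd] at h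
  | some p =>
    obtain ⟨u, m⟩ := p
    simp only [hd] at h
    have hco : ∀ k < D.rank, T.cf u k = T.cf r k + if k = j then 1 else 0 := fun k hk => by
      have := beqI_eq (allBelow_iff.1 h k (by rw [hl]; exact hk))
      rw [this]
      by_cases hkj : k = j
      · subst hkj; simp
      · rw [if_neg hkj, show Nat.beq k j = false from Bool.eq_false_iff.2 fun e => hkj (Nat.eq_of_beq_eq_true e)]
        rfl
    have hrpos : D.IsPosRoot r := (C.root.pos_iff r).2 ⟨hr, ltI_iff.1 hpos⟩
    have hri : T.cf r i ≠ 0 := fun e => by simp [e, beqI] at hne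
    have hdec := C.root.chain_get (D.simple j) (C.root.simple_lt j hj) r hr 0 u m (by
      rw [C.tables.chain _ (C.root.simple_lt j hj) r hr]; exact hd)
    have hupos : D.IsPosRoot u := by
      refine (C.root.pos_iff u).2 ⟨hdec.1, ?_⟩
      rw [hdec.2]
      have h1 := C.root.key_simple_pos hj
      have h2 := ((C.root.pos_iff r).1 hrpos).2
      push_cast
      linarith
    refine ⟨r, u, m, ⟨hrpos, fun hs => hri (((C.inRootSub_iff hsupp J).1 hs).2 i hi hiJ)⟩,
      ⟨hupos, fun hs => hri ?_⟩, hd, hco⟩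
    have h1 := ((C.inRootSub_iff hsupp J).1 hs).2 i hi hiJ
    simp only [Fast.aux] at h1 ⊢
    rw [hco i hi, if_neg (fun e : i = j => hiJ (e ▸ hjJ)), add_zero] at h1
    exact h1

/-- Elements of the parabolic subgroup centralising the radical are unipotent. -/
theorem centralizer_radical_le :
    D.parabolicSubgroup F J ⊓ Subgroup.centralizer (D.unipotentRadical F J : Set (GL D.Idx F)) ≤
      D.posUnipotent F := by
  classical
  rintro g ⟨hgP, hgC⟩
  have hfix : ∀ r ∈ C.radRoots J, g * C.xg r 1 * g⁻¹ = C.xg r (1 : F) := fun r hr => by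
    rw [mul_inv_eq_iff_eq_mul]
    exact (Subgroup.mem_centralizer_iff.1 hgC _ (by
      rw [SetLike.mem_coe, C.unipotentRadical_eq J]; exact C.xg_mem hr 1)).symm
  have R := C.root
  obtain ⟨b, hb, n, hn, u, hu, rfl⟩ := C.exists_bnu (C.parabolic_le_group J hgP)
  have huU : u ∈ D.posUnipotent F := by rw [posUnipotent_eq]; exact grp_mem_mono hu fun r hr => hr.1
  have hrad : ∀ r, r ∈ C.radRoots J → C.sg n r = r := by
    suffices key : ∀ k r, D.nroots - r = k → r ∈ C.radRoots J → C.sg n r = r from fun r hr => key _ r rfl hr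
    intro k
    induction k using Nat.strong_induction_on with
    | _ k ih =>
      intro r hk hr
      by_contra hne
      have habove : ∀ s ∈ C.radAbove hsupp J r, C.sg n s = s := fun s hs => by
        have := hs.1.1
        have := hs.2.2
        exact ih (D.nroots - s) (by omega) s rfl ⟨hs.1, hs.2.1⟩
      obtain ⟨y, hy, e1⟩ := C.conj_leading hsupp J hr huU 1
      obtain ⟨c, hc, e2⟩ := C.sg_conj hn hr.1.1
      have hy' := C.conj_mem_of_image hn (S := C.radAbove hsupp J r) (S' := C.radAbove hsupp J r)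
        (fun s hs => hs.1.1) (fun s hs => by rw [habove s hs]; exact hs) hy
      obtain ⟨v, hv, d, hd, ebi⟩ := C.mem_borel.1 (inv_mem hb)
      obtain ⟨χ, hχ, eχ⟩ := C.exists_chr hd
      obtain ⟨z, hz, e3⟩ := C.borel_leading hsupp J hr hv hχ eχ 1
      rw [← ebi, inv_inv] at e3
      have key : C.xg (C.sg n r) (c * 1) = C.xg r (χ r * 1) * z * (n * y * n⁻¹)⁻¹ := by
        rw [← e2, ← e3]
        calc n * C.xg r 1 * n⁻¹ = n * (C.xg r 1 * y) * n⁻¹ * (n * y * n⁻¹)⁻¹ := by group
          _ = b⁻¹ * (b * n * u * C.xg r 1 * (b * n * u)⁻¹) * b * (n * y * n⁻¹)⁻¹ := by rw [← e1]; group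
          _ = _ := by rw [hfix r hr]
      let S : Set ℕ := insert r (C.radAbove hsupp J r)
      have hS : ClosedSet D S := by
        refine ⟨fun s hs => ?_, fun s hs t ht hts c' hc' => Or.inr ?_⟩
        · rcases hs with rfl | hs
          exacts [hr.1, hs.1]
        · have hps : D.IsPosRoot s := by rcases hs with rfl | hs; exacts [hr.1, hs.1]
          rcases ht with rfl | ht
          · have h' := C.radRoots_ideal hsupp J hps hr c' hc'
            exact ⟨h'.1, h'.2, (C.commTerms_gt hps hr.1 c' hc').2.2⟩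
          · exact C.radAbove_ideal hsupp J hps ht c' hc'
      have hmem : C.xg (C.sg n r) (c * 1) ∈ grp D F S := by
        rw [key]
        exact mul_mem (mul_mem (C.xg_mem (Set.mem_insert _ _) _) (grp_mem_mono hz (Set.subset_insert _ _)))
          (inv_mem (grp_mem_mono hy' (Set.subset_insert _ _)))
      have hpos : D.IsPosRoot (C.sg n r) := by
        refine (C.key_trichotomy (C.sg_lt hn hr.1.1)).resolve_right fun hneg => ?_
        refine C.neg_xg_not_mem hneg (mul_ne_zero hc one_ne_zero) (Subgroup.mem_sup_left ?_)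
        rw [posUnipotent_eq]
        exact grp_mem_mono hmem hS.pos
      refine mul_ne_zero hc one_ne_zero (C.mem_of_xg_mem hS hpos hmem ?_)
      rintro (h | h)
      · exact hne h
      · have h1 := C.sg_inv_sg hn hr.1.1
        have h2 := C.sg_inv_sg hn h.1.1
        rw [habove _ h, h1] at h2
        exact hne h2.symm
  have hnd : n ∈ D.diagonalSubgroup F := by
    refine C.mem_diag_of_simple_pos hn fun j hj => ?_
    by_cases hjJ : j ∈ J
    · obtain ⟨r, w, m, hr, hw, -, hco⟩ := C.exists_ext hsupp J hext hJ hj hjJ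
      obtain ⟨τ, hm⟩ := C.sg_spec hn
      have hone : ∀ k < D.rank, T.cf (C.sg n (D.simple j)) k = if k = j then 1 else 0 := fun k hk => by
        have h1 := hm.lin r hr.1.1 k hk
        have h2 := hm.lin w hw.1.1 k hk
        rw [hrad r hr] at h1
        rw [hrad w hw] at h2
        simp only [Fast.aux] at h1 h2
        rw [Finset.sum_congr rfl (fun i hi => by rw [hco i (Finset.mem_range.1 hi), add_mul]),
          Finset.sum_add_distrib, ← h1, hco k hk] at h2
        simp only [ite_mul, one_mul, zero_mul, Finset.sum_ite_eq', Finset.mem_range, hj, if_true] at h2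
        omega
      refine (C.key_trichotomy (C.sg_lt hn (R.simple_lt j hj))).resolve_right fun hneg => ?_
      have h3 := C.coef_nonneg ((C.neg_pos_iff (C.sg_lt hn (R.simple_lt j hj))).2 hneg) hj
      rw [R.coef_neg (C.sg_lt hn (R.simple_lt j hj)) hj] at h3
      simp only [Fast.aux] at h3
      rw [hone j hj, if_pos rfl] at h3
      omega
    · rw [hrad _ ⟨R.pos_simple hj, fun h => hjJ ((C.inRootSub_simple hsupp J hj).1 h)⟩]
      exact R.pos_simple hj
  obtain ⟨v, hv, d, hd, e⟩ := C.mem_borel.1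
    (mul_mem (mul_mem hb (Subgroup.mem_sup_right hnd)) (Subgroup.mem_sup_left huU) :
      b * n * u ∈ D.borelSubgroup F)
  obtain ⟨χ, hχ, eχ⟩ := C.exists_chr hd
  have h1 : ∀ r ∈ C.radRoots J, χ r = 1 := fun r hr => by
    obtain ⟨y, hy, h⟩ := C.borel_leading hsupp J hr hv hχ eχ 1
    rw [← e, hfix r hr] at h
    have hmem : C.xg r (1 - χ r * 1) ∈ grp D F (C.radAbove hsupp J r) := by
      have e' : y = C.xg r (-(χ r * 1)) * C.xg r 1 := by
        rw [h, ← mul_assoc, C.xg_add hr.1.1, neg_add_cancel, C.xg_zero, one_mul]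
      rw [C.xg_add hr.1.1] at e'
      rw [show 1 - χ r * 1 = -(χ r * 1) + 1 by ring, ← e']
      exact hy
    have := C.mem_of_xg_mem (C.radAbove_closed hsupp J r) hr.1 hmem fun hs => lt_irrefl r hs.2.2
    linear_combination -this
  have hsimp : ∀ j < D.rank, χ (D.simple j) = 1 := fun j hj => by
    by_cases hjJ : j ∈ J
    · obtain ⟨r, w, m, hr, hw, hd, -⟩ := C.exists_ext hsupp J hext hJ hj hjJ
      have := C.chr_chain hχ (R.simple_lt j hj) hr.1.1 hd
      rw [h1 r hr, h1 w hw, zero_add, pow_one, mul_one] at this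
      exact this.symm
    · exact h1 _ ⟨R.pos_simple hj, fun h => hjJ ((C.inRootSub_simple hsupp J hj).1 h)⟩
  have hd1 : d = 1 := C.diag_eq_of_simple hd (one_mem _) hχ ⟨fun _ _ => one_ne_zero, by simp, by simp⟩ eχ
    (by rw [Units.val_one]; exact dg_one.symm) hsimp
  rw [e, hd1, mul_one]
  exact hv

end Checked

end Cfsg.Agent.Lib.Chev
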