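import Cfsg.Agent.Lib.Chev.ReeInvolReduce

/-!
The two classes of involutions of the twisted groups of type `F₄` and of the Tits group.
-/

set_option autoImplicit false
set_option maxRecDepth 100000
set_option linter.unusedSectionVars false

namespace Cfsg.Agent.Lib.Chev.F4

open Cfsg.Lie Cfsg.Agent.Lib Cfsg.Agent.Lib.Chev

variable {K : Type*} [Field K] [CharP K 2] [Fintype K] (θ : K ≃+* K) {m : ℕ}
  (hθ : ∀ t : K, θ t = t ^ 2 ^ m) (hK : Fintype.card K = 2 ^ (2 * m + 1))

local notation "GT" => GL chevF4.Idx K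

theorem tgt_lt {i : ℕ} (hi : i < 2) :
    (∀ t ∈ invTgt i, t < 8) ∧ (∀ t ∈ invOdd i, t < 8) := by
  have h := inv_lt.2
  simp only [allBelow_iff, List.all_eq_true, Nat.blt_eq, List.forall_mem_append] at h
  exact h i hi

theorem tgt_eq {i : ℕ} (hi : i < 2) :
    (vw (invTgt i) : GT) = InvolOrthF4.slData.X K (InvolOrthF4.targets.getD (i + 2) []) := by
  have key : ∀ l : List ℕ, (∀ r ∈ l, r < 48) → F4.fast.sameMod 2 (fWord (invTgt i)) (oneLets l) = true →
      (vw (invTgt i) : GT) = InvolOrthF4.slData.X K l := by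
    intro l hl h
    have w1 : ∀ L ∈ fWord (invTgt i), L.r < chevF4.nroots := fun L hL => by
      obtain ⟨t, ht, hL⟩ := List.mem_flatMap.1 hL
      exact lets_lt ((tgt_lt hi).1 t ht) L hL
    have w2 : ∀ L ∈ oneLets l, L.r < chevF4.nroots := fun L hL => by
      obtain ⟨a, ha, rfl⟩ := List.mem_map.1 hL
      exact lt48 (hl a ha)
    rw [vw, F4.checked.wg_eq_of_sameMod (p := 2) (1 : K) 1 w1 w2 h]
    simp [SLData.X, oneLets, realize, Function.comp_def]
  obtain ⟨t0, t1⟩ := tgt_check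
  interval_cases i
  · exact key [47, 44] (by decide) t0
  · exact key [39, 45] (by decide) t1

theorem tgt_order {i : ℕ} (hi : i < 2) : orderOf (vw (invTgt i) : GT) = 2 := by
  rw [tgt_eq hi]
  exact ((InvolOrthF4.rank_ok K (i + 2) (by simp [InvolOrthF4.targets]; omega)).1).2

theorem tgt_not_conj (k : GT) : k * vw (invTgt 0) * k⁻¹ ≠ vw (invTgt 1) := by
  intro h
  have r1 := InvolOrthF4.slData.rank_conj (F := K) (g := (vw (invTgt 0) : GT)) (h := k)
  rw [h, tgt_eq (by omega : 0 < 2), tgt_eq (by omega : 1 < 2),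
    (InvolOrthF4.rank_ok K 3 (by decide)).2, (InvolOrthF4.rank_ok K 2 (by decide)).2] at r1
  simp at r1

include hθ hK

/-- The representatives in the twisted group. -/
noncomputable def repG {i : ℕ} (hi : i < 2) : ↥(twistedF4 K (2 ^ m)) :=
  ⟨vw (invTgt i), vw_mem θ hθ hK (tgt_lt hi).1⟩

theorem repG_order {i : ℕ} (hi : i < 2) : orderOf (repG θ hθ hK hi) = 2 := by
  rw [← orderOf_injective (twistedF4 K (2 ^ m)).subtype Subtype.val_injective]
  exact tgt_order hi

/-- Every involution is conjugate to a representative. -/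
theorem exists_conj_rep (g : ↥(twistedF4 K (2 ^ m))) (hg : orderOf g = 2) :
    ∃ k : ↥(twistedF4 K (2 ^ m)), ∃ i, ∃ hi : i < 2, k * g = repG θ hθ hK hi * k := by
  have h2 : (g : GT) * g = 1 := by
    have h := congrArg Subtype.val (pow_orderOf_eq_one g)
    rwa [hg, sq] at h
  have h1 : (g : GT) ≠ 1 := fun h => by
    have e : g = 1 := Subtype.ext h
    rw [e, orderOf_one] at hg
    omega
  obtain ⟨k, hk, i, hi, e⟩ := reduces_invol θ hθ hK _ g.2 h2 h1
  exact ⟨⟨k, hk⟩, i, hi, Subtype.ext e⟩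

/-- Two classes of involutions. -/
theorem ncard_invol_classes :
    (ConjClasses.mk '' {g : ↥(twistedF4 K (2 ^ m)) | orderOf g = 2}).ncard = 2 := by
  have hne : ConjClasses.mk (repG θ hθ hK (show 0 < 2 by omega)) ≠
      ConjClasses.mk (repG θ hθ hK (show 1 < 2 by omega)) := by
    rw [Ne, ConjClasses.mk_eq_mk_iff_isConj, isConj_iff]
    rintro ⟨c, hc⟩
    exact tgt_not_conj (c : GT) (congrArg Subtype.val hc)
  rw [show ConjClasses.mk '' {g : ↥(twistedF4 K (2 ^ m)) | orderOf g = 2} =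
    {ConjClasses.mk (repG θ hθ hK (show 0 < 2 by omega)), ConjClasses.mk (repG θ hθ hK (show 1 < 2 by omega))}
    from ?_, Set.ncard_pair hne]
  refine Set.Subset.antisymm ?_ ?_
  · rintro _ ⟨g, hg, rfl⟩
    obtain ⟨k, i, hi, e⟩ := exists_conj_rep θ hθ hK g hg
    have hc : ConjClasses.mk g = ConjClasses.mk (repG θ hθ hK hi) := by
      rw [ConjClasses.mk_eq_mk_iff_isConj, isConj_iff]
      exact ⟨k, by rw [e, mul_inv_cancel_right]⟩
    interval_cases i
    · exact Or.inl hc
    · exact Or.inr hc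
  · rintro _ (rfl | rfl) <;> exact Set.mem_image_of_mem _ (repG_order θ hθ hK _)

end Cfsg.Agent.Lib.Chev.F4

namespace Cfsg.Agent.Lib.Chev.F4

open Cfsg.Lie Cfsg.Agent.Lib Cfsg.Agent.Lib.Chev

variable {K : Type*} [Field K] [CharP K 2] [Fintype K]

local notation "GT" => GL chevF4.Idx K

/-- Two classes of involutions in the commutator subgroup over two elements. -/
theorem ncard_invol_classes_commutator (hK : Fintype.card K = 2 ^ (2 * 0 + 1)) :
    (ConjClasses.mk '' {g : ↥(commutator ↥(twistedF4 K (2 ^ 0))) | orderOf g = 2}).ncard = 2 := by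
  have hθ : ∀ t : K, RingEquiv.refl K t = t ^ 2 ^ 0 := fun t => by simp
  set θ := RingEquiv.refl K
  set H := commutator ↥(twistedF4 K (2 ^ 0))
  have hsub : ∀ g : ↥H, orderOf (g : ↥(twistedF4 K (2 ^ 0))) = orderOf g := fun g =>
    orderOf_injective H.subtype Subtype.val_injective g
  have hrep : ∀ {i : ℕ} (hi : i < 2), repG θ hθ hK hi ∈ H := fun hi =>
    TwoInvol.mem_commutator θ hθ hK _ (repG_order θ hθ hK hi)
  let r : ∀ {i : ℕ}, i < 2 → ↥H := fun hi => ⟨repG θ hθ hK hi, hrep hi⟩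
  have hr : ∀ {i : ℕ} (hi : i < 2), orderOf (r hi) = 2 := fun hi => by
    rw [← hsub]; exact repG_order θ hθ hK hi
  have hne : ConjClasses.mk (r (show 0 < 2 by omega)) ≠ ConjClasses.mk (r (show 1 < 2 by omega)) := by
    rw [Ne, ConjClasses.mk_eq_mk_iff_isConj, isConj_iff]
    rintro ⟨c, hc⟩
    exact tgt_not_conj ((c : ↥(twistedF4 K (2 ^ 0))) : GT) (congrArg (fun x : ↥H => ((x : ↥(twistedF4 K (2 ^ 0))) : GT)) hc)
  rw [show ConjClasses.mk '' {g : ↥H | orderOf g = 2} =
    {ConjClasses.mk (r (show 0 < 2 by omega)), ConjClasses.mk (r (show 1 < 2 by omega))} from ?_,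
    Set.ncard_pair hne]
  refine Set.Subset.antisymm ?_ ?_
  · rintro _ ⟨g, hg, rfl⟩
    obtain ⟨k, i, hi, e⟩ := exists_conj_rep θ hθ hK (g : ↥(twistedF4 K (2 ^ 0))) ((hsub g).trans hg)
    -- an odd element centralising the representative repairs the parity
    obtain ⟨k', hk', e'⟩ : ∃ k' ∈ H, k' * (g : ↥(twistedF4 K (2 ^ 0))) = repG θ hθ hK hi * k' := by
      by_cases hk : k ∈ H
      · exact ⟨k, hk, e⟩
      obtain ⟨-, o, ho, hoc⟩ := word_spec hK (tgt_lt hi).2
      have hodd := allBelow_iff.1 odd_check i hi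
      simp only [Bool.and_eq_true] at hodd
      have hno : o ∉ H := fun h => by rw [hoc.1 h] at hodd; simp at hodd
      have hcomm : o * repG θ hθ hK hi = repG θ hθ hK hi * o := by
        refine Subtype.ext ?_
        push_cast
        rw [ho]
        show (vw (invOdd i) : GT) * vw (invTgt i) = vw (invTgt i) * vw (invOdd i)
        rw [← vw_append, ← vw_append]
        exact vw_eq (List.forall_mem_append.2 ⟨(tgt_lt hi).2, (tgt_lt hi).1⟩)
          (List.forall_mem_append.2 ⟨(tgt_lt hi).1, (tgt_lt hi).2⟩) hodd.1.1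
      refine ⟨o * k, ?_, by rw [mul_assoc, e, ← mul_assoc, hcomm, mul_assoc]⟩
      rw [Subgroup.mul_mem_iff_of_index_two (tits_main hK).1]
      exact iff_of_false hno hk
    have hc : ConjClasses.mk g = ConjClasses.mk (r hi) := by
      rw [ConjClasses.mk_eq_mk_iff_isConj, isConj_iff]
      refine ⟨⟨k', hk'⟩, Subtype.ext ?_⟩
      show k' * (g : ↥(twistedF4 K (2 ^ 0))) * k'⁻¹ = repG θ hθ hK hi
      rw [e', mul_inv_cancel_right]
    interval_cases i
    · exact Or.inl hc
    · exact Or.inr hc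
  · rintro _ (rfl | rfl) <;> exact Set.mem_image_of_mem _ (hr _)

end Cfsg.Agent.Lib.Chev.F4
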