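import Cfsg.Agent.Lib.Chev.TitsBits

/-!
Finite checks for the classes of involutions of the twisted groups of type `F₄`.
-/

set_option autoImplicit false
set_option maxRecDepth 100000

namespace Cfsg.Agent.Lib.Chev.F4

open Cfsg.Lie Cfsg.Agent.Lib Cfsg.Agent.Lib.Chev

/-- The moves of the three terminal monomial involutions. -/
def invMoves : ℕ → List ℕ
  | 0 => [0, 1, 0, 1, 0, 1, 0, 1]
  | 1 => [0, 1, 0, 1, 0, 1, 0]
  | _ => [1, 0, 1, 0, 1, 0, 1]

/-- The roots kept positive by a terminal involution. -/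
def invKeep : ℕ → List ℕ
  | 0 => []
  | 1 => [27, 25, 28, 30]
  | _ => [33, 24]

/-- The two representatives, as words of letters. -/
def invTgt : ℕ → List ℕ
  | 0 => [0, 1, 0, 4, 0, 1, 0]
  | _ => [1, 0, 1, 2, 1, 0, 1]

/-- The five terminal elements, their representatives and the conjugating words. -/
def invRed : List (List ℕ × ℕ × List ℕ) :=
  [([0, 1, 0, 1, 0, 1, 0, 1], 1, [1, 0, 1, 0, 2, 1, 0, 6, 1, 0, 6, 2]),
   ([0, 1, 0, 1, 0, 1, 0], 0, [0, 1, 0, 1, 6, 0, 1, 0]),
   ([0, 1, 0, 1, 0, 1, 0, 4], 1, [1, 4, 1, 0, 1, 6, 0, 1, 2, 0]),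
   ([1, 0, 1, 0, 1, 0, 1], 1, [1, 0, 1, 0, 2, 1, 0, 1]),
   ([1, 0, 1, 0, 1, 0, 1, 2], 1, [1, 0, 1, 6, 0, 2, 6, 1, 0, 7, 1])]

/-- Odd words commuting with the representatives. -/
def invOdd : ℕ → List ℕ
  | 0 => [3]
  | _ => [1, 0, 3, 0, 1]

/-- A list of moves with the action of a table element. -/
def sameMv (l l' : List ℕ) : Bool :=
  allBelow 48 fun r => Nat.beq (F4.fast.movesW reeSpec l r) (F4.fast.movesW reeSpec l' r)

/-- Conjugation by a node lengthens. -/
def lenStep (l : List ℕ) (j : ℕ) : Bool :=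
  ((reeSpec.base j).all fun r => Fast.ltI 0 (F4.fast.key (F4.fast.movesW reeSpec l r)) &&
    !(memN (reeSpec.base j) (F4.fast.movesW reeSpec l r))) &&
    Nat.blt (F4.fast.mvInv reeSpec l) (F4.fast.mvInv reeSpec ([j] ++ l ++ [j]))

/-- The roots kept positive lie in the list. -/
def keepOK (k : ℕ) : Bool :=
  allBelow 48 fun r => !(Fast.ltI 0 (F4.fast.key r) &&
    !(Fast.ltI (F4.fast.key (F4.fast.movesW reeSpec (invMoves k) r)) 0)) || memN (invKeep k) r

theorem shape_check : (d8.all fun a => !(sameMv (reeMoves a ++ reeMoves a) []) ||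
    sameMv (reeMoves a) [] || lenStep (reeMoves a) 0 || lenStep (reeMoves a) 1 ||
    sameMv (reeMoves a) (invMoves 0) || sameMv (reeMoves a) (invMoves 1) ||
    sameMv (reeMoves a) (invMoves 2)) = true := by
  decide +kernel

theorem keep_check : (allBelow 3 fun k => keepOK k && (invKeep k).all fun r =>
    Nat.beq (F4.fast.movesW reeSpec (invMoves k) r) r) = true := by
  decide +kernel

theorem sq_check : (allBelow 3 fun k => sameBits (invMoves k ++ invMoves k) []) = true := by
  decide +kernel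

theorem red_check : (invRed.all fun e =>
    sameBits (e.2.2 ++ e.1) (invTgt e.2.1 ++ e.2.2)) = true := by
  decide +kernel

theorem odd_check : (allBelow 2 fun i => sameBits (invOdd i ++ invTgt i) (invTgt i ++ invOdd i) &&
    sameBits (invTgt i ++ invTgt i) [] && fPars (invOdd i)) = true := by
  decide +kernel

theorem tgt_check : F4.fast.sameMod 2 (fWord (invTgt 0)) (oneLets [47, 44]) = true ∧
    F4.fast.sameMod 2 (fWord (invTgt 1)) (oneLets [39, 45]) = true := by
  decide +kernel

theorem inv_lt : (invRed.all fun e => Nat.blt e.2.1 2 && (e.1 ++ e.2.2).all fun t => Nat.blt t 8) = true ∧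
    (allBelow 2 fun i => (invTgt i ++ invOdd i).all fun t => Nat.blt t 8) = true := by
  decide +kernel

end Cfsg.Agent.Lib.Chev.F4
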