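import Cfsg.Agent.Lib.Chev.ReeInvolWords
import Cfsg.Agent.Lib.Chev.ReeInvolTables
import Cfsg.Agent.Lib.Chev.InvolOrthF4

/-!
Every involution of a twisted group of type `F₄` is conjugate to one of two elements.
-/

set_option autoImplicit false
set_option maxRecDepth 100000
set_option linter.unusedSectionVars false

namespace Cfsg.Agent.Lib.Chev.F4

open Cfsg.Lie Cfsg.Agent.Lib Cfsg.Agent.Lib.Chev

theorem slChk_eq : InvolOrthF4.slData.chk = F4.checked := rfl

theorem red_entry {e : List ℕ × ℕ × List ℕ} (he : e ∈ invRed) :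
    e.2.1 < 2 ∧ (∀ t ∈ e.1, t < 8) ∧ (∀ t ∈ e.2.2, t < 8) ∧ (∀ t ∈ invTgt e.2.1, t < 8) ∧
      sameBits (e.2.2 ++ e.1) (invTgt e.2.1 ++ e.2.2) = true := by
  obtain ⟨h1, h2⟩ := inv_lt
  simp only [List.all_eq_true, Bool.and_eq_true, Nat.blt_eq, allBelow_iff, List.forall_mem_append] at h1 h2
  exact ⟨(h1 e he).1, (h1 e he).2.1, (h1 e he).2.2, (h2 _ (h1 e he).1).1, List.all_eq_true.1 red_check e he⟩

theorem inv_moves_lt (k : ℕ) : ∀ t ∈ invMoves k, t < 2 := by
  match k with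
  | 0 => decide
  | 1 => decide
  | k + 2 => show ∀ t ∈ [1, 0, 1, 0, 1, 0, 1], t < 2; decide

variable {K : Type*} [Field K] [CharP K 2] [Fintype K] (θ : K ≃+* K) {m : ℕ}
  (hθ : ∀ t : K, θ t = t ^ 2 ^ m) (hK : Fintype.card K = 2 ^ (2 * m + 1))

local notation "GT" => GL chevF4.Idx K

theorem movesW_append (a b : List ℕ) (r : ℕ) :
    F4.fast.movesW reeSpec (a ++ b) r = F4.fast.movesW reeSpec a (F4.fast.movesW reeSpec b r) := by
  simp [Fast.movesW, List.foldr_append]

/-- Conjugate in the twisted group to one of the two representatives. -/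
def Reduces (m : ℕ) (y : GT) : Prop :=
  ∃ k ∈ twistedF4 K (2 ^ m), ∃ i < 2, k * y = vw (invTgt i) * k

theorem Reduces.of_conj {y k : GT} (hk : k ∈ twistedF4 K (2 ^ m)) (h : Reduces m (k * y * k⁻¹)) :
    Reduces m y := by
  obtain ⟨g, hg, i, hi, e⟩ := h
  refine ⟨g * k, mul_mem hg hk, i, hi, ?_⟩
  have := congrArg (· * k) e
  simpa [mul_assoc] using this

include hθ hK

theorem reduces_entry {e : List ℕ × ℕ × List ℕ} (he : e ∈ invRed) : Reduces m (vw e.1 : GT) := by
  obtain ⟨h1, h2, h3, h4, h5⟩ := red_entry he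
  refine ⟨vw e.2.2, vw_mem θ hθ hK h3, e.2.1, h1, ?_⟩
  rw [← vw_append, ← vw_append]
  exact vw_eq (List.forall_mem_append.2 ⟨h3, h2⟩) (List.forall_mem_append.2 ⟨h4, h3⟩) h5

/-- A fixed diagonal element scaling the two classes by a prescribed square. -/
theorem exists_scale {z : K} (hz : z ≠ 0) : ∃ d : GT, d ∈ chevF4.diagonalSubgroup K ∧
    d ∈ (reeTwist θ).fixed ∧ ∃ χ : ℕ → K, (∀ r < 48, ∀ t : K, d * F4.checked.xg r t * d⁻¹ = F4.checked.xg r (χ r * t)) ∧
      χ 24 = z ∧ χ 33 = z ^ 2 ^ m ∧ χ 28 = z ^ (2 ^ m + 1) := by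
  classical
  obtain ⟨g, d, χ, hall, -, hd, hdG, hc, h33, h24, -, -, h28, -, -⟩ := exists_torus θ hθ hK
  obtain ⟨k, hk⟩ := hall (Units.mk0 z hz)
  have hz' : (g : K) ^ k = z := by rw [← Units.val_pow_eq_pow_val, hk]; rfl
  refine ⟨d ^ k, pow_mem hd k, pow_mem ((eq_fixed θ hθ hK).le hdG) k, fun r => χ r ^ k, fun r hr => ?_,
    by simp [h24, hz'], ?_, ?_⟩
  · clear hk hz'
    induction k with
    | zero => intro t; simp
    | succ k ih =>
      intro t
      have e := hc r hr (χ r ^ k * t)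
      rw [MulAut.conj_apply] at e
      rw [pow_succ' d, show d * d ^ k * F4.checked.xg r t * (d * d ^ k)⁻¹ =
        d * (d ^ k * F4.checked.xg r t * (d ^ k)⁻¹) * d⁻¹ by group, ih t, e]
      congr 1
      ring
  · show χ 33 ^ k = _
    rw [h33, ← hz', ← pow_mul, ← pow_mul, mul_comm]
  · show χ 28 ^ k = _
    rw [h28, ← hz', ← pow_mul, ← pow_mul, mul_comm]

/-- An odd power root. -/
theorem exists_root {s : K} (hs : s ≠ 0) : ∃ w : K, w ≠ 0 ∧ w ^ (2 ^ m + 1) = s := by
  obtain ⟨e, he⟩ : ∃ e, 2 ^ m = e + 1 := ⟨2 ^ m - 1, (Nat.sub_add_cancel Nat.one_le_two_pow).symm⟩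
  refine ⟨(s ^ (2 * e))⁻¹, inv_ne_zero (pow_ne_zero _ hs), ?_⟩
  rw [inv_pow, ← pow_mul]
  refine inv_eq_of_mul_eq_one_right ?_
  have hq : 2 * e * (2 ^ m + 1) + 1 = Fintype.card K - 1 := by
    rw [hK, pow_succ, two_mul m, pow_add, he]
    have : (e + 1) * (e + 1) * 2 = 2 * e * (e + 1 + 1) + 2 := by ring
    omega
  rw [← pow_succ, hq]
  exact FiniteField.pow_card_sub_one_eq_one s hs

theorem fixed_mem {g : GT} (hg : g ∈ (reeTwist θ).fixed) : g ∈ twistedF4 K (2 ^ m) :=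
  (eq_fixed θ hθ hK).ge hg

/-- The terminal shapes. -/
theorem reduces_terminal {k : ℕ} (hk : k < 3) {v h : GT}
    (hv : v ∈ grp chevF4 K {r | r ∈ invKeep k}) (hvf : v ∈ (reeTwist θ).fixed)
    (hh : h ∈ chevF4.diagonalSubgroup K) (hhf : h ∈ (reeTwist θ).fixed)
    (hy : v * (h * vw (invMoves k)) * (v * (h * vw (invMoves k))) = 1)
    (hm2 : h * vw (invMoves k) * (h * vw (invMoves k)) = 1) :
    Reduces m (v * (h * vw (invMoves k))) := by
  classical
  set n : GT := vw (invMoves k) with hndef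
  have hl8 : ∀ t ∈ invMoves k, t < 8 := fun t ht => by have := inv_moves_lt k t ht; omega
  have hmv : n = (ree_cls θ).mvN (invMoves k) := vw_moves θ (inv_moves_lt k)
  obtain ⟨hn, hnf, hns⟩ := (ree_cls θ).mvN_spec (mv := invMoves k) fun t ht => by
    rw [rank_eq']; have := inv_moves_lt k t ht; omega
  rw [← hmv] at hn hnf hns
  have hnG : n ∈ twistedF4 K (2 ^ m) := vw_mem θ hθ hK hl8
  have hn2 : n * n = 1 := by
    rw [hndef, ← vw_append, vw_eq (b := []) (List.forall_mem_append.2 ⟨hl8, hl8⟩) (by simp)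
      (allBelow_iff.1 sq_check k hk), vw_nil]
  have hninv : n⁻¹ = n := inv_eq_of_mul_eq_one_right hn2
  -- absorb the diagonal part
  have hinvh : n * h * n⁻¹ = h⁻¹ := by
    rw [hninv]
    refine eq_inv_of_mul_eq_one_right ?_
    rw [← hm2]
    simp only [mul_assoc]
  have hodd : Odd (orderOf h) := by
    have h1 : Odd (Nat.card ↥(chevF4.diagonalSubgroup K ⊓ (reeTwist θ).fixed)) := by
      rw [card_diag_fixed θ hθ hK, hK]
      refine Odd.pow ?_
      exact Nat.Even.sub_odd Nat.one_le_two_pow (Nat.even_pow.2 ⟨even_two, by omega⟩) odd_one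
    refine h1.of_dvd_nat ?_
    have := orderOf_dvd_natCard
      (⟨h, Subgroup.mem_inf.2 ⟨hh, hhf⟩⟩ : ↥(chevF4.diagonalSubgroup K ⊓ (reeTwist θ).fixed))
    rwa [Subgroup.orderOf_mk] at this
  obtain ⟨k0, hk0⟩ : ∃ k0, k0 = h ^ ((orderOf h + 1) / 2) := ⟨_, rfl⟩
  have hk2 : k0 * k0 = h := by
    obtain ⟨c, hc⟩ := hodd
    rw [hk0, ← pow_add, show (orderOf h + 1) / 2 + (orderOf h + 1) / 2 = orderOf h + 1 by omega, pow_succ,
      pow_orderOf_eq_one, one_mul]
  have hk0d : k0 ∈ chevF4.diagonalSubgroup K := hk0 ▸ pow_mem hh _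
  have hk0f : k0 ∈ (reeTwist θ).fixed := hk0 ▸ pow_mem hhf _
  have hnk : n * k0 * n⁻¹ = k0⁻¹ := by rw [hk0, ← conj_pow, hinvh, inv_pow]
  have hm : h * n = k0 * n * k0⁻¹ := by
    calc h * n = k0 * (k0 * n) := by rw [← mul_assoc, hk2]
      _ = k0 * (n * k0⁻¹) := by
        congr 1
        rw [← hnk, hninv, ← mul_assoc, ← mul_assoc, hn2, one_mul]
      _ = _ := by rw [mul_assoc]
  -- the unipotent part commutes
  obtain ⟨v', hv'⟩ : ∃ v', v' = k0⁻¹ * v * k0 := ⟨_, rfl⟩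
  have hkeep : ∀ r ∈ invKeep k, r < chevF4.nroots ∧ F4.checked.sg n r = r := by
    intro r hr
    have h48 : r < 48 :=
      (by decide : ∀ k < 3, ∀ x ∈ invKeep k, x < 48) k hk r hr
    refine ⟨lt48 h48, ?_⟩
    have h1 := allBelow_iff.1 keep_check k hk
    simp only [Bool.and_eq_true, List.all_eq_true, Nat.beq_eq] at h1
    rw [hns r (lt48 h48), h1.2 r hr]
  have hv'g : v' ∈ grp chevF4 K {r | r ∈ invKeep k} := by
    have := F4.checked.diag_normalizes (fun r hr => (hkeep r hr).1) (inv_mem hk0d) hv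
    rwa [inv_inv, ← hv'] at this
  have hv'f : v' ∈ (reeTwist θ).fixed := hv' ▸ mul_mem (mul_mem (inv_mem hk0f) hvf) hk0f
  have hcomm : ∀ r, r < chevF4.nroots → F4.checked.sg n r = r → ∀ t : K, Commute n (F4.checked.xg r t) :=
    fun r hr hfix t => by
      have := InvolOrthF4.slData.fix_commute (F := K) hn hn2 hr hfix t
      exact this
  have hcv : Commute n v' := by
    have hle : grp chevF4 K {r | r ∈ invKeep k} ≤ Subgroup.centralizer {n} := F4.checked.grp_le fun r hr t => by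
      rw [Subgroup.mem_centralizer_singleton_iff]
      exact (hcomm r (hkeep r hr).1 (hkeep r hr).2 t).eq.symm
    exact (Subgroup.mem_centralizer_singleton_iff.1 (hle hv'g)).symm
  have hy1 : k0⁻¹ * (v * (h * n)) * k0⁻¹⁻¹ = v' * n := by rw [hm, hv']; group
  have hv2 : v' * v' = 1 := by
    have e : k0⁻¹ * (v * (h * n) * (v * (h * n))) * k0⁻¹⁻¹ = (v' * n) * (v' * n) := by
      rw [← hy1]; group
    rw [hy] at e
    calc v' * v' = v' * v' * (n * n) := by rw [hn2, mul_one]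
      _ = v' * n * (v' * n) := by
        rw [mul_assoc, mul_assoc, ← mul_assoc v' n n, ← mul_assoc n v' n, hcv.eq]
      _ = 1 := by rw [← e]; group
  refine Reduces.of_conj (inv_mem (fixed_mem θ hθ hK hk0f)) ?_
  rw [hy1]
  clear hy1 hm hv hvf hy hm2 hv'
  -- the scaling elements
  have scale : ∀ z : K, z ≠ 0 → ∃ d ∈ twistedF4 K (2 ^ m), d * n * d⁻¹ = n ∧ ∃ χ : ℕ → K,
      (∀ r < 48, F4.checked.sg n r = r → ∀ t : K, d * F4.checked.xg r t * d⁻¹ = F4.checked.xg r (χ r * χ r * t)) ∧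
        χ 24 = z ∧ χ 33 = z ^ 2 ^ m ∧ χ 28 = z ^ (2 ^ m + 1) := by
    intro z hz
    obtain ⟨d, hd, hdf, χ, hc, h1, h2, h3⟩ := exists_scale θ hθ hK hz
    have hd' : n * d * n⁻¹ ∈ chevF4.diagonalSubgroup K := F4.checked.mono_conj_diag hn d hd
    have hdd := F4.checked.diag_comm hd hd'
    refine ⟨d * (n * d * n⁻¹), mul_mem (fixed_mem θ hθ hK hdf)
      (mul_mem (mul_mem hnG (fixed_mem θ hθ hK hdf)) (inv_mem hnG)), ?_, χ, ?_, h1, h2, h3⟩
    · have e : n * (d * (n * d * n⁻¹)) * n⁻¹ = d * (n * d * n⁻¹) := by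
        calc n * (d * (n * d * n⁻¹)) * n⁻¹ = (n * d * n⁻¹) * (n * n * d * (n * n)⁻¹) := by group
          _ = (n * d * n⁻¹) * d := by rw [hn2]; group
          _ = _ := hdd.symm
      rw [mul_inv_eq_iff_eq_mul]
      exact (mul_inv_eq_iff_eq_mul.1 e).symm
    · intro r hr hfix t
      have hcm := hcomm r (lt48 hr) hfix
      have e1 : n⁻¹ * F4.checked.xg r t * n = F4.checked.xg r t := by rw [mul_assoc, ← (hcm t).eq, inv_mul_cancel_left]
      have e2 : n * F4.checked.xg r (χ r * t) * n⁻¹ = F4.checked.xg r (χ r * t) := by rw [(hcm _).eq, mul_inv_cancel_right]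
      calc d * (n * d * n⁻¹) * F4.checked.xg r t * (d * (n * d * n⁻¹))⁻¹
          = d * (n * (d * (n⁻¹ * F4.checked.xg r t * n) * d⁻¹) * n⁻¹) * d⁻¹ := by group
        _ = F4.checked.xg r (χ r * χ r * t) := by rw [e1, hc r hr, e2, hc r hr, mul_assoc]
  have red : ∀ e ∈ invRed, Reduces m (vw e.1 : GT) := fun e he => reduces_entry θ hθ hK he
  rw [hndef]
  interval_cases k
  · have : v' ∈ (⊥ : Subgroup GT) :=
      (F4.checked.grp_le fun r hr => by simp [invKeep] at hr : grp chevF4 K {r | r ∈ invKeep 0} ≤ ⊥) hv'g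
    rw [Subgroup.mem_bot.1 this, one_mul]
    exact red ([0, 1, 0, 1, 0, 1, 0, 1], 1, [1, 0, 1, 0, 2, 1, 0, 6, 1, 0, 6, 2]) (by simp [invRed])
  · obtain ⟨t, u, e⟩ := (fixed_quad_iff θ hθ (hper' hK) v').1 (Subgroup.mem_inf.2 ⟨hv'g, hv'f⟩)
    rw [← qEl_eq_zip] at e
    subst e
    rw [qEl_mul (hper' hK), CharTwo.add_self_eq_zero, CharTwo.add_self_eq_zero, zero_add, ← pow_succ,
      ← qEl_zero (m := m), qEl_eq_zip, qEl_eq_zip] at hv2
    have h0 := F4.checked.zip_inj tails_quad (by rfl) (by rfl) hv2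
    simp only [List.cons.injEq, and_true] at h0
    obtain rfl : t = 0 := by
      have h3 := h0.2.2.1
      simp only [zero_pow (Nat.succ_ne_zero _), zero_add] at h3
      exact (pow_eq_zero_iff (Nat.succ_ne_zero _)).1 h3
    have hq : ∀ w : K, qEl m 0 w = F4.checked.xg 28 w * F4.checked.xg 30 (w ^ (2 * 2 ^ m)) := fun w => by
      simp [qEl, F4.checked.xg_zero, zero_pow (Nat.succ_ne_zero _), zero_pow (Nat.two_pow_pos m).ne']
    by_cases hu : u = 0
    · subst hu
      rw [qEl_zero, one_mul]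
      exact red ([0, 1, 0, 1, 0, 1, 0], 0, [0, 1, 0, 1, 6, 0, 1, 0]) (by simp [invRed])
    obtain ⟨s, hs⟩ := isSquare_of_charTwo' (u⁻¹)
    have hs0 : s ≠ 0 := by rintro rfl; exact inv_ne_zero hu (by simpa using hs)
    obtain ⟨z, hz, hzs⟩ := exists_root θ hθ hK hs0
    obtain ⟨d, hd, hdn, χ, hc, -, -, h28⟩ := scale z hz
    refine Reduces.of_conj hd ?_
    rw [← hndef, show d * (qEl m 0 u * n) * d⁻¹ = d * qEl m 0 u * d⁻¹ * (d * n * d⁻¹) by group, hdn]
    have hG1 : d * qEl m 0 u * d⁻¹ ∈ grp chevF4 K ((ree_cls θ).B 1) ⊓ (reeTwist θ).fixed := by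
      refine Subgroup.mem_inf.2 ⟨?_, mul_mem (mul_mem ((eq_fixed θ hθ hK).le hd) hv'f)
        (inv_mem ((eq_fixed θ hθ hK).le hd))⟩
      rw [hq, show d * (F4.checked.xg 28 u * F4.checked.xg 30 (u ^ (2 * 2 ^ m))) * d⁻¹ =
        d * F4.checked.xg 28 u * d⁻¹ * (d * F4.checked.xg 30 (u ^ (2 * 2 ^ m)) * d⁻¹) by group,
        hc 28 (by norm_num) (hkeep 28 (by decide)).2, hc 30 (by norm_num) (hkeep 30 (by decide)).2]
      exact mul_mem (F4.checked.xg_mem (S := (ree_cls θ).B 1) (show 28 ∈ reeSpec.base 1 by decide) _)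
        (F4.checked.xg_mem (S := (ree_cls θ).B 1) (show 30 ∈ reeSpec.base 1 by decide) _)
    obtain ⟨t', u', e⟩ := (fixed_quad_iff θ hθ (hper' hK) _).1 hG1
    have e' := e
    rw [hq, show d * (F4.checked.xg 28 u * F4.checked.xg 30 (u ^ (2 * 2 ^ m))) * d⁻¹ =
        d * F4.checked.xg 28 u * d⁻¹ * (d * F4.checked.xg 30 (u ^ (2 * 2 ^ m)) * d⁻¹) by group,
        hc 28 (by norm_num) (hkeep 28 (by decide)).2, hc 30 (by norm_num) (hkeep 30 (by decide)).2,
      show F4.checked.xg 28 (χ 28 * χ 28 * u) * F4.checked.xg 30 (χ 30 * χ 30 * u ^ (2 * 2 ^ m)) =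
        F4.checked.wg ([27, 25, 28, 30].zip [0, 0, χ 28 * χ 28 * u, χ 30 * χ 30 * u ^ (2 * 2 ^ m)]) by
        simp [F4.checked.wg_cons, F4.checked.wg_nil, F4.checked.xg_zero]] at e'
    have h4 := F4.checked.zip_inj tails_quad (by rfl) (by rfl) e'
    simp only [List.cons.injEq, and_true] at h4
    obtain ⟨-, ht', hu', -⟩ := h4
    subst ht'
    rw [zero_pow (Nat.succ_ne_zero _), zero_add, h28, hzs, ← hs, inv_mul_cancel₀ hu] at hu'
    rw [e, ← qEl_eq_zip, ← hu', ← vw_four (m := m), hndef, show (vw [4] : GT) * vw (invMoves 1) =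
      vw (invMoves 1) * vw [4] from ?_, ← vw_append]
    · exact red ([0, 1, 0, 1, 0, 1, 0, 4], 1, [1, 4, 1, 0, 1, 6, 0, 1, 2, 0]) (by simp [invRed])
    rw [vw_four (m := m), ← hndef, hq]
    exact ((hcomm 28 (lt48 (by norm_num)) (hkeep 28 (by decide)).2 _).mul_right
      (hcomm 30 (lt48 (by norm_num)) (hkeep 30 (by decide)).2 _)).eq.symm
  · obtain ⟨t, e⟩ := (fixed_pair_iff θ hθ (hper' hK) v').1 (Subgroup.mem_inf.2 ⟨hv'g, hv'f⟩)
    rw [← pEl_eq_zip] at e
    subst e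
    by_cases ht : t = 0
    · subst ht
      rw [pEl, zero_pow (Nat.two_pow_pos m).ne', F4.checked.xg_zero, F4.checked.xg_zero, one_mul, one_mul]
      exact red ([1, 0, 1, 0, 1, 0, 1], 1, [1, 0, 1, 0, 2, 1, 0, 1]) (by simp [invRed])
    obtain ⟨z, hz⟩ := isSquare_of_charTwo' (t⁻¹)
    have hz0 : z ≠ 0 := by rintro rfl; exact inv_ne_zero ht (by simpa using hz)
    obtain ⟨d, hd, hdn, χ, hc, h24, h33, -⟩ := scale z hz0
    refine Reduces.of_conj hd ?_
    rw [← hndef, show d * (pEl m t * n) * d⁻¹ = d * pEl m t * d⁻¹ * (d * n * d⁻¹) by group, hdn, pEl,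
      show d * (F4.checked.xg 33 (t ^ 2 ^ m) * F4.checked.xg 24 t) * d⁻¹ =
        d * F4.checked.xg 33 (t ^ 2 ^ m) * d⁻¹ * (d * F4.checked.xg 24 t * d⁻¹) by group,
      hc 33 (by norm_num) (hkeep 33 (by decide)).2, hc 24 (by norm_num) (hkeep 24 (by decide)).2, h24, h33,
      ← mul_pow, ← mul_pow, ← hz, inv_mul_cancel₀ ht]
    rw [show F4.checked.xg 33 ((1 : K) ^ 2 ^ m) * F4.checked.xg 24 (1 : K) = pEl m 1 from rfl, ← vw_two (m := m), hndef,
      show (vw [2] : GT) * vw (invMoves 2) = vw (invMoves 2) * vw [2] from ?_, ← vw_append]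
    · exact red ([1, 0, 1, 0, 1, 0, 1, 2], 1, [1, 0, 1, 6, 0, 2, 6, 1, 0, 7, 1]) (by simp [invRed])
    rw [vw_two (m := m), ← hndef, pEl]
    exact ((hcomm 33 (lt48 (by norm_num)) (hkeep 33 (by decide)).2 _).mul_right
      (hcomm 24 (lt48 (by norm_num)) (hkeep 24 (by decide)).2 _)).eq.symm

theorem ncard_moves {n : GT} (hn : n ∈ chevF4.monomialSubgroup K) (hc : (reeTwist θ).Comm n) {l : List ℕ}
    (h : ∀ r < chevF4.nroots, F4.checked.sg n r = F4.fast.movesW reeSpec l r) :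
    (F4.checked.inv n).ncard = F4.fast.mvInv reeSpec l := by
  obtain ⟨a, ha⟩ := (ree_cls θ).exists_tab (ree_tab θ) hn hc
  obtain ⟨-, -, hs⟩ := (ree_cls θ).mvN_spec ((ree_tab θ).mv_lt a)
  rw [F4.checked.inv_congr (m := (ree_cls θ).mvN (reeMoves a)) fun r hr => by rw [ha r hr, hs r hr],
    (ree_cls θ).ncard_inv_tab (ree_tab θ) a]
  unfold Fast.mvInv
  congr 1
  refine List.filter_congr fun r hr => ?_
  have hr' : r < chevF4.nroots := by rw [F4.checked.tables.nroots]; exact List.mem_range.1 hr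
  rw [← ha r hr', h r hr']

theorem ncard_le {n : GT} (hn : n ∈ chevF4.monomialSubgroup K) : (F4.checked.inv n).ncard ≤ chevF4.nroots := by
  rw [← F4.checked.len_eq hn]; exact F4.checked.len_le _

/-- Every involution reduces. -/
theorem reduces_invol (g : GT) (hg : g ∈ twistedF4 K (2 ^ m)) (hg2 : g * g = 1) (hg1 : g ≠ 1) :
    Reduces m g := by
  classical
  have O := ree_cls θ
  have H := InvolOrthF4.slData
  have hE := eq_fixed θ hθ hK
  suffices key : ∀ D, ∀ y b n u : GT, y * y = 1 → y ≠ 1 → b ∈ chevF4.borelSubgroup K →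
      b ∈ (reeTwist θ).fixed → n ∈ chevF4.monomialSubgroup K → n ∈ (reeTwist θ).fixed →
      u ∈ grp chevF4 K (F4.checked.inv n) → u ∈ (reeTwist θ).fixed → y = b * n * u →
      chevF4.nroots - (F4.checked.inv n).ncard = D → Reduces m y by
    obtain ⟨b, hb, hbf, n, hn, hnf, u, hu, huf, e⟩ := (ree_cls θ).fixed_bnu (hE.le hg)
    exact key _ g b n u hg2 hg1 hb hbf hn hnf hu huf e rfl
  intro D
  induction D using Nat.strong_induction_on with
  | _ D ih =>
  intro y b n u hy hy1 hb hbf hn hnf hu huf e hD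
  refine Reduces.of_conj (fixed_mem θ hθ hK huf) ?_
  have huP : u ∈ chevF4.posUnipotent K := by
    rw [posUnipotent_eq]; exact grp_mem_mono hu fun r hr => hr.1
  obtain ⟨v, hv, hvf, h, hh, hhf, hvh⟩ := (reeTwist θ).fixed_borel
    (mul_mem (Subgroup.mem_sup_left huP) hb : u * b ∈ chevF4.borelSubgroup K) (mul_mem huf hbf)
  set M := h * n with hMdef
  have hM : M ∈ chevF4.monomialSubgroup K := mul_mem (F4.checked.diag_le_monomial hh) hn
  have hMf : M ∈ (reeTwist θ).fixed := mul_mem hhf hnf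
  have hsgM : ∀ r < chevF4.nroots, F4.checked.sg M r = F4.checked.sg n r := fun r hr => by
    rw [hMdef, F4.checked.sg_mul (F4.checked.diag_le_monomial hh) hn hr,
      F4.checked.sg_diag hh (F4.checked.sg_lt hn hr)]
  have hinv : F4.checked.inv M = F4.checked.inv n := F4.checked.inv_congr hsgM
  have ev : u * y * u⁻¹ = v * M := by
    calc u * y * u⁻¹ = u * b * n := by rw [e]; group
      _ = v * M := by rw [hvh, hMdef]; group
  rw [ev]
  have hy' : v * M * (v * M) = 1 := by rw [← ev, conj_mul, hy]; group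
  have hy1' : v * M ≠ 1 := by rw [← ev]; exact fun h => hy1 (conj_eq_one_iff.1 h)
  obtain ⟨hM2, -, hvno⟩ := InvolOrthF4.slData.mono_part (F := K) hv hM hy'
  have hMinv : M⁻¹ = M := inv_eq_of_mul_eq_one_right hM2
  have longer : ∀ k : GT, k ∈ (reeTwist θ).fixed → ∀ n' ∈ chevF4.monomialSubgroup K,
      n' ∈ (reeTwist θ).fixed → ∀ b₁ ∈ chevF4.borelSubgroup K, ∀ b₂ ∈ chevF4.borelSubgroup K,
      k * (v * M) * k⁻¹ = b₁ * n' * b₂ → (F4.checked.inv n).ncard < (F4.checked.inv n').ncard → Reduces m (v * M) := by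
    intro k hk n' hn' hn'f b₁ h₁ b₂ h₂ ez hlt
    refine Reduces.of_conj (fixed_mem θ hθ hK hk) ?_
    obtain ⟨b', hb', hbf', n'', hn'', hn''f, u', hu', huf', e'⟩ :=
      (ree_cls θ).fixed_bnu (mul_mem (mul_mem hk (mul_mem hvf hMf)) (inv_mem hk))
    have hub : u' ∈ chevF4.borelSubgroup K := Subgroup.mem_sup_left (by
      rw [posUnipotent_eq]; exact grp_mem_mono hu' fun r hr => hr.1)
    have hsg := F4.checked.sg_eq_of_cells hb' h₁ hn'' hn' hub h₂ (e'.symm.trans ez)
    have hle := ncard_le θ hθ hK hn'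
    refine ih (chevF4.nroots - (F4.checked.inv n').ncard) (by omega) _ b' n'' u'
      (by rw [conj_mul, hy']; group) (fun h => hy1' (conj_eq_one_iff.1 h)) hb' hbf' hn'' hn''f hu' huf' e' ?_
    rw [F4.checked.inv_congr hsg]
  obtain ⟨a, ha⟩ := (ree_cls θ).exists_tab (ree_tab θ) hM ((reeTwist θ).comm_of_fixed hM hMf)
  have hshape := List.all_eq_true.1 shape_check a (mem_d8 a)
  have hsq : sameMv (reeMoves a ++ reeMoves a) [] = true := by
    refine allBelow_iff.2 fun r hr => ?_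
    rw [movesW_append, ← ha r (lt48 hr), ← ha _ (F4.checked.sg_lt hM (lt48 hr)),
      ← F4.checked.sg_mul hM hM (lt48 hr), hM2, F4.checked.sg_one (lt48 hr)]
    exact Nat.beq_refl r
  simp only [hsq, Bool.not_true, Bool.false_or, Bool.or_eq_true] at hshape
  have same : ∀ l : List ℕ, sameMv (reeMoves a) l = true → ∀ r < chevF4.nroots,
      F4.checked.sg M r = F4.fast.movesW reeSpec l r := fun l hl r hr => by
    rw [ha r hr]; exact Nat.eq_of_beq_eq_true (allBelow_iff.1 hl r (nroots_eq ▸ hr))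
  have terminal : ∀ k, k < 3 → sameMv (reeMoves a) (invMoves k) = true → Reduces m (v * M) := by
    intro k hk hl
    obtain ⟨hn0, hn0f, hn0s⟩ := (ree_cls θ).mvN_spec (mv := invMoves k) fun t ht => by
      rw [rank_eq']; have := inv_moves_lt k t ht; omega
    rw [← vw_moves θ (inv_moves_lt k)] at hn0 hn0f hn0s
    set n0 : GT := vw (invMoves k)
    have hd : M * n0⁻¹ ∈ chevF4.diagonalSubgroup K :=
      F4.checked.mem_diag_of_sg (mul_mem hM (inv_mem hn0)) fun r hr => by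
        have hl' := F4.checked.sg_lt (inv_mem hn0) hr
        rw [F4.checked.sg_mul hM (inv_mem hn0) hr, same _ hl _ hl', ← hn0s _ hl', F4.checked.sg_sg_inv hn0 hr]
    have hvk : v ∈ grp chevF4 K {r | r ∈ invKeep k} := by
      refine grp_mem_mono hvno fun r hr => ?_
      have h1 := allBelow_iff.1 keep_check k hk
      simp only [Bool.and_eq_true] at h1
      have h2 := allBelow_iff.1 h1.1 r (nroots_eq ▸ hr.1.1)
      rw [Bool.or_eq_true] at h2
      refine memN_iff.1 (h2.resolve_left ?_)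
      have hnot : Fast.ltI (F4.fast.key (F4.fast.movesW reeSpec (invMoves k) r)) 0 = false := by
        rw [← Bool.not_eq_true, ltI_iff, ← same _ hl r hr.1.1]
        exact fun hneg => hr.2 ⟨hr.1, (F4.checked.root.neg_iff _).2 ⟨F4.checked.sg_lt hM hr.1.1, hneg⟩⟩
      simp [F4.checked.key_of_pos hr.1, hnot]
    have eM : M = M * n0⁻¹ * n0 := (inv_mul_cancel_right _ _).symm
    rw [eM]
    exact reduces_terminal θ hθ hK hk hvk hvf hd (mul_mem hMf (inv_mem hn0f))
      (by rw [← eM]; exact hy') (by rw [← eM]; exact hM2)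
  have step : ∀ j, j < 2 → lenStep (reeMoves a) j = true → Reduces m (v * M) := by
    intro j hj hst
    have hjr : j < chevF4.rank := by rw [rank_eq']; omega
    simp only [lenStep, Bool.and_eq_true, List.all_eq_true, Bool.not_eq_true', Nat.blt_eq, ltI_iff] at hst
    obtain ⟨hpos, hlt⟩ := hst
    have hs := (ree_cls θ).wN_mem_monomial hjr
    have hsf := (ree_cls θ).wN_fixed hjr
    set s := (ree_cls θ).wN j with hsdef
    obtain ⟨y', -, -, hy'b, x, hx, -, hvx⟩ := (ree_cls θ).exists_split_node hjr hv hvf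
    have hxM : M * x * M⁻¹ ∈ grp chevF4 K {r | chevF4.IsPosRoot r ∧ r ∉ (ree_cls θ).B j} :=
      F4.checked.conj_mem_of_image hM ((ree_cls θ).B_lt hjr) (fun r hr => by
        have hr' := (ree_cls θ).B_lt hjr r hr
        obtain ⟨h1, h2⟩ := hpos r hr
        rw [ha r hr']
        refine ⟨(F4.checked.root.pos_iff _).2 ⟨(ree_cls θ).tab_lt (ree_tab θ) a hr', h1⟩, fun hB => ?_⟩
        rw [memN_iff.2 (hB : F4.fast.movesW reeSpec (reeMoves a) r ∈ reeSpec.base j)] at h2
        exact Bool.noConfusion h2) hx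
    have hxs : s * (M * x * M⁻¹) * s⁻¹ ∈ chevF4.borelSubgroup K := Subgroup.mem_sup_left (by
      rw [posUnipotent_eq]
      exact F4.checked.conj_mem_of_image hs (fun r hr => hr.1.1)
        (fun r hr => ((ree_cls θ).sg_wN_out hjr hr.1 hr.2).1) hxM)
    have hn'm : s * M * s⁻¹ ∈ chevF4.monomialSubgroup K := mul_mem (mul_mem hs hM) (inv_mem hs)
    have hn'f : s * M * s⁻¹ ∈ (reeTwist θ).fixed := mul_mem (mul_mem hsf hMf) (inv_mem hsf)
    refine longer s hsf _ hn'm hn'f (s * y' * s⁻¹) hy'b (s * (M * x * M⁻¹) * s⁻¹) hxs ?_ ?_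
    · calc s * (v * M) * s⁻¹ = s * y' * s⁻¹ * (s * x * M * s⁻¹) := by rw [hvx]; group
        _ = s * y' * s⁻¹ * (s * (M * M) * x * M * s⁻¹) := by rw [hM2, mul_one]
        _ = s * y' * s⁻¹ * (s * (M * M) * x * M⁻¹ * s⁻¹) := by rw [hMinv]
        _ = _ := by group
    · rw [← hinv, ncard_moves θ hθ hK hM ((reeTwist θ).comm_of_fixed hM hMf) ha,
        ncard_moves θ hθ hK hn'm ((reeTwist θ).comm_of_fixed hn'm hn'f) (l := [j] ++ reeMoves a ++ [j])
          fun r hr => ?_]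
      · exact hlt
      have h1 := F4.checked.sg_lt (inv_mem hs) hr
      rw [F4.checked.sg_mul (mul_mem hs hM) (inv_mem hs) hr, F4.checked.sg_mul hs hM h1,
        (ree_cls θ).sg_wN hjr (F4.checked.sg_lt hM h1), ha _ h1, (ree_cls θ).sg_wN_inv hjr hr,
        (ree_cls θ).sg_wN hjr hr, movesW_append, movesW_append]
      simp [Fast.movesW]
  rcases hshape with ((((h1 | h1) | h1) | h1) | h1) | h1
  case' inl.inl.inl.inl.inr => exact step 0 (by omega) h1
  case' inl.inl.inl.inr => exact step 1 (by omega) h1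
  case' inl.inl.inr => exact terminal 0 (by omega) h1
  case' inl.inr => exact terminal 1 (by omega) h1
  case' inr => exact terminal 2 (by omega) h1
  -- the monomial part is trivial
  have hMd : M ∈ chevF4.diagonalSubgroup K := F4.checked.mem_diag_of_sg hM fun r hr => by
    rw [same _ h1 r hr]; rfl
  have hM1 : M = 1 := InvolOrthF4.slData.diag_invol_eq_one (F := K) hMd hM2
  obtain ⟨hw, hwf, hws⟩ := (ree_cls θ).mvN_spec (mv := invMoves 0) fun t ht => by
    rw [rank_eq']; have := inv_moves_lt 0 t ht; omega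
  set w := (ree_cls θ).mvN (invMoves 0)
  have hneg : ∀ r, chevF4.IsPosRoot r → chevF4.IsNegRoot (F4.checked.sg w r) := fun r hr => by
    rw [hws r hr.1, show F4.fast.movesW reeSpec (invMoves 0) r = F4.fast.ng r from
      Nat.eq_of_beq_eq_true (allBelow_iff.1 moves_longest r (nroots_eq ▸ hr.1)),
      ← F4.checked.tables.neg r hr.1]
    exact (F4.checked.neg_neg_iff hr.1).2 hr
  set z := w * (v * M) * w⁻¹ with hzdef
  have hzf : z ∈ (reeTwist θ).fixed := mul_mem (mul_mem hwf (mul_mem hvf hMf)) (inv_mem hwf)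
  have hzne : z ∉ chevF4.borelSubgroup K := by
    intro hzB
    have hzN : z ∈ chevF4.negUnipotent K := by
      rw [negUnipotent_eq]
      rw [posUnipotent_eq] at hv
      rw [hzdef, hM1, mul_one]
      exact F4.checked.conj_mem_of_image hw (fun r hr => hr.1) hneg hv
    have h0 : z ∈ chevF4.borelSubgroup K ⊓ chevF4.negUnipotent K := Subgroup.mem_inf.2 ⟨hzB, hzN⟩
    rw [F4.checked.borel_inf_neg, Subgroup.mem_bot] at h0
    exact hy1' (conj_eq_one_iff.1 h0)
  obtain ⟨b', hb', -, n', hn', hn'f, u', hu', -, e'⟩ := (ree_cls θ).fixed_bnu hzf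
  refine longer w hwf n' hn' hn'f b' hb' u'
    (Subgroup.mem_sup_left (by rw [posUnipotent_eq]; exact grp_mem_mono hu' fun r hr => hr.1)) e' ?_
  have h0 : (F4.checked.inv n).ncard = 0 := by
    rw [← hinv, Set.ncard_eq_zero (F4.checked.inv_finite M)]
    refine Set.eq_empty_of_forall_notMem fun r ⟨hr, hrn⟩ => ?_
    rw [F4.checked.sg_diag hMd hr.1] at hrn
    exact F4.checked.not_pos_and_neg hr hrn
  rw [h0]
  by_contra hcon
  rw [not_lt, Nat.le_zero, Set.ncard_eq_zero (F4.checked.inv_finite n')] at hcon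
  refine hzne ?_
  have hu1 : u' = 1 := by
    rw [hcon] at hu'
    exact Subgroup.mem_bot.1
      ((F4.checked.grp_le fun r hr => absurd hr (Set.notMem_empty r) : grp chevF4 K (∅ : Set ℕ) ≤ ⊥) hu')
  rw [e', hu1, mul_one]
  refine mul_mem hb' (Subgroup.mem_sup_right (F4.checked.mem_diag_of_simple_pos hn' fun i hi => ?_))
  refine (F4.checked.key_trichotomy (F4.checked.sg_lt hn' (F4.checked.root.simple_lt i hi))).resolve_right
    fun hng => ?_
  have h2 : chevF4.simple i ∈ F4.checked.inv n' := ⟨F4.checked.root.pos_simple hi, hng⟩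
  rw [hcon] at h2
  exact h2

end Cfsg.Agent.Lib.Chev.F4
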