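import Cfsg.Agent.Lib.Chev.TitsFive

/-!
The Tits group has no faithful 2-transitive action.
-/

set_option autoImplicit false
set_option maxRecDepth 100000

open scoped Pointwise

namespace Cfsg.Agent.Lib.Chev

theorem pow_smul_fixed {T Ω : Type*} [Group T] [MulAction T Ω] {g : T} {a : Ω} (h : g • a = a) :
    ∀ n : ℕ, (g ^ n) • a = a
  | 0 => by simp
  | n + 1 => by rw [pow_succ, mul_smul, h, pow_smul_fixed h n]

theorem fixedBy_pow_of_order_five {T Ω : Type*} [Group T] [MulAction T Ω] {g : T} (hg : g ^ 5 = 1)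
    {b : ℕ} (hb : b % 5 ≠ 0) : MulAction.fixedBy Ω (g ^ b) = MulAction.fixedBy Ω g := by
  ext a
  simp only [MulAction.mem_fixedBy]
  constructor
  · intro h
    obtain ⟨c, hc⟩ : ∃ c : ℕ, (b * c) % 5 = 1 := by
      have := Nat.mod_lt b (show 5 > 0 by norm_num)
      interval_cases hb5 : b % 5
      · simp at hb
      · exact ⟨1, by omega⟩
      · exact ⟨3, by omega⟩
      · exact ⟨2, by omega⟩
      · exact ⟨4, by omega⟩
    have h2 : (g ^ b) ^ c = g := by
      rw [← pow_mul]
      conv_lhs => rw [← Nat.mod_add_div (b * c) 5, hc, pow_add, pow_one, pow_mul, hg, one_pow, mul_one]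
    have h3 : ((g ^ b) ^ c) • a = a := pow_smul_fixed h c
    rwa [h2] at h3
  · intro h
    exact pow_smul_fixed h b

/-- The count of fixed points of two commuting elements of order five with conjugate cyclic subgroups. -/
theorem count_five {T Ω : Type*} [Group T] [MulAction T Ω] [Fintype Ω] {x y : T} (hx5 : x ^ 5 = 1)
    (hy5 : y ^ 5 = 1) (hc : x * y = y * x) (hy : ∀ k : ℕ, y ≠ x ^ k) (h1 : IsConj x y)
    (hk : ∀ k < 5, IsConj x (x * y ^ k)) :
    ∃ R : Subgroup T, Nat.card ↥R = 25 ∧ ∃ k : ℕ,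
      Fintype.card Ω + 24 * (MulAction.fixedBy Ω x).ncard = 25 * k ∧
      ((∀ a : Ω, ¬ R ≤ MulAction.stabilizer T a) → 5 * k ≤ Fintype.card Ω) := by
  classical
  have hxy : Commute x y := hc
  have hfix : ∀ g, IsConj x g → (MulAction.fixedBy Ω g).ncard = (MulAction.fixedBy Ω x).ncard := by
    intro g hg
    obtain ⟨c, rfl⟩ := isConj_iff.1 hg
    rw [← MulAction.smul_fixedBy, ← Nat.card_coe_set_eq, ← Nat.card_coe_set_eq, Set.natCard_smul_set]
  have hx5' : ∀ a, x ^ (a % 5) = x ^ a := fun a => by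
    conv_rhs => rw [← Nat.mod_add_div a 5, pow_add, pow_mul, hx5, one_pow, mul_one]
  have hy5' : ∀ a, y ^ (a % 5) = y ^ a := fun a => by
    conv_rhs => rw [← Nat.mod_add_div a 5, pow_add, pow_mul, hy5, one_pow, mul_one]
  let f : Fin 5 × Fin 5 → T := fun p => x ^ p.1.1 * y ^ p.2.1
  have hmul : ∀ a b c d : ℕ, x ^ a * y ^ b * (x ^ c * y ^ d) = x ^ (a + c) * y ^ (b + d) := fun a b c d => by
    rw [mul_assoc, ← mul_assoc (y ^ b), ((hxy.symm.pow_pow b c)).eq, mul_assoc, ← pow_add, ← mul_assoc,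
      ← pow_add]
  let R : Subgroup T :=
    { carrier := {g | ∃ a b : ℕ, g = x ^ a * y ^ b}
      one_mem' := ⟨0, 0, by simp⟩
      mul_mem' := by
        rintro _ _ ⟨a, b, rfl⟩ ⟨c, d, rfl⟩
        exact ⟨a + c, b + d, hmul a b c d⟩
      inv_mem' := by
        rintro _ ⟨a, b, rfl⟩
        refine ⟨4 * a, 4 * b, ?_⟩
        rw [inv_eq_of_mul_eq_one_right]
        rw [hmul, show a + 4 * a = 5 * a by ring, show b + 4 * b = 5 * b by ring, pow_mul, pow_mul, hx5, hy5]
        simp }
  have hinj : Function.Injective f := by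
    rintro ⟨a, b⟩ ⟨c, d⟩ h
    dsimp only [f] at h
    have e : y ^ (b.1 + (5 - d.1)) = x ^ (c.1 + (5 - a.1)) := by
      have h2 := congrArg (fun g => x ^ (5 - a.1) * y ^ 0 * g * (x ^ 0 * y ^ (5 - d.1))) h
      simp only [hmul] at h2
      rw [show 5 - a.1 + a.1 + 0 = 5 by omega, show 5 - a.1 + c.1 + 0 = c.1 + (5 - a.1) by omega,
        show 0 + b.1 + (5 - d.1) = b.1 + (5 - d.1) by omega, show 0 + d.1 + (5 - d.1) = 5 by omega, hx5, hy5,
        one_mul, mul_one] at h2
      exact h2
    have hbd : b = d := by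
      by_contra hne
      set e' := (b.1 + (5 - d.1)) % 5 with he'
      have he0 : e' ≠ 0 := by
        have : b.1 ≠ d.1 := fun h => hne (Fin.ext h)
        omega
      have he5 : e' < 5 := Nat.mod_lt _ (by norm_num)
      obtain ⟨i, hi⟩ : ∃ i, (e' * i) % 5 = 1 := by
        interval_cases e'
        · omega
        · exact ⟨1, rfl⟩
        · exact ⟨3, rfl⟩
        · exact ⟨2, rfl⟩
        · exact ⟨4, rfl⟩
      refine hy ((c.1 + (5 - a.1)) * i) ?_
      rw [pow_mul, ← e, ← hy5' (b.1 + (5 - d.1)), ← he', ← pow_mul, ← hy5' (e' * i), hi, pow_one]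
    subst hbd
    have h3 : x ^ a.1 = x ^ c.1 := mul_right_cancel h
    have hx1 : x ≠ 1 := fun e1 => hy 0 (by
      obtain ⟨z, hz⟩ := isConj_iff.1 h1
      rw [pow_zero, ← hz, e1]; group)
    haveI : Fact (Nat.Prime 5) := ⟨by norm_num⟩
    rw [pow_eq_pow_iff_modEq, orderOf_eq_prime hx5 hx1] at h3
    have ha := a.2
    have hc' := c.2
    simp only [Nat.ModEq] at h3
    exact Prod.ext (Fin.ext (show a.1 = c.1 by omega)) rfl
  let e : Fin 5 × Fin 5 ≃ ↥R := Equiv.ofBijective (fun p => ⟨f p, p.1.1, p.2.1, rfl⟩)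
    ⟨fun p q h => hinj (congrArg Subtype.val h), by
      rintro ⟨_, a, b, rfl⟩
      exact ⟨(⟨a % 5, Nat.mod_lt _ (by norm_num)⟩, ⟨b % 5, Nat.mod_lt _ (by norm_num)⟩),
        Subtype.ext (by simp [f, hx5', hy5'])⟩⟩
  have hRcard : Nat.card ↥R = 25 := by
    rw [← Nat.card_congr e]; simp
  haveI : Finite ↥R := Nat.finite_of_card_ne_zero (by rw [hRcard]; norm_num)
  letI : Fintype ↥R := Fintype.ofFinite _
  have hterm : ∀ a b : ℕ, a < 5 → b < 5 → ¬(a = 0 ∧ b = 0) →
      (MulAction.fixedBy Ω (x ^ a * y ^ b)).ncard = (MulAction.fixedBy Ω x).ncard := by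
    intro a b ha hb hab
    rcases Nat.eq_zero_or_pos a with rfl | ha0
    · rw [pow_zero, one_mul, fixedBy_pow_of_order_five hy5 (b := b) (by omega), hfix y h1]
    obtain ⟨k, hk5, hka⟩ : ∃ k < 5, (k * a) % 5 = b :=
      ((by decide : ∀ a < 5, ∀ b < 5, a = 0 ∨ ∃ k < 5, (k * a) % 5 = b) a ha b hb).resolve_left (by omega)
    have e1 : x ^ a * y ^ b = (x * y ^ k) ^ a := by
      rw [(hxy.pow_right k).mul_pow, ← pow_mul, ← hy5' (k * a), hka]
    have hz5 : (x * y ^ k) ^ 5 = 1 := by
      rw [(hxy.pow_right k).mul_pow, hx5, ← pow_mul, mul_comm, pow_mul, hy5, one_pow, one_mul]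
    rw [e1, fixedBy_pow_of_order_five hz5 (b := a) (by omega), hfix _ (hk k hk5)]
  haveI : Fintype (Quotient (MulAction.orbitRel ↥R Ω)) := Fintype.ofFinite _
  refine ⟨R, hRcard, Fintype.card (Quotient (MulAction.orbitRel ↥R Ω)), ?_, ?_⟩
  · have hB := MulAction.sum_card_fixedBy_eq_card_orbits_mul_card_group ↥R Ω
    rw [← Nat.card_eq_fintype_card (α := ↥R), hRcard] at hB
    rw [mul_comm 25, ← hB, ← Equiv.sum_comp e]
    have h0 : ∀ p : Fin 5 × Fin 5, Fintype.card (MulAction.fixedBy Ω (e p)) =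
        if p = (0, 0) then Fintype.card Ω else (MulAction.fixedBy Ω x).ncard := by
      intro p
      rw [← Nat.card_eq_fintype_card, Nat.card_coe_set_eq,
        show MulAction.fixedBy Ω (e p) = MulAction.fixedBy Ω (x ^ p.1.1 * y ^ p.2.1) from rfl]
      split_ifs with hp
      · subst hp
        simp [Set.ncard_univ]
      · exact hterm _ _ p.1.2 p.2.2 fun ⟨h, h'⟩ => hp (Prod.ext (Fin.ext h) (Fin.ext h'))
    rw [Finset.sum_congr rfl fun p _ => h0 p, ← Finset.add_sum_erase _ _ (Finset.mem_univ ((0, 0) : Fin 5 × Fin 5)),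
      if_pos rfl, Finset.sum_congr rfl fun p hp => if_neg (Finset.ne_of_mem_erase hp), Finset.sum_const,
      Finset.card_erase_of_mem (Finset.mem_univ _)]
    simp
  · intro hno
    have hsum : Fintype.card Ω = ∑ ω : Quotient (MulAction.orbitRel ↥R Ω),
        Fintype.card (MulAction.orbitRel.Quotient.orbit ω) := by
      rw [← Fintype.card_sigma]
      exact Fintype.card_congr (MulAction.selfEquivSigmaOrbits' ↥R Ω)
    rw [hsum, mul_comm, ← smul_eq_mul, ← Finset.card_univ, ← Finset.sum_const]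
    refine Finset.sum_le_sum fun ω _ => ?_
    induction ω using Quotient.inductionOn with
    | h a =>
      have hd : Nat.card (MulAction.orbit ↥R a) ∣ 25 := by
        rw [← hRcard, Nat.card_congr (MulAction.orbitEquivQuotientStabilizer ↥R a)]
        exact Subgroup.index_dvd_card _
      have h1 : Nat.card (MulAction.orbit ↥R a) ≠ 1 := by
        intro h
        refine hno a fun r hr => ?_
        obtain ⟨hs, -⟩ := Nat.card_eq_one_iff_unique.1 h
        have := @Subsingleton.elim _ hs ⟨(⟨r, hr⟩ : ↥R) • a, MulAction.mem_orbit _ _⟩ ⟨a, MulAction.mem_orbit_self _⟩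
        exact MulAction.mem_stabilizer_iff.2 (congrArg Subtype.val this)
      have h5 : 5 ≤ Nat.card (MulAction.orbit ↥R a) := by
        have h0 := Nat.le_of_dvd (by norm_num) hd
        revert hd h1
        interval_cases (Nat.card (MulAction.orbit ↥R a)) <;> norm_num
      rw [Nat.card_eq_fintype_card] at h5
      exact h5.trans_eq (Fintype.card_congr (Equiv.setCongr (MulAction.orbitRel.Quotient.orbit_mk a).symm))

namespace F4

open Cfsg.Lie Cfsg.Agent.Lib Cfsg.Agent.Lib.Chev

theorem two_transitive_degrees : ∀ n < 4241, 3 ≤ n → 17971200 % (n * (n - 1)) = 0 →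
    (n % 2 = 1 ∧ n < 877) ∨ (n % 4 = 2 ∧ n * (n - 1) / 2 < 877) ∨ n = 4 ∨ n = 16 ∨ n = 40 := by
  decide +kernel

variable {K : Type*} [Field K] [CharP K 2] [Fintype K]

local notation "GT" => GL chevF4.Idx K

local notation "G₀" => twistedF4 K (2 ^ 0)

/-- A small odd index forces everything. -/
theorem eq_top_of_odd_index (hK : Fintype.card K = 2 ^ (2 * 0 + 1)) (M : Subgroup ↥(commutator ↥G₀))
    (hodd : M.index % 2 = 1) (hsmall : M.index < 877) : M = ⊤ := by
  classical
  haveI : Fact (Nat.Prime 2) := ⟨Nat.prime_two⟩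
  have hcard : Nat.card ↥(commutator ↥G₀) = 2 ^ 11 * 3 ^ 3 * 5 ^ 2 * 13 := (tits_main hK).2.2.2
  have hU12 : Nat.card ↥(UG : Subgroup ↥G₀) = 2 ^ 12 := by
    rw [UG, Nat.card_congr (Subgroup.subgroupOfEquivOfLe (UT_le hK)).toEquiv, UT,
      card_pos_fixed (RingEquiv.refl K) hθ₀ hK, hK]
    norm_num
  set V : Subgroup ↥(commutator ↥G₀) := (UG ⊓ (commutator ↥G₀)).subgroupOf (commutator ↥G₀)
  have hV : Nat.card ↥V = 2 ^ 11 := by
    rw [Nat.card_congr (Subgroup.subgroupOfEquivOfLe (inf_le_right : UG ⊓ (commutator ↥G₀) ≤ (commutator ↥G₀))).toEquiv,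
      ← Nat.card_congr (Subgroup.subgroupOfEquivOfLe (inf_le_left : UG ⊓ (commutator ↥G₀) ≤ UG)).toEquiv]
    have h1 := ((UG ⊓ (commutator ↥G₀)).subgroupOf (UG : Subgroup ↥G₀)).card_mul_index
    rw [hU12] at h1
    have h2 : ((UG ⊓ (commutator ↥G₀)).subgroupOf (UG : Subgroup ↥G₀)).index = 2 := by
      rw [Subgroup.inf_subgroupOf_left]
      refine Subgroup.index_eq_two_iff.2 ?_
      obtain ⟨b, hb, hbc, -⟩ := exists_odd hK (j := 0) (by norm_num)
      refine ⟨⟨b, hb⟩, fun a => ?_⟩
      simp only [Subgroup.mem_subgroupOf, Subgroup.coe_mul]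
      rw [Subgroup.mul_mem_iff_of_index_two (tits_main hK).1, xor_iff_iff_not]
      tauto
    rw [h2] at h1
    omega
  have hfac : (Nat.card ↥(commutator ↥G₀)).factorization 2 = 11 := by
    rw [hcard, show 2 ^ 11 * 3 ^ 3 * 5 ^ 2 * 13 = 2 ^ 11 * 8775 by norm_num,
      Nat.factorization_mul (by norm_num) (by norm_num), Finsupp.add_apply, Nat.Prime.factorization_pow
      Nat.prime_two, Finsupp.single_eq_same, Nat.factorization_eq_zero_of_not_dvd (by norm_num)]
  let P : Sylow 2 ↥(commutator ↥G₀) := Sylow.ofCard V (by rw [hfac]; exact hV)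
  have hMdiv : 2 ^ 11 ∣ Nat.card ↥M := by
    refine (Nat.Coprime.pow_left 11 ?_).dvd_of_dvd_mul_right (k := 2 ^ 11) (n := M.index) ?_
    · exact (Nat.coprime_two_left).2 (Nat.odd_iff.2 hodd)
    · rw [M.card_mul_index, hcard]
      exact ⟨8775, by norm_num⟩
  obtain ⟨Q, hQ⟩ := Sylow.exists_subgroup_card_pow_prime 2 hMdiv
  have hQC : Nat.card ↥(Q.map M.subtype) = 2 ^ 11 := by
    rw [← hQ]
    exact (Nat.card_congr (Q.equivMapOfInjective _ M.subtype_injective).toEquiv).symm
  let S : Sylow 2 ↥(commutator ↥G₀) := Sylow.ofCard (Q.map M.subtype) (by rw [hfac]; exact hQC)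
  obtain ⟨g, hg⟩ := MulAction.exists_smul_eq ↥(commutator ↥G₀) S P
  set M' := M.map (MulAut.conj g).toMonoidHom
  have hidx : M'.index = M.index := Subgroup.index_map_equiv M (MulAut.conj g)
  have hU : ∀ u ∈ (UG : Subgroup ↥G₀), u ∈ (commutator ↥G₀) → u ∈ M'.map (commutator ↥G₀).subtype := by
    intro u hu huc
    have h1 : (⟨u, huc⟩ : ↥(commutator ↥G₀)) ∈ (P : Subgroup ↥(commutator ↥G₀)) := Subgroup.mem_inf.2 ⟨hu, huc⟩
    rw [← hg, Sylow.smul_def, Sylow.pointwise_smul_def, Subgroup.mem_pointwise_smul_iff_inv_smul_mem] at h1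
    refine ⟨⟨u, huc⟩, ⟨_, Subgroup.map_subtype_le Q h1, ?_⟩, rfl⟩
    exact smul_inv_smul (MulAut.conj g) _
  have hle : M'.map (commutator ↥G₀).subtype ≤ (commutator ↥G₀) := Subgroup.map_subtype_le M'
  rcases card_overgroup_le hK hle hU with h | h
  · have h2 : M' = ⊤ := by
      refine eq_top_iff.2 fun z _ => ?_
      obtain ⟨z', hz', e⟩ := h.ge z.2
      rwa [← Subtype.ext (a1 := z') (a2 := z) e]
    rw [← Subgroup.index_eq_one, ← hidx, h2, Subgroup.index_top]
  · exfalso
    rw [Nat.card_congr (M'.equivMapOfInjective _ (commutator ↥G₀).subtype_injective).toEquiv.symm] at h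
    have h1 := M'.card_mul_index
    rw [hidx, hcard] at h1
    have h2 := Nat.mul_le_mul h (le_of_lt hsmall)
    omega

/-- No faithful 2-transitive action. -/
theorem no_two_transitive (hK : Fintype.card K = 2 ^ (2 * 0 + 1)) {Ω : Type*} [Fintype Ω]
    [MulAction ↥(commutator ↥G₀) Ω] [FaithfulSMul ↥(commutator ↥G₀) Ω] (hΩ : 3 ≤ Fintype.card Ω) :
    ¬ MulAction.IsMultiplyPretransitive ↥(commutator ↥G₀) Ω 2 := by
  classical
  intro h2
  set T := ↥(commutator ↥G₀)
  have hcard : Nat.card T = 17971200 := by rw [(tits_main hK).2.2.2]; norm_num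
  set n := Fintype.card Ω with hn
  have hpre : ∀ {a b c d : Ω}, a ≠ b → c ≠ d → ∃ g : T, g • a = c ∧ g • b = d :=
    MulAction.is_two_pretransitive_iff.1 h2
  haveI : MulAction.IsPretransitive T Ω := MulAction.isPretransitive_of_is_two_pretransitive
  obtain ⟨a, b, hab⟩ := Fintype.exists_pair_of_one_lt_card (α := Ω) (by omega)
  have hpairs : (MulAction.stabilizer T (a, b)).index = n * (n - 1) := by
    rw [MulAction.index_stabilizer]
    have : MulAction.orbit T (a, b) = {p : Ω × Ω | p.1 ≠ p.2} := by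
      ext ⟨c, d⟩
      constructor
      · rintro ⟨g, hg⟩
        simp only [Prod.smul_mk, Prod.mk.injEq] at hg
        show c ≠ d
        rw [← hg.1, ← hg.2]
        exact fun h => hab (smul_left_cancel g h)
      · intro hcd
        obtain ⟨g, h1, h2⟩ := hpre hab hcd
        exact ⟨g, Prod.ext h1 h2⟩
    rw [this, ← Nat.card_coe_set_eq, Nat.card_eq_fintype_card]
    have := Finset.offDiag_card (Finset.univ : Finset Ω)
    rw [Finset.card_univ, ← Nat.mul_sub_one] at this
    rw [← this, Fintype.card_ofFinset]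
    congr 1
    ext p; simp
  have hdvd : n * (n - 1) ∣ 17971200 := by rw [← hpairs, ← hcard]; exact Subgroup.index_dvd_card _
  have hlt : n < 4241 := by
    by_contra h
    have := Nat.le_of_dvd (by norm_num) hdvd
    have := Nat.mul_le_mul (show 4241 ≤ n by omega) (show 4240 ≤ n - 1 by omega)
    omega
  rcases two_transitive_degrees n hlt hΩ (Nat.mod_eq_zero_of_dvd hdvd) with ⟨h, h'⟩ | ⟨h, h'⟩ | hcases
  · have hi : (MulAction.stabilizer T a).index = n := by
      rw [MulAction.index_stabilizer_of_transitive, Nat.card_eq_fintype_card]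
    have := eq_top_of_odd_index hK (MulAction.stabilizer T a) (by omega) (by omega)
    rw [this, Subgroup.index_top] at hi
    omega
  · let s : Finset Ω := {a, b}
    have hs : (MulAction.stabilizer T s).index = n * (n - 1) / 2 := by
      rw [MulAction.index_stabilizer, ← Nat.choose_two_right, hn, ← Finset.card_univ,
        ← Finset.card_powersetCard, ← Set.ncard_coe_finset]
      congr 1
      ext t
      simp only [Finset.mem_coe,
        Finset.mem_powersetCard, Finset.subset_univ, true_and]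
      constructor
      · rintro ⟨g, rfl⟩
        show (g • s).card = 2
        rw [Finset.card_smul_finset]
        exact Finset.card_pair hab
      · intro ht
        obtain ⟨c, d, hcd, rfl⟩ := Finset.card_eq_two.1 ht
        obtain ⟨g, h1, h2⟩ := hpre hab hcd
        refine ⟨g, ?_⟩
        show g • s = _
        simp [s, Finset.smul_finset_insert, h1, h2]
    have hodd : (n * (n - 1) / 2) % 2 = 1 := by
      obtain ⟨q, hq⟩ : ∃ q, n = 4 * q + 2 := ⟨n / 4, by omega⟩
      rw [hq, show (4 * q + 2) * (4 * q + 2 - 1) = 2 * (2 * (4 * q * q + 3 * q) + 1) by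
        rw [show 4 * q + 2 - 1 = 4 * q + 1 by omega]; ring]
      omega
    have := eq_top_of_odd_index hK (MulAction.stabilizer T s) (by rw [hs]; exact hodd) (by rw [hs]; exact h')
    rw [this, Subgroup.index_top] at hs
    have := Nat.mul_le_mul hΩ (show 2 ≤ n - 1 by omega)
    omega
  · obtain ⟨x, y, hx5, hy5, hc, hy, h1, hk⟩ := exists_five hK
    obtain ⟨R, hR, k, hk1, hk2⟩ := count_five (Ω := Ω) hx5 hy5 hc hy h1 hk
    set f := (MulAction.fixedBy Ω x).ncard with hf
    have hfn : f ≤ n := by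
      rw [hf, hn, ← Nat.card_eq_fintype_card]
      exact Set.ncard_le_card _
    have hx1 : f ≠ n := by
      intro e
      refine hy 0 ?_
      have hx : x = 1 := FaithfulSMul.eq_of_smul_eq_smul fun z : Ω => by
        have hz : MulAction.fixedBy Ω x = Set.univ := Set.eq_univ_of_univ_subset (by
          rw [Set.eq_of_subset_of_ncard_le (Set.subset_univ (MulAction.fixedBy Ω x))
            (by rw [Set.ncard_univ, Nat.card_eq_fintype_card]; omega)])
        rw [one_smul]
        exact MulAction.mem_fixedBy.1 (hz ▸ Set.mem_univ z : z ∈ MulAction.fixedBy Ω x)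
      obtain ⟨c, hc'⟩ := isConj_iff.1 h1
      rw [← hc', hx]; group
    rcases hcases with h4 | h4 | h4
    · omega
    · omega
    · have hno : ∀ z : Ω, ¬ R ≤ MulAction.stabilizer T z := by
        intro z hle
        have h := Subgroup.card_dvd_of_le hle
        have hi : (MulAction.stabilizer T z).index = n := by
          rw [MulAction.index_stabilizer_of_transitive, Nat.card_eq_fintype_card]
        have hm := (MulAction.stabilizer T z).card_mul_index
        rw [hi, hcard, h4] at hm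
        rw [hR] at h
        have h' : 25 * 40 ∣ 17971200 := (Nat.mul_dvd_mul_right h 40).trans (dvd_of_eq hm)
        norm_num at h'
      have := hk2 hno
      omega

end F4

end Cfsg.Agent.Lib.Chev
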